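import Mathlib

/-!
# Semilinear maps over an extension of prime degree: lines and elements

`V` is a vector space over a finite field `F` carrying a compatible structure over a field extension `L` of
prime degree.
-/

set_option autoImplicit false

open Module

namespace CfsgLib.Derangements.FieldNorm

variable {F : Type*} [Field F] (L : Type*) [Field L] [Algebra F L] {V : Type*} [AddCommGroup V]
  [Module F V] [Module L V] [IsScalarTower F L V]

/-- `g` is semilinear over `L`. -/
def Semi (g : V ≃ₗ[F] V) : Prop := ∀ a : L, ∃ b : L, ∀ x : V, g (a • x) = b • g x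

/-- The map `a ↦ a • v`. -/
def toLine (v : V) : L →ₗ[F] V := (LinearMap.toSpanSingleton L V v).restrictScalars F

/-- The `L`-line through `v`, over `F`. -/
def ln (v : V) : Submodule F V := LinearMap.range (toLine (F := F) L v)

variable {L}

@[simp] lemma toLine_apply (v : V) (a : L) : toLine (F := F) L v a = a • v := rfl

lemma mem_ln {v x : V} : x ∈ ln (F := F) L v ↔ ∃ a : L, a • v = x := LinearMap.mem_range

lemma self_mem_ln (v : V) : v ∈ ln (F := F) L v := mem_ln.2 ⟨1, one_smul L v⟩

lemma smul_mem_ln {v x : V} (a : L) (h : x ∈ ln (F := F) L v) : a • x ∈ ln (F := F) L v := by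
  obtain ⟨b, rfl⟩ := mem_ln.1 h
  exact mem_ln.2 ⟨a * b, mul_smul a b v⟩

lemma toLine_injective {v : V} (hv : v ≠ 0) : Function.Injective (toLine (F := F) L v) := fun _ _ h =>
  smul_left_injective L hv h

lemma finrank_ln {v : V} (hv : v ≠ 0) : finrank F (ln (F := F) L v) = finrank F L :=
  LinearMap.finrank_range_of_inj (toLine_injective hv)

lemma ln_eq {v x : V} (hx : x ≠ 0) (h : x ∈ ln (F := F) L v) : ln (F := F) L x = ln L v := by
  obtain ⟨a, rfl⟩ := mem_ln.1 h
  have ha : a ≠ 0 := fun h0 => hx (by rw [h0, zero_smul])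
  refine le_antisymm ?_ fun y hy => ?_
  · intro y hy
    obtain ⟨b, rfl⟩ := mem_ln.1 hy
    exact smul_mem_ln b h
  · obtain ⟨b, rfl⟩ := mem_ln.1 hy
    exact mem_ln.2 ⟨b * a⁻¹, by rw [smul_smul, inv_mul_cancel_right₀ ha]⟩

lemma eq_of_mem_ln {v w : V} (hv : v ≠ 0) {c : L} (hw : w ∉ ln (F := F) L v) (h : c • w ∈ ln (F := F) L v) :
    c = 0 := by
  by_contra hc
  exact hw (by simpa [smul_smul, inv_mul_cancel₀ hc] using smul_mem_ln c⁻¹ h)

/-- A functional vanishing at `v` with a given value at `w`. -/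
lemma exists_dual {v w : V} (hw : w ∉ ln (F := F) L v) (a : L) : ∃ φ : V →ₗ[L] L, φ v = 0 ∧ φ w = a := by
  have hw' : w ∉ (L ∙ v) := fun h => hw (mem_ln.2 (Submodule.mem_span_singleton.1 h))
  obtain ⟨φ, h1, h2⟩ := LinearMap.exists_extend_of_notMem (0 : (L ∙ v) →ₗ[L] L) hw' a
  exact ⟨φ, by simpa using LinearMap.congr_fun h1 ⟨v, Submodule.mem_span_singleton_self v⟩, h2⟩

lemma exists_dual_one {v : V} (hv : v ≠ 0) : ∃ φ : V →ₗ[L] L, φ v = 1 := by
  obtain ⟨φ, -, h⟩ := LinearMap.exists_extend_of_notMem (0 : (⊥ : Submodule L V) →ₗ[L] L)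
    (show v ∉ (⊥ : Submodule L V) by simpa using hv) 1
  exact ⟨φ, h⟩

/-- The restriction of scalars of an `L`-linear equivalence. -/
lemma semi_restrict (e : V ≃ₗ[L] V) : Semi L (e.restrictScalars F) := fun a => ⟨a, fun x => e.map_smul a x⟩

section Sub

variable [FiniteDimensional F L]

/-- An intermediate object for prime degree. -/
lemma subalgebra_cases (hr : (finrank F L).Prime) (A : Subalgebra F L) : A = ⊥ ∨ A = ⊤ :=
  (Subalgebra.isSimpleOrder_of_finrank_prime F L hr).eq_bot_or_eq_top A

variable [Finite F]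

/-- A subring containing every element of norm one is everything. -/
theorem subring_eq_top (hr : (finrank F L).Prime) (R : Subring L)
    (h : ∀ a : L, Algebra.norm F a = 1 → a ∈ R) : R = ⊤ := by
  classical
  have : Finite L := Module.finite_of_finite F
  have hinv : ∀ x ∈ R, x⁻¹ ∈ R := by
    intro x hx
    rcases eq_or_ne x 0 with rfl | hx0
    · simp
    · have h1 : x ^ (orderOf x - 1) * x = 1 := by
        rw [← pow_succ, Nat.sub_add_cancel (orderOf_pos_iff.2 ?_), pow_orderOf_eq_one]
        rw [← orderOf_pos_iff]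
        have : orderOf (Units.mk0 x hx0) = orderOf x := orderOf_units.symm.trans (by simp)
        rw [← this]; exact orderOf_pos _
      rw [← eq_inv_of_mul_eq_one_left h1]
      exact pow_mem hx _
  let K : Subfield L := { R with inv_mem' := hinv }
  set q := Nat.card F
  set r := finrank F L
  have hq : 1 < q := Finite.one_lt_card
  have hL : Nat.card L = q ^ r := Module.natCard_eq_pow_finrank
  -- many elements of norm one
  let N : Lˣ →* Fˣ := Units.map (Algebra.norm F : L →* F)
  have hker : Nat.card N.ker * Nat.card N.range = q ^ r - 1 := by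
    rw [← hL, ← Nat.card_units, ← Subgroup.index_ker, Subgroup.card_mul_index]
  have hrange : Nat.card N.range ≤ q - 1 := by
    rw [← Nat.card_units F]; exact Subgroup.card_le_card_group _
  have hbig : q ^ (r - 1) < Nat.card K := by
    have hle : Nat.card N.ker + 1 ≤ Nat.card K := by
      have hf : Nat.card (Option N.ker) ≤ Nat.card K := by
        refine Nat.card_le_card_of_injective (fun o => o.elim (0 : K) fun u =>
          (⟨((u : Lˣ) : L), h _ (congrArg Units.val (MonoidHom.mem_ker.1 u.2))⟩ : K)) ?_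
        rintro (_ | a) (_ | b) hab
        · rfl
        · exact absurd (congrArg Subtype.val hab).symm (Units.ne_zero _)
        · exact absurd (congrArg Subtype.val hab) (Units.ne_zero _)
        · exact congrArg some (Subtype.ext (Units.ext (congrArg (fun z : K => (z : L)) hab)))
      rwa [Finite.card_option] at hf
    by_contra hlt
    have h2 : Nat.card N.ker * (q - 1) ≥ q ^ r - 1 := hker ▸ Nat.mul_le_mul_left _ hrange
    have h3 : q ^ r = q ^ (r - 1) * q := by rw [← pow_succ, Nat.sub_add_cancel hr.one_le]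
    have h4 : Nat.card N.ker + 1 ≤ q ^ (r - 1) := by omega
    have h5 : (Nat.card N.ker + 1) * (q - 1) ≤ q ^ (r - 1) * (q - 1) := Nat.mul_le_mul_right _ h4
    rw [add_mul, one_mul, show q ^ (r - 1) * (q - 1) = q ^ r - q ^ (r - 1) by rw [Nat.mul_sub, mul_one, ← h3]] at h5
    have h6 : 2 ≤ q ^ (r - 1) := le_trans hq (Nat.le_self_pow (by have := hr.two_le; omega) q)
    omega
  let : Algebra K L := K.subtype.toAlgebra
  have hKL : Nat.card L = Nat.card K ^ finrank K L := Module.natCard_eq_pow_finrank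
  have hd : finrank K L ≤ 1 := by
    by_contra hd
    have h1 : Nat.card K ^ 2 ≤ q ^ r := by
      rw [← hL, hKL]; exact Nat.pow_le_pow_right Nat.card_pos (by omega)
    have h2 : (q ^ (r - 1)) ^ 2 < Nat.card K ^ 2 := Nat.pow_lt_pow_left hbig two_ne_zero
    have h3 : q ^ r ≤ (q ^ (r - 1)) ^ 2 := by
      rw [← pow_mul]; exact Nat.pow_le_pow_right (by omega) (by have := hr.two_le; omega)
    omega
  have hcard : Nat.card L ≤ Nat.card K := by
    rw [hKL]
    exact (Nat.pow_le_pow_right Nat.card_pos hd).trans (pow_one _).le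
  rw [eq_top_iff]
  intro x _
  have hsurj : Function.Surjective (fun k : K => (k : L)) :=
    (Function.Injective.bijective_of_nat_card_le Subtype.val_injective hcard).2
  obtain ⟨k, rfl⟩ := hsurj x
  exact k.2

end Sub

section Group

variable [FiniteDimensional F V]

/-- A group containing all semilinear maps of determinant one and some further element. -/
structure Over (L : Type*) [Field L] [Algebra F L] [Module L V] [IsScalarTower F L V]
    (X : Subgroup (V ≃ₗ[F] V)) : Prop where
  prime : (finrank F L).Prime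
  two_le : 2 ≤ finrank L V
  mem : ∀ g : V ≃ₗ[F] V, LinearMap.det (g : V →ₗ[F] V) = 1 → Semi L g → g ∈ X
  exists_not_semi : ∃ g ∈ X, ¬ Semi L g

variable {X : Subgroup (V ≃ₗ[F] V)}

lemma Over.finite_left (h : Over L X) : FiniteDimensional F L :=
  Module.finite_of_finrank_pos h.prime.pos

lemma semi_mul {g h : V ≃ₗ[F] V} (hg : Semi L g) (hh : Semi L h) : Semi L (g * h) := by
  intro a
  obtain ⟨b, hb⟩ := hh a
  obtain ⟨c, hc⟩ := hg b
  exact ⟨c, fun x => by rw [LinearEquiv.mul_apply, hb, hc]; rfl⟩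

lemma Over.mem_restrict (h : Over L X) (e : V ≃ₗ[L] V)
    (he : Algebra.norm F (LinearMap.det (e : V →ₗ[L] V)) = 1) : e.restrictScalars F ∈ X := by
  refine h.mem _ ?_ (semi_restrict e)
  have := h.finite_left
  show LinearMap.det ((e : V →ₗ[L] V).restrictScalars F) = 1
  rw [LinearMap.det_restrictScalars, he]

lemma Over.finiteDimensional (_h : Over L X) : FiniteDimensional L V := Module.Finite.of_restrictScalars_finite F L V

/-- An `L`-transvection in `X`. -/
lemma Over.exists_transv (h : Over L X) (φ : V →ₗ[L] L) (u : V) (hu : φ u = 0) :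
    ∃ g ∈ X, ∀ x, g x = x + φ x • u := by
  refine ⟨(LinearEquiv.transvection hu).restrictScalars F, h.mem_restrict _ ?_, fun x => rfl⟩
  rw [← LinearEquiv.coe_det, LinearEquiv.transvection.det_eq_one, Units.val_one, map_one]

/-- An `L`-dilatation of norm one in `X`. -/
lemma Over.exists_dilat (h : Over L X) (φ : V →ₗ[L] L) (u : V) (hu : Algebra.norm F (1 + φ u) = 1) :
    ∃ g ∈ X, (∀ x, g x = x + φ x • u) ∧ ∀ (a : L) x, g (a • x) = a • g x := by
  have := h.finiteDimensional
  have := h.finite_left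
  have hne : (1 : L) + φ u ≠ 0 := fun h0 => by rw [h0, Algebra.norm_zero] at hu; exact zero_ne_one hu
  have hU : IsUnit (1 + φ u) := hne.isUnit
  refine ⟨(LinearEquiv.dilatransvection hU).restrictScalars F, h.mem_restrict _ ?_, fun x => ?_,
    fun a x => (LinearEquiv.dilatransvection hU).map_smul a x⟩
  · rw [LinearEquiv.dilatransvection.coe_toLinearMap, LinearMap.transvection.det, hu]
  · exact LinearEquiv.dilatransvection.apply (h := hU)

lemma exists_notMem_ln (h : Over L X) (v : V) : ∃ w, w ∉ ln (F := F) L v := by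
  by_contra hall
  push Not at hall
  have := h.finiteDimensional
  have h1 : (⊤ : Submodule L V) ≤ L ∙ v := fun x _ => Submodule.mem_span_singleton.2 (mem_ln.1 (hall x))
  have h2 := Submodule.finrank_mono h1
  rw [finrank_top] at h2
  have h3 : finrank L (L ∙ v) ≤ 1 := by
    have h4 := finrank_span_finset_le_card (R := L) ({v} : Finset V)
    rw [Finset.coe_singleton, Finset.card_singleton] at h4
    exact h4
  have := h.two_le
  omega

/-- Transitivity on non-zero vectors by linear maps. -/
lemma Over.exists_linear (h : Over L X) {x y : V} (hx : x ≠ 0) (hy : y ≠ 0) :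
    ∃ g ∈ X, (∀ (a : L) z, g (a • z) = a • g z) ∧ g x = y := by
  have step : ∀ x y : V, x ≠ 0 → y ∉ ln (F := F) L x →
      ∃ g ∈ X, (∀ (a : L) z, g (a • z) = a • g z) ∧ g x = y := by
    intro x y hx hy
    obtain ⟨α, h1⟩ := exists_dual_one (L := L) hx
    obtain ⟨β, h2, h3⟩ := exists_dual (L := L) (F := F) hy (1 - α y)
    obtain ⟨g, hg, hgx⟩ := h.exists_transv (α + β) (y - x) (by
      simp [h1, h2, h3])
    refine ⟨g, hg, fun a z => ?_, ?_⟩
    · rw [hgx, hgx, map_smul, smul_add, smul_smul, smul_eq_mul]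
    · rw [hgx]; simp [h1, h2]
  by_cases hxy : y ∈ ln (F := F) L x
  · obtain ⟨w, hw⟩ := exists_notMem_ln h x
    have hw0 : w ≠ 0 := fun h0 => hw (h0 ▸ zero_mem _)
    obtain ⟨g₁, hg₁, hl₁, h₁⟩ := step x w hx hw
    obtain ⟨g₂, hg₂, hl₂, h₂⟩ := step w y hw0 fun hyw => hw (by
      rw [← ln_eq hy hxy, ln_eq hy hyw]; exact self_mem_ln w)
    exact ⟨g₂ * g₁, mul_mem hg₂ hg₁, fun a z => by
      rw [LinearEquiv.mul_apply, hl₁, hl₂]; rfl, by rw [LinearEquiv.mul_apply, h₁, h₂]⟩
  · exact step x y hx hxy

lemma map_ln_of_linear {g : V ≃ₗ[F] V} (hl : ∀ (a : L) z, g (a • z) = a • g z) (x : V) :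
    (ln (F := F) L x).map (g : V →ₗ[F] V) = ln L (g x) := by
  ext y
  rw [Submodule.mem_map, mem_ln]
  constructor
  · rintro ⟨z, hz, rfl⟩
    obtain ⟨a, rfl⟩ := mem_ln.1 hz
    exact ⟨a, (hl a x).symm⟩
  · rintro ⟨a, rfl⟩
    exact ⟨a • x, mem_ln.2 ⟨a, rfl⟩, hl a x⟩

end Group

end CfsgLib.Derangements.FieldNorm
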