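import Mathlib
import Cfsg.Agent.Lib.Derangements.FieldNormBasic

/-!
# Transitivity on independent tuples

A group properly containing the semilinear maps of determinant one is transitive on independent tuples of
length at most the degree of the extension.
-/

set_option autoImplicit false

open Module

namespace CfsgLib.Derangements.FieldNorm

variable {F : Type*} [Field F] {L : Type*} [Field L] [Algebra F L] {V : Type*} [AddCommGroup V]
  [Module F V] [Module L V] [IsScalarTower F L V] {X : Subgroup (V ≃ₗ[F] V)} {v : V}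

/-- A translate of the line through `v`. -/
def IsTrans (L : Type*) [Field L] [Algebra F L] [Module L V] [IsScalarTower F L V]
    (X : Subgroup (V ≃ₗ[F] V)) (v : V) (W : Submodule F V) : Prop :=
  ∃ g ∈ X, W = (ln L v).map (g : V →ₗ[F] V)

/-- The intersection of the translates containing `S`. -/
def hull (L : Type*) [Field L] [Algebra F L] [Module L V] [IsScalarTower F L V]
    (X : Subgroup (V ≃ₗ[F] V)) (v : V) (S : Submodule F V) : Submodule F V :=
  sInf {W | IsTrans L X v W ∧ S ≤ W}

/-- Transitivity on independent tuples of length `k`. -/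
def Trans (X : Subgroup (V ≃ₗ[F] V)) (k : ℕ) : Prop :=
  ∀ a b : Fin k → V, LinearIndependent F a → LinearIndependent F b → ∃ g ∈ X, ∀ i, g (a i) = b i

lemma map_map_equiv (g h : V ≃ₗ[F] V) (W : Submodule F V) :
    (W.map (h : V →ₗ[F] V)).map (g : V →ₗ[F] V) = W.map ((g * h : V ≃ₗ[F] V) : V →ₗ[F] V) :=
  (Submodule.map_comp _ _ W).symm

lemma IsTrans.map {W : Submodule F V} (hW : IsTrans L X v W) {g : V ≃ₗ[F] V} (hg : g ∈ X) :
    IsTrans L X v (W.map (g : V →ₗ[F] V)) := by
  obtain ⟨h, hh, rfl⟩ := hW
  exact ⟨g * h, mul_mem hg hh, map_map_equiv g h _⟩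

lemma isTrans_self : IsTrans L X v (ln L v) := ⟨1, one_mem X, (Submodule.map_id _).symm⟩

lemma le_hull (S : Submodule F V) : S ≤ hull L X v S := le_sInf fun _ hW => hW.2

lemma hull_le {S W : Submodule F V} (hW : IsTrans L X v W) (h : S ≤ W) : hull L X v S ≤ W := sInf_le ⟨hW, h⟩

lemma hull_mono {S T : Submodule F V} (h : T ≤ hull L X v S) : hull L X v T ≤ hull L X v S :=
  le_sInf fun _ hW => hull_le hW.1 (h.trans (hull_le hW.1 hW.2))

lemma map_symm_map (g : V ≃ₗ[F] V) (W : Submodule F V) :
    (W.map ((g⁻¹ : V ≃ₗ[F] V) : V →ₗ[F] V)).map (g : V →ₗ[F] V) = W := by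
  rw [map_map_equiv, mul_inv_cancel]; exact Submodule.map_id W

lemma map_hull_le {g : V ≃ₗ[F] V} (hg : g ∈ X) (S : Submodule F V) :
    (hull L X v S).map (g : V →ₗ[F] V) ≤ hull L X v (S.map (g : V →ₗ[F] V)) := by
  refine le_sInf fun W hW => ?_
  have h1 : hull L X v S ≤ W.map ((g⁻¹ : V ≃ₗ[F] V) : V →ₗ[F] V) := by
    refine hull_le (hW.1.map (inv_mem hg)) ?_
    intro x hx
    exact ⟨g x, hW.2 ⟨x, hx, rfl⟩, g.symm_apply_apply x⟩
  exact (Submodule.map_mono h1).trans (map_symm_map g W).le

lemma map_hull {g : V ≃ₗ[F] V} (hg : g ∈ X) (S : Submodule F V) :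
    (hull L X v S).map (g : V →ₗ[F] V) = hull L X v (S.map (g : V →ₗ[F] V)) := by
  refine le_antisymm (map_hull_le hg S) ?_
  have h := Submodule.map_mono (f := (g : V →ₗ[F] V))
    (map_hull_le (L := L) (v := v) (inv_mem hg) (S.map (g : V →ₗ[F] V)))
  rw [map_symm_map] at h
  refine h.trans (le_of_eq ?_)
  congr 2
  rw [map_map_equiv, inv_mul_cancel]; exact Submodule.map_id S

variable [FiniteDimensional F V]

/-- Subspaces of every smaller dimension. -/
lemma exists_le_finrank (W : Submodule F V) {n : ℕ} (hn : n ≤ Module.finrank F W) :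
    ∃ S ≤ W, Module.finrank F S = n := by
  refine ⟨Submodule.span F (Set.range fun i : Fin n => (finBasis F W (Fin.castLE hn i) : V)),
    Submodule.span_le.2 ?_, ?_⟩
  · rintro _ ⟨i, rfl⟩; exact (finBasis F W _).2
  · have hli : LinearIndependent F (fun i : Fin n => (finBasis F W (Fin.castLE hn i) : V)) :=
      ((finBasis F W).linearIndependent.comp _ (Fin.castLE_injective hn)).map' W.subtype W.ker_subtype
    rw [finrank_span_eq_card hli, Fintype.card_fin]

lemma IsTrans.finrank (hv : v ≠ 0) {W : Submodule F V} (hW : IsTrans L X v W) :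
    Module.finrank F W = Module.finrank F L := by
  obtain ⟨g, -, rfl⟩ := hW
  rw [LinearEquiv.finrank_map_eq, finrank_ln hv]

lemma isTrans_ln (h : Over L X) (hv : v ≠ 0) {x : V} (hx : x ≠ 0) : IsTrans L X v (ln L x) := by
  obtain ⟨g, hg, hl, rfl⟩ := h.exists_linear hv hx
  exact ⟨g, hg, (map_ln_of_linear hl v).symm⟩

/-- Translations along a translate. -/
lemma exists_translation (h : Over L X) {W : Submodule F V} (hW : IsTrans L X v W) {x y : V} (hx : x ∉ W)
    (hy : y - x ∈ W) : ∃ t ∈ X, (∀ z ∈ W, t z = z) ∧ t x = y := by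
  obtain ⟨g, hg, rfl⟩ := hW
  obtain ⟨u, hu, hgu⟩ := hy
  have hx' : g.symm x ∉ ln (F := F) L v := fun hm => hx ⟨_, hm, g.apply_symm_apply x⟩
  obtain ⟨φ, h1, h2⟩ := exists_dual hx' 1
  obtain ⟨a, rfl⟩ := mem_ln.1 hu
  obtain ⟨t, ht, htx⟩ := h.exists_transv φ (a • v) (by rw [map_smul, h1, smul_zero])
  refine ⟨g * t * g⁻¹, mul_mem (mul_mem hg ht) (inv_mem hg), ?_, ?_⟩
  · rintro _ ⟨z, hz, rfl⟩
    obtain ⟨c, rfl⟩ := mem_ln.1 hz
    show g (t (g.symm (g (c • v)))) = g (c • v)
    rw [g.symm_apply_apply, htx, map_smul, h1, smul_zero, zero_smul, add_zero]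
  · show g (t (g.symm x)) = y
    rw [htx, h2, one_smul, map_add, g.apply_symm_apply, show g (a • v) = y - x from hgu]
    abel

variable [Finite F]

/-- Scalars stabilising a proper subspace of a line. -/
lemma algebraMap_of_smul_mem (h : Over L X) {v : V} {S : Submodule F V} (hS : S ≠ ⊥) (hSv : S < ln L v)
    {β : L} (hβ : ∀ x ∈ S, β • x ∈ S) : ∃ c : F, algebraMap F L c = β := by
  have := h.finite_left
  let A : Subalgebra F L :=
    { carrier := {a | ∀ x ∈ S, a • x ∈ S}
      mul_mem' := fun {a b} ha hb x hx => by rw [mul_smul]; exact ha _ (hb x hx)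
      one_mem' := fun x hx => by rw [one_smul]; exact hx
      add_mem' := fun {a b} ha hb x hx => by rw [add_smul]; exact S.add_mem (ha x hx) (hb x hx)
      zero_mem' := fun x _ => by rw [zero_smul]; exact S.zero_mem
      algebraMap_mem' := fun c x hx => by rw [algebraMap_smul]; exact S.smul_mem c hx }
  have hmem : β ∈ A := hβ
  rcases subalgebra_cases h.prime A with hA | hA
  · rw [hA] at hmem; exact Algebra.mem_bot.1 hmem
  · exfalso
    obtain ⟨x, hx, hx0⟩ := Submodule.exists_mem_ne_zero_of_ne_bot hS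
    refine hSv.not_ge ?_
    rw [← ln_eq hx0 (hSv.le hx)]
    intro y hy
    obtain ⟨a, rfl⟩ := mem_ln.1 hy
    exact (show a ∈ A from hA ▸ Algebra.mem_top) x hx

/-- A group whose translates of the lines are the lines is semilinear. -/
lemma semi_of_map_ln (h : Over L X) {g : V ≃ₗ[F] V}
    (hg : ∀ x : V, x ≠ 0 → (ln L x).map (g : V →ₗ[F] V) = ln L (g x)) : Semi L g := by
  intro a
  rcases subsingleton_or_nontrivial V with hV | hV
  · exact ⟨0, fun x => Subsingleton.elim _ _⟩
  have hex : ∀ x : V, x ≠ 0 → ∃ b : L, g (a • x) = b • g x := by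
    intro x hx
    have hm : g (a • x) ∈ ln (F := F) L (g x) := by
      rw [← hg x hx]; exact ⟨a • x, mem_ln.2 ⟨a, rfl⟩, rfl⟩
    obtain ⟨b, hb⟩ := mem_ln.1 hm
    exact ⟨b, hb.symm⟩
  have hindep : ∀ x y : V, x ≠ 0 → y ∉ ln (F := F) L x → ∀ b : L, g (a • x) = b • g x → g (a • y) = b • g y := by
    intro x y hx hy b hb
    have hy0 : y ≠ 0 := fun h0 => hy (h0 ▸ zero_mem _)
    have hxy : x + y ≠ 0 := fun h0 => hy (by
      rw [eq_neg_of_add_eq_zero_right h0]; exact neg_mem (self_mem_ln x))
    obtain ⟨c, hc⟩ := hex y hy0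
    obtain ⟨d, hd⟩ := hex (x + y) hxy
    have hgy : g y ∉ ln (F := F) L (g x) := by
      rw [← hg x hx]
      rintro ⟨z, hz, hzy⟩
      exact hy (g.injective hzy ▸ hz)
    rw [smul_add, map_add, map_add, hb, hc, smul_add] at hd
    have h1 : (b - d) • g x + (c - d) • g y = 0 := by
      rw [sub_smul, sub_smul]
      linear_combination (norm := module) hd
    have h2 : (c - d) • g y ∈ ln (F := F) L (g x) := by
      rw [eq_neg_of_add_eq_zero_right h1]; exact neg_mem (mem_ln.2 ⟨_, rfl⟩)
    have hcd := eq_of_mem_ln (fun h0 => hx (g.injective (h0.trans g.map_zero.symm))) hgy h2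
    rw [hcd, zero_smul, add_zero] at h1
    have hbd : b - d = 0 := by
      by_contra h0
      rw [smul_eq_zero] at h1
      exact hx (g.injective ((h1.resolve_left h0).trans g.map_zero.symm))
    rw [hc, sub_eq_zero.1 hcd, sub_eq_zero.1 hbd]
  obtain ⟨x₀, hx₀⟩ := exists_ne (0 : V)
  obtain ⟨b, hb⟩ := hex x₀ hx₀
  refine ⟨b, fun y => ?_⟩
  rcases eq_or_ne y 0 with rfl | hy0
  · simp
  by_cases hy : y ∈ ln (F := F) L x₀
  · obtain ⟨w, hw⟩ := exists_notMem_ln h x₀
    have hw0 : w ≠ 0 := fun h0 => hw (h0 ▸ zero_mem _)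
    have hyw : y ∉ ln (F := F) L w := fun hm => hw (by
      rw [← ln_eq hy0 hy, ln_eq hy0 hm]; exact self_mem_ln w)
    exact hindep w y hw0 hyw b (hindep x₀ w hx₀ hw b hb)
  · exact hindep x₀ y hx₀ hy b hb

/-- Translates determined by a point are lines. -/
lemma hull_singleton (h : Over L X) (hv : v ≠ 0) : hull L X v (F ∙ v) = F ∙ v := by
  have := h.finite_left
  by_contra hne
  set D := hull L X v (F ∙ v) with hD
  have hDv : D ≤ ln L v := hull_le isTrans_self ((Submodule.span_singleton_le_iff_mem _ _).mpr (self_mem_ln v))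
  have hvD : v ∈ D := le_hull _ (Submodule.mem_span_singleton_self v)
  -- `D` is closed under multiplication
  have hdim : ∀ u : V, u ≠ 0 → finrank F (hull L X v (F ∙ u)) = finrank F D := by
    intro u hu
    obtain ⟨g, hg, -, rfl⟩ := h.exists_linear hv hu
    rw [hD, ← LinearEquiv.finrank_map_eq g (hull L X v (F ∙ v)), map_hull hg, Submodule.map_span, Set.image_singleton]
    rfl
  have hmul : ∀ a b : L, a • v ∈ D → b • v ∈ D → (a * b) • v ∈ D := by
    intro a b ha hb
    rcases eq_or_ne a 0 with rfl | ha0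
    · rw [zero_mul, zero_smul]; exact zero_mem _
    have hav : a • v ≠ 0 := smul_ne_zero ha0 hv
    have hle : hull L X v (F ∙ (a • v)) ≤ D := hull_mono ((Submodule.span_singleton_le_iff_mem _ _).mpr ha)
    have heq := Submodule.eq_of_le_of_finrank_eq hle (hdim _ hav)
    obtain ⟨g, hg, hl, hgv⟩ := h.exists_linear hv hav
    have h1 : g (b • v) ∈ hull L X v (F ∙ (a • v)) := by
      have h2 : g (b • v) ∈ D.map (g : V →ₗ[F] V) := ⟨_, hb, rfl⟩
      rw [hD, map_hull hg, Submodule.map_span, Set.image_singleton] at h2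
      rw [← hgv]; exact h2
    rw [heq, hl, hgv, smul_smul, mul_comm] at h1
    exact h1
  let A : Subalgebra F L :=
    { carrier := {a | a • v ∈ D}
      mul_mem' := fun {a b} ha hb => hmul a b ha hb
      one_mem' := by show (1 : L) • v ∈ D; rw [one_smul]; exact hvD
      add_mem' := fun {a b} ha hb => by show (a + b) • v ∈ D; rw [add_smul]; exact D.add_mem ha hb
      zero_mem' := by show (0 : L) • v ∈ D; rw [zero_smul]; exact D.zero_mem
      algebraMap_mem' := fun c => by show algebraMap F L c • v ∈ D; rw [algebraMap_smul]; exact D.smul_mem c hvD }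
  have hDeq : D = ln L v := by
    rcases subalgebra_cases h.prime A with hA | hA
    · refine absurd (le_antisymm ?_ (le_hull _)) hne
      intro x hx
      obtain ⟨a, rfl⟩ := mem_ln.1 (hDv hx)
      have ha : a ∈ A := hx
      rw [hA] at ha
      obtain ⟨c, rfl⟩ := Algebra.mem_bot.1 ha
      rw [algebraMap_smul]
      exact Submodule.smul_mem _ c (Submodule.mem_span_singleton_self v)
    · refine le_antisymm hDv fun x hx => ?_
      obtain ⟨a, rfl⟩ := mem_ln.1 hx
      exact (show a ∈ A from hA ▸ Algebra.mem_top)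
  obtain ⟨g, hg, hgs⟩ := h.exists_not_semi
  refine hgs (semi_of_map_ln h fun x hx => ?_)
  have hgx : g x ≠ 0 := fun h0 => hx (g.injective (h0.trans g.map_zero.symm))
  obtain ⟨k, hk, hkl, hkx⟩ := h.exists_linear hgx hv
  set W := ((ln L x).map (g : V →ₗ[F] V)).map (k : V →ₗ[F] V) with hW
  have hWt : IsTrans L X v W := ((isTrans_ln h hv hx).map hg).map hk
  have hvW : v ∈ W := ⟨g x, ⟨x, self_mem_ln x, rfl⟩, hkx⟩
  have hle : ln L v ≤ W := hDeq ▸ hull_le hWt ((Submodule.span_singleton_le_iff_mem _ _).mpr hvW)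
  have hWeq : ln L v = W := Submodule.eq_of_le_of_finrank_eq hle (by rw [hWt.finrank hv, finrank_ln hv])
  rw [← hkx, ← map_ln_of_linear hkl, hW] at hWeq
  exact (Submodule.map_injective_of_injective k.injective hWeq).symm

set_option maxHeartbeats 1000000 in
/-- The hull of a larger subspace is itself. -/
lemma hull_eq_of_two_le (h : Over L X) (hv : v ≠ 0) {k : ℕ} (hk : 2 ≤ k) (hkr : k ≤ finrank F L)
    (ht : Trans X k) {S : Submodule F V} (hS : finrank F S = k) : hull L X v S = S := by
  have := h.finite_left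
  have hfr : ∀ T : Submodule F V, finrank F T = k →
      finrank F (hull L X v T) = finrank F (hull L X v S) := by
    intro T hT
    let bS := finBasisOfFinrankEq F S hS
    let bT := finBasisOfFinrankEq F T hT
    obtain ⟨g, hg, hgi⟩ := ht (fun i => (bS i : V)) (fun i => (bT i : V))
      (bS.linearIndependent.map' _ S.ker_subtype) (bT.linearIndependent.map' _ T.ker_subtype)
    have hmap : S.map (g : V →ₗ[F] V) = T := by
      rw [← S.map_subtype_top, ← T.map_subtype_top, ← bS.span_eq, ← bT.span_eq, Submodule.map_span,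
        Submodule.map_span, Submodule.map_span, ← Set.range_comp, ← Set.range_comp, ← Set.range_comp]
      exact congrArg _ (congrArg Set.range (funext hgi))
    rw [← LinearEquiv.finrank_map_eq g (hull L X v S), map_hull hg, hmap]
  -- a subspace straddling two lines
  obtain ⟨w, hw⟩ := exists_notMem_ln h v
  obtain ⟨S', hS'le, hS'⟩ := exists_le_finrank (ln (F := F) L v) (n := k - 1) (by rw [finrank_ln hv]; omega)
  have hwS' : w ∉ S' := fun hm => hw (hS'le hm)
  have hdisj : Disjoint S' (F ∙ w) := Submodule.disjoint_span_singleton.2 fun hm => absurd hm hwS'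
  set T := S' ⊔ (F ∙ w) with hT
  have hw0 : w ≠ 0 := fun h0 => hw (h0 ▸ zero_mem _)
  have hTk : finrank F T = k := by
    have h1 := Submodule.finrank_sup_add_finrank_inf_eq S' (F ∙ w)
    rw [hdisj.eq_bot, finrank_bot, finrank_span_singleton hw0, hS'] at h1
    rw [hT]; omega
  suffices hTfix : hull L X v T = T by
    refine (Submodule.eq_of_le_of_finrank_eq (le_hull S) ?_).symm
    rw [← hfr T hTk, hTfix, hTk, hS]
  set D := hull L X v T with hD
  have hwD : w ∈ D := le_hull T (Submodule.mem_sup_right (Submodule.mem_span_singleton_self w))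
  have hS'D : S' ≤ D := le_sup_left.trans (le_hull T)
  have hint : ∀ y ∈ D, y ∈ ln (F := F) L v → y ∈ S' := by
    intro y hyD hyv
    by_contra hy
    have hy0 : y ≠ 0 := fun h0 => hy (h0 ▸ zero_mem _)
    have hdy : Disjoint S' (F ∙ y) := Submodule.disjoint_span_singleton.2 fun hm => absurd hm hy
    have hU : finrank F (S' ⊔ (F ∙ y) : Submodule F V) = k := by
      have h1 := Submodule.finrank_sup_add_finrank_inf_eq S' (F ∙ y)
      rw [hdy.eq_bot, finrank_bot, finrank_span_singleton hy0, hS'] at h1
      omega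
    have h1 : hull L X v (S' ⊔ (F ∙ y)) = D := Submodule.eq_of_le_of_finrank_eq
      (hull_mono (sup_le hS'D ((Submodule.span_singleton_le_iff_mem _ _).mpr hyD))) (by rw [hD, hfr _ hU, hfr _ hTk])
    have h2 : D ≤ ln L v := h1 ▸ hull_le isTrans_self (sup_le hS'le ((Submodule.span_singleton_le_iff_mem _ _).mpr hyv))
    exact hw (h2 hwD)
  refine le_antisymm ?_ (le_hull T)
  intro b hb
  obtain ⟨φ₀, h0v, h0w⟩ := exists_dual hw (1 : L)
  have hS'ne : S' ≠ ⊥ := fun h0 => by rw [h0, finrank_bot] at hS'; omega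
  have hS'lt : S' < ln L v := lt_of_le_of_ne hS'le fun h0 => by
    have : finrank F S' = finrank F L := by rw [h0, finrank_ln hv]
    omega
  have key : ∀ φ : V →ₗ[L] L, φ v = 0 → φ w = 1 → ∃ c : F, algebraMap F L c = φ b := by
    intro φ h1 h2
    refine algebraMap_of_smul_mem h hS'ne hS'lt fun x hx => ?_
    obtain ⟨a, rfl⟩ := mem_ln.1 (hS'le hx)
    obtain ⟨t, ht', htx⟩ := h.exists_transv φ (a • v) (by rw [map_smul, h1, smul_zero])
    have hfix : ∀ z ∈ S', t z = z := fun z hz => by
      obtain ⟨c, rfl⟩ := mem_ln.1 (hS'le hz)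
      rw [htx, map_smul, h1, smul_zero, zero_smul, add_zero]
    have hmap : T.map (t : V →ₗ[F] V) ≤ T := by
      rw [hT, Submodule.map_sup, Submodule.map_span, Set.image_singleton]
      refine sup_le ?_ ((Submodule.span_singleton_le_iff_mem _ _).mpr ?_)
      · rintro _ ⟨z, hz, rfl⟩
        exact Submodule.mem_sup_left (show t z ∈ S' by rw [hfix z hz]; exact hz)
      · show t w ∈ _
        rw [htx, h2, one_smul]
        exact add_mem (Submodule.mem_sup_right (Submodule.mem_span_singleton_self w)) (Submodule.mem_sup_left hx)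
    have hmap' : T.map (t : V →ₗ[F] V) = T :=
      Submodule.eq_of_le_of_finrank_eq hmap (LinearEquiv.finrank_map_eq t T)
    have htb : t b ∈ D := by
      have h3 : t b ∈ D.map (t : V →ₗ[F] V) := ⟨b, hb, rfl⟩
      rwa [hD, map_hull ht', hmap'] at h3
    have h4 : φ b • a • v ∈ D := by
      have := D.sub_mem htb hb
      rwa [htx, add_sub_cancel_left] at this
    exact hint _ h4 (smul_mem_ln _ (smul_mem_ln _ (self_mem_ln v)))
  obtain ⟨c, hc⟩ := key φ₀ h0v h0w
  have hb' : b - c • w ∈ D := D.sub_mem hb (D.smul_mem c hwD)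
  suffices h' : b - c • w ∈ ln (F := F) L v by
    have h5 := hint _ hb' h'
    rw [← sub_add_cancel b (c • w)]
    exact add_mem (Submodule.mem_sup_left h5) (Submodule.mem_sup_right (Submodule.smul_mem _ c (Submodule.mem_span_singleton_self w)))
  by_contra hout
  have h0 : φ₀ (b - c • w) = 0 := by
    rw [map_sub, LinearMap.map_smul_of_tower, h0w, Algebra.smul_def, mul_one, hc, sub_self]
  obtain ⟨χ, hχv, hχ⟩ := exists_dual hout (1 : L)
  set ψ : V →ₗ[L] L := χ - χ w • φ₀ with hψ
  have hψv : ψ v = 0 := by simp [hψ, hχv, h0v]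
  have hψw : ψ w = 0 := by simp [hψ, h0w]
  have hψb : ψ (b - c • w) = 1 := by simp only [hψ, LinearMap.sub_apply, LinearMap.smul_apply, hχ, h0, smul_zero, sub_zero]
  have hall : ∀ a : L, ∃ e : F, algebraMap F L e = a := by
    intro a
    obtain ⟨e, he⟩ := key (φ₀ + a • ψ) (by simp [h0v, hψv]) (by simp [h0w, hψw])
    refine ⟨e - c, ?_⟩
    have : ψ b = 1 := by
      rw [map_sub, LinearMap.map_smul_of_tower, hψw, smul_zero, sub_zero] at hψb
      exact hψb
    rw [map_sub, he, LinearMap.add_apply, LinearMap.smul_apply, this, hc, smul_eq_mul, mul_one, add_sub_cancel_left]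
  have h1 : finrank F L ≤ finrank F F :=
    LinearMap.finrank_le_finrank_of_surjective (f := Algebra.linearMap F L) (fun a => hall a)
  rw [finrank_self] at h1
  exact absurd h.prime.one_lt (by omega)

set_option maxHeartbeats 1600000 in
/-- Transitivity on independent tuples up to the degree. -/
theorem trans_of_le (h : Over L X) : ∀ k ≤ finrank F L, Trans X k := by
  classical
  have := h.finite_left
  intro k
  induction k with
  | zero => intro _ a b _ _; exact ⟨1, one_mem X, fun i => i.elim0⟩
  | succ k ih =>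
    intro hk
    rcases Nat.eq_zero_or_pos k with rfl | hk0
    · intro a b ha hb
      obtain ⟨g, hg, -, hgx⟩ := h.exists_linear (ha.ne_zero 0) (hb.ne_zero 0)
      exact ⟨g, hg, fun i => by rw [Fin.fin_one_eq_zero i]; exact hgx⟩
    have ht := ih (by omega)
    intro a b ha hb
    obtain ⟨v, hv⟩ : ∃ v : V, v ≠ 0 := ⟨a 0, ha.ne_zero 0⟩
    -- a tuple inside the line
    obtain ⟨S, hSle, hS⟩ := exists_le_finrank (ln (F := F) L v) (n := k) (by rw [finrank_ln hv]; omega)
    let bS := finBasisOfFinrankEq F S hS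
    set c : Fin k → V := fun i => (bS i : V) with hc
    have hcli : LinearIndependent F c := bS.linearIndependent.map' _ S.ker_subtype
    have hspan : Submodule.span F (Set.range c) = S := by
      rw [hc, show (fun i => (bS i : V)) = S.subtype ∘ bS from rfl, Set.range_comp, ← Submodule.map_span,
        bS.span_eq, Submodule.map_subtype_top]
    have hhull : hull L X v S = S := by
      rcases Nat.lt_or_ge k 2 with hk2 | hk2
      · obtain rfl : k = 1 := by omega
        obtain ⟨g, hg, -, hgv⟩ := h.exists_linear hv (hcli.ne_zero 0)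
        have hSg : S = (F ∙ v).map (g : V →ₗ[F] V) := by
          rw [Submodule.map_span, Set.image_singleton, ← hspan, Set.range_unique]
          show _ = Submodule.span F {g v}
          rw [hgv]; rfl
        rw [hSg, ← map_hull hg, hull_singleton h hv]
      · exact hull_eq_of_two_le h hv hk2 (by omega) ht hS
    -- the relation under the stabiliser of `c`
    let Rel : V → V → Prop := fun x y => ∃ g ∈ X, (∀ i, g (c i) = c i) ∧ g x = y
    have hRt : ∀ {x y z}, Rel x y → Rel y z → Rel x z := by
      rintro x y z ⟨g, hg, hgc, rfl⟩ ⟨g', hg', hgc', rfl⟩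
      exact ⟨g' * g, mul_mem hg' hg, fun i => by rw [LinearEquiv.mul_apply, hgc, hgc'], rfl⟩
    have hRs : ∀ {x y}, Rel x y → Rel y x := by
      rintro x y ⟨g, hg, hgc, rfl⟩
      exact ⟨g⁻¹, inv_mem hg, fun i => by conv_lhs => rw [← hgc i]; exact g.symm_apply_apply _, g.symm_apply_apply _⟩
    have hRW : ∀ W, IsTrans L X v W → S ≤ W → ∀ x, x ∉ W → ∀ z ∈ W, Rel x (x + z) := by
      intro W hW hSW x hx z hz
      obtain ⟨t, htX, htf, htx⟩ := exists_translation h hW hx (y := x + z) (by rwa [add_sub_cancel_left])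
      exact ⟨t, htX, fun i => htf _ (hSW (bS i).2), htx⟩
    set Lv := ln (F := F) L v with hLv
    have hLt : IsTrans L X v Lv := isTrans_self
    let U : Set V := ⋃ W ∈ {W : Submodule F V | IsTrans L X v W ∧ S ≤ W}, (W : Set V)
    let P : V → Prop := fun z => ∀ (d : F) (x : V), x ∉ Lv → x + d • z ∉ Lv → Rel x (x + d • z)
    have hPU : ∀ z ∈ U, P z := by
      intro z hz d x hx hxz
      simp only [U, Set.mem_iUnion, Set.mem_setOf_eq, exists_prop] at hz
      obtain ⟨W, ⟨hW, hSW⟩, hzW⟩ := hz
      by_cases hxW : x ∈ W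
      · -- move `x` off `W` along the line
        obtain ⟨l, hl, hlW⟩ : ∃ l ∈ Lv, x + l ∉ W := by
          by_contra hall
          push Not at hall
          have hle : Lv ≤ W := fun l hl => by simpa using W.sub_mem (hall l hl) hxW
          have heq : Lv = W := Submodule.eq_of_le_of_finrank_eq hle (by rw [hLt.finrank hv, hW.finrank hv])
          exact hx (heq ▸ hxW)
        have hxl : x + l ∉ Lv := fun hm => hx (by simpa using Lv.sub_mem hm hl)
        have hxlz : x + l + d • z ∉ Lv := fun hm => hxz (by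
          have := Lv.sub_mem hm hl; rwa [show x + l + d • z - l = x + d • z by abel] at this)
        have h1 := hRW Lv hLt hSle x hx l hl
        have h2 := hRW W hW hSW (x + l) hlW (d • z) (W.smul_mem d hzW)
        have h3 := hRW Lv hLt hSle (x + l + d • z) hxlz (-l) (neg_mem hl)
        rw [show x + l + d • z + -l = x + d • z by abel] at h3
        exact hRt h1 (hRt h2 h3)
      · exact hRW W hW hSW x hxW _ (W.smul_mem d hzW)
    have hP0 : P 0 := fun d x hx _ => by rw [smul_zero, add_zero]; exact ⟨1, one_mem X, fun i => rfl, rfl⟩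
    have hPadd : ∀ z z', P z → P z' → P (z + z') := by
      intro z z' hz hz' d x hx hxz
      rw [smul_add] at hxz ⊢
      by_cases h1 : x + d • z ∈ Lv
      swap
      · rw [← add_assoc] at hxz ⊢
        exact hRt (hz d x hx h1) (hz' d _ h1 hxz)
      by_cases h2 : x + d • z' ∈ Lv
      swap
      · rw [add_comm (d • z), ← add_assoc] at hxz ⊢
        exact hRt (hz' d x hx h2) (hz d _ h2 hxz)
      by_cases h2F : (2 : F) = 0
      · have h4 : x + x = (0 : V) := by rw [← two_smul F x, h2F, zero_smul]
        have h5 := Lv.add_mem h1 h2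
        rw [show x + d • z + (x + d • z') = (x + x) + (d • z + d • z') by abel, h4, zero_add] at h5
        exact hRW Lv hLt hSle x hx _ h5
      · set e := d / 2 with he
        have hde : d = e + e := by rw [he, ← two_mul, mul_div_cancel₀ _ h2F]
        have hhalf : (e + e) • z' = e • z' + e • z' := add_smul _ _ _
        have hx1 : x + e • z' ∉ Lv := by
          intro hm
          have h3 := Lv.sub_mem (Lv.add_mem hm hm) h2
          rw [hde, hhalf, show x + e • z' + (x + e • z') - (x + (e • z' + e • z')) = x by abel] at h3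
          exact hx h3
        have hx2 : x + e • z' + d • z ∉ Lv := by
          intro hm
          have h3 : x + e • z' + d • z - (x + d • z) ∈ Lv := Lv.sub_mem hm h1
          rw [show x + e • z' + d • z - (x + d • z) = e • z' by abel] at h3
          refine hx ?_
          have h4 := Lv.sub_mem h2 (Lv.add_mem h3 h3)
          rwa [hde, hhalf, show x + (e • z' + e • z') - (e • z' + e • z') = x by abel] at h4
        have s1 := hz' e x hx hx1
        have s2 := hz d _ hx1 hx2
        have hfin : x + e • z' + d • z + e • z' = x + (d • z + d • z') := by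
          rw [show d • z' = e • z' + e • z' by rw [← hhalf, ← hde]]; abel
        have s3 := hz' e _ hx2 (by rw [hfin]; exact hxz)
        rw [hfin] at s3
        exact hRt s1 (hRt s2 s3)
    have hPsmul : ∀ (e : F) z, P z → P (e • z) := fun e z hz d x hx hxz => by
      rw [smul_smul] at hxz ⊢; exact hz _ x hx hxz
    -- the translates through `S` span everything
    set T := Submodule.span F U with hT
    have hLvT : Lv ≤ T := fun x hx => Submodule.subset_span (by
      simp only [U, Set.mem_iUnion, Set.mem_setOf_eq, exists_prop]; exact ⟨Lv, ⟨hLt, hSle⟩, hx⟩)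
    have hTinv : ∀ g ∈ X, (∀ z ∈ Lv, g z = z) → ∀ x ∈ T, g x ∈ T := by
      intro g hg hfix x hx
      have : T ≤ T.comap (g : V →ₗ[F] V) := Submodule.span_le.2 fun y hy => by
        simp only [U, Set.mem_iUnion, Set.mem_setOf_eq, exists_prop] at hy
        obtain ⟨W, ⟨hW, hSW⟩, hyW⟩ := hy
        refine Submodule.subset_span ?_
        simp only [U, Set.mem_iUnion, Set.mem_setOf_eq, exists_prop]
        exact ⟨W.map (g : V →ₗ[F] V), ⟨hW.map hg, fun s hs => ⟨s, hSW hs, hfix s (hSle hs)⟩⟩, y, hyW, rfl⟩
      exact this hx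
    have hTtop : ∀ y, y ∈ T := by
      obtain ⟨w, hwT, hw⟩ : ∃ w ∈ T, w ∉ Lv := by
        by_contra hall
        push Not at hall
        have hle : Lv ≤ hull L X v S := le_sInf fun W hW => by
          have hWle : W ≤ Lv := fun y hy => hall y (Submodule.subset_span (by
            simp only [U, Set.mem_iUnion, Set.mem_setOf_eq, exists_prop]; exact ⟨W, hW, hy⟩))
          exact (Submodule.eq_of_le_of_finrank_eq hWle (by rw [hW.1.finrank hv, hLt.finrank hv])).ge
        rw [hhull] at hle
        have := Submodule.finrank_mono hle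
        rw [hS, hLt.finrank hv] at this
        omega
      -- all multiples of `w`
      have hmult : ∀ a : L, a • w ∈ T := by
        let A : Subring L :=
          { carrier := {a | ∀ x : L, x • w ∈ T → (a * x) • w ∈ T}
            mul_mem' := fun {a b} ha hb x hx => by rw [mul_assoc]; exact ha _ (hb x hx)
            one_mem' := fun x hx => by rw [one_mul]; exact hx
            add_mem' := fun {a b} ha hb x hx => by rw [add_mul, add_smul]; exact T.add_mem (ha x hx) (hb x hx)
            zero_mem' := fun x _ => by rw [zero_mul, zero_smul]; exact T.zero_mem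
            neg_mem' := fun {a} ha x hx => by rw [neg_mul, neg_smul]; exact T.neg_mem (ha x hx) }
        have hA : A = ⊤ := subring_eq_top h.prime A fun a ha x hx => by
          obtain ⟨φ, hφv, hφw⟩ := exists_dual hw (1 : L)
          obtain ⟨g, hg, hgx, -⟩ := h.exists_dilat φ ((a - 1) • w) (by
            rw [map_smul, hφw, smul_eq_mul, mul_one, add_sub_cancel]; exact ha)
          have := hTinv g hg (fun z hz => by
            obtain ⟨b, rfl⟩ := mem_ln.1 hz
            rw [hgx, map_smul, hφv, smul_zero, zero_smul, add_zero]) _ hx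
          rw [hgx, map_smul, hφw, smul_eq_mul, mul_one, smul_smul, ← add_smul] at this
          rwa [show a * x = x + x * (a - 1) by ring]
        intro a
        have h1 : (a * 1) • w ∈ T := (show a ∈ A from hA ▸ Subring.mem_top a) 1 (by rwa [one_smul])
        rwa [mul_one] at h1
      intro y
      by_cases hy : ∀ φ : V →ₗ[L] L, φ v = 0 → φ w = 0 → φ y = 0
      · obtain ⟨φ, hφv, hφw⟩ := exists_dual hw (1 : L)
        have hyd : y - φ y • w ∈ Lv := by
          by_contra hout
          obtain ⟨χ, hχv, hχ⟩ := exists_dual hout (1 : L)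
          have := hy (χ - χ w • φ) (by simp [hχv, hφv]) (by simp [hφw])
          simp only [LinearMap.sub_apply, LinearMap.smul_apply, smul_eq_mul] at this
          rw [map_sub, map_smul, smul_eq_mul] at hχ
          rw [mul_comm, this] at hχ
          exact zero_ne_one hχ
        rw [← sub_add_cancel y (φ y • w)]
        exact T.add_mem (hLvT hyd) (hmult _)
      · push Not at hy
        obtain ⟨ψ, hψv, hψw, hψy⟩ := hy
        obtain ⟨φ, hφv, hφw⟩ := exists_dual hw (1 : L)
        set χ := φ + ((1 - φ y) / ψ y) • ψ with hχ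
        have h1 : χ w = 1 := by simp [hχ, hφw, hψw]
        have h2 : χ y = 1 := by simp [hχ, div_mul_cancel₀ _ hψy]
        obtain ⟨g, hg, hgx⟩ := h.exists_transv χ (y - w) (by rw [map_sub, h1, h2, sub_self])
        have := hTinv g hg (fun z hz => by
          obtain ⟨b, rfl⟩ := mem_ln.1 hz
          rw [hgx, show χ (b • v) = 0 by simp [hχ, hφv, hψv], zero_smul, add_zero]) w hwT
        rwa [hgx, h1, one_smul, add_sub_cancel] at this
    have hP : ∀ z, P z := fun z => by
      induction hTtop z using Submodule.span_induction with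
      | mem x hx => exact hPU x hx
      | zero => exact hP0
      | add x y _ _ ihx ihy => exact hPadd x y ihx ihy
      | smul e x _ ih => exact hPsmul e x ih
    have hout : ∀ x, x ∉ S → ∃ y, y ∉ Lv ∧ Rel x y := by
      intro x hx
      by_cases hxv : x ∈ Lv
      swap
      · exact ⟨x, hxv, 1, one_mem X, fun i => rfl, rfl⟩
      obtain ⟨W, hW, hSW, hxW⟩ : ∃ W, IsTrans L X v W ∧ S ≤ W ∧ x ∉ W := by
        by_contra hall
        push Not at hall
        exact hx (hhull ▸ Submodule.mem_sInf.2 fun W hW => hall W hW.1 hW.2)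
      obtain ⟨z, hzW, hzv⟩ : ∃ z ∈ W, z ∉ Lv := by
        by_contra hall
        push Not at hall
        have heq : W = Lv := Submodule.eq_of_le_of_finrank_eq hall (by rw [hW.finrank hv, hLt.finrank hv])
        exact hxW (heq ▸ hxv)
      exact ⟨x + z, fun hm => hzv (by simpa using Lv.sub_mem hm hxv), hRW W hW hSW x hxW z hzW⟩
    have hall : ∀ x y, x ∉ S → y ∉ S → Rel x y := by
      intro x y hx hy
      obtain ⟨x', hx', h1⟩ := hout x hx
      obtain ⟨y', hy', h2⟩ := hout y hy
      have h3 := hP (y' - x') 1 x' hx' (by rwa [one_smul, add_sub_cancel])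
      rw [one_smul, add_sub_cancel] at h3
      exact hRt h1 (hRt h3 (hRs h2))
    -- conclude
    have hred : ∀ a : Fin (k + 1) → V, LinearIndependent F a →
        ∃ g ∈ X, (∀ i, g (a i.castSucc) = c i) ∧ g (a (Fin.last k)) ∉ S := by
      intro a ha
      obtain ⟨g, hg, hgi⟩ := ht (fun i => a i.castSucc) c (ha.comp _ (Fin.castSucc_injective k)) hcli
      refine ⟨g, hg, hgi, fun hm => ?_⟩
      rw [← hspan, ← funext hgi, show (fun i : Fin k => g (a i.castSucc)) = g ∘ (a ∘ Fin.castSucc) from rfl,
        Set.range_comp,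
        show (⇑g '' Set.range (a ∘ Fin.castSucc)) = ((g : V →ₗ[F] V) '' Set.range (a ∘ Fin.castSucc)) from rfl,
        ← Submodule.map_span (g : V →ₗ[F] V)] at hm
      obtain ⟨z, hz, hzl⟩ := hm
      rw [g.injective hzl] at hz
      have := ha.notMem_span_image (s := Set.range Fin.castSucc) (x := Fin.last k)
        (fun ⟨i, hi⟩ => (Fin.castSucc_lt_last i).ne hi)
      exact this (by rwa [← Set.range_comp])
    obtain ⟨g₁, hg₁, h₁, h₁'⟩ := hred a ha
    obtain ⟨g₂, hg₂, h₂, h₂'⟩ := hred b hb
    obtain ⟨g, hg, hgc, hgx⟩ := hall _ _ h₁' h₂'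
    refine ⟨g₂⁻¹ * g * g₁, mul_mem (mul_mem (inv_mem hg₂) hg) hg₁, fun i => ?_⟩
    show g₂.symm (g (g₁ (a i))) = b i
    refine Fin.lastCases ?_ (fun j => ?_) i
    · rw [hgx, g₂.symm_apply_apply]
    · rw [h₁, hgc, ← h₂, g₂.symm_apply_apply]

end CfsgLib.Derangements.FieldNorm
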