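import Mathlib
import Cfsg.Agent.Lib.Derangements.FieldNormFrames

/-!
# A transvection in an overgroup of the semilinear group

The translations along a line form an additive group `Y` of maps `V → L`; the ring of its left multipliers
contains `L` and is invariant under all linear automorphisms of `L` over the ground field.
-/

set_option autoImplicit false

open Module

namespace CfsgLib.Derangements.FieldNorm

variable {F : Type*} [Field F] {L : Type*} [Field L] [Algebra F L] {V : Type*} [AddCommGroup V]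
  [Module F V] [Module L V] [IsScalarTower F L V]

/-- The translations along the line through `v` that lie in `X`. -/
def IsShift (X : Subgroup (V ≃ₗ[F] V)) (v : V) (A : V →ₗ[F] L) : Prop :=
  (∀ a : L, A (a • v) = 0) ∧ ∃ t ∈ X, ∀ x, t x = x + A x • v

/-- There is a transvection in `X`. -/
def HasTransvection (X : Subgroup (V ≃ₗ[F] V)) : Prop :=
  ∃ (f : V →ₗ[F] F) (z : V), f z = 0 ∧ f ≠ 0 ∧ z ≠ 0 ∧ ∃ t ∈ X, ∀ x, t x = x + f x • z

variable {X : Subgroup (V ≃ₗ[F] V)} {v : V}

lemma IsShift.zero : IsShift X v (0 : V →ₗ[F] L) :=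
  ⟨fun _ => rfl, 1, one_mem X, fun x => by simp⟩

lemma IsShift.add {A B : V →ₗ[F] L} (hA : IsShift X v A) (hB : IsShift X v B) : IsShift X v (A + B) := by
  obtain ⟨hA0, t, ht, htx⟩ := hA
  obtain ⟨hB0, s, hs, hsx⟩ := hB
  refine ⟨fun a => by rw [LinearMap.add_apply, hA0, hB0, add_zero], t * s, mul_mem ht hs, fun x => ?_⟩
  rw [LinearEquiv.mul_apply, hsx, htx, map_add, hA0, add_zero, LinearMap.add_apply, add_smul]
  abel

lemma IsShift.neg {A : V →ₗ[F] L} (hA : IsShift X v A) : IsShift X v (-A) := by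
  obtain ⟨hA0, t, ht, htx⟩ := hA
  refine ⟨fun a => by rw [LinearMap.neg_apply, hA0, neg_zero], t⁻¹, inv_mem ht, fun x => t.injective ?_⟩
  show t (t.symm x) = _
  rw [t.apply_symm_apply, htx, LinearMap.neg_apply, map_add, neg_smul, map_neg, hA0, neg_zero, add_zero]
  abel

lemma IsShift.sub {A B : V →ₗ[F] L} (hA : IsShift X v A) (hB : IsShift X v B) : IsShift X v (A - B) := by
  rw [sub_eq_add_neg]; exact hA.add hB.neg

/-- Conjugation by an element stabilising the line. -/
lemma IsShift.conj {A : V →ₗ[F] L} (hA : IsShift X v A) {p : V ≃ₗ[F] V} (hp : p ∈ X) (hh : L ≃ₗ[F] L)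
    (hpv : ∀ a : L, p (a • v) = hh a • v) :
    IsShift X v ((hh : L →ₗ[F] L) ∘ₗ A ∘ₗ (p⁻¹ : V ≃ₗ[F] V).toLinearMap) := by
  obtain ⟨hA0, t, ht, htx⟩ := hA
  refine ⟨fun a => ?_, p * t * p⁻¹, mul_mem (mul_mem hp ht) (inv_mem hp), fun x => ?_⟩
  · show hh (A (p.symm (a • v))) = 0
    rw [← hh.apply_symm_apply a, ← hpv, p.symm_apply_apply, hA0, map_zero]
  · show p (t (p.symm x)) = x + hh (A (p.symm x)) • v
    rw [htx, map_add, p.apply_symm_apply, hpv]

/-- The left multipliers of the translations. -/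
def leftMul (L : Type*) [Field L] [Algebra F L] [Module L V] [IsScalarTower F L V]
    (X : Subgroup (V ≃ₗ[F] V)) (v : V) : Subring (Module.End F L) where
  carrier := {M | ∀ A : V →ₗ[F] L, IsShift X v A → IsShift X v (M ∘ₗ A)}
  mul_mem' {a b} ha hb A hA := by rw [Module.End.mul_eq_comp, LinearMap.comp_assoc]; exact ha _ (hb A hA)
  one_mem' A hA := by rw [Module.End.one_eq_id, LinearMap.id_comp]; exact hA
  add_mem' {a b} ha hb A hA := by rw [LinearMap.add_comp]; exact (ha A hA).add (hb A hA)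
  zero_mem' A _ := by rw [LinearMap.zero_comp]; exact IsShift.zero
  neg_mem' {a} ha A hA := by rw [LinearMap.neg_comp]; exact (ha A hA).neg

variable [FiniteDimensional F V] [Finite F]

lemma isShift_dual (h : Over L X) (φ : V →ₗ[L] L) (hφ : φ v = 0) : IsShift X v (φ.restrictScalars F) := by
  refine ⟨fun a => by simp [hφ], ?_⟩
  obtain ⟨t, ht, htx⟩ := h.exists_transv φ v hφ
  exact ⟨t, ht, htx⟩

/-- Every automorphism of the line over `F` is induced. -/
lemma exists_induced (h : Over L X) (hv : v ≠ 0) (hh : L ≃ₗ[F] L) :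
    ∃ p ∈ X, ∀ a : L, p (a • v) = hh a • v := by
  have := h.finite_left
  let b := finBasis F L
  have hb : ∀ e : L ≃ₗ[F] L, LinearIndependent F (fun i => e (b i) • v) := fun e =>
    (b.linearIndependent.map' e.toLinearMap e.ker).map' (toLine (F := F) L v)
      (LinearMap.ker_eq_bot.2 (toLine_injective hv))
  obtain ⟨p, hp, hpi⟩ := trans_of_le h _ le_rfl _ _ (hb (LinearEquiv.refl F L)) (hb hh)
  refine ⟨p, hp, fun a => ?_⟩
  have : (p : V →ₗ[F] V) ∘ₗ toLine (F := F) L v = toLine (F := F) L v ∘ₗ (hh : L →ₗ[F] L) :=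
    b.ext fun i => hpi i
  exact LinearMap.congr_fun this a

lemma lmul_mem_leftMul (h : Over L X) (hv : v ≠ 0) (a : L) : Algebra.lmul F L a ∈ leftMul L X v := by
  have := h.finite_left
  suffices hS : (leftMul L X v).comap (Algebra.lmul F L).toRingHom = ⊤ by
    exact (show a ∈ (leftMul L X v).comap (Algebra.lmul F L).toRingHom from hS ▸ Subring.mem_top a)
  refine subring_eq_top h.prime _ fun c hc A hA => ?_
  have hc0 : c ≠ 0 := fun h0 => by rw [h0, Algebra.norm_zero] at hc; exact zero_ne_one hc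
  obtain ⟨ψ, hψ⟩ := exists_dual_one (L := L) hv
  obtain ⟨g, hg, hgx, hgl⟩ := h.exists_dilat ψ ((c - 1) • v) (by
    rw [map_smul, hψ, smul_eq_mul, mul_one, add_sub_cancel]; exact hc)
  let hh : L ≃ₗ[F] L :=
    { toFun := fun x => c * x
      invFun := fun x => c⁻¹ * x
      map_add' := fun x y => mul_add c x y
      map_smul' := fun e x => by simp
      left_inv := fun x => by simp [hc0]
      right_inv := fun x => by simp [hc0] }
  have hgv : ∀ b : L, g (b • v) = hh b • v := fun b => by
    show g (b • v) = (c * b) • v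
    rw [hgx, map_smul, hψ, smul_eq_mul, mul_one, smul_smul, ← add_smul]
    congr 1; ring
  have heq : (Algebra.lmul F L).toRingHom c ∘ₗ A =
      (hh : L →ₗ[F] L) ∘ₗ A ∘ₗ (g⁻¹ : V ≃ₗ[F] V).toLinearMap := by
    ext x
    have h1 : A (g (g.symm x)) = A (g.symm x) := by
      rw [hgx, map_add, smul_smul, hA.1, add_zero]
    rw [g.apply_symm_apply] at h1
    show c * A x = c * A (g.symm x)
    rw [h1]
  rw [heq]
  exact hA.conj hg hh hgv

lemma smul_mem_leftMul (h : Over L X) (hv : v ≠ 0) (c : F) {M : Module.End F L} (hM : M ∈ leftMul L X v) :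
    c • M ∈ leftMul L X v := by
  have h1 := (leftMul L X v).mul_mem (lmul_mem_leftMul h hv (algebraMap F L c)) hM
  rwa [AlgHom.commutes, ← Algebra.smul_def] at h1

lemma conj_mem_leftMul (h : Over L X) (hv : v ≠ 0) {M : Module.End F L} (hM : M ∈ leftMul L X v)
    (hh : L ≃ₗ[F] L) : (hh : L →ₗ[F] L) ∘ₗ M ∘ₗ (hh.symm : L →ₗ[F] L) ∈ leftMul L X v := by
  intro A hA
  obtain ⟨p, hp, hpv⟩ := exists_induced h hv hh
  have hpi : ∀ a : L, (p⁻¹ : V ≃ₗ[F] V) (a • v) = hh.symm a • v := fun a => by
    show p.symm (a • v) = _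
    rw [p.symm_apply_eq, hpv, hh.apply_symm_apply]
  have h1 := (hM _ (hA.conj (inv_mem hp) hh.symm hpi)).conj hp hh hpv
  convert h1 using 1
  ext x
  show hh (M (hh.symm (A x))) = hh (M (hh.symm (A ((p⁻¹)⁻¹ (p.symm x)))))
  rw [inv_inv, p.apply_symm_apply]

/-- The commutator of a multiplier with a transvection of the line. -/
lemma transvection_diff_mem (h : Over L X) (hv : v ≠ 0) {M : Module.End F L} (hM : M ∈ leftMul L X v)
    (ψ : L →ₗ[F] F) (u : L) (hu : ψ u = 0) :
    (ψ ∘ₗ M).smulRight u - ψ.smulRight (M u) - ψ (M u) • ψ.smulRight u ∈ leftMul L X v := by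
  have h1 := (leftMul L X v).sub_mem (conj_mem_leftMul h hv hM (LinearEquiv.transvection hu)) hM
  convert h1 using 1
  ext x
  have hsym : (LinearEquiv.transvection hu).symm x = x - ψ x • u := by
    rw [LinearEquiv.symm_apply_eq, LinearEquiv.transvection.apply, map_sub, map_smul, hu, smul_zero, sub_zero,
      sub_add_cancel]
  simp only [LinearMap.sub_apply, LinearMap.smulRight_apply, LinearMap.comp_apply, LinearMap.smul_apply,
    LinearEquiv.coe_coe, hsym, LinearEquiv.transvection.apply, map_sub, map_smul, smul_eq_mul]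
  module

lemma hasTransvection_of_rankOne (h : Over L X) (hv : v ≠ 0) {lam : L →ₗ[F] F} {u : L} (hl : lam ≠ 0) (hu : u ≠ 0)
    (hE : lam.smulRight u ∈ leftMul L X v) : HasTransvection X := by
  obtain ⟨w, hw⟩ := exists_notMem_ln h v
  obtain ⟨φ, hφv, hφw⟩ := exists_dual hw (1 : L)
  obtain ⟨-, t, ht, htx⟩ := hE _ (isShift_dual h φ hφv)
  refine ⟨lam ∘ₗ φ.restrictScalars F, u • v, by simp [hφv], fun h0 => hl ?_, smul_ne_zero hu hv, t, ht,
    fun x => ?_⟩
  · ext a
    have h1 := LinearMap.congr_fun h0 (a • w)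
    simpa [hφw] using h1
  · rw [htx]
    simp [smul_assoc]

/-- A transvection exists unless the field has two elements and the degree is two. -/
theorem hasTransvection_of_large (h : Over L X) (hq : 3 ≤ Nat.card F ∨ 3 ≤ finrank F L) : HasTransvection X := by
  classical
  have := h.finite_left
  have : Nontrivial V := Module.nontrivial_of_finrank_pos (R := L) (by have := h.two_le; omega)
  obtain ⟨v, hv⟩ := exists_ne (0 : V)
  obtain ⟨θ, hθ⟩ : ∃ θ : L, θ ∉ (F ∙ (1 : L)) := by
    by_contra hall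
    push Not at hall
    have h1 : (⊤ : Submodule F L) ≤ F ∙ (1 : L) := fun x _ => hall x
    have h2 := Submodule.finrank_mono h1
    rw [finrank_top, finrank_span_singleton one_ne_zero] at h2
    exact absurd h.prime.one_lt (by omega)
  obtain ⟨ψ, hψ1, hψθ⟩ := LinearMap.exists_extend_of_notMem (0 : (F ∙ (1 : L)) →ₗ[F] F) hθ 1
  replace hψ1 : ψ 1 = 0 := by
    simpa using LinearMap.congr_fun hψ1 ⟨1, Submodule.mem_span_singleton_self (1 : L)⟩
  have hψ0 : ψ ≠ 0 := fun h0 => by rw [h0] at hψθ; exact zero_ne_one hψθ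
  set M := Algebra.lmul F L θ with hM
  have hM1 : M 1 = θ := mul_one θ
  have hMY : M ∈ leftMul L X v := lmul_mem_leftMul h hv θ
  by_cases hr : 3 ≤ finrank F L
  · set N := (ψ ∘ₗ M).smulRight (1 : L) - ψ.smulRight (M 1) - ψ (M 1) • ψ.smulRight (1 : L) with hN
    have hNY : N ∈ leftMul L X v := transvection_diff_mem h hv hMY ψ 1 hψ1
    have hNval : ∀ x, N x ∈ Submodule.span F {(1 : L), θ} := fun x => by
      simp only [hN, LinearMap.sub_apply, LinearMap.smul_apply, LinearMap.smulRight_apply, hM1]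
      exact Submodule.sub_mem _ (Submodule.sub_mem _ (Submodule.smul_mem _ _ (Submodule.subset_span (by simp)))
        (Submodule.smul_mem _ _ (Submodule.subset_span (by simp))))
        (Submodule.smul_mem _ _ (Submodule.smul_mem _ _ (Submodule.subset_span (by simp))))
    have hN1 : N 1 = 1 := by
      simp [hN, hM1, hψ1, hψθ]
    obtain ⟨u', hu'N, hu'⟩ : ∃ u' ∈ LinearMap.ker N, u' ≠ 0 := by
      refine Submodule.exists_mem_ne_zero_of_ne_bot fun hbot => ?_
      have h1 := LinearMap.finrank_range_of_inj (LinearMap.ker_eq_bot.1 hbot)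
      have h2 : finrank F (LinearMap.range N) ≤ finrank F (Submodule.span F {(1 : L), θ}) :=
        Submodule.finrank_mono (by rintro _ ⟨x, rfl⟩; exact hNval x)
      have h3 := finrank_span_finset_le_card (R := F) ({1, θ} : Finset L)
      rw [Finset.coe_pair] at h3
      have h4 : ({1, θ} : Finset L).card ≤ 2 := Finset.card_le_two
      have h5 : finrank F (Submodule.span F {(1 : L), θ}) ≤ 2 := h3.trans h4
      omega
    rw [LinearMap.mem_ker] at hu'N
    by_cases hex : ∃ ψ' : L →ₗ[F] F, ψ' u' = 0 ∧ ψ' ∘ₗ N ≠ 0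
    · obtain ⟨ψ', h1, h2⟩ := hex
      have h3 := transvection_diff_mem h hv hNY ψ' u' h1
      refine hasTransvection_of_rankOne h hv h2 hu' ?_
      convert h3 using 1
      rw [hu'N, map_zero, zero_smul, sub_zero]
      ext x; simp
    · push Not at hex
      have hrange : ∀ x, N x ∈ (F ∙ u') := by
        intro x
        by_contra hx
        obtain ⟨ψ', h1, h2⟩ := LinearMap.exists_extend_of_notMem (0 : (F ∙ u') →ₗ[F] F) hx 1
        have h3 : ψ' u' = 0 := by
          simpa using LinearMap.congr_fun h1 ⟨u', Submodule.mem_span_singleton_self u'⟩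
        have := LinearMap.congr_fun (hex ψ' h3) x
        rw [LinearMap.comp_apply, h2] at this
        exact one_ne_zero this
      obtain ⟨μ, hμ⟩ := LinearMap.exists_extend_of_notMem (0 : (⊥ : Submodule F L) →ₗ[F] F)
        (show u' ∉ (⊥ : Submodule F L) by simpa using hu') 1
      refine hasTransvection_of_rankOne h hv (lam := μ ∘ₗ N) (fun h0 => one_ne_zero (α := L) ?_) hu' ?_
      · obtain ⟨e, he⟩ := Submodule.mem_span_singleton.1 (hrange 1)
        have := LinearMap.congr_fun h0 1
        rw [LinearMap.comp_apply, ← he, map_smul, hμ.2, smul_eq_mul, mul_one, LinearMap.zero_apply] at this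
        rw [← hN1, ← he, this, zero_smul]
      · convert hNY using 1
        ext x
        obtain ⟨e, he⟩ := Submodule.mem_span_singleton.1 (hrange x)
        simp [← he, hμ.2]
  · have hq3 : 3 ≤ Nat.card F := hq.resolve_right hr
    have : Fintype F := Fintype.ofFinite F
    obtain ⟨c, hc0, hc1⟩ : ∃ c : F, c ≠ 0 ∧ c ≠ 1 := by
      rw [Nat.card_eq_fintype_card] at hq3
      by_contra hall
      push Not at hall
      have hsub : (Finset.univ : Finset F) ⊆ {0, 1} := fun c _ => by
        by_cases hc : c = 0 <;> simp [hc, hall]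
      have := (Finset.card_le_card hsub).trans Finset.card_le_two
      rw [Finset.card_univ] at this
      omega
    have h1 := smul_mem_leftMul h hv c (transvection_diff_mem h hv hMY ψ 1 hψ1)
    have h2 := transvection_diff_mem h hv hMY ψ (c • 1) (by rw [map_smul, hψ1, smul_zero])
    have h3 := smul_mem_leftMul h hv (c ^ 2 - c)⁻¹ ((leftMul L X v).sub_mem h1 h2)
    have hc2 : c ^ 2 - c ≠ 0 := by
      rw [show c ^ 2 - c = c * (c - 1) by ring]; exact mul_ne_zero hc0 (sub_ne_zero.2 hc1)
    refine hasTransvection_of_rankOne h hv (lam := ψ) (u := 1) hψ0 one_ne_zero ?_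
    convert h3 using 1
    ext x
    simp only [LinearMap.smul_apply, LinearMap.sub_apply, LinearMap.smulRight_apply, LinearMap.comp_apply,
      map_smul, hM1, hψθ, smul_eq_mul, mul_one]
    rw [eq_inv_smul_iff₀ hc2]
    module

section Degenerate

variable (h : Over L X) (hq : Nat.card F = 2) (hr : finrank F L = 2) (hv : v ≠ 0)

include h hr hv in
/-- A non-linear translation gives a transvection. -/
lemma hasTransvection_of_shift {y : V →ₗ[F] L} (hy : IsShift X v y) {a : L} {w : V}
    (hne : y (a • w) ≠ a * y w) : HasTransvection X := by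
  have := h.finite_left
  have hw : w ∉ ln (F := F) L v := fun hm => hne (by
    obtain ⟨b, rfl⟩ := mem_ln.1 hm
    rw [smul_smul, hy.1, hy.1, mul_zero])
  obtain ⟨ψ, hψv, hψz, hY⟩ : ∃ ψ : V →ₗ[L] L, ψ v = 0 ∧ (∃ z, ψ z = 1) ∧
      ∃ y' : V →ₗ[F] L, IsShift X v y' ∧ ∀ x, y' x = y (ψ x • w) := by
    obtain ⟨ψ₁, h1, h2⟩ := exists_dual hw (1 : L)
    by_cases hsp : ∀ x, x - ψ₁ x • w ∈ ln (F := F) L v
    · refine ⟨ψ₁, h1, ⟨w, h2⟩, y, hy, fun x => ?_⟩
      obtain ⟨b, hb⟩ := mem_ln.1 (hsp x)
      conv_lhs => rw [← sub_add_cancel x (ψ₁ x • w), ← hb, map_add, hy.1, zero_add]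
    · push Not at hsp
      obtain ⟨x₀, hx₀⟩ := hsp
      obtain ⟨χ, h3, h4⟩ := exists_dual hx₀ (1 : L)
      set ψ := χ - χ w • ψ₁ with hψ
      have h5 : ψ v = 0 := by simp [hψ, h1, h3]
      have h6 : ψ w = 0 := by simp [hψ, h2]
      have h7 : ψ (x₀ - ψ₁ x₀ • w) = 1 := by simp [hψ, h2, h4]
      obtain ⟨k, hk, hkx⟩ := h.exists_transv ψ w h6
      have hkv : ∀ b : L, (k⁻¹ : V ≃ₗ[F] V) (b • v) = (LinearEquiv.refl F L) b • v := fun b => by
        show k.symm (b • v) = b • v
        rw [LinearEquiv.symm_apply_eq, hkx, map_smul, h5, smul_zero, zero_smul, add_zero]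
      refine ⟨ψ, h5, ⟨_, h7⟩, _, (hy.conj (inv_mem hk) (LinearEquiv.refl F L) hkv).sub hy, fun x => ?_⟩
      show y ((k⁻¹)⁻¹ x) - y x = y (ψ x • w)
      rw [inv_inv, hkx, map_add, add_sub_cancel_left]
  obtain ⟨y', hy', hy'x⟩ := hY
  -- subtract the linear part
  set lin : V →ₗ[F] L := (y w • ψ).restrictScalars F with hlin
  have hlinY : IsShift X v lin := isShift_dual h (y w • ψ) (by simp [hψv])
  obtain ⟨-, t, ht, htx⟩ := hy'.sub hlinY
  set D : L →ₗ[F] L := y ∘ₗ toLine (F := F) L w - Algebra.lmul F L (y w) with hD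
  have hD1 : D 1 = 0 := by simp [hD]
  have hDne : D a ≠ 0 := fun h0 => hne (by
    have : y (a • w) - y w * a = 0 := h0
    rw [sub_eq_zero.1 this, mul_comm])
  have ha : a ∉ (F ∙ (1 : L)) := fun hm => hDne (by
    obtain ⟨e, rfl⟩ := Submodule.mem_span_singleton.1 hm
    rw [map_smul, hD1, smul_zero])
  obtain ⟨μ, hμ1, hμa⟩ := LinearMap.exists_extend_of_notMem (0 : (F ∙ (1 : L)) →ₗ[F] F) ha 1
  replace hμ1 : μ 1 = 0 := by
    simpa using LinearMap.congr_fun hμ1 ⟨1, Submodule.mem_span_singleton_self (1 : L)⟩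
  have hli : LinearIndependent F ![(1 : L), a] := by
    rw [LinearIndependent.pair_iff' one_ne_zero]
    exact fun e he => ha (Submodule.mem_span_singleton.2 ⟨e, he⟩)
  have hspan : D = μ.smulRight (D a) := by
    let B := basisOfLinearIndependentOfCardEqFinrank hli (by simp [hr])
    refine B.ext fun i => ?_
    rw [show B i = ![(1 : L), a] i by simp [B]]
    fin_cases i <;> simp [hD1, hμ1, hμa]
  obtain ⟨z, hz⟩ := hψz
  refine ⟨μ ∘ₗ ψ.restrictScalars F, D a • v, by simp [hψv], fun h0 => ?_, smul_ne_zero hDne hv, t, ht, fun x => ?_⟩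
  · have := LinearMap.congr_fun h0 (a • z)
    simp [hz, hμa] at this
  · rw [htx, LinearMap.sub_apply, hy'x, hlin]
    have h8 : y (ψ x • w) - y w * ψ x = μ (ψ x) • D a := LinearMap.congr_fun hspan (ψ x)
    simp only [LinearMap.restrictScalars_apply, LinearMap.smul_apply, smul_eq_mul, h8, LinearMap.comp_apply,
      smul_assoc]

omit [FiniteDimensional F V] in
include hq in
lemma eq_one_of_card_two {e : F} (he : e ≠ 0) : e = 1 := by
  classical
  have : Fintype F := Fintype.ofFinite F
  rw [Nat.card_eq_fintype_card] at hq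
  by_contra h1
  have h3 : ({0, 1, e} : Finset F).card = 3 := by
    rw [Finset.card_insert_of_notMem (by simp [Ne.symm he]), Finset.card_pair (Ne.symm h1)]
  have := Finset.card_le_univ ({0, 1, e} : Finset F)
  omega

include hq hr in
/-- Every additive bijection of the field with four elements is semilinear. -/
lemma exists_twist (hh : L ≃ₗ[F] L) (a : L) : ∃ b : L, ∀ x, hh (a * x) = b * hh x := by
  have : FiniteDimensional F L := Module.finite_of_finrank_pos (by omega)
  have : Finite L := Module.finite_of_finite F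
  have : Fintype L := Fintype.ofFinite L
  have hcard : Fintype.card L = 4 := by
    rw [← Nat.card_eq_fintype_card, Module.natCard_eq_pow_finrank (K := F), hq, hr]; norm_num
  have hpow : ∀ z : L, z ≠ 0 → z ^ 3 = 1 := fun z hz => by
    have := FiniteField.pow_card_sub_one_eq_one z hz
    rwa [hcard] at this
  have hsq : ∀ z : L, z ≠ 0 → z ≠ 1 → z * z = z + 1 := fun z h0 h1 => by
    have h2 : (z - 1) * (z * z + z + 1) = 0 := by linear_combination hpow z h0
    have h3 := (mul_eq_zero.1 h2).resolve_left (sub_ne_zero.2 h1)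
    have hchar : (2 : L) = 0 := by
      have h22 : ((2 : F)) = 0 := by
        by_contra h2F
        have := eq_one_of_card_two hq h2F
        exact one_ne_zero (show (1 : F) = 0 by linear_combination this)
      rw [show (2 : L) = algebraMap F L 2 by rw [map_ofNat], h22, map_zero]
    linear_combination h3 - (z + 1) * hchar
  by_cases ha0 : a = 0
  · exact ⟨0, fun x => by simp [ha0]⟩
  by_cases ha1 : a = 1
  · exact ⟨1, fun x => by simp [ha1]⟩
  have hc : hh 1 ≠ 0 := fun h0 => one_ne_zero (hh.map_eq_zero_iff.1 h0)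
  set b := hh a / hh 1 with hb
  have hb0 : b ≠ 0 := div_ne_zero (fun h0 => ha0 (hh.map_eq_zero_iff.1 h0)) hc
  have hb1 : b ≠ 1 := fun h1 => ha1 (hh.injective (by rwa [hb, div_eq_one_iff_eq hc] at h1))
  have hha : hh a = b * hh 1 := by rw [hb, div_mul_cancel₀ _ hc]
  have hli : LinearIndependent F ![(1 : L), a] := by
    rw [LinearIndependent.pair_iff' one_ne_zero]
    intro e he
    rcases eq_or_ne e 0 with rfl | he0
    · exact ha0 (by rw [← he, zero_smul])
    · exact ha1 (by rw [← he, eq_one_of_card_two hq he0, one_smul])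
  let B := basisOfLinearIndependentOfCardEqFinrank hli (by simp [hr])
  refine ⟨b, fun x => ?_⟩
  have : (hh : L →ₗ[F] L) ∘ₗ Algebra.lmul F L a = Algebra.lmul F L b ∘ₗ (hh : L →ₗ[F] L) := by
    refine B.ext fun i => ?_
    rw [show B i = ![(1 : L), a] i by simp [B]]
    fin_cases i
    · simp [hha]
    · simp [hsq a ha0 ha1, hha]
      linear_combination -(hh 1) * hsq b hb0 hb1
  exact LinearMap.congr_fun this x

include h hq hr hv in
/-- If all translations are linear, a stabiliser of the line is semilinear. -/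
lemma semi_of_stab (hlin : ∀ y : V →ₗ[F] L, IsShift X v y → ∀ (a : L) w, y (a • w) = a * y w)
    {p : V ≃ₗ[F] V} (hp : p ∈ X) (hpl : ∀ a : L, p (a • v) ∈ ln (F := F) L v) : Semi L p := by
  have := h.finite_left
  -- the induced map on the line
  obtain ⟨α, hα⟩ := exists_dual_one (L := L) hv
  let h0 : L →ₗ[F] L := α.restrictScalars F ∘ₗ (p : V →ₗ[F] V) ∘ₗ toLine (F := F) L v
  have hh0 : ∀ a, p (a • v) = h0 a • v := fun a => by
    obtain ⟨b, hb⟩ := mem_ln.1 (hpl a)
    show p (a • v) = α (p (a • v)) • v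
    rw [← hb, map_smul, hα, smul_eq_mul, mul_one]
  have hinj : Function.Injective h0 := fun a b hab =>
    toLine_injective (F := F) hv (p.injective (by simp only [toLine_apply, hh0, hab]))
  let hh : L ≃ₗ[F] L := LinearEquiv.ofBijective h0 ⟨hinj, LinearMap.injective_iff_surjective.1 hinj⟩
  have hhv : ∀ a, p (a • v) = hh a • v := hh0
  -- semilinear modulo the line
  have hmod : ∀ (a b : L), (∀ x, hh (a * x) = b * hh x) → ∀ x, p (a • x) - b • p x ∈ ln (F := F) L v := by
    intro a b hab x
    by_contra hout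
    have hout' : p.symm (p (a • x) - b • p x) ∉ ln (F := F) L v := fun hm => hout (by
      obtain ⟨e, he⟩ := mem_ln.1 hm
      rw [← p.apply_symm_apply (p (a • x) - b • p x), ← he]; exact hpl e)
    obtain ⟨φ, hφv, hφ⟩ := exists_dual hout' (1 : L)
    have hA := hlin _ ((isShift_dual h φ hφv).conj hp hh hhv) b (p x)
    change hh (φ (p.symm (b • p x))) = b * hh (φ (p.symm (p x))) at hA
    rw [p.symm_apply_apply, ← hab, ← smul_eq_mul, ← φ.map_smul, hh.injective.eq_iff] at hA
    rw [map_sub, p.symm_apply_apply, map_sub, hA, sub_self] at hφ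
    exact zero_ne_one hφ
  let π : V →ₗ[L] V := LinearMap.id - α.smulRight v
  have hπ : ∀ x, π x = x - α x • v := fun x => rfl
  have hπv : ∀ a : L, π (a • v) = 0 := fun a => by rw [hπ, map_smul, hα, smul_eq_mul, mul_one, sub_self]
  let Bm : V →ₗ[F] L := (hh.symm : L →ₗ[F] L) ∘ₗ α.restrictScalars F ∘ₗ (p : V →ₗ[F] V) ∘ₗ π.restrictScalars F
  have hBv : ∀ a : L, Bm (a • v) = 0 := fun a => by
    show hh.symm (α (p (π (a • v)))) = 0
    rw [hπv, map_zero, map_zero, map_zero]
  let t : V ≃ₗ[F] V :=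
    { toFun := fun x => x - Bm x • v
      invFun := fun x => x + Bm x • v
      map_add' := fun x y => by rw [map_add, add_smul]; abel
      map_smul' := fun e x => by simp [smul_sub, smul_assoc]
      left_inv := fun x => by simp [hBv]
      right_inv := fun x => by simp [hBv] }
  have hn : Semi L (p * t) := by
    intro a
    obtain ⟨b, hb⟩ := exists_twist hq hr hh a
    refine ⟨b, fun x => ?_⟩
    have hnx : ∀ z, (p * t) z = hh (α z) • v + π (p (π z)) := fun z => by
      show p (z - hh.symm (α (p (π z))) • v) = _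
      rw [map_sub, hhv, hh.apply_symm_apply, hπ (p (π z)), ← add_sub_assoc, ← hhv]
      congr 1
      rw [← map_add, hπ, add_sub_cancel]
    obtain ⟨e, he⟩ := mem_ln.1 (hmod a b hb (π x))
    rw [hnx, hnx, α.map_smul, π.map_smul, smul_eq_mul, hb, smul_add, smul_smul,
      ← sub_add_cancel (p (a • π x)) (b • p (π x)), ← he, π.map_add, hπv, zero_add, π.map_smul]
  have hnX : p * t ∈ X := h.mem _ (eq_one_of_card_two hq (LinearEquiv.isUnit_det' (p * t)).ne_zero) hn
  have htX : t ∈ X := by
    have := mul_mem (inv_mem hp) hnX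
    rwa [inv_mul_cancel_left] at this
  have hshift : IsShift X v (-Bm) := ⟨fun a => by rw [LinearMap.neg_apply, hBv, neg_zero], t, htX, fun x => by
    show x - Bm x • v = _
    rw [LinearMap.neg_apply, neg_smul, sub_eq_add_neg]⟩
  have hBlin : ∀ (a : L) x, Bm (a • x) = a * Bm x := fun a x => by
    have := hlin _ hshift a x
    rwa [LinearMap.neg_apply, LinearMap.neg_apply, mul_neg, neg_inj] at this
  have hts : Semi L (t⁻¹ : V ≃ₗ[F] V) := fun a => ⟨a, fun x => by
    show a • x + Bm (a • x) • v = a • (x + Bm x • v)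
    rw [hBlin, smul_add, smul_smul]⟩
  have := semi_mul hn hts
  rwa [mul_inv_cancel_right] at this

end Degenerate

end CfsgLib.Derangements.FieldNorm
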