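import Mathlib
import Cfsg.Agent.Lib.Derangements.FieldNormTransvection

/-!
# The field with four elements over the field with two
-/

set_option autoImplicit false

open Module

namespace CfsgLib.Derangements.FieldNorm

variable {F : Type*} [Field F] {L : Type*} [Field L] [Algebra F L] {V : Type*} [AddCommGroup V]
  [Module F V] [Module L V] [IsScalarTower F L V] [FiniteDimensional F V] [Finite F]
  {X : Subgroup (V ≃ₗ[F] V)}

lemma adj_mul_two : ∀ h : Matrix (Fin 2) (Fin 2) (ZMod 2), h 0 0 * h 1 1 + h 0 1 * h 1 0 = 1 →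
    h * Matrix.of ![![h 1 1, h 0 1], ![h 1 0, h 0 0]] = 1 := by
  decide +kernel

/-- The orbit of a matrix under conjugation and translation by the identity has more than four elements. -/
lemma card_orbit_two : ∀ M : Matrix (Fin 2) (Fin 2) (ZMod 2), M ≠ 0 → M ≠ 1 → M * M + M ≠ 1 →
    4 < ((Finset.univ.filter fun h : Matrix (Fin 2) (Fin 2) (ZMod 2) =>
        h 0 0 * h 1 1 + h 0 1 * h 1 0 = 1).biUnion fun h =>
      ({h * M * Matrix.of ![![h 1 1, h 0 1], ![h 1 0, h 0 0]],
        h * M * Matrix.of ![![h 1 1, h 0 1], ![h 1 0, h 0 0]] + 1} : Finset _)).card := by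
  decide +kernel

set_option maxHeartbeats 3000000 in
/-- The degenerate case always has a transvection. -/
theorem hasTransvection_of_two (h : Over L X) (hq : Nat.card F = 2) (hr : finrank F L = 2) :
    HasTransvection X := by
  classical
  have := h.finite_left
  have := h.finiteDimensional
  have : Nontrivial V := Module.nontrivial_of_finrank_pos (R := L) (by have := h.two_le; omega)
  by_contra hno
  have hlin : ∀ u : V, u ≠ 0 → ∀ y : V →ₗ[F] L, IsShift X u y → ∀ (a : L) w, y (a • w) = a * y w := by
    intro u hu y hy a w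
    by_contra hne
    exact hno (hasTransvection_of_shift h hr hu hy hne)
  obtain ⟨v, hv⟩ := exists_ne (0 : V)
  have hone : ∀ e : F, e ≠ 0 → e = 1 := fun e he => eq_one_of_card_two hq he
  have hstab : ∀ u : V, u ≠ 0 → ∀ p ∈ X, (∀ a : L, p (a • u) ∈ ln (F := F) L u) → Semi L p :=
    fun u hu p hp hpl => semi_of_stab h hq hr hu (hlin u hu) hp hpl
  obtain ⟨θ, hθ⟩ : ∃ θ : L, θ ∉ (F ∙ (1 : L)) := by
    by_contra hall
    push Not at hall
    have h2 := Submodule.finrank_mono (show (⊤ : Submodule F L) ≤ F ∙ (1 : L) from fun x _ => hall x)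
    rw [finrank_top, finrank_span_singleton one_ne_zero] at h2
    omega
  have hθ0 : θ ≠ 0 := fun h0 => hθ (by rw [h0]; exact Submodule.zero_mem _)
  have hθ1 : θ ≠ 1 := fun h0 => hθ (by rw [h0]; exact Submodule.mem_span_singleton_self 1)
  have hθF : ∀ e : F, e • (1 : L) ≠ θ := fun e he => hθ (Submodule.mem_span_singleton.2 ⟨e, he⟩)
  have hbL : LinearIndependent F ![(1 : L), θ] := (LinearIndependent.pair_iff' one_ne_zero).2 hθF
  let BL := basisOfLinearIndependentOfCardEqFinrank hbL (by simp [hr])
  have hBL : ∀ i, BL i = ![(1 : L), θ] i := fun i => by simp [BL]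
  -- an element sending the line to a subspace spanned by independent vectors
  obtain ⟨w, hw⟩ := exists_notMem_ln h v
  have hw0 : w ≠ 0 := fun h0 => hw (h0 ▸ zero_mem _)
  have hvw : LinearIndependent F ![v, w] := (LinearIndependent.pair_iff' hv).2 fun e he => hw (by
    rw [← he]; exact Submodule.smul_mem _ e (self_mem_ln v))
  have hvθ : LinearIndependent F ![v, θ • v] := (LinearIndependent.pair_iff' hv).2 fun e he => hθF e
    (smul_left_injective L hv (by simpa [smul_assoc] using he))
  obtain ⟨g, hg, hgi⟩ := trans_of_le h 2 (by omega) _ _ hvθ hvw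
  have hgv : g v = v := hgi 0
  have hgw : g (θ • v) = w := hgi 1
  have hgns : ¬ Semi L g := fun hs => by
    obtain ⟨b, hb⟩ := hs θ
    exact hw (by rw [← hgw, hb, hgv]; exact mem_ln.2 ⟨b, rfl⟩)
  have hdet : ∀ n : V ≃ₗ[F] V, LinearMap.det (n : V →ₗ[F] V) = 1 :=
    fun n => hone _ (LinearEquiv.isUnit_det' n).ne_zero
  rcases Nat.lt_or_ge 2 (finrank L V) with hm | hm
  · -- a semilinear involution with a fixed space of codimension two
    obtain ⟨φ, hφv, hφw⟩ := exists_dual hw (1 : L)
    obtain ⟨t, ht, htx⟩ := h.exists_transv φ v hφv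
    set p := g⁻¹ * t * g with hpdef
    have hp : p ∈ X := mul_mem (mul_mem (inv_mem hg) ht) hg
    have hpx : ∀ x, p x = g.symm (t (g x)) := fun x => rfl
    have hpv : p v = v := by
      rw [hpx, hgv, htx, hφv, zero_smul, add_zero, g.symm_apply_eq, hgv]
    have hpθ : p (θ • v) = θ • v + v := by
      rw [hpx, hgw, htx, hφw, one_smul, g.symm_apply_eq, map_add, hgw, hgv]
    have hpl : ∀ a : L, p (a • v) ∈ ln (F := F) L v := by
      intro a
      have hc : (Submodule.span F (Set.range BL)) ≤ (ln (F := F) L v).comap ((p : V →ₗ[F] V) ∘ₗ toLine (F := F) L v) := by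
        rw [Submodule.span_le]
        rintro _ ⟨i, rfl⟩
        show p (BL i • v) ∈ ln (F := F) L v
        rw [hBL]
        fin_cases i
        · simp only [Fin.zero_eta, Matrix.cons_val_zero, one_smul, hpv]; exact self_mem_ln v
        · simp only [Fin.mk_one, Matrix.cons_val_one, Matrix.cons_val_zero, hpθ]
          exact add_mem (mem_ln.2 ⟨θ, rfl⟩) (self_mem_ln v)
      exact hc (BL.span_eq ▸ Submodule.mem_top : a ∈ _)
    obtain ⟨b, hb⟩ := hstab v hv p hp hpl θ
    have hbθ : b = θ + 1 := smul_left_injective L hv (by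
      show b • v = (θ + 1) • v
      rw [add_smul, one_smul, ← hpθ, hb, hpv])
    set K := LinearMap.ker ((p : V →ₗ[F] V) - LinearMap.id) with hK
    have hKdim : finrank F V ≤ finrank F K + 2 := by
      have h1 := LinearMap.finrank_range_add_finrank_ker ((p : V →ₗ[F] V) - LinearMap.id)
      have h2 : finrank F (LinearMap.range ((p : V →ₗ[F] V) - LinearMap.id)) ≤
          finrank F ((ln L v).map (g.symm : V →ₗ[F] V)) := Submodule.finrank_mono (by
        rintro _ ⟨x, rfl⟩
        refine ⟨φ (g x) • v, mem_ln.2 ⟨_, rfl⟩, ?_⟩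
        show g.symm (φ (g x) • v) = p x - x
        rw [hpx, htx, map_add, g.symm_apply_apply, add_sub_cancel_left])
      rw [LinearEquiv.finrank_map_eq, finrank_ln hv, hr] at h2
      rw [← hK] at h1
      omega
    let μ : V ≃ₗ[F] V := (LinearEquiv.smulOfUnit (Units.mk0 θ hθ0) : V ≃ₗ[L] V).restrictScalars F
    have hdisj : Disjoint K (K.map (μ : V →ₗ[F] V)) := by
      rw [Submodule.disjoint_def]
      rintro _ hk ⟨x, hx, rfl⟩
      have h1 : p x = x := by simpa [K, sub_eq_zero] using hx
      have h2 : p (θ • x) = θ • x := sub_eq_zero.1 (LinearMap.mem_ker.1 hk)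
      rw [hb, h1, hbθ, add_smul, one_smul, add_eq_left] at h2
      show θ • x = 0
      rw [h2, smul_zero]
    have h3 := Submodule.finrank_add_finrank_le_of_disjoint hdisj
    rw [LinearEquiv.finrank_map_eq] at h3
    have h4 := Module.finrank_mul_finrank F L V
    rw [hr] at h4
    omega
  · -- dimension two
    have hm2 : finrank L V = 2 := le_antisymm hm h.two_le
    have hvwL : LinearIndependent L ![v, w] := (LinearIndependent.pair_iff' hv).2 fun e he => hw (mem_ln.2 ⟨e, he⟩)
    let BV := basisOfLinearIndependentOfCardEqFinrank hvwL (by simp [hm2])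
    have hBV : ∀ i, BV i = ![v, w] i := fun i => by simp [BV]
    let ι : ZMod 2 →+* F := by
      have : CharP F 2 := by
        have : Fintype F := Fintype.ofFinite F
        rw [Nat.card_eq_fintype_card] at hq
        exact charP_of_card_eq_prime hq
      exact ZMod.castHom dvd_rfl F
    have hι : Function.Bijective ι := by
      have : Fintype F := Fintype.ofFinite F
      rw [Nat.card_eq_fintype_card] at hq
      exact (Fintype.bijective_iff_injective_and_card ι).2 ⟨ι.injective, by simp [hq]⟩
    let j : ZMod 2 →+* L := (algebraMap F L).comp ι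
    let e : (Fin 2 → ZMod 2) → V := fun s => j (s 0) • v + j (s 1) • w
    -- coordinates
    have hcoord : ∀ a : L, ∃ b c : ZMod 2, a = j b + j c * θ := by
      intro a
      have h1 := BL.sum_repr a
      rw [Fin.sum_univ_two, hBL, hBL] at h1
      obtain ⟨b, hb⟩ := hι.2 (BL.repr a 0)
      obtain ⟨c, hc⟩ := hι.2 (BL.repr a 1)
      refine ⟨b, c, ?_⟩
      rw [← h1]
      simp [j, hb, hc, Algebra.smul_def]
    have hzcoord : ∀ z : V, ∃ s t, z = e s + θ • e t := by
      intro z
      have h1 := BV.sum_repr z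
      rw [Fin.sum_univ_two, hBV, hBV] at h1
      obtain ⟨b, c, hbc⟩ := hcoord (BV.repr z 0)
      obtain ⟨b', c', hbc'⟩ := hcoord (BV.repr z 1)
      refine ⟨![b, b'], ![c, c'], ?_⟩
      rw [← h1, hbc, hbc']
      simp only [e, Matrix.cons_val_zero, Matrix.cons_val_one, Matrix.cons_val_fin_one]
      module
    have huniq : ∀ a b a' b' : L, a • v + b • w = a' • v + b' • w → a = a' ∧ b = b' := by
      intro a b a' b' heq
      have h1 := congrArg BV.repr heq
      rw [show v = BV 0 by rw [hBV]; rfl, show w = BV 1 by rw [hBV]; rfl] at h1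
      simp only [map_add, map_smul, Basis.repr_self] at h1
      exact ⟨by simpa using congrArg (fun f => f 0) h1, by simpa using congrArg (fun f => f 1) h1⟩
    have hjθ : ∀ b c b' c' : ZMod 2, j b + j c * θ = j b' + j c' * θ → b = b' ∧ c = c' := by
      intro b c b' c' heq
      have h1 : (ι b) • BL 0 + (ι c) • BL 1 = (ι b') • BL 0 + (ι c') • BL 1 := by
        simp only [hBL, Matrix.cons_val_zero, Matrix.cons_val_one, Matrix.cons_val_fin_one, Algebra.smul_def,
          mul_one]
        exact heq
      have h2 := congrArg BL.repr h1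
      simp only [map_add, map_smul, Basis.repr_self] at h2
      exact ⟨hι.1 (by simpa using congrArg (fun f => f 0) h2), hι.1 (by simpa using congrArg (fun f => f 1) h2)⟩
    have headd : ∀ s t, e (s + t) = e s + e t := fun s t => by
      simp only [e, Pi.add_apply, map_add, add_smul]; abel
    have hinj : ∀ s t s' t', e s + θ • e t = e s' + θ • e t' → s = s' ∧ t = t' := by
      intro s t s' t' heq
      simp only [e] at heq
      have h1 := huniq (j (s 0) + j (t 0) * θ) (j (s 1) + j (t 1) * θ) (j (s' 0) + j (t' 0) * θ)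
        (j (s' 1) + j (t' 1) * θ) (by linear_combination (norm := module) heq)
      have h2 := hjθ _ _ _ _ h1.1
      have h3 := hjθ _ _ _ _ h1.2
      exact ⟨funext fun i => by fin_cases i; exacts [h2.1, h3.1], funext fun i => by fin_cases i; exacts [h2.2, h3.2]⟩
    have hsq : θ * θ = θ + 1 := by
      obtain ⟨b, c, hbc⟩ := hcoord (θ * θ)
      have hcases : ∀ z : ZMod 2, z = 0 ∨ z = 1 := by decide
      rcases hcases b with rfl | rfl <;> rcases hcases c with rfl | rfl <;> simp [j] at hbc
      · exact absurd hbc hθ0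
      · exact absurd (mul_left_cancel₀ hθ0 (hbc.trans (mul_one θ).symm)) hθ1
      · exfalso
        rcases mul_self_eq_one_iff.1 hbc with h1 | h1
        · exact hθ1 h1
        · exact hθF (-1) (by rw [h1, neg_smul, one_smul])
      · rw [hbc, add_comm]
    -- the translate of the line and the other members
    have hW : ∀ x : V, x ∈ (ln L v).map (g : V →ₗ[F] V) ↔ ∃ s, e s = x := by
      intro x
      constructor
      · rintro ⟨_, hy, rfl⟩
        obtain ⟨a, rfl⟩ := mem_ln.1 hy
        obtain ⟨b, c, rfl⟩ := hcoord a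
        refine ⟨![b, c], ?_⟩
        show _ = g ((j b + j c * θ) • v)
        simp only [e, j, RingHom.comp_apply, Matrix.cons_val_zero, Matrix.cons_val_one, Matrix.cons_val_fin_one,
          add_smul, mul_smul, algebraMap_smul, map_add, map_smul, hgv, hgw]
      · rintro ⟨s, rfl⟩
        refine ⟨(j (s 0) + j (s 1) * θ) • v, mem_ln.2 ⟨_, rfl⟩, ?_⟩
        show g _ = _
        simp only [e, j, RingHom.comp_apply, add_smul, mul_smul, algebraMap_smul, map_add, map_smul, hgv, hgw]
    obtain ⟨w₀, hw₀⟩ := exists_notMem_ln h v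
    let G : L → Submodule F V := fun a => (ln L (a • v + w₀)).map (g : V →ₗ[F] V)
    have hne0 : ∀ a : L, a • v + w₀ ∉ ln (F := F) L v := fun a hm => hw₀ (by
      simpa using (ln (F := F) L v).sub_mem hm (mem_ln.2 ⟨a, rfl⟩ : a • v ∈ ln (F := F) L v))
    have hne1 : ∀ a : L, a • v + w₀ ≠ 0 := fun a h0 => hne0 a (h0 ▸ zero_mem _)
    have hGinj : ∀ a b, G a = G b → a = b := by
      intro a b hab
      have h1 := Submodule.map_injective_of_injective g.injective hab
      obtain ⟨c, hc⟩ := mem_ln.1 (h1 ▸ self_mem_ln (a • v + w₀) : a • v + w₀ ∈ ln (F := F) L (b • v + w₀))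
      have h2 : (c - 1) • w₀ ∈ ln (F := F) L v := mem_ln.2 ⟨a - c * b, by
        rw [smul_add, smul_smul] at hc
        linear_combination (norm := module) -hc⟩
      have hc1 := sub_eq_zero.1 (eq_of_mem_ln hv hw₀ h2)
      rw [hc1, one_smul, add_left_inj] at hc
      exact (smul_left_injective L hv hc).symm
    have hGmeet : ∀ a z, z ∈ G a → (∃ s, e s = z) → z = 0 := by
      intro a z ⟨x, hx, hxz⟩ hs
      obtain ⟨x', hx', hxz'⟩ := (hW z).2 hs
      obtain rfl := g.injective (hxz.trans hxz'.symm)
      rw [← hxz]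
      by_contra h0
      have hx0 : x ≠ 0 := fun h1 => h0 (by rw [h1, map_zero])
      exact hne0 a (by rw [← ln_eq hx0 hx', ln_eq hx0 hx]; exact self_mem_ln _)
    -- the graph of each member
    have hgraph : ∀ a, ∃ M : Matrix (Fin 2) (Fin 2) (ZMod 2), ∀ t, e (M.mulVec t) + θ • e t ∈ G a := by
      intro a
      let S : Set (Fin 2 → ZMod 2) := {t | ∃ s, e s + θ • e t ∈ G a}
      have hall : ∀ t, t ∈ S := by
        let q : G a → (Fin 2 → ZMod 2) := fun z => (hzcoord z).choose_spec.choose
        have hq' : ∀ z : G a, (z : V) = e (hzcoord z).choose + θ • e (q z) := fun z =>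
          (hzcoord z).choose_spec.choose_spec
        have hqinj : Function.Injective q := by
          intro z z' hzz
          obtain ⟨s₁, hs₁⟩ : ∃ s₁, (z : V) = e s₁ + θ • e (q z) := ⟨_, hq' z⟩
          obtain ⟨s₂, hs₂⟩ : ∃ s₂, (z' : V) = e s₂ + θ • e (q z') := ⟨_, hq' z'⟩
          refine Subtype.ext (sub_eq_zero.1 (hGmeet a _ ((G a).sub_mem z.2 z'.2) ⟨s₁ - s₂, ?_⟩))
          rw [hs₁, hs₂, hzz, add_sub_add_right_eq_sub]
          exact eq_sub_of_add_eq (by rw [← headd, sub_add_cancel])
        have hbij : Function.Bijective q := hqinj.bijective_of_nat_card_le (by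
          have : Finite V := Module.finite_of_finite F
          rw [Module.natCard_eq_pow_finrank (K := F) (V := G a), LinearEquiv.finrank_map_eq, finrank_ln (hne1 a),
            hq, hr]
          simp)
        intro t
        obtain ⟨z, rfl⟩ := hbij.2 t
        exact ⟨_, hq' z ▸ z.2⟩
      obtain ⟨c₀, hc₀⟩ := hall ![1, 0]
      obtain ⟨c₁, hc₁⟩ := hall ![0, 1]
      refine ⟨Matrix.of ![![c₀ 0, c₁ 0], ![c₀ 1, c₁ 1]], fun t => ?_⟩
      have h1 := (G a).add_mem ((G a).smul_mem (ι (t 0)) hc₀) ((G a).smul_mem (ι (t 1)) hc₁)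
      convert h1 using 1
      simp only [e, j, Matrix.mulVec, dotProduct, Fin.sum_univ_two, Matrix.of_apply, Matrix.cons_val_zero,
        Matrix.cons_val_one, Matrix.cons_val_fin_one, RingHom.comp_apply, map_add, map_mul, map_one, map_zero,
        algebraMap_smul, add_smul, mul_smul, smul_add, zero_smul, one_smul, smul_comm θ, add_zero, zero_add,
        smul_zero]
      module
    choose Mf hMf using hgraph
    have hMuniq : ∀ a (M : Matrix (Fin 2) (Fin 2) (ZMod 2)), (∀ t, e (M.mulVec t) + θ • e t ∈ G a) → M = Mf a := by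
      intro a M hM
      refine Matrix.ext_of_mulVec_single fun i => ?_
      have h1 := (G a).sub_mem (hM (Pi.single i 1)) (hMf a (Pi.single i 1))
      rw [add_sub_add_right_eq_sub] at h1
      have hsub : e (M.mulVec (Pi.single i 1) - (Mf a).mulVec (Pi.single i 1)) =
          e (M.mulVec (Pi.single i 1)) - e ((Mf a).mulVec (Pi.single i 1)) := by
        rw [eq_sub_iff_add_eq, ← headd, sub_add_cancel]
      have h2 := hGmeet a _ h1 ⟨_, hsub⟩
      exact (hinj _ 0 _ 0 (congrArg (· + θ • e 0) (sub_eq_zero.1 h2))).1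
    have hMinj : ∀ a b, Mf a = Mf b → a = b := by
      intro a b hab
      refine hGinj a b (Submodule.eq_of_le_of_finrank_eq ?_ (by
        rw [LinearEquiv.finrank_map_eq, LinearEquiv.finrank_map_eq, finrank_ln (hne1 a), finrank_ln (hne1 b)]))
      intro z hz
      obtain ⟨s, t, rfl⟩ := hzcoord z
      have h1 := (G a).sub_mem hz (hMf a t)
      rw [add_sub_add_right_eq_sub] at h1
      have hsub : e (s - (Mf a).mulVec t) = e s - e ((Mf a).mulVec t) := by
        rw [eq_sub_iff_add_eq, ← headd, sub_add_cancel]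
      have h2 := sub_eq_zero.1 (hGmeet a _ h1 ⟨_, hsub⟩)
      rw [h2, hab]; exact hMf b t
    -- not lines
    have hnotline : ∀ a, Mf a * Mf a + Mf a ≠ 1 := by
      intro a hM
      have hθinv : ∀ z ∈ G a, θ • z ∈ G a := by
        intro z hz
        obtain ⟨s, t, rfl⟩ := hzcoord z
        have h1 := (G a).sub_mem hz (hMf a t)
        rw [add_sub_add_right_eq_sub] at h1
        have hsub : e (s - (Mf a).mulVec t) = e s - e ((Mf a).mulVec t) := by
          rw [eq_sub_iff_add_eq, ← headd, sub_add_cancel]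
        have h2 := sub_eq_zero.1 (hGmeet a _ h1 ⟨_, hsub⟩)
        rw [h2]
        have h3 := hMf a ((Mf a).mulVec t + t)
        rw [Matrix.mulVec_add, Matrix.mulVec_mulVec, ← Matrix.add_mulVec, hM, Matrix.one_mulVec, headd] at h3
        generalize e ((Mf a).mulVec t) = A at h3 ⊢
        generalize e t = B at h3 ⊢
        convert h3 using 1
        rw [smul_add, smul_add, smul_smul, hsq, add_smul, one_smul]
        abel
      have hz : g (a • v + w₀) ∈ G a := ⟨_, self_mem_ln _, rfl⟩
      set z := g (a • v + w₀) with hzdef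
      have hz0 : z ≠ 0 := fun h0 => hne1 a (g.injective (h0.trans g.map_zero.symm))
      have hline : G a = ln L z := by
        refine (Submodule.eq_of_le_of_finrank_eq ?_ (by
          rw [finrank_ln hz0, LinearEquiv.finrank_map_eq, finrank_ln (hne1 a)])).symm
        intro y hy
        obtain ⟨c, rfl⟩ := mem_ln.1 hy
        obtain ⟨b, c', rfl⟩ := hcoord c
        simp only [j, RingHom.comp_apply, add_smul, mul_smul, algebraMap_smul]
        exact add_mem ((G a).smul_mem _ hz) ((G a).smul_mem _ (hθinv z hz))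
      obtain ⟨l₁, hl₁, hll₁, hlv₁⟩ := h.exists_linear hv (hne1 a)
      obtain ⟨l₂, hl₂, hll₂, hlv₂⟩ := h.exists_linear hz0 hv
      have hsemi : Semi L (l₂ * g * l₁) := by
        refine hstab v hv _ (mul_mem (mul_mem hl₂ hg) hl₁) fun c => ?_
        show l₂ (g (l₁ (c • v))) ∈ _
        have h1 : g (l₁ (c • v)) ∈ ln (F := F) L z := by
          rw [← hline]; exact ⟨_, mem_ln.2 ⟨c, by rw [hll₁, hlv₁]⟩, rfl⟩
        obtain ⟨d, hd⟩ := mem_ln.1 h1
        rw [← hd, hll₂, hlv₂]; exact mem_ln.2 ⟨d, rfl⟩
      have h1 : Semi L (l₂⁻¹ : V ≃ₗ[F] V) := fun c => ⟨c, fun x => by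
        show l₂.symm (c • x) = c • l₂.symm x
        rw [LinearEquiv.symm_apply_eq, hll₂, l₂.apply_symm_apply]⟩
      have h2 : Semi L (l₁⁻¹ : V ≃ₗ[F] V) := fun c => ⟨c, fun x => by
        show l₁.symm (c • x) = c • l₁.symm x
        rw [LinearEquiv.symm_apply_eq, hll₁, l₁.apply_symm_apply]⟩
      have h3 := semi_mul (semi_mul h1 hsemi) h2
      rw [← mul_assoc, ← mul_assoc, inv_mul_cancel, one_mul, mul_inv_cancel_right] at h3
      exact hgns h3
    -- invariance
    have hinv : ∀ (n : V ≃ₗ[F] V), Semi L n → (∀ z, (∃ s, e s = z) → ∃ s, e s = n z) →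
        ∀ a, ∃ b, ∀ z ∈ G a, n z ∈ G b := by
      intro n hn hnW a
      have hp : g⁻¹ * n * g ∈ X := mul_mem (mul_mem (inv_mem hg) (h.mem n (hdet n) hn)) hg
      set p := g⁻¹ * n * g with hpdef
      have hpl : ∀ c : L, p (c • v) ∈ ln (F := F) L v := by
        intro c
        obtain ⟨y, hy, hyz⟩ := (hW _).2 (hnW _ ((hW _).1 ⟨_, mem_ln.2 ⟨c, rfl⟩, rfl⟩))
        show g.symm (n (g (c • v))) ∈ _
        rw [show n (g (c • v)) = g y from hyz.symm, g.symm_apply_apply]; exact hy
      have hps := hstab v hv p hp hpl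
      set x := p (a • v + w₀) with hx
      have hxv : x ∉ ln (F := F) L v := by
        intro hm
        have hle : (ln (F := F) L v).map (p : V →ₗ[F] V) ≤ ln L v := by
          rintro _ ⟨y, hy, rfl⟩
          obtain ⟨c, rfl⟩ := mem_ln.1 hy
          exact hpl c
        have heq := Submodule.eq_of_le_of_finrank_eq hle (by rw [LinearEquiv.finrank_map_eq])
        rw [← heq] at hm
        obtain ⟨y, hy, hyx⟩ := hm
        rw [p.injective hyx] at hy
        exact hne0 a hy
      obtain ⟨b, b', hbb⟩ : ∃ b b' : L, x = b' • (b • v + w₀) := by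
        have hli : LinearIndependent L ![v, w₀] := (LinearIndependent.pair_iff' hv).2 fun c hc => hw₀ (mem_ln.2 ⟨c, hc⟩)
        let B := basisOfLinearIndependentOfCardEqFinrank hli (by simp [hm2])
        have h1 := B.sum_repr x
        rw [Fin.sum_univ_two, show B 0 = v by simp [B], show B 1 = w₀ by simp [B]] at h1
        have hb' : B.repr x 1 ≠ 0 := fun h0 => hxv (by
          rw [h0, zero_smul, add_zero] at h1; exact mem_ln.2 ⟨_, h1⟩)
        exact ⟨B.repr x 0 / B.repr x 1, B.repr x 1, by
          rw [smul_add, smul_smul, mul_div_cancel₀ _ hb', h1]⟩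
      refine ⟨b, ?_⟩
      rintro _ ⟨y, hy, rfl⟩
      obtain ⟨c, rfl⟩ := mem_ln.1 hy
      obtain ⟨c', hc'⟩ := hps c
      refine ⟨p (c • (a • v + w₀)), mem_ln.2 ⟨c' * b', ?_⟩, ?_⟩
      · rw [mul_smul, ← hbb, hc', hx]
      · show g (g.symm (n (g _))) = n (g _)
        rw [g.apply_symm_apply]
    have hsmall : ∃ a, Mf a ≠ 0 ∧ Mf a ≠ 1 := by
      by_contra hall
      push Not at hall
      have hcases : ∀ a, Mf a = 0 ∨ Mf a = 1 := fun a => (em (Mf a = 0)).imp id (hall a)
      rcases hcases 0 with h0 | h0 <;> rcases hcases 1 with h1 | h1 <;> rcases hcases θ with h2 | h2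
      all_goals first
        | exact zero_ne_one (hMinj _ _ (h0.trans h1.symm))
        | exact hθ0.symm (hMinj _ _ (h0.trans h2.symm))
        | exact hθ1.symm (hMinj _ _ (h1.trans h2.symm))
    obtain ⟨a, ha0, ha1⟩ := hsmall
    have : Finite L := Module.finite_of_finite F
    have : Fintype L := Fintype.ofFinite L
    let C : Finset (Matrix (Fin 2) (Fin 2) (ZMod 2)) := Finset.univ.image Mf
    have hC : C.card ≤ 4 := by
      refine Finset.card_image_le.trans ?_
      rw [Finset.card_univ, ← Nat.card_eq_fintype_card, Module.natCard_eq_pow_finrank (K := F), hq, hr]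
      norm_num
    have hconj : ∀ M ∈ C, ∀ h' h'' : Matrix (Fin 2) (Fin 2) (ZMod 2), h' * h'' = 1 → h' * M * h'' ∈ C := by
      intro M hM h' h'' hh
      obtain ⟨a, -, rfl⟩ := Finset.mem_image.1 hM
      have hh' : h'' * h' = 1 := mul_eq_one_comm.1 hh
      let n₀ : (Matrix (Fin 2) (Fin 2) (ZMod 2)) → (V →ₗ[L] V) := fun A => BV.constr L fun i => e (A.mulVec (Pi.single i 1))
      have hn₀e : ∀ A s, n₀ A (e s) = e (A.mulVec s) := by
        intro A s
        have hv' : n₀ A v = e (A.mulVec (Pi.single 0 1)) := by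
          conv_lhs => rw [show v = BV 0 by rw [hBV]; rfl]
          exact BV.constr_basis L _ 0
        have hw' : n₀ A w = e (A.mulVec (Pi.single 1 1)) := by
          conv_lhs => rw [show w = BV 1 by rw [hBV]; rfl]
          exact BV.constr_basis L _ 1
        simp only [e, map_add, map_smul]
        rw [hv', hw']
        simp only [e, Matrix.mulVec, dotProduct, Fin.sum_univ_two, map_add, map_mul, Pi.single_apply]
        simp
        module
      have hcomp : ∀ A B, B * A = 1 → ∀ z, n₀ B (n₀ A z) = z := by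
        intro A B hBA z
        obtain ⟨s, t, rfl⟩ := hzcoord z
        simp only [map_add, map_smul, hn₀e, Matrix.mulVec_mulVec, hBA, Matrix.one_mulVec]
      let n : V ≃ₗ[L] V := LinearEquiv.ofLinear (n₀ h') (n₀ h'')
        (LinearMap.ext (hcomp h'' h' hh)) (LinearMap.ext (hcomp h' h'' hh'))
      obtain ⟨b, hb⟩ := hinv (n.restrictScalars F) (semi_restrict n) (by
        rintro _ ⟨s, rfl⟩; exact ⟨_, (hn₀e h' s).symm⟩) a
      refine Finset.mem_image.2 ⟨b, Finset.mem_univ _, (hMuniq b _ fun t => ?_).symm⟩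
      have h1 := hb _ (hMf a (h''.mulVec t))
      change n₀ h' _ ∈ _ at h1
      rw [map_add, map_smul, hn₀e, hn₀e, Matrix.mulVec_mulVec, Matrix.mulVec_mulVec, Matrix.mulVec_mulVec, hh,
        Matrix.one_mulVec] at h1
      exact h1
    have hshift : ∀ M ∈ C, M + 1 ∈ C := by
      intro M hM
      obtain ⟨a, -, rfl⟩ := Finset.mem_image.1 hM
      let fr : L → L := fun x => x * x
      have hfr : ∀ x y, fr (x + y) = fr x + fr y := fun x y => by
        have h2 : (2 : L) = 0 := by
          have : j 2 = 0 := by rw [show (2 : ZMod 2) = 0 from rfl, map_zero]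
          rwa [map_ofNat] at this
        show (x + y) * (x + y) = x * x + y * y
        linear_combination (x * y) * h2
      let σf : V → V := fun z => fr (BV.repr z 0) • v + fr (BV.repr z 1) • w
      have hσadd : ∀ x y, σf (x + y) = σf x + σf y := fun x y => by
        simp only [σf, map_add, Finsupp.add_apply, hfr, add_smul]; abel
      have hσsmul : ∀ (c : L) x, σf (c • x) = (c * c) • σf x := fun c x => by
        simp only [σf, fr, map_smul, Finsupp.smul_apply, smul_eq_mul, smul_add, smul_smul]
        congr 2 <;> ring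
      let σ : V →ₗ[F] V :=
        { toFun := σf
          map_add' := hσadd
          map_smul' := fun c x => by
            rw [RingHom.id_apply, ← algebraMap_smul L c x, hσsmul, ← algebraMap_smul L c (σf x)]
            rcases eq_or_ne c 0 with rfl | hc
            · simp
            · rw [hone c hc, map_one, one_mul] }
      have hσe : ∀ s, σ (e s) = e s := by
        intro s
        have hj : ∀ b, fr (j b) = j b := fun b => by
          show j b * j b = j b
          rw [← map_mul]; congr 1; revert b; decide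
        have hr0 : BV.repr (e s) 0 = j (s 0) ∧ BV.repr (e s) 1 = j (s 1) := by
          have h1 := BV.sum_repr (e s)
          rw [Fin.sum_univ_two, hBV, hBV] at h1
          exact huniq _ _ _ _ h1
        show fr _ • v + fr _ • w = _
        rw [hr0.1, hr0.2, hj, hj]
      have hσθ : ∀ x, σ (θ • x) = (θ + 1) • σ x := fun x => by
        show σf _ = _
        rw [hσsmul, hsq]; rfl
      have hσinj : Function.Injective σ := by
        rw [injective_iff_map_eq_zero]
        intro z hz
        obtain ⟨s, t, rfl⟩ := hzcoord z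
        rw [map_add, hσθ, hσe, hσe, add_smul, one_smul, ← add_assoc, add_right_comm, ← headd] at hz
        have h0 : e 0 = 0 := by simp [e]
        obtain ⟨hs', ht'⟩ := hinj (s + t) t 0 0 (by rw [hz, h0, smul_zero, add_zero])
        rw [ht', add_zero] at hs'
        rw [hs', ht', h0, smul_zero, add_zero]
      let n : V ≃ₗ[F] V := LinearEquiv.ofBijective σ ⟨hσinj, LinearMap.injective_iff_surjective.1 hσinj⟩
      obtain ⟨b, hb⟩ := hinv n (fun c => ⟨c * c, hσsmul c⟩) (by rintro _ ⟨s, rfl⟩; exact ⟨s, (hσe s).symm⟩) a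
      refine Finset.mem_image.2 ⟨b, Finset.mem_univ _, (hMuniq b _ fun t => ?_).symm⟩
      have h1 := hb _ (hMf a t)
      change σ _ ∈ _ at h1
      rw [map_add, hσθ, hσe, hσe, add_smul, one_smul, ← add_assoc, add_right_comm, ← headd] at h1
      rw [Matrix.add_mulVec, Matrix.one_mulVec]
      exact h1
    have hsub := card_orbit_two (Mf a) ha0 ha1 (hnotline a)
    refine absurd (hsub.trans_le ((Finset.card_le_card ?_).trans hC)) (lt_irrefl 4)
    intro M hM
    simp only [Finset.mem_biUnion, Finset.mem_filter, Finset.mem_univ, true_and, Finset.mem_insert,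
      Finset.mem_singleton] at hM
    obtain ⟨h', hdet', hM⟩ := hM
    have hh : h' * Matrix.of ![![h' 1 1, h' 0 1], ![h' 1 0, h' 0 0]] = 1 := adj_mul_two h' hdet'
    have h1 := hconj (Mf a) (Finset.mem_image.2 ⟨a, Finset.mem_univ _, rfl⟩) h' _ hh
    rcases hM with rfl | rfl
    · exact h1
    · exact hshift _ h1

end CfsgLib.Derangements.FieldNorm
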