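import Mathlib
import Cfsg.Agent.Lib.Derangements.FieldNormFour

/-!
# Every transvection lies in a proper overgroup of the semilinear group
-/

set_option autoImplicit false

open Module
open scoped commutatorElement

namespace CfsgLib.Derangements.FieldNorm

variable {F : Type*} [Field F] {V : Type*} [AddCommGroup V] [Module F V]

/-- The transvection with functional `f` and centre `z` lies in `X`. -/
def HasT (X : Subgroup (V ≃ₗ[F] V)) (z : V) (f : V →ₗ[F] F) : Prop :=
  f z = 0 ∧ ∃ t ∈ X, ∀ x, t x = x + f x • z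

variable {X : Subgroup (V ≃ₗ[F] V)}

lemma HasT.add {z : V} {f f' : V →ₗ[F] F} (h : HasT X z f) (h' : HasT X z f') : HasT X z (f + f') := by
  obtain ⟨h0, t, ht, htx⟩ := h
  obtain ⟨h0', s, hs, hsx⟩ := h'
  refine ⟨by rw [LinearMap.add_apply, h0, h0', add_zero], t * s, mul_mem ht hs, fun x => ?_⟩
  rw [LinearEquiv.mul_apply, hsx, htx, map_add, map_smul, h0, smul_zero, add_zero, LinearMap.add_apply, add_smul]
  abel

lemma HasT.zero (z : V) : HasT X z 0 := ⟨rfl, 1, one_mem X, fun x => by simp⟩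

lemma HasT.conj {z : V} {f : V →ₗ[F] F} (h : HasT X z f) {g : V ≃ₗ[F] V} (hg : g ∈ X) :
    HasT X (g z) (f ∘ₗ (g.symm : V →ₗ[F] V)) := by
  obtain ⟨h0, t, ht, htx⟩ := h
  refine ⟨by simp [h0], g * t * g⁻¹, mul_mem (mul_mem hg ht) (inv_mem hg), fun x => ?_⟩
  show g (t (g.symm x)) = _
  rw [htx, map_add, map_smul, g.apply_symm_apply]
  rfl

lemma HasT.rescale {z : V} {f : V →ₗ[F] F} (h : HasT X z f) {c : F} (hc : c ≠ 0) :
    HasT X (c • z) (c⁻¹ • f) := by
  obtain ⟨h0, t, ht, htx⟩ := h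
  exact ⟨by simp [h0], t, ht, fun x => by
    rw [htx, LinearMap.smul_apply, smul_eq_mul, smul_smul, mul_right_comm, inv_mul_cancel₀ hc, one_mul]⟩

/-- The commutator of two transvections. -/
lemma HasT.comm {u w : V} {φ ψ : V →ₗ[F] F} (h : HasT X u φ) (h' : HasT X w ψ) (hψu : ψ u = 0) :
    HasT X u (φ w • ψ) := by
  obtain ⟨h0, t, ht, htx⟩ := h
  obtain ⟨h0', s, hs, hsx⟩ := h'
  have htsymm : ∀ x, t.symm x = x - φ x • u := fun x => by
    rw [t.symm_apply_eq, htx, map_sub, map_smul, h0, smul_zero, sub_zero, sub_add_cancel]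
  have hssymm : ∀ x, s.symm x = x - ψ x • w := fun x => by
    rw [s.symm_apply_eq, hsx, map_sub, map_smul, h0', smul_zero, sub_zero, sub_add_cancel]
  refine ⟨by simp [hψu], ⁅t, s⁆, ?_, fun x => ?_⟩
  · rw [commutatorElement_def]
    exact mul_mem (mul_mem (mul_mem ht hs) (inv_mem ht)) (inv_mem hs)
  · rw [commutatorElement_def]
    show t (s (t.symm (s.symm x))) = _
    rw [hssymm, htsymm, hsx, htx]
    simp only [map_add, map_sub, map_smul, h0, h0', hψu, smul_eq_mul, LinearMap.smul_apply]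
    module

variable [FiniteDimensional F V]

lemma exists_map_pair (ht : ∀ a b : Fin 2 → V, LinearIndependent F a → LinearIndependent F b →
      ∃ g ∈ X, ∀ i, g (a i) = b i) {u w u' w' : V} (h : LinearIndependent F ![u, w])
    (h' : LinearIndependent F ![u', w']) : ∃ g ∈ X, g u = u' ∧ g w = w' := by
  obtain ⟨g, hg, hgi⟩ := ht _ _ h h'
  exact ⟨g, hg, hgi 0, hgi 1⟩

/-- A pair transitive group with one transvection contains them all. -/
theorem hasT_all (hn : 3 ≤ finrank F V) (ht : ∀ a b : Fin 2 → V, LinearIndependent F a → LinearIndependent F b →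
      ∃ g ∈ X, ∀ i, g (a i) = b i) {z₀ : V} {f₀ : V →ₗ[F] F} (hz : z₀ ≠ 0) (hf : f₀ ≠ 0) (h : HasT X z₀ f₀) :
    ∀ (z : V) (f : V →ₗ[F] F), f z = 0 → HasT X z f := by
  classical
  have hind : ∀ {u w : V}, u ≠ 0 → w ∉ (F ∙ u) → LinearIndependent F ![u, w] := fun hu hw =>
    (LinearIndependent.pair_iff' hu).2 fun c hc => hw (Submodule.mem_span_singleton.2 ⟨c, hc⟩)
  have hout : ∀ S : Submodule F V, finrank F S < finrank F V → ∃ w, w ∉ S := fun S hS => by
    by_contra hall
    push Not at hall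
    rw [Submodule.eq_top_iff'.2 hall, finrank_top] at hS
    exact lt_irrefl _ hS
  have hline : ∀ u : V, finrank F (F ∙ u) ≤ 1 := fun u => by
    have h4 := finrank_span_finset_le_card (R := F) ({u} : Finset V)
    rw [Finset.coe_singleton, Finset.card_singleton] at h4
    exact h4
  -- values at independent vectors
  have hval : ∀ {u w : V}, u ≠ 0 → w ∉ (F ∙ u) → ∀ c : F, ∃ φ, HasT X u φ ∧ φ w = c := by
    intro u w hu hw c
    obtain ⟨w₀, hw₀⟩ : ∃ w₀, f₀ w₀ ≠ 0 := by
      by_contra hall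
      push Not at hall
      exact hf (LinearMap.ext hall)
    have hw₀' : w₀ ∉ (F ∙ z₀) := fun hm => hw₀ (by
      obtain ⟨e, rfl⟩ := Submodule.mem_span_singleton.1 hm
      rw [map_smul, h.1, smul_zero])
    rcases eq_or_ne c 0 with rfl | hc
    · exact ⟨0, HasT.zero u, rfl⟩
    · have hw' : (f₀ w₀ * c⁻¹) • w ∉ (F ∙ u) := fun hm => hw (by
        rwa [Submodule.smul_mem_iff _ (mul_ne_zero hw₀ (inv_ne_zero hc))] at hm)
      obtain ⟨g, hg, hgu, hgw⟩ := exists_map_pair ht (hind hz hw₀') (hind hu hw')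
      refine ⟨_, hgu ▸ h.conj hg, ?_⟩
      show f₀ (g.symm w) = c
      have : g.symm w = (c * (f₀ w₀)⁻¹) • w₀ := by
        rw [g.symm_apply_eq, map_smul, hgw, smul_smul]
        rw [show c * (f₀ w₀)⁻¹ * (f₀ w₀ * c⁻¹) = 1 by field_simp, one_smul]
      rw [this, map_smul, smul_eq_mul, mul_assoc, inv_mul_cancel₀ hw₀, mul_one]
  have hscal : ∀ {u w : V} {ψ : V →ₗ[F] F}, u ≠ 0 → w ∉ (F ∙ u) → HasT X w ψ → ψ u = 0 →
      ∀ c : F, HasT X u (c • ψ) := by
    intro u w ψ hu hw hψ hψu c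
    obtain ⟨φ, hφ, hφw⟩ := hval hu hw c
    exact hφw ▸ hφ.comm hψ hψu
  intro z f hfz
  rcases eq_or_ne z 0 with rfl | hz'
  · exact ⟨hfz, 1, one_mem X, fun x => by simp⟩
  let J : Submodule F (Module.Dual F V) :=
    { carrier := {ψ | ∀ c : F, HasT X z (c • ψ)}
      add_mem' := fun {a b} ha hb c => by rw [smul_add]; exact (ha c).add (hb c)
      zero_mem' := fun c => by rw [smul_zero]; exact HasT.zero z
      smul_mem' := fun e a ha c => by rw [smul_smul]; exact ha _ }
  have hJz : ∀ ψ ∈ J, ψ z = 0 := fun ψ hψ => by simpa using (hψ 1).1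
  have hJinv : ∀ g ∈ X, g z = z → ∀ ψ ∈ J, ψ ∘ₗ (g.symm : V →ₗ[F] V) ∈ J := fun g hg hgz ψ hψ c => by
    have := (hψ c).conj hg
    rwa [hgz, LinearMap.smul_comp] at this
  have hJne : ∃ ψ ∈ J, ψ ≠ 0 := by
    -- a transvection vanishing on a vector outside its centre
    obtain ⟨u', hu'f, hu'z⟩ : ∃ u', f₀ u' = 0 ∧ u' ∉ (F ∙ z₀) := by
      by_contra hall
      push Not at hall
      have h1 := Submodule.finrank_mono (show LinearMap.ker f₀ ≤ F ∙ z₀ from fun x hx => hall x hx)
      have h2 := LinearMap.finrank_range_add_finrank_ker f₀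
      have h3 : finrank F (LinearMap.range f₀) ≤ 1 := (Submodule.finrank_le _).trans (Module.finrank_self F).le
      have := hline z₀
      omega
    obtain ⟨w, hw⟩ := hout (F ∙ z) ((hline z).trans_lt (by omega))
    have hu'0 : u' ≠ 0 := fun h0 => hu'z (by rw [h0]; exact zero_mem _)
    have hz0u : z₀ ∉ (F ∙ u') := fun hm => by
      obtain ⟨e, he⟩ := Submodule.mem_span_singleton.1 hm
      rcases eq_or_ne e 0 with rfl | he0
      · exact hz (by rw [← he, zero_smul])
      · exact hu'z (Submodule.mem_span_singleton.2 ⟨e⁻¹, by rw [← he, smul_smul, inv_mul_cancel₀ he0, one_smul]⟩)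
    obtain ⟨g, hg, hgu, hgw⟩ := exists_map_pair ht (hind hu'0 hz0u) (hind hz' hw)
    have hT : HasT X w (f₀ ∘ₗ (g.symm : V →ₗ[F] V)) := hgw ▸ h.conj hg
    refine ⟨_, hscal hz' hw hT ?_, fun h0 => hf ?_⟩
    · show f₀ (g.symm z) = 0
      rw [← hgu, g.symm_apply_apply, hu'f]
    · refine LinearMap.ext fun x => ?_
      simpa using LinearMap.congr_fun h0 (g x)
  have hJ : J.dualCoannihilator = (F ∙ z) := by
    refine le_antisymm ?_ ((Submodule.span_singleton_le_iff_mem _ _).2 ((Submodule.mem_dualCoannihilator _).2 hJz))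
    intro x hx
    by_contra hxz
    obtain ⟨ψ, hψ, hψ0⟩ := hJne
    obtain ⟨y, hy⟩ : ∃ y, ψ y ≠ 0 := by
      by_contra hall
      push Not at hall
      exact hψ0 (LinearMap.ext hall)
    have hyz : y ∉ (F ∙ z) := fun hm => hy (by
      obtain ⟨e, rfl⟩ := Submodule.mem_span_singleton.1 hm
      rw [map_smul, hJz ψ hψ, smul_zero])
    obtain ⟨g, hg, hgz, hgy⟩ := exists_map_pair ht (hind hz' hyz) (hind hz' hxz)
    refine hy ?_
    have := (Submodule.mem_dualCoannihilator _).1 hx _ (hJinv g hg hgz ψ hψ)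
    rwa [LinearMap.comp_apply, LinearEquiv.coe_coe, ← hgy, g.symm_apply_apply] at this
  have hfJ : f ∈ J.dualCoannihilator.dualAnnihilator := by
    rw [hJ, Submodule.mem_dualAnnihilator]
    intro x hx
    obtain ⟨e, rfl⟩ := Submodule.mem_span_singleton.1 hx
    rw [map_smul, hfz, smul_zero]
  rw [Subspace.dualCoannihilator_dualAnnihilator_eq] at hfJ
  simpa using hfJ 1

variable [Finite F] {L : Type*} [Field L] [Algebra F L] [Module L V] [IsScalarTower F L V]

/-- All transvections lie in a proper overgroup. -/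
theorem transvection_mem (h : Over L X) {f : V →ₗ[F] F} {z : V} (hfz : f z = 0) :
    LinearEquiv.transvection hfz ∈ X := by
  have := h.finite_left
  have := h.finiteDimensional
  have hT : HasTransvection X := by
    by_cases hq : 3 ≤ Nat.card F ∨ 3 ≤ finrank F L
    · exact hasTransvection_of_large h hq
    · have := Finite.one_lt_card (α := F)
      have := h.prime.two_le
      exact hasTransvection_of_two h (by omega) (by omega)
  obtain ⟨f₀, z₀, h0, hf₀, hz₀, ht₀⟩ := hT
  have h4 := Module.finrank_mul_finrank F L V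
  have h5 : 3 ≤ finrank F V := by
    have := h.prime.two_le
    have := h.two_le
    nlinarith
  obtain ⟨-, t, ht, htx⟩ := hasT_all h5 (trans_of_le h 2 h.prime.two_le) hz₀ hf₀ ⟨h0, ht₀⟩ z f hfz
  rwa [show LinearEquiv.transvection hfz = t from LinearEquiv.ext fun x => (htx x).symm]

end CfsgLib.Derangements.FieldNorm
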