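import Cfsg.Agent.Lib.Derangements.UniqueFixed

/-!
# Groups with derangement subgroup of large index have prime power degree

If `D` is a normal subgroup of index `m ≥ 2` outside which every element fixes exactly one of
the `n` points and `(m + 1) ^ 2 > n`, then `n` is a power of a prime `q`, a Sylow `q`-subgroup
of `D` is regular and elementary abelian, and its normaliser in a point stabiliser supplements
`D` and acts irreducibly on it.
-/

set_option autoImplicit false

namespace CfsgLib.Derangements.UniqueFixed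

open MulAction

variable {G : Type*} [Group G] [Finite G]

/-- `P` is a Sylow `q`-subgroup of `N`, both being subgroups of `G`. -/
structure IsSylowOf (q : ℕ) (P N : Subgroup G) : Prop where
  le : P ≤ N
  card : Nat.card P = q ^ (Nat.card N).factorization q

theorem exists_isSylowOf (q : ℕ) [Fact q.Prime] (N : Subgroup G) {W : Subgroup G} (hWN : W ≤ N)
    (hW : IsPGroup q W) : ∃ P : Subgroup G, IsSylowOf q P N ∧ W ≤ P := by
  obtain ⟨S, hS⟩ := (hW.comap_subtype (K := N) : IsPGroup q (W.subgroupOf N)).exists_le_sylow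
  refine ⟨(S : Subgroup N).map N.subtype, ⟨Subgroup.map_subtype_le _, ?_⟩, fun w hw => ?_⟩
  · rw [Subgroup.card_map_of_injective N.subtype_injective]; exact S.card_eq_multiplicity
  · exact ⟨⟨w, hWN hw⟩, hS (Subgroup.mem_subgroupOf.2 hw), rfl⟩

variable {q : ℕ} [Fact q.Prime] {P N : Subgroup G}

theorem IsSylowOf.isPGroup (h : IsSylowOf q P N) : IsPGroup q P := IsPGroup.of_card h.card

theorem IsSylowOf.card_le (h : IsSylowOf q P N) {W : Subgroup G} (hWN : W ≤ N)
    (hW : IsPGroup q W) : Nat.card W ≤ Nat.card P := by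
  obtain ⟨P', hP', hWP⟩ := exists_isSylowOf q N hWN hW
  exact (Subgroup.card_le_of_le hWP).trans (hP'.card.trans h.card.symm).le

theorem IsSylowOf.eq_of_le (h : IsSylowOf q P N) {W : Subgroup G} (hPW : P ≤ W) (hWN : W ≤ N)
    (hW : IsPGroup q W) : W = P :=
  (Subgroup.eq_of_le_of_card_ge hPW (h.card_le hWN hW)).symm

theorem IsSylowOf.le_of_normalized (h : IsSylowOf q P N) {W : Subgroup G} (hWN : W ≤ N)
    (hW : IsPGroup q W) (hn : ∀ p ∈ P, ∀ w ∈ W, p * w * p⁻¹ ∈ W) : W ≤ P := by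
  have hPn : P ≤ Subgroup.normalizer (W : Set G) := fun p hp =>
    Subgroup.mem_normalizer_iff.2 fun w => ⟨hn p hp w, fun hw => by
      have := hn p⁻¹ (P.inv_mem hp) _ hw
      simpa [mul_assoc] using this⟩
  have := h.eq_of_le (W := P ⊔ W) le_sup_left (sup_le h.le hWN)
    (h.isPGroup.to_sup_of_normal_right' hW hPn)
  exact le_sup_right.trans this.le

/-- Frattini argument. -/
theorem IsSylowOf.frattini (h : IsSylowOf q P N) {M : Subgroup G}
    (hM : M ≤ Subgroup.normalizer (N : Set G)) :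
    M ≤ (M ⊔ N) ⊓ Subgroup.normalizer (P : Set G) ⊔ N := by
  intro g hg
  let c : N →* N :=
    { toFun := fun x => ⟨g * x * g⁻¹, ((Subgroup.mem_normalizer_iff.1 (hM hg)) x).1 x.2⟩
      map_one' := by ext; simp
      map_mul' := fun a b => by ext; simp [mul_assoc] }
  have hc : Function.Injective c := fun a b hab => Subtype.ext <| by
    simpa [c] using congrArg Subtype.val hab
  let S₁ : Sylow q N := Sylow.ofCard (P.subgroupOf N) (by
    rw [Nat.card_congr (Subgroup.subgroupOfEquivOfLe h.le).toEquiv, h.card])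
  let S₂ : Sylow q N := Sylow.ofCard ((P.subgroupOf N).map c) (by
    rw [Subgroup.card_map_of_injective hc,
      Nat.card_congr (Subgroup.subgroupOfEquivOfLe h.le).toEquiv, h.card])
  obtain ⟨x, hx⟩ := MulAction.exists_smul_eq N S₂ S₁
  have hxg : ∀ p ∈ P, (x : G) * g * p * ((x : G) * g)⁻¹ ∈ P := by
    intro p hp
    have h1 : MulAut.conj x (c ⟨p, h.le hp⟩) ∈ ((x • S₂ : Sylow q N) : Subgroup N) := by
      rw [Sylow.coe_subgroup_smul]
      exact Subgroup.smul_mem_pointwise_smul _ _ _ (Subgroup.mem_map.2 ⟨⟨p, h.le hp⟩,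
        Subgroup.mem_subgroupOf.2 hp, rfl⟩)
    rw [hx] at h1
    have h2 : (MulAut.conj x (c ⟨p, h.le hp⟩) : G) ∈ P := Subgroup.mem_subgroupOf.1 h1
    simpa [c, mul_assoc] using h2
  have hn : (x : G) * g ∈ Subgroup.normalizer (P : Set G) := by
    refine Subgroup.mem_normalizer_iff.2 fun p => ⟨hxg p, fun hp => ?_⟩
    have heq : (P.map (MulAut.conj ((x : G) * g)).toMonoidHom) = P := by
      refine Subgroup.eq_of_le_of_card_ge ?_ ?_
      · rintro _ ⟨a, ha, rfl⟩; exact hxg a ha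
      · rw [Subgroup.card_map_of_injective (MulEquiv.injective _)]
    rw [← heq] at hp
    obtain ⟨a, ha, hae⟩ := hp
    rw [show p = a from (MulAut.conj ((x : G) * g)).injective hae.symm]
    exact ha
  rw [show g = (x : G)⁻¹ * ((x : G) * g) by group]
  exact Subgroup.mul_mem _ (Subgroup.mem_sup_right (N.inv_mem x.2))
    (Subgroup.mem_sup_left ⟨Subgroup.mul_mem _ (Subgroup.mem_sup_right x.2)
      (Subgroup.mem_sup_left hg), hn⟩)

variable {Ω : Type*} [MulAction G Ω] [Finite Ω] [IsPretransitive G Ω] [FaithfulSMul G Ω]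
  {D : Subgroup G} [D.Normal]

omit [Finite G] [Finite Ω] [IsPretransitive G Ω] [FaithfulSMul G Ω] [D.Normal] [Fact q.Prime] in
theorem stabilizer_cover [IsPretransitive D Ω] (ω : Ω) : stabilizer G ω ⊔ D = ⊤ := by
  refine top_le_iff.1 fun g _ => ?_
  obtain ⟨d, hd⟩ := exists_smul_eq D ω (g • ω)
  rw [show g = (d : G) * ((d : G)⁻¹ * g) by group]
  refine Subgroup.mul_mem _ (Subgroup.mem_sup_right d.2) (Subgroup.mem_sup_left ?_)
  rw [mem_stabilizer_iff, mul_smul, inv_smul_eq_iff]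
  exact hd.symm

omit [Finite Ω] [IsPretransitive G Ω] [FaithfulSMul G Ω] [D.Normal] [Fact q.Prime] in
theorem card_eq_card_mul_stabilizer [IsPretransitive D Ω] (ω : Ω) :
    Nat.card D = Nat.card Ω * Nat.card (D ⊓ stabilizer G ω : Subgroup G) := by
  have h : Nat.card (stabilizer D ω) = Nat.card (D ⊓ stabilizer G ω : Subgroup G) :=
    Nat.card_congr
      { toFun := fun d => ⟨d.1, d.1.2, d.2⟩
        invFun := fun d => ⟨⟨d.1, d.2.1⟩, d.2.2⟩
        left_inv := fun _ => rfl
        right_inv := fun _ => rfl }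
  rw [← Subgroup.index_mul_card (stabilizer D ω), index_stabilizer_of_transitive, h]

omit [Fact q.Prime] in
/-- The structure forced by an index of size larger than `√n - 1`. -/
theorem exists_regular_sylow (hU : ∀ g : G, g ∉ D → Nat.card (fixedBy Ω g) = 1)
    [IsPretransitive D Ω] (hn : 2 ≤ Nat.card Ω) (hm : 2 ≤ D.index)
    (hsmall : ¬ (D.index + 1) ^ 2 ≤ Nat.card Ω) :
    ∃ q a : ℕ, q.Prime ∧ Nat.card Ω = q ^ a ∧ ∃ (Q : Subgroup G) (ω : Ω),
      Q ≤ D ∧ Nat.card Q = Nat.card Ω ∧ (∀ x ∈ Q, x ^ q = 1) ∧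
      (∀ x ∈ Q, ∀ y ∈ Q, x * y = y * x) ∧ (∀ α : Ω, ∃ x ∈ Q, x • ω = α) ∧
      (∀ x ∈ Q, x • ω = ω → x = 1) ∧
      ¬ q ∣ Nat.card (D ⊓ stabilizer G ω : Subgroup G) ∧
      (Subgroup.normalizer (Q : Set G) ⊓ stabilizer G ω) ⊔ D = ⊤ ∧
      ∀ A : Subgroup G, A ≤ Subgroup.normalizer (Q : Set G) ⊓ stabilizer G ω → A ⊔ D = ⊤ →
        ∀ W : Subgroup G, W ≤ Q → (∀ a ∈ A, ∀ w ∈ W, a * w * a⁻¹ ∈ W) → W = ⊥ ∨ W = Q := by
  set n := Nat.card Ω with hn_def
  set m := D.index with hm_def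
  haveI : Nonempty Ω := (Nat.card_pos_iff.1 (by omega : 0 < Nat.card Ω)).1
  obtain ⟨ω₀⟩ := ‹Nonempty Ω›
  have hmn : m ∣ n - 1 := by
    have := index_dvd_card_sub_one hU (stabilizer_cover (D := D) ω₀) (β := ω₀) le_rfl Set.univ
      (fun _ _ _ _ => Set.mem_univ _) (Set.mem_univ _)
    rwa [Set.ncard_univ] at this
  set q := n.minFac with hq_def
  have hq : q.Prime := Nat.minFac_prime (by omega)
  haveI := Fact.mk hq
  set H := stabilizer G ω₀ with hH
  set K := D ⊓ H with hK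
  obtain ⟨Q₀, hQ₀, -⟩ := exists_isSylowOf q K (bot_le : (⊥ : Subgroup G) ≤ K) IsPGroup.of_bot
  have hK' : ∀ α : Ω, Nat.card (D ⊓ stabilizer G α : Subgroup G) = Nat.card K := fun α =>
    Nat.eq_of_mul_eq_mul_left (by omega : 0 < Nat.card Ω)
      ((card_eq_card_mul_stabilizer α).symm.trans (card_eq_card_mul_stabilizer ω₀))
  -- `N(Q₀)` supplements `D` inside the point stabiliser
  set N₀ := Subgroup.normalizer (Q₀ : Set G) with hN₀
  have hR₀ : (N₀ ⊓ H) ⊔ D = ⊤ := by
    refine top_le_iff.1 ((stabilizer_cover (D := D) ω₀).ge.trans (sup_le ?_ le_sup_right))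
    refine (hQ₀.frattini (M := H) ?_).trans (sup_le ?_ (inf_le_left.trans le_sup_right))
    · exact (le_inf (Subgroup.normalizer_eq_top (H := D) ▸ le_top) H.le_normalizer).trans
        Subgroup.inf_normalizer_le_normalizer_inf
    · exact (le_inf inf_le_right (inf_le_left.trans (sup_le le_rfl inf_le_right))).trans le_sup_left
  have hN₀D : N₀ ⊔ D = ⊤ := cover_mono hR₀ inf_le_left
  set L := N₀ ⊓ D with hL
  have hQ₀D : Q₀ ≤ D := hQ₀.le.trans inf_le_left
  have hQ₀L : Q₀ ≤ L := le_inf Subgroup.le_normalizer hQ₀D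
  obtain ⟨U, hUL, hQ₀U⟩ := exists_isSylowOf q L hQ₀L hQ₀.isPGroup
  have hUD : U ≤ D := hUL.le.trans inf_le_right
  set A := N₀ ⊓ Subgroup.normalizer (U : Set G) with hA
  have hAD : A ⊔ D = ⊤ := by
    refine top_le_iff.1 (hN₀D.ge.trans (sup_le ?_ le_sup_right))
    refine (hUL.frattini (M := N₀) ?_).trans (sup_le ?_ (inf_le_right.trans le_sup_right))
    · exact (le_inf N₀.le_normalizer (Subgroup.normalizer_eq_top (H := D) ▸ le_top)).trans
        Subgroup.inf_normalizer_le_normalizer_inf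
    · exact (inf_le_inf_right _ (sup_le le_rfl inf_le_left)).trans le_sup_left
  -- a point fixed by `Q₀` with a covering stabiliser
  set Y : Set Ω := {α | ∀ x ∈ Q₀, x • α = α} with hY
  have hYinv : ∀ a ∈ N₀, ∀ α ∈ Y, a • α ∈ Y := by
    intro a ha α hα x hx
    have h1 := hα _ ((Subgroup.mem_normalizer_iff.1 (inv_mem ha) x).1 hx)
    rw [inv_inv, mul_smul, mul_smul, inv_smul_eq_iff] at h1
    exact h1
  have hωY : ω₀ ∈ Y := fun x hx => mem_stabilizer_iff.1 (hQ₀.le hx).2
  have hYmod : ¬ m ∣ Y.ncard := by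
    intro h
    have h1 := index_dvd_card_sub_one hU hR₀ (β := ω₀) inf_le_right Y
      (fun a ha => hYinv a ha.1) hωY
    have h2 : 0 < Y.ncard := (Set.ncard_pos).2 ⟨ω₀, hωY⟩
    have h3 : m ∣ 1 := by
      have := Nat.dvd_sub h h1
      rwa [show Y.ncard - (Y.ncard - 1) = 1 by omega] at this
    exact absurd (Nat.le_of_dvd one_pos h3) (by omega)
  obtain ⟨ω, hω, hAω⟩ := exists_cover_stabilizer hU hAD Y (fun a ha => hYinv a ha.1) hYmod
  -- the `U`-orbit of this point
  have hUω : U ⊓ stabilizer G ω = Q₀ := by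
    have h1 : Q₀ ≤ U ⊓ stabilizer G ω :=
      le_inf hQ₀U fun x hx => mem_stabilizer_iff.2 (hω x hx)
    obtain ⟨P, hP, -⟩ := exists_isSylowOf q (D ⊓ stabilizer G ω)
      (bot_le : (⊥ : Subgroup G) ≤ _) IsPGroup.of_bot
    refine (Subgroup.eq_of_le_of_card_ge h1 ?_).symm
    calc Nat.card (U ⊓ stabilizer G ω : Subgroup G) ≤ Nat.card P :=
          hP.card_le (inf_le_inf_right _ hUD) (hUL.isPGroup.to_le inf_le_left)
      _ = Nat.card Q₀ := by rw [hP.card, hQ₀.card, hK']
  have horbcard : ∀ W : Subgroup G, (orbit W ω).ncard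
      * Nat.card (W ⊓ stabilizer G ω : Subgroup G) = Nat.card W := fun W => by
    have h : Nat.card (stabilizer W ω) = Nat.card (W ⊓ stabilizer G ω : Subgroup G) :=
      Nat.card_congr
        { toFun := fun d => ⟨d.1, d.1.2, d.2⟩
          invFun := fun d => ⟨⟨d.1, d.2.1⟩, d.2.2⟩
          left_inv := fun _ => rfl
          right_inv := fun _ => rfl }
    rw [← h, ← index_stabilizer, Subgroup.index_mul_card]
  set b := (orbit U ω).ncard with hb
  have hbU : b * Nat.card Q₀ = Nat.card U := hUω ▸ horbcard U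
  have hcardD : Nat.card D = n * Nat.card K := card_eq_card_mul_stabilizer ω₀
  have hn0 : n ≠ 0 := by omega
  have hfacD : (Nat.card D).factorization q = n.factorization q + (Nat.card K).factorization q := by
    rw [hcardD, Nat.factorization_mul hn0 Nat.card_pos.ne', Finsupp.add_apply]
  have hnq : 1 ≤ n.factorization q := hq.factorization_pos_of_dvd hn0 (Nat.minFac_dvd n)
  have hb1 : 1 < b := by
    obtain ⟨P, hP, hQP⟩ := exists_isSylowOf q D hQ₀D hQ₀.isPGroup
    haveI : Group.IsNilpotent P := hP.isPGroup.isNilpotent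
    have hlt : Q₀.subgroupOf P < ⊤ := by
      refine lt_top_iff_ne_top.2 fun h => ?_
      have h1 := Subgroup.card_le_of_le (Subgroup.subgroupOf_eq_top.1 h)
      rw [hP.card, hQ₀.card, hfacD] at h1
      have := (Nat.pow_le_pow_iff_right hq.one_lt).1 h1
      omega
    obtain ⟨-, ⟨x, hxP⟩, hxn, hxQ⟩ :=
      SetLike.lt_iff_le_and_exists.1 (Group.normalizerCondition_of_isNilpotent _ hlt)
    rw [← Subgroup.subgroupOf_normalizer_eq hQP, Subgroup.mem_subgroupOf] at hxn
    rw [Subgroup.mem_subgroupOf] at hxQ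
    set W := P ⊓ N₀ with hW
    have hWU : Nat.card W ≤ Nat.card U :=
      hUL.card_le (le_inf inf_le_right (inf_le_left.trans hP.le)) (hP.isPGroup.to_le inf_le_left)
    have hQW : Q₀ < W := lt_of_le_not_ge (le_inf hQP Subgroup.le_normalizer)
      fun h => hxQ (h ⟨hxP, hxn⟩)
    have : Nat.card Q₀ < Nat.card U := lt_of_lt_of_le
      (lt_of_le_of_ne (Subgroup.card_le_of_le hQW.le) fun h =>
        hQW.ne (Subgroup.eq_of_le_of_card_ge hQW.le h.ge)) hWU
    rw [← hbU] at this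
    by_contra hle
    have := Nat.mul_le_mul_right (Nat.card Q₀) (not_lt.1 hle)
    omega
  obtain ⟨c, hc⟩ := IsPGroup.iff_card.1 hUL.isPGroup
  obtain ⟨e, he, hbe⟩ := (Nat.dvd_prime_pow hq).1 (Dvd.intro _ (hbU.trans hc) : b ∣ q ^ c)
  have hbn : b ∣ n := by
    have h1 : Nat.card U ∣ Nat.card D := Subgroup.card_dvd_of_le hUD
    have h2 := ((Nat.factorization_le_iff_dvd Nat.card_pos.ne' Nat.card_pos.ne').2 h1) q
    rw [← hbU, hbe, hQ₀.card, hfacD, ← pow_add, hq.factorization_pow, Finsupp.single_eq_same]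
      at h2
    rw [hbe]
    exact (hq.pow_dvd_iff_le_factorization hn0).2 (by omega)
  set R' := A ⊓ stabilizer G ω with hR'
  have hinv : ∀ (B W : Subgroup G), B ≤ stabilizer G ω → (∀ a ∈ B, ∀ w ∈ W, a * w * a⁻¹ ∈ W) →
      ∀ a ∈ B, ∀ α ∈ orbit W ω, a • α ∈ orbit W ω := by
    rintro B W hB hn a ha _ ⟨⟨w, hw⟩, rfl⟩
    refine ⟨⟨a * w * a⁻¹, hn a ha w hw⟩, ?_⟩
    show (a * w * a⁻¹) • ω = a • (w • ω)
    rw [mul_smul, mul_smul, inv_smul_eq_iff.2 (mem_stabilizer_iff.1 (hB ha)).symm]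
  -- hence `b = n`
  have hbn' : b = n := by
    by_contra hne
    refine hsmall (sq_le_of_dvd hbn hb1 (lt_of_le_of_ne (Nat.le_of_dvd (by omega) hbn) hne) ?_ hmn)
    exact index_dvd_card_sub_one hU hAω (β := ω) inf_le_right _
      (hinv _ U inf_le_right fun a ha w hw => ((Subgroup.mem_normalizer_iff.1 ha.1.2) w).1 hw)
      (mem_orbit_self ω)
  have hUtrans : ∀ α : Ω, ∃ x ∈ U, x • ω = α := by
    have : orbit U ω = Set.univ := Set.eq_of_subset_of_ncard_le (Set.subset_univ _)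
      (by rw [Set.ncard_univ]; exact hbn'.ge)
    intro α
    obtain ⟨x, hx⟩ := this.ge (Set.mem_univ α)
    exact ⟨x, x.2, hx⟩
  have hfix : ∀ x : G, (∀ y ∈ U, Commute x y) → x • ω = ω → x = 1 := by
    intro x hx hxω
    refine FaithfulSMul.eq_of_smul_eq_smul fun α : Ω => ?_
    obtain ⟨y, hy, rfl⟩ := hUtrans α
    rw [one_smul, ← mul_smul, (hx y hy).eq, mul_smul, hxω]
  set R := Subgroup.normalizer (U : Set G) ⊓ stabilizer G ω with hR
  have hRD : R ⊔ D = ⊤ := cover_mono hAω (inf_le_inf_right _ inf_le_right)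
  -- a subgroup of `U` invariant under a covering subgroup of `R`
  have key : ∀ B : Subgroup G, B ≤ R → B ⊔ D = ⊤ → ∀ W ≤ U,
      (∀ a ∈ B, ∀ w ∈ W, a * w * a⁻¹ ∈ W) → (orbit W ω).ncard = 1 ∨ (orbit W ω).ncard = n := by
    intro B hB hBD W hW hnorm
    obtain ⟨d, hd⟩ := IsPGroup.iff_card.1 (hUL.isPGroup.to_le hW)
    obtain ⟨i, -, hi⟩ :=
      (Nat.dvd_prime_pow hq).1 (Dvd.intro _ ((horbcard W).trans hd) : (orbit W ω).ncard ∣ q ^ d)
    have hle : (orbit W ω).ncard ≤ n := hn_def ▸ Set.ncard_le_card _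
    by_contra hcon
    push Not at hcon
    have hdvd : (orbit W ω).ncard ∣ n := by
      rw [hi, ← hbn', hbe] at hle ⊢
      exact Nat.pow_dvd_pow q ((Nat.pow_le_pow_iff_right hq.one_lt).1 hle)
    have hpos : 0 < (orbit W ω).ncard := (Set.ncard_pos).2 (nonempty_orbit ω)
    exact hsmall (sq_le_of_dvd hdvd (by omega) (by omega)
      (index_dvd_card_sub_one hU hBD (hB.trans inf_le_right) _
        (hinv B W (hB.trans inf_le_right) hnorm) (mem_orbit_self ω)) hmn)
  have hfixW : ∀ W : Subgroup G, (orbit W ω).ncard = 1 → ∀ x ∈ W, x • ω = ω := by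
    intro W h x hx
    obtain ⟨α, hα⟩ := Set.ncard_eq_one.1 h
    have h1 : x • ω ∈ orbit W ω := ⟨⟨x, hx⟩, rfl⟩
    have h2 : ω ∈ orbit W ω := mem_orbit_self ω
    rw [hα, Set.mem_singleton_iff] at h1 h2
    exact h1.trans h2.symm
  have hRU : ∀ a ∈ R, ∀ w ∈ U, a * w * a⁻¹ ∈ U := fun a ha w hw =>
    ((Subgroup.mem_normalizer_iff.1 ha.1) w).1 hw
  -- the centre of `U` is transitive, so `U` is abelian and regular
  have hUcomm : ∀ x ∈ U, ∀ y ∈ U, x * y = y * x := by
    set Z := U ⊓ Subgroup.centralizer (U : Set G) with hZ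
    have hZn : ∀ a ∈ R, ∀ z ∈ Z, a * z * a⁻¹ ∈ Z := by
      intro a ha z hz
      refine ⟨hRU a ha z hz.1, fun u hu => ?_⟩
      have hu' : a⁻¹ * u * a ∈ U := by
        have := hRU a⁻¹ (R.inv_mem ha) u hu
        rwa [inv_inv] at this
      have := Subgroup.mem_centralizer_iff.1 hz.2 _ hu'
      calc u * (a * z * a⁻¹) = a * (a⁻¹ * u * a * z) * a⁻¹ := by group
        _ = a * (z * (a⁻¹ * u * a)) * a⁻¹ := by rw [this]
        _ = a * z * a⁻¹ * u := by group
    rcases key R le_rfl hRD Z inf_le_left hZn with h1 | h1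
    · exfalso
      haveI : Nontrivial U := by
        rw [← Finite.one_lt_card_iff_nontrivial, ← hbU]
        calc 1 < b := hb1
          _ ≤ b * Nat.card Q₀ := Nat.le_mul_of_pos_right _ Nat.card_pos
      haveI : Group.IsNilpotent U := hUL.isPGroup.isNilpotent
      obtain ⟨z, hz, hz1⟩ := (Subgroup.bot_or_exists_ne_one _).resolve_left
        (Group.IsNilpotent.center_ne_bot (G := U))
      have hzZ : (z : G) ∈ Z := ⟨z.2, fun u hu =>
        congrArg Subtype.val (Subgroup.mem_center_iff.1 hz ⟨u, hu⟩)⟩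
      exact hz1 (Subtype.ext (hfix z (fun y hy => (Subgroup.mem_centralizer_iff.1 hzZ.2 y hy).symm)
        (hfixW Z h1 z hzZ)))
    · have htr : orbit Z ω = Set.univ := Set.eq_of_subset_of_ncard_le (Set.subset_univ _)
        (by rw [Set.ncard_univ]; exact h1.ge)
      have hUZ : ∀ u ∈ U, u ∈ Z := by
        intro u hu
        obtain ⟨z, hz⟩ := htr.ge (Set.mem_univ (u • ω))
        have h2 : (z : G)⁻¹ * u = 1 := by
          refine FaithfulSMul.eq_of_smul_eq_smul fun α : Ω => ?_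
          obtain ⟨w, hw⟩ := htr.ge (Set.mem_univ α)
          have hwu : Commute ((z : G)⁻¹ * u) (w : G) := by
            have a1 : Commute (z : G)⁻¹ (w : G) :=
              (Subgroup.mem_centralizer_iff.1 w.2.2 (z : G)⁻¹ (U.inv_mem z.2.1))
            exact a1.mul_left (Subgroup.mem_centralizer_iff.1 w.2.2 u hu)
          rw [one_smul, ← hw]
          show ((z : G)⁻¹ * u) • ((w : G) • ω) = (w : G) • ω
          rw [← mul_smul, hwu.eq, mul_smul]
          congr 1
          rw [mul_smul, inv_smul_eq_iff]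
          exact hz.symm
        exact inv_mul_eq_one.1 h2 ▸ z.2
      intro x hx y hy
      exact Subgroup.mem_centralizer_iff.1 (hUZ y hy).2 x hx
  have hreg : ∀ x ∈ U, x • ω = ω → x = 1 := fun x hx => hfix x fun y hy => hUcomm x hx y hy
  have hQ₀1 : Nat.card Q₀ = 1 := by
    rw [Subgroup.card_eq_one, eq_bot_iff, ← hUω]
    exact fun x hx => Subgroup.mem_bot.2 (hreg x hx.1 hx.2)
  have hcardU : Nat.card U = n := by rw [← hbU, hQ₀1, mul_one, hbn']
  have hregcard : ∀ W ≤ U, (orbit W ω).ncard = Nat.card W := by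
    intro W hW
    have := horbcard W
    rwa [show W ⊓ stabilizer G ω = ⊥ from
      eq_bot_iff.2 fun x hx => Subgroup.mem_bot.2 (hreg x (hW hx.1) hx.2),
      Subgroup.card_bot, mul_one] at this
  have hexp : ∀ x ∈ U, x ^ q = 1 := by
    let W : Subgroup G :=
      { carrier := {x | x ∈ U ∧ x ^ q = 1}
        one_mem' := ⟨one_mem _, one_pow q⟩
        mul_mem' := fun {a b} ha hb => ⟨mul_mem ha.1 hb.1, by
          rw [(show Commute a b from hUcomm a ha.1 b hb.1).mul_pow, ha.2, hb.2, one_mul]⟩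
        inv_mem' := fun {a} ha => ⟨inv_mem ha.1, by rw [inv_pow, ha.2, inv_one]⟩ }
    have hWU : W ≤ U := fun x hx => hx.1
    rcases key R le_rfl hRD W hWU (fun a ha w hw => ⟨hRU a ha w hw.1, by
      rw [conj_pow, hw.2]; group⟩) with h | h <;> rw [hregcard W hWU] at h
    · exfalso
      obtain ⟨x, hx⟩ := exists_prime_orderOf_dvd_card' (G := U) q
        (hcardU ▸ Nat.minFac_dvd n)
      have hxW : (x : G) ∈ W := ⟨x.2, by
        rw [← Subgroup.coe_pow, ← hx, pow_orderOf_eq_one, Subgroup.coe_one]⟩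
      rw [Subgroup.card_eq_one.1 h, Subgroup.mem_bot] at hxW
      rw [show x = 1 from Subtype.ext hxW, orderOf_one] at hx
      exact hq.one_lt.ne hx
    · intro x hx
      exact ((Subgroup.eq_of_le_of_card_ge hWU (h.trans hcardU.symm).ge).ge hx).2
  refine ⟨q, e, hq, hbn' ▸ hbe, U, ω, hUD, hcardU, hexp, hUcomm, hUtrans, hreg, ?_, hRD, ?_⟩
  · intro hdvd
    have h0 : (Nat.card K).factorization q = 0 := by
      have := hQ₀.card
      rw [hQ₀1] at this
      by_contra h
      exact (Nat.one_lt_pow h hq.one_lt).ne this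
    exact ((hq.factorization_pos_of_dvd Nat.card_pos.ne' (hK' ω ▸ hdvd)).ne') h0
  · intro B hB hBD W hW hnorm
    rcases key B hB hBD W hW hnorm with h | h <;> rw [hregcard W hW] at h
    · exact Or.inl (Subgroup.card_eq_one.1 h)
    · exact Or.inr (Subgroup.eq_of_le_of_card_ge hW (h.trans hcardU.symm).ge)

end CfsgLib.Derangements.UniqueFixed
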