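import Cfsg.Agent.Lib.Derangements.FixedPointOutsideCases
import Cfsg.Agent.Lib.Derangements.UniqueFixedPrimePower

/-!
# The linear case

If `S` has a non-trivial element with a non-zero fixed vector, then `(m + 1) ^ 2 ≤ |V|` as soon
as `|V| ≥ 2 ^ 1024`.
-/

set_option autoImplicit false

namespace CfsgLib.Derangements.UniqueFixed

variable {q : ℕ} [Fact q.Prime] {V : Type*} [AddCommGroup V] [Module (ZMod q) V] [Finite V]
  [Nontrivial V] {R : Type*} [Group R] [Finite R]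
  {ρ : Representation (ZMod q) R V} {S : Subgroup R}

theorem two_pow_finrank_le : 2 ^ Module.finrank (ZMod q) V ≤ Nat.card V := by
  rw [Module.natCard_eq_pow_finrank (K := ZMod q), Nat.card_zmod]
  exact Nat.pow_le_pow_left (Fact.out : q.Prime).two_le _

/-- Turning a bound `m + 1 ≤ B·y`, `y ^ (2·e) ≤ |V| ^ 2` into the conclusion. -/
theorem sq_le_of_pow_le {m n B y : ℕ} (h1 : m + 1 ≤ B * y) {e : ℕ} (he : e ≠ 0)
    (hB : B ^ (2 * e) ≤ n ^ (e - 2)) (hy : y ^ (2 * e) ≤ n ^ 2) (he2 : 2 ≤ e) :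
    (m + 1) ^ 2 ≤ n := by
  refine (Nat.pow_le_pow_iff_left he).1 ?_
  calc ((m + 1) ^ 2) ^ e ≤ ((B * y) ^ 2) ^ e :=
        Nat.pow_le_pow_left (Nat.pow_le_pow_left h1 2) e
    _ = B ^ (2 * e) * y ^ (2 * e) := by rw [← pow_mul, mul_pow]
    _ ≤ n ^ (e - 2) * n ^ 2 := Nat.mul_le_mul hB hy
    _ = n ^ e := by rw [← pow_add, Nat.sub_add_cancel he2]

theorem sq_le_of_fixed_vector (h : LinearSetting ρ S) (hs : ∃ s ∈ S, s ≠ 1 ∧ ∃ v : V, v ≠ 0 ∧ ρ s v = v)
    (hV : 2 ^ 1024 ≤ Nat.card V) : (S.index + 1) ^ 2 ≤ Nat.card V := by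
  classical
  obtain ⟨s, hsS, hs1, v₀, hv₀, hsv⟩ := hs
  -- an element of prime order with fixed vectors
  obtain ⟨r, hr, hrs⟩ := Nat.exists_prime_and_dvd (fun h1 => hs1 (orderOf_eq_one_iff.1 h1))
  haveI := Fact.mk hr
  set t₀ := s ^ (orderOf s / r) with ht₀
  have ht₀o : orderOf t₀ = r := by
    rw [ht₀, orderOf_pow_orderOf_div (orderOf_pos s).ne' hrs]
  have ht₀S : t₀ ∈ S := S.pow_mem hsS _
  have ht₀v : ρ t₀ v₀ = v₀ := fixed_pow hsv _
  haveI := h.normal
  obtain ⟨P, hP, ht₀P⟩ := exists_isSylowOf r S (Subgroup.zpowers_le.2 ht₀S)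
    (IsPGroup.of_card (n := 1) (by rw [Nat.card_zpowers, ht₀o, pow_one]))
  have ht₀P' : t₀ ∈ P := ht₀P (Subgroup.mem_zpowers _)
  set R₀ := Subgroup.normalizer (P : Set R) with hR₀
  have hcover : R₀ ⊔ S = ⊤ := by
    refine top_le_iff.1 ((hP.frattini (M := ⊤) (Subgroup.normalizer_eq_top (H := S)).ge).trans ?_)
    exact sup_le_sup_right inf_le_right S
  have hrS : r ∣ Nat.card S := ht₀o ▸ Subgroup.orderOf_dvd_natCard S ht₀S
  have hr0 : (r : ZMod q) ≠ 0 := h.cast_ne_zero hrS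
  have hconjP : ∀ g ∈ R₀, ∀ x ∈ P, g * x * g⁻¹ ∈ P := fun g hg x hx =>
    ((Subgroup.mem_normalizer_iff.1 hg) x).1 hx
  have horder : ∀ w ∈ P, w ^ r = 1 → w ≠ 1 → orderOf w = r := fun w _ hw hw1 => orderOf_eq_prime hw hw1
  -- the central elements of order `r`
  let Y : Subgroup R :=
    { carrier := {w | w ∈ P ∧ w ^ r = 1 ∧ ∀ p ∈ P, Commute w p}
      one_mem' := ⟨P.one_mem, one_pow r, fun p _ => Commute.one_left p⟩
      mul_mem' := fun {a b} ha hb => ⟨P.mul_mem ha.1 hb.1, by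
        rw [(ha.2.2 b hb.1).mul_pow, ha.2.1, hb.2.1, one_mul], fun p hp =>
          (ha.2.2 p hp).mul_left (hb.2.2 p hp)⟩
      inv_mem' := fun {a} ha => ⟨P.inv_mem ha.1, by rw [inv_pow, ha.2.1, inv_one], fun p hp =>
        (ha.2.2 p hp).inv_left⟩ }
  obtain ⟨z, hzY, hz1⟩ : ∃ z ∈ Y, z ≠ 1 := by
    haveI : Group.IsNilpotent P := hP.isPGroup.isNilpotent
    haveI : Nontrivial P := ⟨⟨t₀, ht₀P'⟩, 1, fun h1 => by
      rw [show t₀ = 1 from congrArg Subtype.val h1, orderOf_one] at ht₀o; exact hr.one_lt.ne ht₀o⟩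
    obtain ⟨x, hx, hx1⟩ := (Subgroup.bot_or_exists_ne_one _).resolve_left
      (Group.IsNilpotent.center_ne_bot (G := P))
    obtain ⟨k, hk⟩ := IsPGroup.iff_orderOf.1 hP.isPGroup x
    rcases k with _ | k
    · rw [pow_zero, orderOf_eq_one_iff] at hk; exact absurd hk hx1
    refine ⟨(x : R) ^ r ^ k, ⟨P.pow_mem x.2 _, ?_, fun p hp => ?_⟩, ?_⟩
    · rw [← pow_mul, ← pow_succ, ← hk, ← Subgroup.orderOf_coe, pow_orderOf_eq_one]
    · exact Commute.pow_left
        (congrArg Subtype.val (Subgroup.mem_center_iff.1 hx ⟨p, hp⟩)).symm _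
    · intro h1
      have h2 := orderOf_dvd_of_pow_eq_one h1
      rw [Subgroup.orderOf_coe, hk] at h2
      exact absurd ((Nat.pow_dvd_pow_iff_le_right hr.one_lt).1 h2) (by omega)
  by_cases hYc : ¬ Y ≤ Subgroup.zpowers z
  · obtain ⟨b, hb, hbz⟩ := SetLike.not_le_iff_exists.1 hYc
    refine h.sq_le_of_abelian (Y := Y) (fun w hw => hP.le hw.1) (fun w hw => hw.2.1)
      (fun x hx y hy => (hx.2.2 y hy.1).eq) hzY hb hz1 hbz hcover fun g hg => ?_
    refine Subgroup.mem_normalizer_iff.2 ?_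
    have key : ∀ g ∈ R₀, ∀ w ∈ Y, g * w * g⁻¹ ∈ Y := fun g hg w hw =>
      ⟨hconjP g hg w hw.1, by rw [conj_pow, hw.2.1]; group, fun p hp => by
        have h1 := hw.2.2 (g⁻¹ * p * g) (by simpa using hconjP g⁻¹ (inv_mem hg) p hp)
        have h2 := h1.map (MulAut.conj g).toMonoidHom
        simpa [mul_assoc] using h2⟩
    exact fun w => ⟨key g hg w, fun hw => by
      simpa [mul_assoc] using key g⁻¹ (inv_mem hg) _ hw⟩
  rw [not_not] at hYc
  have hzo : orderOf z = r := horder z hzY.1 hzY.2.1 hz1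
  have hcen : ∀ w ∈ P, w ^ r = 1 → (∀ p ∈ P, Commute w p) → w ∈ Subgroup.zpowers z :=
    fun w hw hwr hwc => hYc ⟨hw, hwr, hwc⟩
  have hznorm : ∀ g ∈ R₀, g * z * g⁻¹ ∈ Subgroup.zpowers z := fun g hg =>
    hcen _ (hconjP g hg z hzY.1) (by rw [conj_pow, hzY.2.1]; group) fun p hp => by
      have h1 := hzY.2.2 (g⁻¹ * p * g) (by simpa using hconjP g⁻¹ (inv_mem hg) p hp)
      have h2 := h1.map (MulAut.conj g).toMonoidHom
      simpa [mul_assoc] using h2
  have hznorm' : ∀ g ∈ R₀, ∀ w ∈ Subgroup.zpowers z, g * w * g⁻¹ ∈ Subgroup.zpowers z := by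
    rintro g hg _ ⟨i, rfl⟩
    show g * z ^ i * g⁻¹ ∈ _
    rw [← conj_zpow]
    exact Subgroup.zpow_mem _ (hznorm g hg) i
  have hzfix : ∀ w ∈ Subgroup.zpowers z, w ≠ 1 → ∀ v : V, ρ w v = v → v = 0 := by
    intro w hw hw1 v hv
    have hwo : orderOf w = r := horder w (Subgroup.zpowers_le.2 hzY.1 hw) (by
      obtain ⟨i, rfl⟩ := Subgroup.mem_zpowers_iff.1 hw
      rw [← zpow_natCast, ← zpow_mul, mul_comm, zpow_mul, zpow_natCast, hzY.2.1, one_zpow]) hw1
    have heq : Subgroup.zpowers w = Subgroup.zpowers z :=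
      Subgroup.eq_of_le_of_card_ge (Subgroup.zpowers_le.2 hw) (by
        rw [Nat.card_zpowers, Nat.card_zpowers, hwo, hzo])
    have h0 := h.fixedVec_eq_bot hcover (W := (Subgroup.zpowers z : Set R)) (fun g hg u hu => by
      simpa using hznorm' g⁻¹ (inv_mem hg) u hu) (Subgroup.mem_zpowers z) hz1
    exact (Submodule.eq_bot_iff _).1 h0 v (heq ▸ fixed_zpowers hv)
  have d : CentralData ρ S r P R₀ z :=
    ⟨hcover, Subgroup.le_normalizer, hP.le, hP.isPGroup, le_rfl, hzY.1, hzo, hzY.2.2, hznorm, hzfix⟩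
  set k := Module.finrank (ZMod q) V with hk
  have hk72 : k ^ 72 ≤ Nat.card V := pow_le_of_two_pow_le hV two_pow_finrank_le
  by_cases hx : ∃ x ∈ P, x ^ r = 1 ∧ (∀ p ∈ P, x * p * x⁻¹ * p⁻¹ ∈ Subgroup.zpowers z) ∧
      x ∉ Subgroup.zpowers z
  · obtain ⟨x, hxP, hxr, hxc, hxz⟩ := hx
    set E := centralLayer P (Subgroup.zpowers z) (Subgroup.zpowers_le.2 hzY.1) d.commute_zpowers r
    have hzE : z ∈ E := ⟨hzY.1, by rw [hzY.2.1]; exact one_mem _, fun p hp => by
      rw [(hzY.2.2 p hp).eq, mul_inv_cancel_right, mul_inv_cancel]; exact one_mem _⟩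
    have hxE : x ∈ E := ⟨hxP, by rw [hxr]; exact one_mem _, hxc⟩
    have hEn : ∀ g ∈ R₀, ∀ y ∈ E, g * y * g⁻¹ ∈ E := by
      rintro g hg y ⟨hy, hyr, hyc⟩
      refine ⟨hconjP g hg y hy, by rw [conj_pow]; exact hznorm' g hg _ hyr, fun p hp => ?_⟩
      have h1 := hznorm' g hg _ (hyc (g⁻¹ * p * g) (by simpa using hconjP g⁻¹ (inv_mem hg) p hp))
      simpa [mul_assoc] using h1
    -- the centre of `E`
    by_cases hZ : ∃ w ∈ layerCenter E, w ^ r = 1 ∧ w ∉ Subgroup.zpowers z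
    · obtain ⟨w, hw, hwr, hwz⟩ := hZ
      let W : Subgroup R :=
        { carrier := {u | u ∈ layerCenter E ∧ u ^ r = 1}
          one_mem' := ⟨one_mem _, one_pow r⟩
          mul_mem' := fun {a b} ha hb => ⟨mul_mem ha.1 hb.1, by
            rw [((mem_layerCenter.1 ha.1).2 b (mem_layerCenter.1 hb.1).1).mul_pow, ha.2, hb.2,
              one_mul]⟩
          inv_mem' := fun {a} ha => ⟨inv_mem ha.1, by rw [inv_pow, ha.2, inv_one]⟩ }
      have hWn : ∀ g ∈ R₀, ∀ u ∈ W, g * u * g⁻¹ ∈ W := fun g hg u hu =>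
        ⟨mem_layerCenter.2 ⟨hEn g hg u (mem_layerCenter.1 hu.1).1, fun y hy => by
          have h1 := ((mem_layerCenter.1 hu.1).2 (g⁻¹ * y * g)
            (by simpa using hEn g⁻¹ (inv_mem hg) y hy)).map (MulAut.conj g).toMonoidHom
          simpa [mul_assoc] using h1⟩, by rw [conj_pow, hu.2]; group⟩
      refine h.sq_le_of_abelian (Y := W) (fun u hu => hP.le (mem_layerCenter.1 hu.1).1.1)
        (fun u hu => hu.2)
        (fun a ha b hb => ((mem_layerCenter.1 ha.1).2 b (mem_layerCenter.1 hb.1).1).eq)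
        (a := z) (b := w) ⟨mem_layerCenter.2 ⟨hzE, fun y hy => hzY.2.2 y hy.1⟩, hzY.2.1⟩
        ⟨hw, hwr⟩ hz1 hwz hcover fun g hg => ?_
      exact Subgroup.mem_normalizer_iff.2 fun u => ⟨hWn g hg u, fun hu => by
        simpa [mul_assoc] using hWn g⁻¹ (inv_mem hg) _ hu⟩
    push Not at hZ
    have L : Layer ρ r P R₀ z E := ⟨fun y hy => hy.1, hzE, hEn,
      fun a ha b hb => ha.2.2 b hb.1, fun a ha => ha.2.1, hZ⟩
    -- an element `t` of order `r` with fixed vectors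
    obtain ⟨u, -, hu0, hcase⟩ := exists_fixed_of_two hr0 (hzY.2.2 x hxP).symm hxr hzY.2.1 ⊤
      (fun _ _ => Submodule.mem_top) (fun _ _ => Submodule.mem_top) (Submodule.mem_top (x := v₀)) hv₀
    obtain ⟨i, hi⟩ := hcase.resolve_left fun hc => hu0 (hzfix z (Subgroup.mem_zpowers z) hz1 u hc)
    set t := x * z ^ i with ht
    have htE : t ∈ E := E.mul_mem hxE (E.pow_mem hzE i)
    have htr : t ^ r = 1 := by
      rw [ht, ((hzY.2.2 x hxP).symm.pow_right i).mul_pow, hxr, ← pow_mul, mul_comm, pow_mul,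
        hzY.2.1, one_pow, one_mul]
    have htz : t ∉ Subgroup.zpowers z := fun h1 => hxz <| by
      have h2 := (Subgroup.zpowers z).mul_mem h1
        ((Subgroup.zpowers z).inv_mem (Subgroup.pow_mem _ (Subgroup.mem_zpowers z) i))
      rwa [ht, mul_inv_cancel_right] at h2
    have hU : fixedVec ρ ({t} : Set R) ≠ ⊥ := fun h0 =>
      hu0 ((Submodule.eq_bot_iff _).1 h0 u (mem_fixed_singleton.2 hi))
    obtain ⟨e, he, het⟩ : ∃ e ∈ E, ¬ Commute e t := by
      by_contra hcon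
      push Not at hcon
      exact htz (hZ t (mem_layerCenter.2 ⟨htE, fun y hy => (hcon y hy).symm⟩) htr)
    have hEk : Nat.card E ≤ k ^ 6 := L.card_le d fun hle =>
      het ((mem_layerCenter.1 (hle he)).2 t htE)
    by_cases hr2 : r = 2
    · subst hr2
      by_cases hidx : (layerCenter E).relIndex E ≤ 4
      · exact sq_le_of_small_layer h d L htE he het htr hU hidx
      · obtain ⟨y, hy, hm⟩ := fourth_le_of_large_layer h d L htE he het htr hU
          (by exact_mod_cast hr0) (not_le.1 hidx)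
        refine sq_le_of_pow_le hm (e := 4) (by norm_num) ?_ ?_ (by norm_num)
        · calc (Nat.card E ^ 3) ^ (2 * 4) ≤ ((k ^ 6) ^ 3) ^ (2 * 4) :=
                Nat.pow_le_pow_left (Nat.pow_le_pow_left hEk 3) _
            _ = (k ^ 72) ^ 2 := by rw [← pow_mul, ← pow_mul, ← pow_mul]
            _ ≤ Nat.card V ^ (4 - 2) := Nat.pow_le_pow_left hk72 2
        · calc y ^ (2 * 4) = (y ^ 4) ^ 2 := by rw [← pow_mul]
            _ ≤ _ := Nat.pow_le_pow_left hy 2
    · set c := e * t * e⁻¹ * t⁻¹ with hc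
      have hcz : c ∈ Subgroup.zpowers z := L.comm e he t htE
      have hc1 : c ≠ 1 := fun h1 => het (mul_inv_eq_iff_eq_mul.1 (mul_inv_eq_one.1 h1))
      have hc2 : c * c ≠ 1 := fun h1 => by
        have hco : orderOf c = r := horder c (Subgroup.zpowers_le.2 hzY.1 hcz) (by
          obtain ⟨i, hi⟩ := Subgroup.mem_zpowers_iff.1 hcz
          rw [← hi, ← zpow_natCast, ← zpow_mul, mul_comm, zpow_mul, zpow_natCast, hzY.2.1,
            one_zpow]) hc1
        have h2 := orderOf_dvd_of_pow_eq_one (by rwa [sq] : c ^ 2 = 1)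
        rw [hco] at h2
        exact hr2 ((Nat.prime_dvd_prime_iff_eq hr Nat.prime_two).1 h2)
      have hcube := card_fixed_cube_le d htE.1 he.1 (show e * t * e⁻¹ = c * t by
        rw [hc, inv_mul_cancel_right]) hcz hc1 hc2
      have hm := index_le_of_centralizer h d L ![t] (by intro i; fin_cases i; exact htE)
        (fixedVec ρ ({t} : Set R)) hU (fun a ha u hu => preserves_fixed (ha 0) hu)
      rw [pow_one] at hm
      refine sq_le_of_pow_le hm (e := 3) (by norm_num) ?_ ?_ (by norm_num)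
      · calc Nat.card E ^ (2 * 3) ≤ (k ^ 6) ^ (2 * 3) := Nat.pow_le_pow_left hEk _
          _ = k ^ 36 := by rw [← pow_mul]
          _ ≤ k ^ 72 := Nat.pow_le_pow_right Module.finrank_pos (by norm_num)
          _ ≤ Nat.card V ^ (3 - 2) := by rw [show 3 - 2 = 1 from rfl, pow_one]; exact hk72
      · calc Nat.card (fixedVec ρ ({t} : Set R)) ^ (2 * 3)
            = (Nat.card (fixedVec ρ ({t} : Set R)) ^ 3) ^ 2 := by rw [← pow_mul]
          _ ≤ _ := Nat.pow_le_pow_left hcube 2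
  · -- the layer has a single subgroup of order `r`
    push Not at hx
    have ht₀z : t₀ ∉ Subgroup.zpowers z := fun h1 => hv₀ (hzfix t₀ h1 (fun h2 => by
      rw [h2, orderOf_one] at ht₀o; exact hr.one_lt.ne ht₀o) v₀ ht₀v)
    rcases cyclic_or_index_two hP.isPGroup hzo hcen hx with hc | ⟨rfl, a, ha, hidx⟩
    · exact absurd (mem_zpowers_of_isCyclic hc hzY.1 hzo ht₀P' (ht₀o ▸ pow_orderOf_eq_one t₀)) ht₀z
    · exact sq_le_of_index_two h d ht₀P' (ht₀o ▸ pow_orderOf_eq_one t₀) ht₀z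
        (fun h0 => hv₀ ((Submodule.eq_bot_iff _).1 h0 v₀ (mem_fixed_singleton.2 ht₀v))) hcen ha hidx

end CfsgLib.Derangements.UniqueFixed
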