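import Cfsg.Agent.Lib.Derangements.FixedPointOutsideLayer

/-!
# The three cases in a layer of symplectic type
-/

set_option autoImplicit false

namespace CfsgLib.Derangements.UniqueFixed

variable {q : ℕ} {V : Type*} [AddCommGroup V] [Module (ZMod q) V] [Finite V]
  {R : Type*} [Group R] [Finite R]
  {ρ : Representation (ZMod q) R V} {S : Subgroup R} {r : ℕ} {P R₀ : Subgroup R} {z : R}
  {E : Subgroup R}

/-- The index is at most `|E| ^ j` times the size of a space preserved by the centraliser of `j`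
elements of `E`. -/
theorem index_le_of_centralizer (h : LinearSetting ρ S) (d : CentralData ρ S r P R₀ z)
    (L : Layer ρ r P R₀ z E) {j : ℕ} (e : Fin j → R) (he : ∀ i, e i ∈ E)
    (U : Submodule (ZMod q) V) (hU : U ≠ ⊥)
    (hpres : ∀ a : R, (∀ i, Commute a (e i)) → ∀ u ∈ U, ρ a u ∈ U) :
    S.index + 1 ≤ Nat.card E ^ j * Nat.card U := by
  set A := R₀ ⊓ Subgroup.centralizer (Set.range e)
  have hA : A.relIndex R₀ ≤ Nat.card E ^ j := by
    calc A.relIndex R₀ ≤ Nat.card (Fin j → E) := by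
          refine relIndex_le_card (fun g : R₀ => fun i =>
            (⟨(g : R) * e i * (g : R)⁻¹, L.norm g g.2 _ (he i)⟩ : E)) fun a b hab => ?_
          refine ⟨R₀.mul_mem (R₀.inv_mem a.2) b.2, Subgroup.mem_centralizer_iff.2 ?_⟩
          rintro _ ⟨i, rfl⟩
          have h' : (a : R) * e i * (a : R)⁻¹ = (b : R) * e i * (b : R)⁻¹ :=
            congrArg Subtype.val (congrFun hab i)
          calc e i * ((a : R)⁻¹ * b) = (a : R)⁻¹ * (a * e i * (a : R)⁻¹) * b := by group
            _ = (a : R)⁻¹ * (b * e i * (b : R)⁻¹) * b := by rw [h']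
            _ = (a : R)⁻¹ * b * e i := by group
      _ = _ := by rw [Nat.card_fun, Nat.card_fin]
  have hm := h.relIndex_mul_card_le (A := A) (Z := ⊥) U hU
    (fun a ha u hu => hpres a (fun i => (Subgroup.mem_centralizer_iff.1 ha.2 (e i) ⟨i, rfl⟩).symm) u hu)
    bot_le bot_le (fun w hw _ _ _ _ => Subgroup.mem_bot.1 hw)
  rw [Subgroup.card_bot, mul_one] at hm
  have h1 := h.index_mul_relIndex d.cover (inf_le_left : A ≤ R₀)
  have h2 : 0 < A.relIndex (R₀ ⊓ S) := Nat.pos_of_ne_zero Subgroup.FiniteIndex.index_ne_zero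
  have h3 : S.index ≤ Nat.card E ^ j * (Nat.card U - 1) := by
    calc S.index ≤ S.index * A.relIndex (R₀ ⊓ S) := Nat.le_mul_of_pos_right _ h2
      _ = A.relIndex R₀ * S.relIndex A := h1
      _ ≤ _ := Nat.mul_le_mul hA hm
  have h4 : 1 ≤ Nat.card E ^ j := Nat.one_le_pow _ _ Nat.card_pos
  have h5 : Nat.card E ^ j * (Nat.card U - 1) + Nat.card E ^ j = Nat.card E ^ j * Nat.card U := by
    rw [← Nat.mul_succ, Nat.succ_eq_add_one, Nat.sub_add_cancel Nat.card_pos]
  omega

/-- Three spaces on which `t` acts by distinct scalars from `⟨z⟩`. -/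
theorem card_fixed_cube_le (d : CentralData ρ S r P R₀ z) {t e c : R} (htP : t ∈ P) (heP : e ∈ P)
    (he : e * t * e⁻¹ = c * t) (hc : c ∈ Subgroup.zpowers z) (hc1 : c ≠ 1) (hc2 : c * c ≠ 1) :
    Nat.card (fixedVec ρ ({t} : Set R)) ^ 3 ≤ Nat.card V := by
  set U := fixedVec ρ ({t} : Set R)
  have hct : Commute c t := d.commute_zpowers c hc t htP
  have hce : Commute c e := d.commute_zpowers c hc e heP
  have hte : t * e = c⁻¹ * e * t := by
    calc t * e = c⁻¹ * (c * t) * e := by group
      _ = c⁻¹ * (e * t * e⁻¹) * e := by rw [he]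
      _ = _ := by group
  have hte2 : t * (e * e) = (c * c)⁻¹ * (e * e) * t := by
    calc t * (e * e) = (t * e) * e := by group
      _ = c⁻¹ * e * (t * e) := (congrArg (· * e) hte).trans (mul_assoc _ _ _)
      _ = c⁻¹ * e * (c⁻¹ * e * t) := by rw [hte]
      _ = c⁻¹ * (e * c⁻¹) * (e * t) := by simp only [mul_assoc]
      _ = c⁻¹ * (c⁻¹ * e) * (e * t) := by rw [(hce.inv_left).eq]
      _ = _ := by group
  rw [show (3 : ℕ) = 2 + 1 from rfl, pow_succ, sq, ← Nat.card_prod, ← Nat.card_prod]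
  refine Nat.card_le_card_of_injective
    (fun u => (u.1.1 : V) + ρ e (u.1.2 : V) + ρ (e * e) (u.2 : V)) ?_
  rintro ⟨⟨⟨a, ha⟩, ⟨b, hb⟩⟩, ⟨x, hx⟩⟩ ⟨⟨⟨a', ha'⟩, ⟨b', hb'⟩⟩, ⟨x', hx'⟩⟩ hab
  simp only at hab
  have hta : ρ t (a - a') = a - a' := mem_fixed_singleton.1 (U.sub_mem ha ha')
  set B := ρ e (b - b') with hB
  set X := ρ (e * e) (x - x') with hX
  have htB : ρ t B = ρ c⁻¹ B := by
    rw [hB, ← rho_mul_apply, hte, rho_mul_apply, mem_fixed_singleton.1 (U.sub_mem hb hb'),
      rho_mul_apply]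
  have htX : ρ t X = ρ (c * c)⁻¹ X := by
    rw [hX, ← rho_mul_apply, hte2, rho_mul_apply, mem_fixed_singleton.1 (U.sub_mem hx hx'),
      rho_mul_apply]
  have h0 : (a - a') + B + X = 0 := by
    rw [hB, hX, map_sub, map_sub,
      show a - a' + (ρ e b - ρ e b') + (ρ (e * e) x - ρ (e * e) x')
        = (a + ρ e b + ρ (e * e) x) - (a' + ρ e b' + ρ (e * e) x') by abel, hab, sub_self]
  have h1 := congrArg (ρ t) h0
  rw [map_add, map_add, map_zero, hta, htB, htX] at h1
  -- subtract
  have h2 : (ρ c⁻¹ B - B) + (ρ (c * c)⁻¹ X - X) = 0 := by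
    rw [show ρ c⁻¹ B - B + (ρ (c * c)⁻¹ X - X)
      = (a - a' + ρ c⁻¹ B + ρ (c * c)⁻¹ X) - (a - a' + B + X) by abel, h1, h0, sub_self]
  have hcomm : ∀ w : R, Commute t w → ∀ v, ρ t (ρ w v) = ρ w (ρ t v) := fun w hw v => by
    rw [← rho_mul_apply, hw.eq, rho_mul_apply]
  have h3 := congrArg (ρ t) h2
  rw [map_add, map_sub, map_sub, map_zero, hcomm _ hct.symm.inv_right, htB,
    hcomm _ (hct.symm.mul_right hct.symm).inv_right, htX] at h3
  have h4 := congrArg (ρ c⁻¹) h2
  rw [map_add, map_sub, map_sub, map_zero] at h4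
  set Y := ρ (c * c)⁻¹ X - X with hY
  have h5 : ρ (c * c)⁻¹ Y = ρ c⁻¹ Y := by
    rw [← sub_eq_zero]
    calc ρ (c * c)⁻¹ Y - ρ c⁻¹ Y
        = (ρ c⁻¹ (ρ c⁻¹ B) - ρ c⁻¹ B + (ρ (c * c)⁻¹ (ρ (c * c)⁻¹ X) - ρ (c * c)⁻¹ X))
          - (ρ c⁻¹ (ρ c⁻¹ B) - ρ c⁻¹ B + (ρ c⁻¹ (ρ (c * c)⁻¹ X) - ρ c⁻¹ X)) := by
            rw [hY, map_sub, map_sub]; abel
      _ = 0 := by rw [h3, h4, sub_zero]
  have hY0 : Y = 0 := by
    refine d.z_fpf c⁻¹ ((Subgroup.zpowers z).inv_mem hc) (inv_ne_one.2 hc1) _ ?_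
    apply rho_injective (ρ := ρ) c⁻¹
    rwa [← rho_mul_apply, ← mul_inv_rev]
  have hX0 : X = 0 := d.z_fpf (c * c)⁻¹ ((Subgroup.zpowers z).inv_mem
    ((Subgroup.zpowers z).mul_mem hc hc)) (inv_ne_one.2 hc2) _ (sub_eq_zero.1 hY0)
  rw [hY0, add_zero] at h2
  have hB0 : B = 0 := d.z_fpf c⁻¹ ((Subgroup.zpowers z).inv_mem hc) (inv_ne_one.2 hc1) _
    (sub_eq_zero.1 h2)
  rw [hB0, hX0, add_zero, add_zero, sub_eq_zero] at h0
  have hb0 := rho_injective (ρ := ρ) e (hB0.trans (map_zero _).symm)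
  have hx0 := rho_injective (ρ := ρ) (e * e) (hX0.trans (map_zero _).symm)
  simp only [Prod.mk.injEq, Subtype.mk.injEq]
  exact ⟨⟨h0, sub_eq_zero.1 hb0⟩, sub_eq_zero.1 hx0⟩

theorem eq_one_or_eq_of_mem_zpowers {z w : R} (hzo : orderOf z = 2) (hw : w ∈ Subgroup.zpowers z) :
    w = 1 ∨ w = z := by
  obtain ⟨i, rfl⟩ := Subgroup.mem_zpowers_iff.1 hw
  have hz2 : z ^ (2 : ℤ) = 1 := by
    rw [show (2 : ℤ) = ((2 : ℕ) : ℤ) from rfl, zpow_natCast, ← hzo, pow_orderOf_eq_one]
  rcases Int.even_or_odd i with ⟨j, rfl⟩ | ⟨j, rfl⟩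
  · left; rw [← two_mul, zpow_mul, hz2, one_zpow]
  · right; rw [zpow_add, zpow_mul, hz2, one_zpow, one_mul, zpow_one]

theorem card_eq_relIndex_mul {A B : Subgroup R} (h : A ≤ B) :
    A.relIndex B * Nat.card A = Nat.card B := by
  have h1 := Subgroup.relIndex_mul_relIndex ⊥ A B bot_le h
  rw [Subgroup.relIndex_bot_left, Subgroup.relIndex_bot_left] at h1
  rw [mul_comm, h1]

/-- The layer has index at most four over its centre. -/
theorem sq_le_of_small_layer (h : LinearSetting ρ S) (d : CentralData ρ S 2 P R₀ z)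
    (L : Layer ρ 2 P R₀ z E) {t e : R} (htE : t ∈ E) (heE : e ∈ E) (hne : ¬ Commute e t)
    (ht : t ^ 2 = 1) (hU : fixedVec ρ ({t} : Set R) ≠ ⊥)
    (hsmall : (layerCenter E).relIndex E ≤ 4) : (S.index + 1) ^ 2 ≤ Nat.card V := by
  classical
  haveI : Fact (Nat.Prime 2) := ⟨Nat.prime_two⟩
  set C := layerCenter E with hC
  have hCE : C ≤ E := fun x hx => (mem_layerCenter.1 hx).1
  have hCc : ∀ x ∈ C, ∀ y ∈ E, Commute x y := fun x hx => (mem_layerCenter.1 hx).2
  have hzo : orderOf z = 2 := d.z_order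
  have hzC : z ∈ C := mem_layerCenter.2 ⟨L.z_mem, fun y hy => d.z_comm y (L.le hy)⟩
  have hc0 : e * t * e⁻¹ * t⁻¹ = z := (eq_one_or_eq_of_mem_zpowers hzo (L.comm e heE t htE)).resolve_left
    fun h1 => hne (mul_inv_eq_iff_eq_mul.1 (by rwa [mul_inv_eq_one] at h1) : e * t = t * e)
  set T : Set R := {x | x ∈ E ∧ x ∉ C ∧ x ^ 2 = 1} with hT
  have hTle : T.ncard ≤ 2 * Nat.card C := by
    set CE := E ⊓ Subgroup.centralizer ({t} : Set R) with hCEt
    by_cases hall : ∀ x ∈ T, Commute x t
    · have h1 : T.ncard ≤ Nat.card CE := by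
        rw [← Nat.card_coe_set_eq]
        exact Nat.card_le_card_of_injective (fun x => (⟨x.1, x.2.1,
          Subgroup.mem_centralizer_singleton_iff.2 (hall x x.2).eq⟩ : CE))
          (fun a b hab => Subtype.ext (congrArg Subtype.val hab :))
      have h2 := card_eq_relIndex_mul (inf_le_left : CE ≤ E)
      have h3 := card_eq_relIndex_mul hCE
      have h4 : 2 ≤ CE.relIndex E := by
        rcases Nat.lt_or_ge (CE.relIndex E) 2 with h5 | h5
        · have h6 : 0 < CE.relIndex E := Nat.pos_of_ne_zero Subgroup.FiniteIndex.index_ne_zero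
          have h7 := Subgroup.relIndex_eq_one.1 (show CE.relIndex E = 1 by omega) heE
          exact absurd (Subgroup.mem_centralizer_singleton_iff.1 h7.2) hne
        · exact h5
      nlinarith
    · push Not at hall
      obtain ⟨t', ⟨ht'E, ht'C, ht'⟩, ht't⟩ := hall
      have htC : t ∉ C := fun h1 => hne (hCc t h1 e heE).symm
      have hprod : t * t' ∉ C := fun h1 => ht't <| by
        have h2 : Commute (t * t') t := hCc _ h1 t htE
        have h3 : t * (t' * t) = t * (t * t') := by rw [← mul_assoc]; exact h2.eq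
        exact mul_left_cancel h3
      have htinv : t⁻¹ = t := inv_eq_of_mul_eq_one_right (by rw [← sq]; exact ht)
      have htcomm : t' * t = z * (t * t') := by
        rcases eq_one_or_eq_of_mem_zpowers hzo (L.comm t' ht'E t htE) with h1 | h1
        · exact absurd (mul_inv_eq_iff_eq_mul.1 (by rwa [mul_inv_eq_one] at h1) : t' * t = t * t') ht't
        · calc t' * t = (t' * t * t'⁻¹ * t⁻¹) * (t * t') := by group
            _ = z * (t * t') := by rw [h1]
      -- the cosets of `1, t, t', t t'` exhaust `E`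
      have hcov : ∀ x ∈ E, x ∈ C ∨ t⁻¹ * x ∈ C ∨ t'⁻¹ * x ∈ C ∨ (t * t')⁻¹ * x ∈ C := by
        intro x hx
        by_contra hcon
        push Not at hcon
        obtain ⟨c1, c2, c3, c4⟩ := hcon
        let f : Fin 5 → E ⧸ C.subgroupOf E :=
          ![↑(1 : E), ↑(⟨t, htE⟩ : E), ↑(⟨t', ht'E⟩ : E), ↑(⟨t * t', E.mul_mem htE ht'E⟩ : E),
            ↑(⟨x, hx⟩ : E)]
        have hf : Function.Injective f := by
          have h12 : t⁻¹ * t' ∉ C := by rw [htinv]; exact hprod
          have h13 : t⁻¹ * (t * t') ∉ C := by rw [inv_mul_cancel_left]; exact ht'C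
          have h23 : t'⁻¹ * (t * t') ∉ C := fun h1 => htC <| by
            have h2 : t' * (t'⁻¹ * (t * t')) * t'⁻¹ = t'⁻¹ * (t * t') := by
              rw [← (hCc _ h1 t' ht'E).eq, mul_inv_cancel_right]
            have h3 : t = t' * (t'⁻¹ * (t * t')) * t'⁻¹ := by group
            rw [h3, h2]; exact h1
          intro i j hij
          fin_cases i <;> fin_cases j <;>
            first
            | rfl
            | (exfalso; simp only [f, Fin.isValue, Matrix.cons_val, Matrix.cons_val_zero,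
                Matrix.cons_val_one, Fin.zero_eta, Fin.mk_one, Fin.reduceFinMk] at hij
               first
               | (rw [QuotientGroup.eq, Subgroup.mem_subgroupOf] at hij
                  simp only [Subgroup.coe_mul, Subgroup.coe_inv, Subgroup.coe_one, inv_one, one_mul,
                    mul_one] at hij
                  first
                  | exact htC hij | exact ht'C hij | exact hprod hij | exact c1 hij
                  | exact c2 hij | exact c3 hij | exact c4 hij
                  | exact h12 hij | exact h13 hij | exact h23 hij)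
               | (rw [eq_comm, QuotientGroup.eq, Subgroup.mem_subgroupOf] at hij
                  simp only [Subgroup.coe_mul, Subgroup.coe_inv, Subgroup.coe_one, inv_one, one_mul,
                    mul_one] at hij
                  first
                  | exact htC hij | exact ht'C hij | exact hprod hij | exact c1 hij
                  | exact c2 hij | exact c3 hij | exact c4 hij
                  | exact h12 hij | exact h13 hij | exact h23 hij))
        have := Nat.card_le_card_of_injective f hf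
        rw [Nat.card_eq_fintype_card, Fintype.card_fin] at this
        rw [Subgroup.relIndex, Subgroup.index] at hsmall
        omega
      have hsq : ∀ u ∈ E, ∀ w ∈ C, (u * w) ^ 2 = u ^ 2 * w ^ 2 := fun u hu w hw =>
        ((hCc w hw u hu).symm).mul_pow 2
      have hw2 : ∀ w ∈ C, w ^ 2 = 1 → w = 1 ∨ w = z := fun w hw h1 =>
        eq_one_or_eq_of_mem_zpowers hzo (L.center w hw h1)
      have htt' : (t * t') ^ 2 = z := by
        calc (t * t') ^ 2 = t * (t' * t) * t' := by rw [sq]; simp only [mul_assoc]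
          _ = t * (z * (t * t')) * t' := by rw [htcomm]
          _ = z * (t ^ 2 * t' ^ 2) := by
            have h1 := (d.z_comm t (L.le htE)).eq
            rw [← mul_assoc t z, ← h1, sq, sq]; simp only [mul_assoc]
          _ = z := by rw [ht, ht', one_mul, mul_one]
      have hz2 : z ^ 2 = 1 := hzo ▸ pow_orderOf_eq_one z
      set W : Set R := {w | w ∈ C ∧ w ^ 2 = z} with hW
      have hsub : T ⊆ ({t, t * z, t', t' * z} : Set R) ∪ (fun w => t * t' * w) '' W := by
        rintro x ⟨hxE, hxC, hx2⟩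
        rcases hcov x hxE with h1 | h1 | h1 | h1
        · exact absurd h1 hxC
        · have h2 := hsq t htE _ h1
          rw [mul_inv_cancel_left, hx2, ht, one_mul] at h2
          rcases hw2 _ h1 h2.symm with h3 | h3 <;> rw [inv_mul_eq_iff_eq_mul] at h3 <;> subst h3 <;>
            simp
        · have h2 := hsq t' ht'E _ h1
          rw [mul_inv_cancel_left, hx2, ht', one_mul] at h2
          rcases hw2 _ h1 h2.symm with h3 | h3 <;> rw [inv_mul_eq_iff_eq_mul] at h3 <;> subst h3 <;>
            simp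
        · right
          have h2 := hsq (t * t') (E.mul_mem htE ht'E) _ h1
          rw [mul_inv_cancel_left, hx2, htt'] at h2
          refine ⟨_, ⟨h1, ?_⟩, mul_inv_cancel_left _ _⟩
          rw [sq z] at hz2
          exact (eq_inv_of_mul_eq_one_right h2.symm).trans (inv_eq_of_mul_eq_one_right hz2)
      have h4 : ({t, t * z, t', t' * z} : Set R).ncard ≤ 4 := by
        refine (Set.ncard_insert_le _ _).trans (Nat.succ_le_succ ?_)
        refine (Set.ncard_insert_le _ _).trans (Nat.succ_le_succ ?_)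
        refine (Set.ncard_insert_le _ _).trans (Nat.succ_le_succ ?_)
        exact (Set.ncard_singleton _).le
      have h5 : T.ncard ≤ 4 + ((fun w => t * t' * w) '' W).ncard :=
        (Set.ncard_le_ncard hsub).trans ((Set.ncard_union_le _ _).trans (Nat.add_le_add_right h4 _))
      have h6 : ((fun w => t * t' * w) '' W).ncard ≤ Nat.card C := by
        refine (Set.ncard_image_le (Set.toFinite _)).trans ?_
        rw [← Nat.card_coe_set_eq]
        exact Nat.card_le_card_of_injective (fun w => (⟨w.1, w.2.1⟩ : C))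
          (fun a b hab => Subtype.ext (congrArg Subtype.val hab :))
      have h7 : Nat.card (Subgroup.zpowers z) ∣ Nat.card C :=
        Subgroup.card_dvd_of_le (Subgroup.zpowers_le.2 hzC)
      rw [Nat.card_zpowers, hzo] at h7
      obtain ⟨c, hc⟩ := h7
      have hpos : 0 < Nat.card C := Nat.card_pos
      by_cases hc1 : c = 1
      · -- then the centre is `⟨z⟩` and nothing squares to `z`
        have hWe : W = ∅ := by
          refine Set.eq_empty_iff_forall_notMem.2 fun w ⟨hw, hw'⟩ => ?_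
          have hCz : Subgroup.zpowers z = C := Subgroup.eq_of_le_of_card_ge
            (Subgroup.zpowers_le.2 hzC) (by rw [hc, hc1, mul_one, Nat.card_zpowers, hzo])
          have hz1 : z ≠ 1 := fun h1 => by rw [h1, orderOf_one] at hzo; omega
          rcases eq_one_or_eq_of_mem_zpowers hzo (hCz ▸ hw) with rfl | rfl
          · rw [one_pow] at hw'; exact hz1 hw'.symm
          · exact hz1 (hw'.symm.trans hz2)
        rw [hWe, Set.image_empty, Set.ncard_empty] at h5
        omega
      · omega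
  refine sq_le_of_count h d hU T (fun g hg => ?_) C (hCE.trans L.le) (fun w hw => hCc w hw t htE)
    (fun w hw hw1 v hv => L.center_fpf d hw hw1 hv) E L.le ?_ (g := e) (c := z) ?_
    (Subgroup.mem_zpowers z) (fun h1 => by rw [h1, orderOf_one] at hzo; omega)
  · refine ⟨L.norm g hg t htE, fun h1 => hne ?_, by rw [conj_pow, ht]; group⟩
    have h2 := (hCc _ h1 (g * e * g⁻¹) (L.norm g hg e heE)).map (MulAut.conj g⁻¹).toMonoidHom
    simpa [mul_assoc] using h2.symm
  · calc T.ncard ≤ 2 * Nat.card C := hTle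
      _ ≤ _ := by
        rw [mul_comm]
        refine Nat.mul_le_mul_left _ ?_
        by_contra hlt
        have h1 : 0 < (Subgroup.centralizer ({t} : Set R)).relIndex E :=
          Nat.pos_of_ne_zero Subgroup.FiniteIndex.index_ne_zero
        exact hne (Subgroup.mem_centralizer_singleton_iff.1
          (Subgroup.relIndex_eq_one.1 (by omega) heE))
  · calc e * t * e⁻¹ = (e * t * e⁻¹ * t⁻¹) * t := by group
      _ = z * t := by rw [hc0]

/-- The layer is large. -/
theorem fourth_le_of_large_layer [Fact q.Prime] (h : LinearSetting ρ S) (d : CentralData ρ S 2 P R₀ z)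
    (L : Layer ρ 2 P R₀ z E) {t e : R} (htE : t ∈ E) (heE : e ∈ E) (hne : ¬ Commute e t)
    (ht : t ^ 2 = 1) (hU : fixedVec ρ ({t} : Set R) ≠ ⊥) (h2 : (2 : ZMod q) ≠ 0)
    (hlarge : 4 < (layerCenter E).relIndex E) :
    ∃ y : ℕ, y ^ 4 ≤ Nat.card V ∧ S.index + 1 ≤ Nat.card E ^ 3 * y := by
  classical
  set C := layerCenter E with hC
  have hCE : C ≤ E := fun x hx => (mem_layerCenter.1 hx).1
  have hzo : orderOf z = 2 := d.z_order
  have hz1 : z ≠ 1 := fun h1 => by rw [h1, orderOf_one] at hzo; omega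
  have hzc : ∀ x ∈ E, ∀ y ∈ E, x * y = y * x ∨ x * y = z * (y * x) := fun x hx y hy => by
    rcases eq_one_or_eq_of_mem_zpowers hzo (L.comm x hx y hy) with h1 | h1
    · left; exact mul_inv_eq_iff_eq_mul.1 (by rwa [mul_inv_eq_one] at h1)
    · right
      calc x * y = (x * y * x⁻¹ * y⁻¹) * (y * x) := by group
        _ = _ := by rw [h1]
  have hzcomm : ∀ x ∈ E, z * x = x * z := fun x hx => (d.z_comm x (L.le hx)).eq
  set CE := E ⊓ Subgroup.centralizer ({t} : Set R) with hCEt
  have htinv : t⁻¹ = t := inv_eq_of_mul_eq_one_right (by rw [← sq]; exact ht)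
  have hCE2 : CE.relIndex E ≤ 2 := by
    calc CE.relIndex E ≤ Nat.card (Subgroup.zpowers z) := by
          refine relIndex_le_card (fun g : E =>
            (⟨(g : R) * t * (g : R)⁻¹ * t⁻¹, L.comm g g.2 t htE⟩ : Subgroup.zpowers z))
            fun a b hab => ?_
          refine ⟨E.mul_mem (E.inv_mem a.2) b.2, Subgroup.mem_centralizer_singleton_iff.2 ?_⟩
          have h' : (a : R) * t * (a : R)⁻¹ = (b : R) * t * (b : R)⁻¹ :=
            mul_right_cancel (congrArg Subtype.val hab :)
          calc (a : R)⁻¹ * b * t = (a : R)⁻¹ * (b * t * (b : R)⁻¹) * b := by group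
            _ = (a : R)⁻¹ * (a * t * (a : R)⁻¹) * b := by rw [h']
            _ = t * ((a : R)⁻¹ * b) := by group
      _ = 2 := by rw [Nat.card_zpowers, hzo]
  obtain ⟨e₁, he₁, he₁C, he₁t⟩ : ∃ e₁ ∈ CE, e₁ ∉ C ∧ e₁ * t ∉ C := by
    by_contra hcon
    push Not at hcon
    let f : CE → C × Bool := fun x =>
      if hx : (x : R) ∈ C then (⟨x, hx⟩, true) else (⟨(x : R) * t, hcon x x.2 hx⟩, false)
    have hf : Function.Injective f := by
      intro a b hab
      by_cases ha : (a : R) ∈ C <;> by_cases hb : (b : R) ∈ C <;>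
        simp only [f, ha, hb, dite_true, dite_false, Prod.mk.injEq, Subtype.mk.injEq,
          mul_left_inj, reduceCtorEq, and_false, and_true] at hab
      · exact Subtype.ext hab
      · exact Subtype.ext hab
    have h3 := Nat.card_le_card_of_injective f hf
    rw [Nat.card_prod, Nat.card_eq_fintype_card (α := Bool), Fintype.card_bool] at h3
    have h4 := card_eq_relIndex_mul (inf_le_left : CE ≤ E)
    have h5 := card_eq_relIndex_mul hCE
    have h6 : 0 < Nat.card C := Nat.card_pos
    have h7 : Nat.card E ≤ 4 * Nat.card C := by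
      rw [← h4]
      calc CE.relIndex E * Nat.card CE ≤ 2 * (Nat.card C * 2) := Nat.mul_le_mul hCE2 h3
        _ = _ := by ring
    nlinarith
  have he₁tc : Commute e₁ t := Subgroup.mem_centralizer_singleton_iff.1 he₁.2
  obtain ⟨e₂, he₂, he₁₂⟩ : ∃ e₂ ∈ CE, ¬ Commute e₁ e₂ := by
    by_contra hcon
    push Not at hcon
    -- `e₁` or `e₁ t` commutes with `e`, hence with all of `E`
    have hall : ∀ u ∈ E, (∀ c ∈ CE, Commute u c) → Commute u e → u ∈ C := by
      intro u hu hc1 hc2
      refine mem_layerCenter.2 ⟨hu, fun x hx => ?_⟩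
      by_cases hxt : x * t = t * x
      · exact hc1 x ⟨hx, Subgroup.mem_centralizer_singleton_iff.2 hxt⟩
      · have h3 := (hzc x hx t htE).resolve_left hxt
        have h4 := (hzc e heE t htE).resolve_left hne
        have h5 : e⁻¹ * x ∈ CE := by
          refine ⟨E.mul_mem (E.inv_mem heE) hx, Subgroup.mem_centralizer_singleton_iff.2 ?_⟩
          have h6 : x * t * x⁻¹ = e * t * e⁻¹ := by
            rw [h3, h4]; group
          calc e⁻¹ * x * t = e⁻¹ * (x * t * x⁻¹) * x := by group
            _ = e⁻¹ * (e * t * e⁻¹) * x := by rw [h6]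
            _ = t * (e⁻¹ * x) := by group
        have h7 := hc2.mul_right (hc1 _ h5)
        rwa [mul_inv_cancel_left] at h7
    rcases hzc e₁ he₁.1 e heE with h3 | h3
    · exact he₁C (hall e₁ he₁.1 (fun c hc => hcon c hc) h3)
    · refine he₁t (hall _ (E.mul_mem he₁.1 htE) (fun c hc => (hcon c hc).mul_left
        (Subgroup.mem_centralizer_singleton_iff.1 hc.2).symm) ?_)
      have h4 := (hzc e heE t htE).resolve_left hne
      have h5 : t * e = z * (e * t) := by
        rw [h4, ← mul_assoc z z, ← sq, show z ^ 2 = 1 from hzo ▸ pow_orderOf_eq_one z, one_mul]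
      show e₁ * t * e = e * (e₁ * t)
      calc e₁ * t * e = e₁ * (z * (e * t)) := by rw [mul_assoc, h5]
        _ = z * (e₁ * e) * t := by
          rw [← mul_assoc e₁ z, ← hzcomm e₁ he₁.1]; simp only [mul_assoc]
        _ = z * (z * (e * e₁)) * t := by rw [h3]
        _ = e * (e₁ * t) := by
          rw [← mul_assoc z z, ← sq, show z ^ 2 = 1 from hzo ▸ pow_orderOf_eq_one z, one_mul, mul_assoc]
  have he₂t : Commute e₂ t := Subgroup.mem_centralizer_singleton_iff.1 he₂.2
  -- in the endomorphism ring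
  set a := ρ e₁ with ha
  set b := ρ e₂ with hb
  have hneg : ρ z = -1 := LinearMap.ext fun v => by
    have h3 : ρ z (ρ z v + v) = ρ z v + v := by
      rw [map_add, ← rho_mul_apply, ← sq, show z ^ 2 = 1 from hzo ▸ pow_orderOf_eq_one z, map_one,
        add_comm]
      rfl
    have := d.z_fpf z (Subgroup.mem_zpowers z) hz1 _ h3
    exact eq_neg_of_add_eq_zero_left this
  have hba : b * a = -(a * b) := by
    rw [ha, hb, ← map_mul, ← map_mul, (hzc e₂ he₂.1 e₁ he₁.1).resolve_left fun h3 => he₁₂ h3.symm,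
      map_mul, hneg, neg_one_mul]
  have hsq : ∀ x ∈ E, ρ x * ρ x = 1 ∨ ρ x * ρ x = -1 := fun x hx => by
    rcases eq_one_or_eq_of_mem_zpowers hzo (L.pow x hx) with h3 | h3
    · left; rw [← map_mul, ← sq, h3, map_one]
    · right; rw [← map_mul, ← sq, h3, hneg]
  obtain ⟨x, y, hJ, hJb⟩ : ∃ x y : ZMod q, (x • a + y • b) * (x • a + y • b) = 1 ∧
      (x • a + y • b) * (a * b) = -((a * b) * (x • a + y • b)) := by
    have haab : (a * b) * a = -(a * a * b) := by rw [mul_assoc, hba, mul_neg, mul_assoc]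
    have hbab : b * (a * b) = -(a * b * b) := by rw [← mul_assoc, hba, neg_mul]
    have hanti : ∀ x y : ZMod q,
        (x • a + y • b) * (a * b) = -((a * b) * (x • a + y • b)) := fun x y => by
      rw [add_mul, mul_add, smul_mul_assoc, smul_mul_assoc, mul_smul_comm, mul_smul_comm, haab, hbab,
        smul_neg, smul_neg, ← mul_assoc a a b, neg_add, neg_neg]
    rcases hsq e₁ he₁.1 with h3 | h3
    · exact ⟨1, 0, by rw [one_smul, zero_smul, add_zero]; exact h3, hanti 1 0⟩
    rcases hsq e₂ he₂.1 with h4 | h4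
    · exact ⟨0, 1, by rw [one_smul, zero_smul, zero_add]; exact h4, hanti 0 1⟩
    obtain ⟨x, y, hxy⟩ := ZMod.sq_add_sq q (-1)
    refine ⟨x, y, ?_, hanti x y⟩
    rw [add_mul, mul_add, mul_add, smul_mul_smul_comm, smul_mul_smul_comm, smul_mul_smul_comm,
      smul_mul_smul_comm, show a * a = -1 from h3, show b * b = -1 from h4, hba,
      mul_comm y x, smul_neg, smul_neg, smul_neg]
    rw [show -((x * x) • (1 : Module.End (ZMod q) V)) + (x * y) • (a * b) +
      (-((x * y) • (a * b)) + -((y * y) • 1)) = -((x * x + y * y) • 1) by rw [add_smul]; abel,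
      ← sq, ← sq, hxy, neg_smul, one_smul, neg_neg]
  set J := x • a + y • b with hJdef
  have hJg : ∀ g : R, Commute g e₁ → Commute g e₂ → ∀ v, ρ g (J v) = J (ρ g v) := fun g g1 g2 v => by
    simp only [hJdef, LinearMap.add_apply, LinearMap.smul_apply, map_add, map_smul, ha, hb]
    rw [← rho_mul_apply, g1.eq, rho_mul_apply, ← rho_mul_apply g e₂, g2.eq, rho_mul_apply]
  set U := fixedVec ρ ({t} : Set R) with hUdef
  set U₁ := U ⊓ LinearMap.ker (J - 1) with hU₁
  have hJU : ∀ v ∈ U, J v ∈ U := fun v hv => mem_fixed_singleton.2 (by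
    rw [hJg t he₁tc.symm he₂t.symm, mem_fixed_singleton.1 hv])
  have hJJ : ∀ v, J (J v) = v := fun v => LinearMap.congr_fun hJ v
  set g₀ := e₁ * e₂ with hg₀
  have hg₀U : ∀ v ∈ U, ρ g₀ v ∈ U := fun v hv => preserves_fixed (he₁tc.mul_left he₂t) hv
  have hg₀J : ∀ v, J (ρ g₀ v) = -ρ g₀ (J v) := fun v => by
    rw [hg₀, map_mul]; exact LinearMap.congr_fun hJb v
  have hU₁0 : U₁ ≠ ⊥ := by
    obtain ⟨v, hv, hv0⟩ := Submodule.exists_mem_ne_zero_of_ne_bot hU
    intro hbot
    by_cases hsum : v + J v = 0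
    · refine hv0 (rho_injective (ρ := ρ) g₀ (((Submodule.eq_bot_iff _).1 hbot (ρ g₀ v)
        ⟨hg₀U v hv, ?_⟩).trans (map_zero _).symm))
      rw [SetLike.mem_coe, LinearMap.mem_ker, LinearMap.sub_apply, sub_eq_zero, hg₀J,
        eq_neg_of_add_eq_zero_right hsum, map_neg, neg_neg]
      rfl
    · refine hsum ((Submodule.eq_bot_iff _).1 hbot _ ⟨U.add_mem hv (hJU v hv), ?_⟩)
      rw [SetLike.mem_coe, LinearMap.mem_ker, LinearMap.sub_apply, sub_eq_zero, map_add, hJJ, add_comm]
      rfl
  have hJ1 : ∀ v ∈ U₁, J v = v := fun v hv => by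
    have := LinearMap.mem_ker.1 hv.2
    rwa [LinearMap.sub_apply, sub_eq_zero] at this
  refine ⟨Nat.card U₁, ?_, index_le_of_centralizer h d L ![t, e₁, e₂] ?_ U₁ hU₁0 ?_⟩
  · calc Nat.card U₁ ^ 4 = (Nat.card U₁ ^ 2) ^ 2 := by rw [← pow_mul]
      _ ≤ Nat.card U ^ 2 := by
        refine Nat.pow_le_pow_left ?_ 2
        rw [sq, ← Nat.card_prod]
        refine Nat.card_le_card_of_injective (fun u => (⟨(u.1 : V) + ρ g₀ (u.2 : V),
          U.add_mem u.1.2.1 (hg₀U _ u.2.2.1)⟩ : U)) ?_
        rintro ⟨⟨u, hu⟩, ⟨v, hv⟩⟩ ⟨⟨u', hu'⟩, ⟨v', hv'⟩⟩ huv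
        simp only [Subtype.mk.injEq] at huv
        have h3 : u - u' = ρ g₀ (v' - v) := by
          rw [map_sub, sub_eq_sub_iff_add_eq_add, huv, add_comm]
        have h4 : J (u - u') = u - u' := hJ1 _ (U₁.sub_mem hu hu')
        have h5 : J (u - u') = -(u - u') := by
          rw [h3, hg₀J, hJ1 _ (U₁.sub_mem hv' hv)]
        have h6 : (2 : ZMod q) • (u - u') = 0 := by
          rw [two_smul]; nth_rewrite 1 [← h4]; rw [h5, neg_add_cancel]
        have h7 : u - u' = 0 := (smul_eq_zero.1 h6).resolve_left h2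
        have h8 : v' - v = 0 := rho_injective (ρ := ρ) g₀ (by rw [← h3, h7, map_zero])
        simp only [Prod.mk.injEq, Subtype.mk.injEq]
        exact ⟨sub_eq_zero.1 h7, (sub_eq_zero.1 h8).symm⟩
      _ ≤ _ := card_fixed_sq_le d (g := e) (c := z) (by
          rw [(hzc e heE t htE).resolve_left hne]; group) (Subgroup.mem_zpowers z) hz1
  · intro i; fin_cases i
    · exact htE
    · exact he₁.1
    · exact he₂.1
  · intro g hg v hv
    have g0 : Commute g t := hg 0
    have g1 : Commute g e₁ := hg 1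
    have g2 : Commute g e₂ := hg 2
    refine ⟨preserves_fixed g0 hv.1, ?_⟩
    rw [SetLike.mem_coe, LinearMap.mem_ker, LinearMap.sub_apply, sub_eq_zero, ← hJg g g1 g2, hJ1 v hv]
    rfl

end CfsgLib.Derangements.UniqueFixed
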