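import Cfsg.Agent.Lib.Derangements.FixedPointOutsideTools

/-!
# Bounding the index through the conjugates of one element with fixed vectors
-/

set_option autoImplicit false

namespace CfsgLib.Derangements.UniqueFixed

variable {q : ℕ} {V : Type*} [AddCommGroup V] [Module (ZMod q) V]
  {R : Type*} [Group R]

/-- An `r`-subgroup `P` of `S`, normalised by a supplement `R₀`, with a distinguished central
element `z` of order `r` acting without fixed vectors. -/
structure CentralData (ρ : Representation (ZMod q) R V) (S : Subgroup R) (r : ℕ)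
    (P R₀ : Subgroup R) (z : R) : Prop where
  cover : R₀ ⊔ S = ⊤
  le : P ≤ R₀
  le_S : P ≤ S
  isPGroup : IsPGroup r P
  norm : R₀ ≤ Subgroup.normalizer (P : Set R)
  z_mem : z ∈ P
  z_order : orderOf z = r
  z_comm : ∀ p ∈ P, Commute z p
  z_norm : ∀ g ∈ R₀, g * z * g⁻¹ ∈ Subgroup.zpowers z
  z_fpf : ∀ w ∈ Subgroup.zpowers z, w ≠ 1 → ∀ v : V, ρ w v = v → v = 0

variable {ρ : Representation (ZMod q) R V} {S : Subgroup R} {r : ℕ} {P R₀ : Subgroup R} {z : R}

theorem mem_fixed_singleton {t : R} {v : V} : v ∈ fixedVec ρ ({t} : Set R) ↔ ρ t v = v :=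
  ⟨fun h => h t rfl, fun h w hw => by rw [Set.mem_singleton_iff.1 hw]; exact h⟩

theorem preserves_fixed {t a : R} (ha : Commute a t) {v : V}
    (hv : v ∈ fixedVec ρ ({t} : Set R)) : ρ a v ∈ fixedVec ρ ({t} : Set R) :=
  rho_mem_fixedVec (fun w hw => by
    rw [Set.mem_singleton_iff.1 hw, Set.mem_singleton_iff, mul_assoc, ← ha.eq, inv_mul_cancel_left])
    hv

theorem CentralData.commute_zpowers (d : CentralData ρ S r P R₀ z) :
    ∀ w ∈ Subgroup.zpowers z, ∀ p ∈ P, Commute w p := by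
  intro w hw p hp
  obtain ⟨i, rfl⟩ := Subgroup.mem_zpowers_iff.1 hw
  exact (d.z_comm p hp).zpow_left i

theorem zero_of_two_fixed (d : CentralData ρ S r P R₀ z) {t c : R} (hc : c ∈ Subgroup.zpowers z)
    (hc1 : c ≠ 1) {v : V} (h1 : ρ t v = v) (h2 : ρ (c * t) v = v) : v = 0 := by
  rw [rho_mul_apply, h1] at h2
  exact d.z_fpf c hc hc1 v h2

variable [Finite V] [Finite R]

/-- An element whose fixed space meets that of a conjugate trivially has a small fixed space. -/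
theorem card_fixed_sq_le (d : CentralData ρ S r P R₀ z) {t g c : R} (hg : g * t * g⁻¹ = c * t)
    (hc : c ∈ Subgroup.zpowers z) (hc1 : c ≠ 1) :
    Nat.card (fixedVec ρ ({t} : Set R)) ^ 2 ≤ Nat.card V := by
  rw [sq, ← Nat.card_prod]
  refine Nat.card_le_card_of_injective (fun u => (u.1 : V) + ρ g (u.2 : V)) ?_
  rintro ⟨⟨a, ha⟩, ⟨b, hb⟩⟩ ⟨⟨a', ha'⟩, ⟨b', hb'⟩⟩ hab
  simp only at hab
  have h1 : a - a' = ρ g (b' - b) := by
    rw [map_sub]; rw [sub_eq_sub_iff_add_eq_add, hab, add_comm]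
  have h2 : ρ t (a - a') = a - a' := mem_fixed_singleton.1 (Submodule.sub_mem _ ha ha')
  have h3 : ρ (c * t) (a - a') = a - a' := by
    rw [← hg, h1, ← rho_mul_apply, inv_mul_cancel_right, rho_mul_apply,
      mem_fixed_singleton.1 (Submodule.sub_mem _ hb' hb)]
  have h4 := zero_of_two_fixed d hc hc1 h2 h3
  have h5 : b' - b = 0 := by
    refine rho_injective (ρ := ρ) g ?_
    rw [← h1, h4, map_zero]
  simp only [Prod.mk.injEq, Subtype.mk.injEq]
  exact ⟨sub_eq_zero.1 h4, (sub_eq_zero.1 h5).symm⟩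

/-- The bound for an involution with at most `k·o` conjugates. -/
theorem sq_le_of_count (h : LinearSetting ρ S) (d : CentralData ρ S r P R₀ z) {t : R}
    (hU : fixedVec ρ ({t} : Set R) ≠ ⊥) (T : Set R) (hT : ∀ g ∈ R₀, g * t * g⁻¹ ∈ T)
    (Z : Subgroup R) (hZP : Z ≤ P) (hZt : ∀ w ∈ Z, Commute w t)
    (hZfpf : ∀ w ∈ Z, w ≠ 1 → ∀ v : V, ρ w v = v → v = 0) (B : Subgroup R) (hB : B ≤ P)
    (hcount : T.ncard ≤ Nat.card Z * (Subgroup.centralizer ({t} : Set R)).relIndex B)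
    {g c : R} (hg : g * t * g⁻¹ = c * t) (hc : c ∈ Subgroup.zpowers z) (hc1 : c ≠ 1) :
    (S.index + 1) ^ 2 ≤ Nat.card V := by
  set C := Subgroup.centralizer ({t} : Set R)
  set A := R₀ ⊓ C with hA
  set y := Nat.card (fixedVec ρ ({t} : Set R))
  have hmA : S.relIndex A * Nat.card Z ≤ y - 1 :=
    h.relIndex_mul_card_le _ hU (fun a ha u hu => preserves_fixed
        ((Subgroup.mem_centralizer_singleton_iff.1 ha.2 : a * t = t * a)) hu)
      (le_inf (hZP.trans d.le) fun w hw => Subgroup.mem_centralizer_singleton_iff.2 (hZt w hw).eq)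
      (hZP.trans d.le_S) (fun w hw u _ hwu hu0 => by_contra fun hw1 => hu0 (hZfpf w hw hw1 u hwu))
  have horb : A.relIndex R₀ ≤ T.ncard := by
    rw [← Nat.card_coe_set_eq]
    refine relIndex_le_card (fun g : R₀ => (⟨(g : R) * t * (g : R)⁻¹, hT g g.2⟩ : T)) ?_
    intro a b hab
    refine ⟨R₀.mul_mem (R₀.inv_mem a.2) b.2, Subgroup.mem_centralizer_singleton_iff.2 ?_⟩
    have h' := congrArg Subtype.val hab
    simp only at h'
    calc (a : R)⁻¹ * b * t = (a : R)⁻¹ * (b * t * (b : R)⁻¹) * b := by group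
      _ = (a : R)⁻¹ * (a * t * (a : R)⁻¹) * b := by rw [h']
      _ = t * ((a : R)⁻¹ * b) := by group
  have hlow : C.relIndex B ≤ A.relIndex (R₀ ⊓ S) := by
    calc C.relIndex B = A.relIndex B := by
          rw [hA, ← Subgroup.inf_relIndex_right (R₀ ⊓ C), inf_comm R₀ C, inf_assoc,
            inf_eq_right.2 (hB.trans d.le), Subgroup.inf_relIndex_right]
      _ ≤ _ := Subgroup.relIndex_le_of_le_right (le_inf (hB.trans d.le) (hB.trans d.le_S))
        Subgroup.FiniteIndex.index_ne_zero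
  have hm := h.index_mul_relIndex d.cover (inf_le_left : A ≤ R₀)
  have hk : 0 < C.relIndex B := Nat.pos_of_ne_zero Subgroup.FiniteIndex.index_ne_zero
  have hmy : S.index ≤ y - 1 := by
    refine le_of_mul_le_mul_right ?_ hk
    calc S.index * C.relIndex B ≤ S.index * A.relIndex (R₀ ⊓ S) := Nat.mul_le_mul_left _ hlow
      _ = A.relIndex R₀ * S.relIndex A := hm
      _ ≤ (Nat.card Z * C.relIndex B) * S.relIndex A :=
        Nat.mul_le_mul_right _ (horb.trans hcount)
      _ = (S.relIndex A * Nat.card Z) * C.relIndex B := by ring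
      _ ≤ _ := Nat.mul_le_mul_right _ hmA
  have hy : 0 < y := Nat.card_pos
  calc (S.index + 1) ^ 2 ≤ y ^ 2 := Nat.pow_le_pow_left (by omega) 2
    _ ≤ _ := card_fixed_sq_le d hg hc hc1

/-- `P` has a cyclic subgroup of index two. -/
theorem sq_le_of_index_two (h : LinearSetting ρ S) (d : CentralData ρ S 2 P R₀ z) {t : R}
    (htP : t ∈ P) (ht : t ^ 2 = 1) (htz : t ∉ Subgroup.zpowers z)
    (hU : fixedVec ρ ({t} : Set R) ≠ ⊥)
    (hcen : ∀ w ∈ P, w ^ 2 = 1 → (∀ p ∈ P, Commute w p) → w ∈ Subgroup.zpowers z)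
    {a : R} (ha : a ∈ P) (hidx : (Subgroup.zpowers a).relIndex P = 2) :
    (S.index + 1) ^ 2 ≤ Nat.card V := by
  classical
  haveI : Fact (Nat.Prime 2) := ⟨Nat.prime_two⟩
  set A₀ := Subgroup.zpowers a with hA₀
  have hA₀P : A₀ ≤ P := Subgroup.zpowers_le.2 ha
  have hmul : ∀ {x y : R}, x ∈ P → y ∈ P → (x * y ∈ A₀ ↔ (x ∈ A₀ ↔ y ∈ A₀)) := fun hx hy => by
    have := Subgroup.mul_mem_iff_of_index_two (H := A₀.subgroupOf P) hidx (a := ⟨_, hx⟩) (b := ⟨_, hy⟩)
    simpa [Subgroup.mem_subgroupOf] using this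
  have hcyc : IsCyclic A₀ := inferInstance
  have hzA : z ∈ A₀ := by
    obtain ⟨k, hk⟩ := IsPGroup.iff_card.1 (d.isPGroup.to_le hA₀P)
    rcases k with _ | k
    · exfalso
      rw [pow_zero, Subgroup.card_eq_one] at hk
      have hcard : Nat.card P = 2 := by
        rw [hk, Subgroup.relIndex_bot_left] at hidx; exact hidx
      have : Subgroup.zpowers z = P := Subgroup.eq_of_le_of_card_ge (Subgroup.zpowers_le.2 d.z_mem)
        (by rw [hcard, Nat.card_zpowers, d.z_order])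
      exact htz (this ▸ htP)
    obtain ⟨w, hw⟩ := exists_prime_orderOf_dvd_card' (G := A₀) 2 (hk ▸ dvd_pow_self 2 k.succ_ne_zero)
    -- the involution of `A₀` is normalised, hence central
    have hw2 : (w : R) ^ 2 = 1 := by rw [← hw, ← Subgroup.orderOf_coe, pow_orderOf_eq_one]
    have hwz : (w : R) ∈ Subgroup.zpowers z := by
      refine hcen w (hA₀P w.2) hw2 fun p hp => ?_
      have hmem : p * w * p⁻¹ ∈ A₀ := by
        haveI : (A₀.subgroupOf P).Normal := Subgroup.normal_of_index_eq_two hidx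
        exact Subgroup.mem_subgroupOf.1 ((inferInstance : (A₀.subgroupOf P).Normal).conj_mem
          ⟨w, hA₀P w.2⟩ (Subgroup.mem_subgroupOf.2 w.2) ⟨p, hp⟩)
      have h2 := mem_zpowers_of_isCyclic hcyc w.2 ((Subgroup.orderOf_coe w).trans hw) hmem
        (by rw [conj_pow, hw2]; group)
      obtain ⟨j, hj⟩ := Subgroup.mem_zpowers_iff.1 h2
      rcases Int.even_or_odd j with ⟨i, rfl⟩ | ⟨i, rfl⟩
      · exfalso
        rw [← two_mul, zpow_mul, show (2 : ℤ) = ((2 : ℕ) : ℤ) from rfl, zpow_natCast, hw2, one_zpow]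
          at hj
        have h1 : (w : R) = 1 := by
          calc (w : R) = p⁻¹ * (p * w * p⁻¹) * p := by group
            _ = 1 := by rw [← hj]; group
        rw [← Subgroup.orderOf_coe, h1, orderOf_one] at hw
        omega
      · rw [zpow_add, zpow_mul, show (2 : ℤ) = ((2 : ℕ) : ℤ) from rfl, zpow_natCast, hw2, one_zpow,
          one_mul, zpow_one] at hj
        exact (mul_inv_eq_iff_eq_mul.1 hj.symm).symm
    obtain ⟨i, hi⟩ := Subgroup.mem_zpowers_iff.1 hwz
    rcases Int.even_or_odd i with ⟨j, rfl⟩ | ⟨j, rfl⟩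
    · exfalso
      rw [← two_mul, zpow_mul, show (2 : ℤ) = ((2 : ℕ) : ℤ) from rfl, zpow_natCast, ← d.z_order,
        pow_orderOf_eq_one, one_zpow] at hi
      rw [← Subgroup.orderOf_coe, ← hi, orderOf_one] at hw
      omega
    · rw [zpow_add, zpow_mul, show (2 : ℤ) = ((2 : ℕ) : ℤ) from rfl, zpow_natCast, ← d.z_order,
        pow_orderOf_eq_one, one_zpow, one_mul, zpow_one] at hi
      exact hi ▸ w.2
  have htA : t ∉ A₀ := fun htA => htz (mem_zpowers_of_isCyclic hcyc hzA d.z_order htA ht)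
  have hcomm : ∀ x ∈ A₀, ∀ y ∈ A₀, Commute x y := by
    rintro _ ⟨i, rfl⟩ _ ⟨j, rfl⟩
    exact Commute.zpow_zpow (Commute.refl a) i j
  have hconjmem : ∀ x ∈ A₀, t * x * t⁻¹ ∈ A₀ := fun x hx => by
    haveI : (A₀.subgroupOf P).Normal := Subgroup.normal_of_index_eq_two hidx
    exact Subgroup.mem_subgroupOf.1 ((inferInstance : (A₀.subgroupOf P).Normal).conj_mem
      ⟨x, hA₀P hx⟩ (Subgroup.mem_subgroupOf.2 hx) ⟨t, htP⟩)
  have htinv : t⁻¹ = t := inv_eq_of_mul_eq_one_right (by rw [← sq]; exact ht)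
  -- the inverted elements
  let I : Subgroup R :=
    { carrier := {x | x ∈ A₀ ∧ t * x * t⁻¹ = x⁻¹}
      one_mem' := ⟨A₀.one_mem, by simp⟩
      mul_mem' := fun {x y} hx hy => ⟨A₀.mul_mem hx.1 hy.1, by
        calc t * (x * y) * t⁻¹ = (t * x * t⁻¹) * (t * y * t⁻¹) := by group
          _ = (x * y)⁻¹ := by
            rw [hx.2, hy.2, mul_inv_rev, (hcomm _ (A₀.inv_mem hx.1) _ (A₀.inv_mem hy.1)).eq]⟩
      inv_mem' := fun {x} hx => ⟨A₀.inv_mem hx.1, by
        calc t * x⁻¹ * t⁻¹ = (t * x * t⁻¹)⁻¹ := by group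
          _ = (x⁻¹)⁻¹ := by rw [hx.2]⟩ }
  set C := Subgroup.centralizer ({t} : Set R)
  have hIA : I ≤ A₀ := fun x hx => hx.1
  have hIC : Nat.card (C ⊓ I : Subgroup R) ≤ 2 := by
    calc Nat.card (C ⊓ I : Subgroup R) ≤ Nat.card (Subgroup.zpowers z) := by
          refine Subgroup.card_le_of_le fun x hx => ?_
          refine mem_zpowers_of_isCyclic hcyc hzA d.z_order hx.2.1 ?_
          have h1 : t * x * t⁻¹ = x := by
            rw [← Subgroup.mem_centralizer_singleton_iff.1 hx.1, mul_inv_cancel_right]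
          rw [sq]; exact mul_eq_one_iff_eq_inv.2 (h1.symm.trans hx.2.2)
      _ = 2 := by rw [Nat.card_zpowers, d.z_order]
  have hcardI : Nat.card I ≤ 2 * C.relIndex A₀ := by
    have h1 := Subgroup.relIndex_mul_relIndex ⊥ (C ⊓ I) I bot_le inf_le_right
    rw [Subgroup.relIndex_bot_left, Subgroup.relIndex_bot_left, Subgroup.inf_relIndex_right] at h1
    rw [← h1]
    exact Nat.mul_le_mul hIC (Subgroup.relIndex_le_of_le_right hIA Subgroup.FiniteIndex.index_ne_zero)
  -- a conjugate `c * t`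
  obtain ⟨b, hb, hbt⟩ : ∃ b ∈ A₀, ¬ Commute t b := by
    by_contra hcon
    push Not at hcon
    refine htz (hcen t htP ht fun p hp => ?_)
    by_cases hpA : p ∈ A₀
    · exact hcon p hpA
    · have h1 : t * p ∈ A₀ := (hmul htP hp).2 (iff_of_false htA hpA)
      have h2 : Commute t (t⁻¹ * (t * p)) :=
        ((Commute.refl t).inv_right).mul_right (hcon _ h1)
      rwa [inv_mul_cancel_left] at h2
  set e := b * (t * b⁻¹ * t⁻¹) with he
  have heA : e ∈ A₀ := A₀.mul_mem hb (hconjmem _ (A₀.inv_mem hb))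
  have he1 : e ≠ 1 := by
    intro h1
    refine hbt ?_
    have h2 : t * b⁻¹ * t⁻¹ = b⁻¹ := eq_inv_of_mul_eq_one_right h1
    exact Commute.inv_right_iff.1 (mul_inv_eq_iff_eq_mul.1 h2)
  obtain ⟨k, hk⟩ := IsPGroup.iff_orderOf.1 (d.isPGroup.to_le hA₀P) ⟨e, heA⟩
  rw [Subgroup.orderOf_mk] at hk
  obtain ⟨j, rfl⟩ : ∃ j, k = j + 1 := ⟨k - 1, by
    rcases k with _ | k
    · rw [pow_zero, orderOf_eq_one_iff] at hk; exact absurd hk he1
    · rfl⟩
  -- a power of `b` conjugates `t` to `c t` with `c` the involution of `A₀`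
  have hpow : ∀ n : ℕ, b ^ n * (t * (b ^ n)⁻¹ * t⁻¹) = e ^ n := by
    intro n
    induction n with
    | zero => simp
    | succ n ih =>
      rw [pow_succ e, ← ih, he, pow_succ b]
      have h1 : Commute b (t * (b ^ n)⁻¹ * t⁻¹) :=
        hcomm _ hb _ (hconjmem _ (A₀.inv_mem (A₀.pow_mem hb n)))
      calc b ^ n * b * (t * (b ^ n * b)⁻¹ * t⁻¹)
          = b ^ n * b * ((t * b⁻¹ * t⁻¹) * (t * (b ^ n)⁻¹ * t⁻¹)) := by group
        _ = b ^ n * (b * (t * (b ^ n)⁻¹ * t⁻¹)) * (t * b⁻¹ * t⁻¹) := by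
          rw [(hcomm _ (hconjmem _ (A₀.inv_mem hb)) _
            (hconjmem _ (A₀.inv_mem (A₀.pow_mem hb n)))).eq]
          simp only [mul_assoc]
        _ = _ := by rw [h1.eq]; simp only [mul_assoc]
  have hco : orderOf (e ^ 2 ^ j) = 2 := by
    rw [orderOf_pow' _ (pow_ne_zero _ two_ne_zero), hk, Nat.gcd_eq_right (pow_dvd_pow 2 j.le_succ),
      pow_succ', Nat.mul_div_cancel _ (pow_pos two_pos j)]
  have hcz : e ^ 2 ^ j ∈ Subgroup.zpowers z := mem_zpowers_of_isCyclic hcyc hzA d.z_order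
    (A₀.pow_mem heA _) (orderOf_dvd_iff_pow_eq_one.1 hco.dvd)
  refine sq_le_of_count h d hU ((fun x => t * x) '' (I : Set R)) (fun g hg => ?_)
    (Subgroup.zpowers z) (Subgroup.zpowers_le.2 d.z_mem) (fun w hw => d.commute_zpowers w hw t htP)
    d.z_fpf A₀ hA₀P ?_ (g := b ^ 2 ^ j) (c := e ^ 2 ^ j) ?_ hcz ?_
  · set u := g * t * g⁻¹ with hu
    have huP : u ∈ P := ((Subgroup.mem_normalizer_iff.1 (d.norm hg)) t).1 htP
    have hu2 : u ^ 2 = 1 := by rw [hu, conj_pow, ht]; group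
    have huA : u ∉ A₀ := fun huA => htz (by
      have h1 := mem_zpowers_of_isCyclic hcyc hzA d.z_order huA hu2
      obtain ⟨i, hi⟩ := Subgroup.mem_zpowers_iff.1 h1
      have h2 : t = (g⁻¹ * z * g) ^ i := by
        rw [show (g⁻¹ * z * g) = g⁻¹ * z * g⁻¹⁻¹ by group, conj_zpow, hi, hu]; group
      rw [h2]
      have := d.z_norm g⁻¹ (R₀.inv_mem hg)
      rw [inv_inv] at this
      exact Subgroup.zpow_mem _ this i)
    have hmem : t * u ∈ A₀ := (hmul htP huP).2 (iff_of_false htA huA)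
    refine ⟨t * u, ⟨hmem, ?_⟩, (mul_assoc t t u).symm.trans (by rw [← sq, ht, one_mul])⟩
    refine eq_inv_of_mul_eq_one_left ?_
    calc t * (t * u) * t⁻¹ * (t * u) = (t * t) * (u * u) := by group
      _ = 1 := by rw [← sq, ← sq, ht, hu2, one_mul]
  · rw [Set.ncard_image_of_injective _ (mul_right_injective t), Nat.card_zpowers, d.z_order]
    exact (Nat.card_coe_set_eq _).symm.trans_le hcardI
  · rw [← hpow]; group
  · intro h1; rw [h1, orderOf_one] at hco; omega

end CfsgLib.Derangements.UniqueFixed
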