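import Cfsg.Agent.Lib.Derangements.FixedPointOutsideInvolution

/-!
# The layer of symplectic type

`E` is a subgroup with commutators in `⟨z⟩` and trivial action of the centre on fixed vectors.
Representatives of the cosets of its centre are linearly independent endomorphisms, so `E` is
small; this bounds the conjugates of an element of `E` with fixed vectors.
-/

set_option autoImplicit false

namespace CfsgLib.Derangements.UniqueFixed

variable {q : ℕ} {V : Type*} [AddCommGroup V] [Module (ZMod q) V] [Finite V]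
  {R : Type*} [Group R] [Finite R]
  {ρ : Representation (ZMod q) R V} {S : Subgroup R} {r : ℕ} {P R₀ : Subgroup R} {z : R}

/-- The centre of `E`, as a subgroup of `R`. -/
def layerCenter (E : Subgroup R) : Subgroup R := E ⊓ Subgroup.centralizer (E : Set R)

omit [Finite R] in
theorem mem_layerCenter {E : Subgroup R} {x : R} :
    x ∈ layerCenter E ↔ x ∈ E ∧ ∀ y ∈ E, Commute x y :=
  ⟨fun h => ⟨h.1, fun y hy => (Subgroup.mem_centralizer_iff.1 h.2 y hy).symm⟩,
    fun h => ⟨h.1, Subgroup.mem_centralizer_iff.2 fun y hy => (h.2 y hy).eq.symm⟩⟩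

/-- A subgroup of `P` of class two with respect to `⟨z⟩`. -/
structure Layer (ρ : Representation (ZMod q) R V) (r : ℕ) (P R₀ : Subgroup R) (z : R)
    (E : Subgroup R) : Prop where
  le : E ≤ P
  z_mem : z ∈ E
  norm : ∀ g ∈ R₀, ∀ x ∈ E, g * x * g⁻¹ ∈ E
  comm : ∀ x ∈ E, ∀ y ∈ E, x * y * x⁻¹ * y⁻¹ ∈ Subgroup.zpowers z
  pow : ∀ x ∈ E, x ^ r ∈ Subgroup.zpowers z
  center : ∀ x ∈ layerCenter E, x ^ r = 1 → x ∈ Subgroup.zpowers z

variable {E : Subgroup R}

omit [Finite V] in
theorem Layer.card_center_le [Fact r.Prime] (L : Layer ρ r P R₀ z E) (hzo : orderOf z = r) :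
    Nat.card (layerCenter E) ≤ r * r := by
  let f : layerCenter E →* R :=
    { toFun := fun x => (x : R) ^ r
      map_one' := by simp
      map_mul' := fun x y => by
        show ((x : R) * y) ^ r = _
        exact ((mem_layerCenter.1 x.2).2 y (mem_layerCenter.1 y.2).1).mul_pow r }
  rw [← Subgroup.card_mul_index f.ker, Subgroup.index_ker]
  refine Nat.mul_le_mul ?_ ?_
  · calc Nat.card f.ker ≤ Nat.card (Subgroup.zpowers z) :=
          Nat.card_le_card_of_injective (fun x => (⟨(x.1 : R), L.center _ x.1.2 x.2⟩ : Subgroup.zpowers z))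
            (fun a b hab => Subtype.ext (Subtype.ext (congrArg Subtype.val hab :)))
      _ = r := by rw [Nat.card_zpowers, hzo]
  · calc Nat.card f.range ≤ Nat.card (Subgroup.zpowers z) := Subgroup.card_le_of_le (by
          rintro _ ⟨x, rfl⟩; exact L.pow x (mem_layerCenter.1 x.2).1)
      _ = r := by rw [Nat.card_zpowers, hzo]

omit [Finite V] in
theorem Layer.center_fpf [Fact r.Prime] (L : Layer ρ r P R₀ z E) (d : CentralData ρ S r P R₀ z)
    {w : R} (hw : w ∈ layerCenter E) (hw1 : w ≠ 1) {v : V} (hv : ρ w v = v) : v = 0 := by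
  obtain ⟨k, hk⟩ := IsPGroup.iff_orderOf.1 d.isPGroup
    ⟨w, L.le (mem_layerCenter.1 hw).1⟩
  rw [Subgroup.orderOf_mk] at hk
  rcases k with _ | k
  · rw [pow_zero, orderOf_eq_one_iff] at hk; exact absurd hk hw1
  have h1 : (w ^ r ^ k) ^ r = 1 := by rw [← pow_mul, ← pow_succ, ← hk, pow_orderOf_eq_one]
  have h2 : w ^ r ^ k ≠ 1 := by
    intro hone
    have := orderOf_dvd_of_pow_eq_one hone
    rw [hk] at this
    exact absurd ((Nat.pow_dvd_pow_iff_le_right (Fact.out : r.Prime).one_lt).1 this) (by omega)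
  exact d.z_fpf _ (L.center _ ((layerCenter E).pow_mem hw _) h1) h2 v (fixed_pow hv _)

omit [Finite R] in
theorem surjective_of_fpf {T : V →ₗ[ZMod q] V} (hT : ∀ v, T v = 0 → v = 0) : Function.Surjective T :=
  Finite.surjective_of_injective ((injective_iff_map_eq_zero T).2 hT)

/-- Representatives of `E` modulo its centre are linearly independent endomorphisms. -/
theorem Layer.relIndex_le [Fact q.Prime] [Fact r.Prime] [Nontrivial V] (L : Layer ρ r P R₀ z E)
    (d : CentralData ρ S r P R₀ z) :
    (layerCenter E).relIndex E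
      ≤ Module.finrank (ZMod q) V * Module.finrank (ZMod q) V := by
  classical
  let Q := E ⧸ (layerCenter E).subgroupOf E
  let g : Q → R := fun x => ((x.out : E) : R)
  have hgE : ∀ x : Q, g x ∈ E := fun x => x.out.2
  have key : ∀ (n : ℕ) (s : Finset Q), s.card = n → ∀ c : Q → Module.End (ZMod q) V,
      (∀ x, ∀ e ∈ E, c x * ρ e = ρ e * c x) → ∑ x ∈ s, c x * ρ (g x) = 0 → ∀ x ∈ s, c x = 0 := by
    intro n
    induction n using Nat.strong_induction_on with
    | _ n ih =>
      intro s hs c hc hsum x hx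
      by_contra hx0
      obtain ⟨h₀, hh₀, hne⟩ : ∃ y ∈ s, y ≠ x := by
        by_contra hcon
        push Not at hcon
        rw [Finset.sum_eq_single x (fun b hb hbx => absurd (hcon b hb) hbx)
          (fun hh => absurd hx hh)] at hsum
        refine hx0 (LinearMap.ext fun v => ?_)
        obtain ⟨w, rfl⟩ := Finite.surjective_of_injective (rho_injective (ρ := ρ) (g x)) v
        exact LinearMap.congr_fun hsum w
      -- an element of `E` telling the two cosets apart
      obtain ⟨e, he, hdiff⟩ : ∃ e ∈ E,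
          e * g x * e⁻¹ * (g x)⁻¹ ≠ e * g h₀ * e⁻¹ * (g h₀)⁻¹ := by
        by_contra hcon
        push Not at hcon
        refine hne ?_
        rw [← QuotientGroup.out_eq' h₀, ← QuotientGroup.out_eq' x, QuotientGroup.eq,
          Subgroup.mem_subgroupOf]
        refine mem_layerCenter.2 ⟨(h₀.out⁻¹ * x.out).2, fun e he => ?_⟩
        have hw := L.comm e he _ (hgE h₀)
        set w := e * g h₀ * e⁻¹ * (g h₀)⁻¹ with hw'
        have h1 : e * g x * e⁻¹ = w * g x := by
          calc e * g x * e⁻¹ = (e * g x * e⁻¹ * (g x)⁻¹) * g x := by group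
            _ = w * g x := by rw [hcon e he]
        have h2 : e * g h₀ * e⁻¹ = w * g h₀ := by
          calc e * g h₀ * e⁻¹ = (e * g h₀ * e⁻¹ * (g h₀)⁻¹) * g h₀ := by group
            _ = w * g h₀ := rfl
        have h3 : e * ((g h₀)⁻¹ * g x) * e⁻¹ = (g h₀)⁻¹ * g x := by
          calc e * ((g h₀)⁻¹ * g x) * e⁻¹ = (e * g h₀ * e⁻¹)⁻¹ * (e * g x * e⁻¹) := by group
            _ = _ := by rw [h1, h2]; group
        exact (mul_inv_eq_iff_eq_mul.1 h3).symm
      set w : Q → R := fun y => e * g y * e⁻¹ * (g y)⁻¹ with hwdef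
      have hwZ : ∀ y, w y ∈ Subgroup.zpowers z := fun y => L.comm e he _ (hgE y)
      have hwE : ∀ y, ∀ f ∈ E, Commute (w y) f := fun y f hf =>
        d.commute_zpowers _ (hwZ y) f (L.le hf)
      set c' : Q → Module.End (ZMod q) V := fun y => c y * (ρ (w y) - ρ (w h₀)) with hc'
      have hc'comm : ∀ y, ∀ f ∈ E, c' y * ρ f = ρ f * c' y := by
        intro y f hf
        have hwc : ∀ y, Commute (ρ (w y)) (ρ f) := fun y => (hwE y f hf).map ρ
        exact (Commute.mul_left (hc y f hf : Commute (c y) (ρ f)) ((hwc y).sub_left (hwc h₀))).eq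
      have hsum' : ∑ y ∈ s, c' y * ρ (g y) = 0 := by
        have h1 : ∑ y ∈ s, c y * ρ (w y) * ρ (g y) = 0 := by
          have h2 := congrArg (fun T => ρ e * T * ρ e⁻¹) hsum
          simp only [Finset.mul_sum, Finset.sum_mul, mul_zero, zero_mul] at h2
          rw [← h2]
          refine Finset.sum_congr rfl fun y _ => ?_
          rw [← mul_assoc (ρ e), ← hc y e he, mul_assoc (c y), mul_assoc (c y), mul_assoc (c y),
            ← map_mul, ← map_mul, ← map_mul]
          congr 2
          simp only [hwdef]; group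
        have h2 : ∑ y ∈ s, c y * ρ (w h₀) * ρ (g y) = 0 := by
          have h3 := congrArg (fun T => ρ (w h₀) * T) hsum
          simp only [Finset.mul_sum, mul_zero] at h3
          rw [← h3]
          refine Finset.sum_congr rfl fun y _ => ?_
          rw [← mul_assoc]
          congr 1
          exact hc y _ ((Subgroup.zpowers_le.2 L.z_mem) (hwZ h₀))
        calc ∑ y ∈ s, c' y * ρ (g y)
            = ∑ y ∈ s, c y * ρ (w y) * ρ (g y) - ∑ y ∈ s, c y * ρ (w h₀) * ρ (g y) := by
              rw [← Finset.sum_sub_distrib]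
              refine Finset.sum_congr rfl fun y _ => ?_
              simp only [hc', mul_sub, sub_mul]
          _ = 0 := by rw [h1, h2, sub_zero]
      rw [← Finset.add_sum_erase _ _ hh₀, show c' h₀ = 0 by simp [hc'], zero_mul, zero_add] at hsum'
      have hlt : (s.erase h₀).card < n := by
        rw [← hs]; exact Finset.card_erase_lt_of_mem hh₀
      have h0 := ih _ hlt _ rfl c' hc'comm hsum' x (Finset.mem_erase.2 ⟨Ne.symm hne, hx⟩)
      refine hx0 (LinearMap.ext fun v => ?_)
      have hfp : ∀ u, (ρ (w x) - ρ (w h₀)) u = 0 → u = 0 := by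
        intro u hu
        rw [LinearMap.sub_apply, sub_eq_zero] at hu
        refine d.z_fpf ((w h₀)⁻¹ * w x) ((Subgroup.zpowers z).mul_mem
          ((Subgroup.zpowers z).inv_mem (hwZ h₀)) (hwZ x)) ?_ u ?_
        · intro h1; exact hdiff (inv_mul_eq_one.1 h1).symm
        · rw [rho_mul_apply, hu, rho_inv_cancel]
      obtain ⟨u, rfl⟩ := surjective_of_fpf hfp v
      exact LinearMap.congr_fun h0 u
  haveI : Fintype Q := Fintype.ofFinite Q
  have hli : LinearIndependent (ZMod q) fun x : Q => (ρ (g x) : Module.End (ZMod q) V) := by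
    rw [Fintype.linearIndependent_iff]
    intro a ha x
    have h1 := key _ Finset.univ rfl (fun y => a y • (1 : Module.End (ZMod q) V))
      (fun y e _ => by rw [smul_mul_assoc, mul_smul_comm, one_mul, mul_one])
      (by rw [← ha]; exact Finset.sum_congr rfl fun y _ => by rw [smul_mul_assoc, one_mul])
      x (Finset.mem_univ _)
    obtain ⟨v, hv⟩ := exists_ne (0 : V)
    exact (smul_eq_zero.1 (LinearMap.congr_fun h1 v : a x • v = 0)).resolve_right hv
  have h2 := hli.fintype_card_le_finrank
  rw [Module.finrank_linearMap] at h2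
  rw [Subgroup.relIndex, Subgroup.index, Nat.card_eq_fintype_card]
  exact h2

/-- The order of `E` is at most the sixth power of the dimension. -/
theorem Layer.card_le [Fact q.Prime] [Fact r.Prime] [Nontrivial V] (L : Layer ρ r P R₀ z E)
    (d : CentralData ρ S r P R₀ z) (hne : ¬ E ≤ layerCenter E) :
    Nat.card E ≤ Module.finrank (ZMod q) V ^ 6 := by
  set k := Module.finrank (ZMod q) V
  set i := (layerCenter E).relIndex E with hi
  have hcard : i * Nat.card (layerCenter E) = Nat.card E := by
    have h1 := Subgroup.relIndex_mul_relIndex ⊥ (layerCenter E) E bot_le inf_le_left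
    rw [Subgroup.relIndex_bot_left, Subgroup.relIndex_bot_left] at h1
    rw [hi, mul_comm, h1]
  have hr : r ≤ i := by
    obtain ⟨n, hn⟩ := IsPGroup.iff_card.1 (d.isPGroup.to_le L.le)
    obtain ⟨j, -, hj⟩ := (Nat.dvd_prime_pow (Fact.out : r.Prime)).1
      (Dvd.intro _ (hcard.trans hn) : i ∣ r ^ n)
    rw [hj]
    refine Nat.le_self_pow (fun h0 => hne ?_) r
    rw [h0, pow_zero, hi, Subgroup.relIndex_eq_one] at hj
    exact hj
  have hik := L.relIndex_le d
  calc Nat.card E = i * Nat.card (layerCenter E) := hcard.symm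
    _ ≤ i * (r * r) := Nat.mul_le_mul_left _ (L.card_center_le d.z_order)
    _ ≤ (k * k) * ((k * k) * (k * k)) := Nat.mul_le_mul hik (Nat.mul_le_mul (hr.trans hik) (hr.trans hik))
    _ = k ^ 6 := by ring

end CfsgLib.Derangements.UniqueFixed
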