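import Cfsg.Agent.Lib.Derangements.UniqueFixed

/-!
# Linear groups in which every element outside a normal subgroup is fixed point free

`R` acts faithfully on a finite vector space over `ZMod q`, `S` is a normal subgroup of index
`m` of order prime to `q` such that no element outside `S` fixes a non-zero vector and such that
every supplement of `S` is irreducible.  This file treats an abelian subgroup of `S` of prime
exponent normalised by a supplement: if it is not cyclic, then `(m + 1) ^ 2 ≤ |V|`.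
-/

set_option autoImplicit false

namespace CfsgLib.Derangements.UniqueFixed

variable {q : ℕ} {V : Type*} [AddCommGroup V] [Module (ZMod q) V]
  {R : Type*} [Group R] (ρ : Representation (ZMod q) R V)

/-- The vectors fixed by every element of a set. -/
def fixedVec (W : Set R) : Submodule (ZMod q) V where
  carrier := {v | ∀ w ∈ W, ρ w v = v}
  add_mem' {u v} hu hv w hw := by rw [map_add, hu w hw, hv w hw]
  zero_mem' w _ := map_zero (ρ w)
  smul_mem' c v hv w hw := by rw [map_smul, hv w hw]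

variable {ρ}

theorem mem_fixedVec {W : Set R} {v : V} : v ∈ fixedVec ρ W ↔ ∀ w ∈ W, ρ w v = v := Iff.rfl

theorem rho_mul_apply (a b : R) (v : V) : ρ (a * b) v = ρ a (ρ b v) := by
  rw [map_mul]; rfl

theorem rho_inv_cancel (a : R) (v : V) : ρ a⁻¹ (ρ a v) = v := by
  rw [← rho_mul_apply, inv_mul_cancel, map_one]; rfl

theorem rho_injective (a : R) : Function.Injective (ρ a) :=
  Function.LeftInverse.injective (rho_inv_cancel a)

theorem fixed_pow {a : R} {v : V} (h : ρ a v = v) (n : ℕ) : ρ (a ^ n) v = v := by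
  induction n with
  | zero => rw [pow_zero, map_one]; rfl
  | succ n ih => rw [pow_succ, rho_mul_apply, h, ih]

theorem fixed_zpowers [Finite R] {a : R} {v : V} (h : ρ a v = v) :
    v ∈ fixedVec ρ (Subgroup.zpowers a : Set R) := by
  intro w hw
  obtain ⟨n, rfl⟩ := (mem_powers_iff_mem_zpowers.2 hw)
  exact fixed_pow h n

/-- An element moves the fixed vectors of a set into those of its conjugate. -/
theorem rho_mem_fixedVec {a : R} {W W' : Set R} (h : ∀ w ∈ W', a⁻¹ * w * a ∈ W) {v : V}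
    (hv : v ∈ fixedVec ρ W) : ρ a v ∈ fixedVec ρ W' := by
  intro w hw
  calc ρ w (ρ a v) = ρ (a * (a⁻¹ * w * a)) v := by rw [← rho_mul_apply]; congr 2; group
    _ = ρ a v := by rw [rho_mul_apply, hv _ (h w hw)]

/-- Two commuting elements of order dividing `r ≠ 0`: some element of the group they generate,
outside every proper part, fixes a non-zero vector. -/
theorem exists_fixed_of_two [Fact q.Prime] {r : ℕ} [hrp : Fact r.Prime] (hr : (r : ZMod q) ≠ 0) {a b : R} (hab : Commute a b)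
    (ha : a ^ r = 1) (hb : b ^ r = 1) (W : Submodule (ZMod q) V) (haW : ∀ v ∈ W, ρ a v ∈ W)
    (hbW : ∀ v ∈ W, ρ b v ∈ W) {v : V} (hv : v ∈ W) (hv0 : v ≠ 0) :
    ∃ u ∈ W, u ≠ 0 ∧ (ρ b u = u ∨ ∃ i : ℕ, ρ (a * b ^ i) u = u) := by
  classical
  by_contra hcon
  push Not at hcon
  have hpowW : ∀ g : R, (∀ v ∈ W, ρ g v ∈ W) → ∀ (n : ℕ), ∀ v ∈ W, ρ (g ^ n) v ∈ W := by
    intro g hg n
    induction n with
    | zero => intro v hv; rw [pow_zero, map_one]; exact hv
    | succ n ih => intro v hv; rw [pow_succ, rho_mul_apply]; exact ih _ (hg v hv)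
  -- the sum over the powers of `g` of any vector is fixed by `g`
  have hsum : ∀ (g : R), g ^ r = 1 → ∀ v : V,
      ρ g (∑ j ∈ Finset.range r, ρ (g ^ j) v) = ∑ j ∈ Finset.range r, ρ (g ^ j) v := by
    intro g hg v
    rw [map_sum]
    simp only [← rho_mul_apply, ← pow_succ']
    have h := Finset.sum_range_succ' (fun j => ρ (g ^ j) v) r
    rw [Finset.sum_range_succ, hg, pow_zero] at h
    exact (add_right_cancel h).symm
  have hmem : ∀ g : R, (∀ v ∈ W, ρ g v ∈ W) → ∀ u ∈ W,
      (∑ j ∈ Finset.range r, ρ (g ^ j) u) ∈ W :=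
    fun g hg u hu => W.sum_mem fun j _ => hpowW g hg j u hu
  have hzero : ∀ u ∈ W, ∑ j ∈ Finset.range r, ρ (b ^ j) u = 0 := fun u hu =>
    by_contra fun h => (hcon _ (hmem b hbW u hu) h).1 (hsum b hb u)
  have hzero' : ∀ (i : ℕ), ∑ j ∈ Finset.range r, ρ ((a * b ^ i) ^ j) v = 0 := fun i =>
    by_contra fun h => (hcon _ (hmem _ (fun u hu => by
      rw [rho_mul_apply]; exact haW _ (hpowW b hbW i u hu)) v hv) h).2 i
        (hsum _ (by rw [(hab.pow_right i).mul_pow, ha, ← pow_mul, mul_comm, pow_mul, hb, one_pow,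
          mul_one]) v)
  have htotal : ∑ j ∈ Finset.range r, ∑ i ∈ Finset.range r, ρ ((a * b ^ i) ^ j) v = 0 := by
    rw [Finset.sum_comm]; exact Finset.sum_eq_zero fun i _ => hzero' i
  have hr0 : r ≠ 0 := by rintro rfl; simp at hr
  obtain ⟨k, hk⟩ : ∃ k, r = k + 1 := ⟨r - 1, by omega⟩
  rw [Finset.sum_eq_single_of_mem 0 (Finset.mem_range.2 (by omega))] at htotal
  · simp only [pow_zero, map_one, Module.End.one_apply, Finset.sum_const, Finset.card_range] at htotal
    rw [← Nat.cast_smul_eq_nsmul (ZMod q)] at htotal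
    exact hv0 ((smul_eq_zero.1 htotal).resolve_left hr)
  · intro j hj hj0
    have hjr : Nat.Coprime r j := hrp.out.coprime_iff_not_dvd.2 fun h =>
      absurd (Nat.le_of_dvd (Nat.pos_of_ne_zero hj0) h) (not_le.2 (Finset.mem_range.1 hj))
    have hinj : Set.InjOn (fun i => i * j % r) (Finset.range r : Set ℕ) := by
      intro x hx y hy hxy
      have h1 : x ≡ y [MOD r] := Nat.ModEq.cancel_right_of_coprime hjr hxy
      exact h1.eq_of_lt_of_lt (Finset.mem_range.1 hx) (Finset.mem_range.1 hy)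
    have hmaps : Set.MapsTo (fun i => i * j % r) (Finset.range r : Set ℕ)
        (Finset.range r : Set ℕ) := fun i _ => Finset.mem_range.2 (Nat.mod_lt _ (by omega))
    rw [show ∑ i ∈ Finset.range r, ρ ((a * b ^ i) ^ j) v
        = ρ (a ^ j) (∑ i ∈ Finset.range r, ρ (b ^ i) v) from ?_, hzero v hv, map_zero]
    rw [map_sum]
    refine Finset.sum_nbij (fun i => i * j % r) (fun i hi => hmaps hi) hinj
      (Finset.surjOn_of_injOn_of_card_le _ hmaps hinj le_rfl) fun i _ => ?_
    rw [← rho_mul_apply, (hab.pow_right i).mul_pow, ← pow_mul, ← pow_mod_orderOf b (i * j),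
      ← pow_mod_orderOf b (i * j % r), Nat.mod_mod_of_dvd _ (orderOf_dvd_of_pow_eq_one hb)]

variable [Finite V] [Finite R]

/-- The hypotheses of the linear case. -/
structure LinearSetting (ρ : Representation (ZMod q) R V) (S : Subgroup R) : Prop where
  normal : S.Normal
  inj : Function.Injective ρ
  coprime : ¬ q ∣ Nat.card S
  out : ∀ x : R, x ∉ S → ∀ v : V, ρ x v = v → v = 0
  irr : ∀ A : Subgroup R, A ⊔ S = ⊤ → ∀ W : Submodule (ZMod q) V,
    (∀ a ∈ A, ∀ w ∈ W, ρ a w ∈ W) → W = ⊥ ∨ W = ⊤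

variable {S : Subgroup R}

namespace LinearSetting

variable (h : LinearSetting ρ S)
include h

omit [Finite V] [Finite R] in
theorem cast_ne_zero [Fact q.Prime] {r : ℕ} (hr : r ∣ Nat.card S) : (r : ZMod q) ≠ 0 := by
  rw [Ne, ZMod.natCast_eq_zero_iff]
  exact fun hq => h.coprime (hq.trans hr)

omit [Finite V] [Finite R] in
theorem fixedVec_eq_bot {A : Subgroup R} (hA : A ⊔ S = ⊤) {W : Set R}
    (hn : ∀ a ∈ A, ∀ w ∈ W, a⁻¹ * w * a ∈ W) {w : R} (hw : w ∈ W) (hw1 : w ≠ 1) :
    fixedVec ρ W = ⊥ := by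
  rcases h.irr A hA _ (fun a ha v hv => rho_mem_fixedVec (hn a ha) hv) with hb | ht
  · exact hb
  · refine absurd (h.inj ?_) hw1
    rw [map_one]
    exact LinearMap.ext fun v => (mem_fixedVec.1 (ht ▸ Submodule.mem_top : v ∈ fixedVec ρ W)) w hw

omit [Finite V] [Finite R] in
theorem relIndex_eq {A : Subgroup R} (hA : A ⊔ S = ⊤) : S.relIndex A = S.index :=
  haveI := h.normal
  relIndex_of_cover hA

/-- `m · |R₀ ∩ S : A ∩ S| = |R₀ : A| · |A : A ∩ S|`. -/
theorem index_mul_relIndex {A B : Subgroup R} (hB : B ⊔ S = ⊤) (hAB : A ≤ B) :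
    S.index * A.relIndex (B ⊓ S) = A.relIndex B * S.relIndex A := by
  have h1 : (A ⊓ S).relIndex A * A.relIndex B = (A ⊓ S).relIndex B :=
    Subgroup.relIndex_mul_relIndex _ _ _ inf_le_left hAB
  have h2 : (A ⊓ S).relIndex (B ⊓ S) * (B ⊓ S).relIndex B = (A ⊓ S).relIndex B :=
    Subgroup.relIndex_mul_relIndex _ _ _ (inf_le_inf_right S hAB) inf_le_left
  rw [Subgroup.inf_relIndex_left] at h1 h2
  have h3 : (A ⊓ S).relIndex (B ⊓ S) = A.relIndex (B ⊓ S) := by
    rw [← Subgroup.inf_relIndex_right (A ⊓ S), ← Subgroup.inf_relIndex_right A]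
    congr 1
    rw [inf_comm B S, ← inf_assoc (A ⊓ S), inf_assoc A S S, inf_idem, inf_assoc A S B]
  rw [h3, h.relIndex_eq hB] at h2
  rw [mul_comm, h2, ← h1, mul_comm]

omit [Finite R] in
/-- A subgroup preserving `U`, with a subgroup of it inside `S` semiregular on `U`. -/
theorem relIndex_mul_card_le [Finite R] {A Z : Subgroup R} (U : Submodule (ZMod q) V) (hU : U ≠ ⊥)
    (hA : ∀ a ∈ A, ∀ u ∈ U, ρ a u ∈ U) (hZA : Z ≤ A) (hZS : Z ≤ S)
    (hZ : ∀ z ∈ Z, ∀ u ∈ U, ρ z u = u → u ≠ 0 → z = 1) :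
    S.relIndex A * Nat.card Z ≤ Nat.card U - 1 := by
  let X := {v : V // v ∈ U ∧ v ≠ 0}
  letI : MulAction A X :=
    { smul := fun a v => ⟨ρ a v.1, hA a a.2 v.1 v.2.1, fun h0 => v.2.2
        (rho_injective (ρ := ρ) (a : R) (h0.trans (map_zero _).symm))⟩
      one_smul := fun v => Subtype.ext (show ρ ((1 : A) : R) v.1 = v.1 by
        rw [Subgroup.coe_one, map_one]; rfl)
      mul_smul := fun a b v => Subtype.ext (show ρ ((a * b : A) : R) v.1 = ρ a (ρ b v.1) by
        rw [Subgroup.coe_mul, rho_mul_apply]) }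
  obtain ⟨u, hu, hu0⟩ := Submodule.exists_mem_ne_zero_of_ne_bot hU
  haveI : Nonempty X := ⟨⟨u, hu, hu0⟩⟩
  have h1 := index_mul_card_le (A := A) (X := X) (S.subgroupOf A) (Z.subgroupOf A)
    (fun v a ha => Subgroup.mem_subgroupOf.2 (by_contra fun hn => v.2.2
      (h.out _ hn v.1 (congrArg Subtype.val (MulAction.mem_stabilizer_iff.1 ha)))))
    (fun z hz => Subgroup.mem_subgroupOf.2 (hZS (Subgroup.mem_subgroupOf.1 hz)))
    (fun v z hz hzv => Subtype.ext (hZ z (Subgroup.mem_subgroupOf.1 hz) v.1 v.2.1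
      (congrArg Subtype.val hzv) v.2.2))
  rw [Nat.card_congr (Subgroup.subgroupOfEquivOfLe hZA).toEquiv] at h1
  have h2 : Nat.card X + 1 ≤ Nat.card U := by
    rw [show (1 : ℕ) = Nat.card Unit from Nat.card_unique.symm, ← Nat.card_sum]
    refine Nat.card_le_card_of_injective
      (Sum.elim (fun v => (⟨v.1, v.2.1⟩ : U)) (fun _ => 0)) ?_
    rintro (a | a) (b | b) hab
    · exact congrArg Sum.inl (Subtype.ext (congrArg Subtype.val hab :))
    · exact absurd (congrArg Subtype.val hab) a.2.2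
    · exact absurd (congrArg Subtype.val hab).symm b.2.2
    · rfl
  exact le_trans h1 (by omega)

end LinearSetting

/-- The block inequality. -/
theorem sq_le_of_blocks {m m₁ l y : ℕ} (hl : 2 ≤ l) (h1 : m ≤ l * m₁) (h2 : 2 * m₁ ≤ y - 1)
    (hy : 1 ≤ y) : (m + 1) ^ 2 ≤ y ^ l := by
  obtain ⟨u, rfl⟩ : ∃ u, y = u + 1 := ⟨y - 1, by omega⟩
  rw [Nat.add_sub_cancel] at h2
  have hbin : ∀ l : ℕ, 2 + 2 * l * u + l * (l - 1) * u ^ 2 ≤ 2 * (1 + u) ^ l := by
    intro l
    induction l with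
    | zero => simp
    | succ l ih =>
      rcases l with _ | l
      · simp; nlinarith
      · simp only [Nat.add_sub_cancel] at ih ⊢
        rw [pow_succ (1 + u) (l + 1)]
        have := Nat.mul_le_mul_right (1 + u) ih
        nlinarith [Nat.zero_le (l * l * u ^ 3), Nat.zero_le (l * u ^ 3)]
  have := hbin l
  have h3 : 2 * (m + 1) ≤ l * u + 2 := by
    have := Nat.mul_le_mul_left l h2
    nlinarith
  have h4 := Nat.pow_le_pow_left h3 2
  obtain ⟨k, rfl⟩ : ∃ k, l = k + 2 := ⟨l - 2, by omega⟩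
  rw [show k + 2 - 1 = k + 1 from rfl] at this
  rw [add_comm u 1]
  nlinarith [Nat.zero_le (k * u ^ 2), Nat.zero_le (k * k * u ^ 2)]

/-- An abelian non-cyclic subgroup of `S` of prime exponent normalised by a supplement of `S`
forces a system of imprimitivity, and then `(m + 1) ^ 2 ≤ |V|`. -/
theorem LinearSetting.sq_le_of_abelian [Fact q.Prime] (h : LinearSetting ρ S) {r : ℕ}
    [hrp : Fact r.Prime] {Y A : Subgroup R} (hYS : Y ≤ S) (hexp : ∀ y ∈ Y, y ^ r = 1)
    (hcomm : ∀ x ∈ Y, ∀ y ∈ Y, x * y = y * x) {a b : R} (haY : a ∈ Y) (hbY : b ∈ Y) (ha : a ≠ 1)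
    (hb : b ∉ Subgroup.zpowers a) (hA : A ⊔ S = ⊤) (hn : A ≤ Subgroup.normalizer (Y : Set R))
    [Nontrivial V] : (S.index + 1) ^ 2 ≤ Nat.card V := by
  classical
  haveI := h.normal
  have hord : ∀ y ∈ Y, y ≠ 1 → orderOf y = r := fun y hy hy1 =>
    orderOf_eq_prime (hexp y hy) hy1
  have hr : (r : ZMod q) ≠ 0 := h.cast_ne_zero (hord a haY ha ▸ Subgroup.orderOf_dvd_natCard S (hYS haY))
  set B := A ⊔ Y with hB
  have hBS : B ⊔ S = ⊤ := cover_mono hA le_sup_left
  have hBn : B ≤ Subgroup.normalizer (Y : Set R) := sup_le hn Subgroup.le_normalizer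
  have hBn' : ∀ g ∈ B, ∀ y ∈ Y, g⁻¹ * y * g ∈ Y := fun g hg y hy => by
    have := ((Subgroup.mem_normalizer_iff.1 (hBn (B.inv_mem hg))) y).1 hy
    rwa [inv_inv] at this
  -- `Y` has no fixed vectors
  have hY0 : fixedVec ρ (Y : Set R) = ⊥ := h.fixedVec_eq_bot hBS hBn' haY ha
  -- the maximal subgroups of `Y` with fixed vectors
  let good : Set (Subgroup R) :=
    {W | W ≤ Y ∧ fixedVec ρ (W : Set R) ≠ ⊥ ∧
      ∀ W', W ≤ W' → W' ≤ Y → fixedVec ρ (W' : Set R) ≠ ⊥ → W' = W}
  have hbot : fixedVec ρ ((⊥ : Subgroup R) : Set R) ≠ ⊥ := by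
    obtain ⟨v, hv⟩ := exists_ne (0 : V)
    refine fun h0 => hv ((Submodule.eq_bot_iff _).1 h0 v ?_)
    intro w hw
    rw [Subgroup.mem_bot.1 hw, map_one]; rfl
  haveI : Fintype (Subgroup R) := Fintype.ofFinite _
  obtain ⟨W₀, -, hW₀max⟩ := Finite.exists_le_maximal
    (p := fun W : Subgroup R => W ≤ Y ∧ fixedVec ρ (W : Set R) ≠ ⊥) ⟨bot_le, hbot⟩
  have hW₀ : W₀ ∈ good := ⟨hW₀max.1.1, hW₀max.1.2,
    fun W' h1 h2 h3 => le_antisymm (hW₀max.2 ⟨h2, h3⟩ h1) h1⟩
  -- such a subgroup has index `r`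
  have hmax : ∀ W ∈ good, ∀ y ∈ Y, y ∉ W → W ⊔ Subgroup.zpowers y = Y := by
    rintro W ⟨hWY, hW0, hWmax⟩ y hy hyW
    refine le_antisymm (sup_le hWY (Subgroup.zpowers_le.2 hy)) fun x hx => ?_
    by_contra hxW
    have hinv : ∀ g ∈ Y, ∀ v ∈ fixedVec ρ (W : Set R), ρ g v ∈ fixedVec ρ (W : Set R) :=
      fun g hg v hv => rho_mem_fixedVec (fun w hw => by
        rw [mul_assoc, hcomm w (hWY hw) g hg, inv_mul_cancel_left]; exact hw) hv
    obtain ⟨v, hv, hv0⟩ := Submodule.exists_mem_ne_zero_of_ne_bot hW0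
    obtain ⟨u, hu, hu0, hcase⟩ := exists_fixed_of_two hr (hcomm x hx y hy : Commute x y)
      (hexp x hx) (hexp y hy) _ (hinv x hx) (hinv y hy) hv hv0
    have key : ∀ g ∈ Y, g ∉ W → ρ g u = u → False := by
      intro g hg hgW hgu
      have : fixedVec ρ ((W ⊔ Subgroup.zpowers g : Subgroup R) : Set R) ≠ ⊥ := fun h0 => hu0 <| by
        refine (Submodule.eq_bot_iff _).1 h0 u ?_
        intro w hw
        refine (?_ : W ⊔ Subgroup.zpowers g ≤
          ({ carrier := {w | ρ w u = u}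
             one_mem' := by show ρ 1 u = u; rw [map_one]; rfl
             mul_mem' := fun {c d} hc hd => by
               show ρ (c * d) u = u
               rw [rho_mul_apply, hd, hc]
             inv_mem' := fun {c} hc => by
               show ρ c⁻¹ u = u
               conv_lhs => rw [← hc, rho_inv_cancel] } : Subgroup R)) hw
        exact sup_le (fun w hw => hu w hw) (Subgroup.zpowers_le.2 hgu)
      exact hgW ((hWmax _ le_sup_left (sup_le hWY (Subgroup.zpowers_le.2 hg)) this) ▸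
        Subgroup.mem_sup_right (Subgroup.mem_zpowers g))
    rcases hcase with hc | ⟨i, hc⟩
    · exact key y hy hyW hc
    · refine key _ (Y.mul_mem hx (Y.pow_mem hy i)) (fun h1 => hxW ?_) hc
      rw [show x = x * y ^ i * (y ^ i)⁻¹ by group]
      exact Subgroup.mul_mem _ (Subgroup.mem_sup_left h1)
        (Subgroup.mem_sup_right (Subgroup.inv_mem _ (Subgroup.pow_mem _ (Subgroup.mem_zpowers y) i)))
  have hdisj : ∀ W ∈ good, ∀ W' ∈ good, W ≠ W' → ∀ v, v ∈ fixedVec ρ (W : Set R) →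
      v ∈ fixedVec ρ (W' : Set R) → v = 0 := by
    rintro W hW W' hW' hne v hv hv'
    obtain ⟨y, hy, hyW⟩ := SetLike.not_le_iff_exists.1
      (fun hle => hne ((hW'.2.2 W (by exact hle) hW.1 hW.2.1)) : ¬ W' ≤ W)
    refine (Submodule.eq_bot_iff _).1 hY0 v fun w hw => ?_
    rw [← hmax W hW y (hW'.1 hy) hyW] at hw
    have hyfix := hv' y hy
    refine (?_ : W ⊔ Subgroup.zpowers y ≤
      ({ carrier := {w | ρ w v = v}
         one_mem' := by show ρ 1 v = v; rw [map_one]; rfl
         mul_mem' := fun {c d} hc hd => by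
           show ρ (c * d) v = v
           rw [rho_mul_apply, hd, hc]
         inv_mem' := fun {c} hc => by
           show ρ c⁻¹ v = v
           conv_lhs => rw [← hc, rho_inv_cancel] } : Subgroup R)) hw
    exact sup_le (fun w hw => hv w hw) (Subgroup.zpowers_le.2 hyfix)
  -- the orbit of `W₀` under `B`
  let c : R → Subgroup R := fun g => W₀.map (MulAut.conj g).toMonoidHom
  have hmem : ∀ g x, x ∈ c g ↔ g⁻¹ * x * g ∈ W₀ := fun g x => by
    constructor
    · rintro ⟨w, hw, rfl⟩
      simpa [MulAut.conj_apply, mul_assoc] using hw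
    · intro hx; exact ⟨_, hx, by simp [MulAut.conj_apply, mul_assoc]⟩
  let O : Finset (Subgroup R) := Finset.univ.filter fun W => ∃ g ∈ B, c g = W
  have hfixed : ∀ g ∈ B, ∀ k, k ∈ B → ∀ v ∈ fixedVec ρ (c k : Set R),
      ρ g v ∈ fixedVec ρ (c (g * k) : Set R) := fun g _ k _ v hv =>
    rho_mem_fixedVec (fun w hw => (hmem k _).2 (by
      rw [show k⁻¹ * (g⁻¹ * w * g) * k = (g * k)⁻¹ * w * (g * k) by group]
      exact (hmem _ _).1 hw)) hv
  have hgood : ∀ g ∈ B, c g ∈ good := by
    intro g hg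
    refine ⟨fun x hx => ?_, fun h0 => hW₀.2.1 ?_, fun W' h1 h2 h3 => le_antisymm (fun x hx => ?_) h1⟩
    · have := hBn' g⁻¹ (B.inv_mem hg) _ (hW₀.1 ((hmem g x).1 hx))
      simpa [mul_assoc] using this
    · refine (Submodule.eq_bot_iff _).2 fun v hv => rho_injective (ρ := ρ) g ?_
      rw [map_zero]
      exact (Submodule.eq_bot_iff _).1 h0 _ (rho_mem_fixedVec (fun w hw => (hmem g w).1 hw) hv)
    · -- conjugate `W'` back
      let W'' := W'.map (MulAut.conj g⁻¹).toMonoidHom
      have hW''mem : ∀ u, u ∈ W' → g⁻¹ * u * g ∈ W'' := fun u hu => ⟨u, hu, by simp [mul_assoc]⟩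
      have hW''mem' : ∀ u, u ∈ W'' → g * u * g⁻¹ ∈ W' := by
        rintro _ ⟨u, hu, rfl⟩; simpa [mul_assoc] using hu
      have := hW₀.2.2 W'' (fun u hu => by
          have h4 : g * u * g⁻¹ ∈ c g := (hmem g _).2 (by simpa [mul_assoc] using hu)
          simpa [mul_assoc] using hW''mem _ (h1 h4))
        (fun u hu => by
          have := hBn' g hg _ (h2 (hW''mem' u hu))
          simpa [mul_assoc] using this)
        (fun h0 => h3 ((Submodule.eq_bot_iff _).2 fun v hv => rho_injective (ρ := ρ) g⁻¹ (by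
          rw [map_zero]
          exact (Submodule.eq_bot_iff _).1 h0 _ (rho_mem_fixedVec (fun w hw => by
            simpa [mul_assoc] using hW''mem' w hw) hv))))
      exact (hmem g x).2 (this ▸ hW''mem x hx)
  have hOgood : ∀ W ∈ O, W ∈ good := fun W hW => by
    obtain ⟨g, hg, rfl⟩ := (Finset.mem_filter.1 hW).2
    exact hgood g hg
  have hc1 : c 1 = W₀ := by
    ext x; rw [hmem]; simp
  have hW₀O : W₀ ∈ O := Finset.mem_filter.2 ⟨Finset.mem_univ _, 1, B.one_mem, hc1⟩
  -- the fixed spaces of the orbit are independent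
  let f : (∀ W : O, fixedVec ρ ((W : Subgroup R) : Set R)) → V := fun v => ∑ W : O, (v W : V)
  have hindep : Function.Injective f := by
    intro v v' hvv
    funext W₁
    have hd : ∑ W : O, ((v W : V) - v' W) = 0 := by
      rw [Finset.sum_sub_distrib]; exact sub_eq_zero.2 hvv
    haveI : Fintype (W₁.1 : Subgroup R) := Fintype.ofFinite _
    have hd' := congrArg (fun u => ∑ y : (W₁.1 : Subgroup R), ρ (y : R) u) hd
    simp only [map_sum, map_zero, Finset.sum_const_zero] at hd'
    rw [Finset.sum_comm, Finset.sum_eq_single W₁] at hd'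
    · have hfix : ∀ y : (W₁.1 : Subgroup R), ρ (y : R) ((v W₁ : V) - v' W₁) = (v W₁ : V) - v' W₁ :=
        fun y => by rw [map_sub, (v W₁).2 y y.2, (v' W₁).2 y y.2]
      simp only [hfix, Finset.sum_const, Finset.card_univ] at hd'
      rw [← Nat.cast_smul_eq_nsmul (ZMod q), smul_eq_zero] at hd'
      refine Subtype.ext (sub_eq_zero.1 (hd'.resolve_left ?_))
      rw [← Nat.card_eq_fintype_card]
      refine h.cast_ne_zero (Subgroup.card_dvd_of_le ?_)
      exact ((hOgood _ W₁.2).1).trans hYS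
    · intro W _ hne
      set u := (v W : V) - v' W with hu
      have hufix : u ∈ fixedVec ρ ((W : Subgroup R) : Set R) :=
        Submodule.sub_mem _ (v W).2 (v' W).2
      refine hdisj _ (hOgood _ W.2) _ (hOgood _ W₁.2) (fun e => hne (Subtype.ext e)) _
        (Submodule.sum_mem _ fun y _ => rho_mem_fixedVec (fun w hw => ?_) hufix) ?_
      · rw [mul_assoc, hcomm w ((hOgood _ W.2).1 hw) y ((hOgood _ W₁.2).1 y.2), inv_mul_cancel_left]
        exact hw
      · intro w hw
        rw [map_sum]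
        refine Fintype.sum_equiv (Equiv.mulLeft ⟨w, hw⟩) _ _ fun y => ?_
        rw [← rho_mul_apply]; rfl
    · exact fun hh => absurd (Finset.mem_univ _) hh
  -- all of the same size
  set y := Nat.card (fixedVec ρ (W₀ : Set R)) with hy
  have hsize : ∀ W ∈ O, Nat.card (fixedVec ρ (W : Set R)) = y := by
    intro W hW
    obtain ⟨g, hg, rfl⟩ := (Finset.mem_filter.1 hW).2
    symm
    refine Nat.card_congr
      { toFun := fun v => ⟨ρ g v.1, by
          have := hfixed g hg 1 B.one_mem v.1 (hc1.symm ▸ v.2)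
          rwa [mul_one] at this⟩
        invFun := fun v => ⟨ρ g⁻¹ v.1, by
          have := hfixed g⁻¹ (B.inv_mem hg) g hg v.1 v.2
          rwa [inv_mul_cancel, hc1] at this⟩
        left_inv := fun v => Subtype.ext (rho_inv_cancel g v.1)
        right_inv := fun v => Subtype.ext (by
          show ρ g (ρ g⁻¹ v.1) = v.1
          rw [← rho_mul_apply, mul_inv_cancel, map_one]; rfl) }
  have hpow : y ^ O.card ≤ Nat.card V := by
    refine le_trans (le_of_eq ?_) (Nat.card_le_card_of_injective f hindep)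
    rw [Nat.card_pi, Finset.prod_congr rfl fun W _ => hsize W.1 W.2, Finset.prod_const,
      Finset.card_univ, Fintype.card_coe]
  -- at least two members
  have hl : 2 ≤ O.card := by
    by_contra hlt
    have hone : ∀ g ∈ B, c g = W₀ := fun g hg => (Finset.card_le_one.1 (Nat.le_of_lt_succ (not_le.1 hlt))) _
      (Finset.mem_filter.2 ⟨Finset.mem_univ _, g, hg, rfl⟩) _ hW₀O
    by_cases hW₀1 : W₀ = ⊥
    · have := hmax W₀ hW₀ a haY (by rw [hW₀1, Subgroup.mem_bot]; exact ha)
      rw [hW₀1, bot_sup_eq] at this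
      exact hb (this ▸ hbY)
    · obtain ⟨w, hw, hw1⟩ := (Subgroup.bot_or_exists_ne_one W₀).resolve_left hW₀1
      refine hW₀.2.1 (h.fixedVec_eq_bot hBS (fun g hg x hx => ?_) hw hw1)
      exact (hmem g x).1 ((hone g hg).symm ▸ hx)
  -- the stabiliser of a block
  let A₁ : Subgroup R := B ⊓ Subgroup.normalizer (W₀ : Set R)
  have hA₁ : A₁.relIndex B ≤ O.card := by
    rw [Subgroup.relIndex, Subgroup.index, ← Fintype.card_coe, ← Nat.card_eq_fintype_card]
    refine Nat.card_le_card_of_injective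
      (fun x => (⟨c x.out.1, Finset.mem_filter.2 ⟨Finset.mem_univ _, _, x.out.2, rfl⟩⟩ : O)) ?_
    intro x x' hxx
    rw [← QuotientGroup.out_eq' x, ← QuotientGroup.out_eq' x', QuotientGroup.eq,
      Subgroup.mem_subgroupOf]
    have hcc : c x.out.1 = c x'.out.1 := congrArg Subtype.val hxx
    refine ⟨(x.out⁻¹ * x'.out).2, Subgroup.mem_normalizer_iff.2 fun w => ⟨fun hw => ?_, fun hw => ?_⟩⟩
    · have : (x'.out : R) * w * (x'.out : R)⁻¹ ∈ c x'.out.1 := (hmem _ _).2 (by simpa [mul_assoc] using hw)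
      rw [← hcc, hmem] at this
      simpa [mul_assoc] using this
    · have : (x'.out : R) * w * (x'.out : R)⁻¹ ∈ c x.out.1 := (hmem _ _).2 (by
        simpa [mul_assoc] using hw)
      rw [hcc, hmem] at this
      simpa [mul_assoc] using this
  obtain ⟨z, hz, hzW⟩ := SetLike.not_le_iff_exists.1
    (fun hle => by
      refine hW₀.2.1 ?_
      rw [le_antisymm hW₀.1 hle]; exact hY0 : ¬ Y ≤ W₀)
  have hzA₁ : Subgroup.zpowers z ≤ A₁ := Subgroup.zpowers_le.2
    ⟨le_sup_right (a := A) hz, Subgroup.mem_normalizer_iff.2 fun w => ⟨fun hw => by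
      rw [hcomm z hz w (hW₀.1 hw), mul_inv_cancel_right]; exact hw, fun hw => by
      have h1 := hcomm z hz _ (hW₀.1 hw)
      have h2 : z * w * z⁻¹ = w := by
        have : z * (z * w * z⁻¹) = z * w := by rw [h1]; group
        exact mul_left_cancel this
      rwa [h2] at hw⟩⟩
  have hm1 := h.relIndex_mul_card_le (A := A₁) (Z := Subgroup.zpowers z) _ hW₀.2.1
    (fun g hg u hu => rho_mem_fixedVec (fun w hw => by
      have := ((Subgroup.mem_normalizer_iff.1 (inv_mem hg.2)) w).1 hw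
      rwa [inv_inv] at this) hu)
    hzA₁ ((Subgroup.zpowers_le.2 hz).trans hYS)
    (fun g hg u hu hgu hu0 => by_contra fun hg1 => by
      have hgY : g ∈ Y := Subgroup.zpowers_le.2 hz hg
      have hgW : g ∉ W₀ := by
        intro hgW
        have : Subgroup.zpowers g = Subgroup.zpowers z :=
          Subgroup.eq_of_le_of_card_ge (Subgroup.zpowers_le.2 hg) (by
            rw [Nat.card_zpowers, Nat.card_zpowers, hord g hgY hg1, hord z hz (by
              rintro rfl; exact hzW W₀.one_mem)])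
        exact hzW (Subgroup.zpowers_le.2 hgW (this ▸ Subgroup.mem_zpowers z))
      refine hu0 ((Submodule.eq_bot_iff _).1 hY0 u fun w hw => ?_)
      rw [← hmax W₀ hW₀ g hgY hgW] at hw
      refine (?_ : W₀ ⊔ Subgroup.zpowers g ≤
        ({ carrier := {w | ρ w u = u}
           one_mem' := by show ρ 1 u = u; rw [map_one]; rfl
           mul_mem' := fun {c d} hc hd => by
             show ρ (c * d) u = u
             rw [rho_mul_apply, hd, hc]
           inv_mem' := fun {c} hc => by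
             show ρ c⁻¹ u = u
             conv_lhs => rw [← hc, rho_inv_cancel] } : Subgroup R)) hw
      exact sup_le (fun w hw => hu w hw) (Subgroup.zpowers_le.2 hgu))
  rw [Nat.card_zpowers, hord z hz (by rintro rfl; exact hzW W₀.one_mem), ← hy] at hm1
  have hm : S.index ≤ O.card * S.relIndex A₁ := by
    have h1 := h.index_mul_relIndex hBS (inf_le_left : A₁ ≤ B)
    have h2 : 0 < A₁.relIndex (B ⊓ S) := Nat.pos_of_ne_zero Subgroup.FiniteIndex.index_ne_zero
    calc S.index ≤ S.index * A₁.relIndex (B ⊓ S) := Nat.le_mul_of_pos_right _ h2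
      _ = A₁.relIndex B * S.relIndex A₁ := h1
      _ ≤ _ := Nat.mul_le_mul_right _ hA₁
  refine le_trans (sq_le_of_blocks hl hm ?_ Nat.card_pos) hpow
  calc 2 * S.relIndex A₁ ≤ S.relIndex A₁ * r := by
        rw [mul_comm]; exact Nat.mul_le_mul_left _ hrp.out.two_le
    _ ≤ _ := hm1

end CfsgLib.Derangements.UniqueFixed
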