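import Cfsg.Agent.Lib.Derangements.FixedPointOutsideLinear
import Cfsg.Agent.Lib.TwoGroups.NormalCyclic
import Cfsg.Agent.Lib.PGroups.Basic
import Cfsg.Agent.Lib.CoprimeAction.Abelian

/-!
# Tools for the linear case

Group theory of the `r`-groups that occur, and the numerical bound on their order.
-/

set_option autoImplicit false

namespace CfsgLib.Derangements.UniqueFixed

/-- A polynomial in the logarithm is below a large number. -/
theorem pow_le_of_two_pow_le {n k : ℕ} (hn : 2 ^ 1024 ≤ n) (hk : 2 ^ k ≤ n) : k ^ 72 ≤ n := by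
  by_cases h : k < 1024
  · calc k ^ 72 ≤ (2 ^ 10) ^ 72 := Nat.pow_le_pow_left (by norm_num; omega) _
      _ = 2 ^ 720 := by rw [← pow_mul]
      _ ≤ 2 ^ 1024 := Nat.pow_le_pow_right (by norm_num) (by norm_num)
      _ ≤ n := hn
  · set j := Nat.log 2 k
    have hj : 10 ≤ j := Nat.le_log_of_pow_le (by norm_num) (by norm_num; omega)
    have hlow : 2 ^ j ≤ k := Nat.pow_log_le_self 2 (by omega)
    have hup : k < 2 ^ (j + 1) := Nat.lt_pow_succ_log_self (by norm_num) k
    have hgen : ∀ i : ℕ, 10 ≤ i → 72 * (i + 1) ≤ 2 ^ i := fun i hi => by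
      induction i, hi using Nat.le_induction with
      | base => norm_num
      | succ i hi ih => rw [pow_succ]; omega
    have hgrow := hgen j hj
    calc k ^ 72 ≤ (2 ^ (j + 1)) ^ 72 := Nat.pow_le_pow_left hup.le _
      _ = 2 ^ (72 * (j + 1)) := by rw [← pow_mul, mul_comm]
      _ ≤ 2 ^ k := Nat.pow_le_pow_right (by norm_num) (hgrow.trans hlow)
      _ ≤ n := hk

variable {R : Type*} [Group R] [Finite R]

omit [Finite R] in
/-- The relative index is bounded by the number of values of a function separating the cosets. -/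
theorem relIndex_le_card {X : Type*} [Finite X] {A B : Subgroup R} (f : B → X)
    (hf : ∀ g g' : B, f g = f g' → (g : R)⁻¹ * g' ∈ A) : A.relIndex B ≤ Nat.card X := by
  refine Nat.card_le_card_of_injective (fun x => f x.out) fun x x' h => ?_
  rw [← QuotientGroup.out_eq' x, ← QuotientGroup.out_eq' x', QuotientGroup.eq,
    Subgroup.mem_subgroupOf]
  exact hf _ _ h

/-- In a cyclic subgroup there is one subgroup of each prime order. -/
theorem mem_zpowers_of_isCyclic {C : Subgroup R} (hC : IsCyclic C) {r : ℕ} [Fact r.Prime] {z t : R}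
    (hz : z ∈ C) (hzo : orderOf z = r) (ht : t ∈ C) (htr : t ^ r = 1) :
    t ∈ Subgroup.zpowers z := by
  classical
  haveI := Fintype.ofFinite C
  by_contra hcon
  let f : Subgroup.zpowers z ⊕ Unit → {x : C // x ^ r = 1} :=
    Sum.elim (fun x => ⟨⟨x.1, Subgroup.zpowers_le.2 hz x.2⟩, Subtype.ext (by
        obtain ⟨j, hj⟩ := Subgroup.mem_zpowers_iff.1 x.2
        show (x.1) ^ r = 1
        rw [← hj, ← zpow_natCast, ← zpow_mul, mul_comm, zpow_mul, zpow_natCast, ← hzo,
          pow_orderOf_eq_one, one_zpow])⟩)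
      (fun _ => ⟨⟨t, ht⟩, Subtype.ext htr⟩)
  have hf : Function.Injective f := by
    rintro (a | a) (b | b) h <;> simp only [f, Sum.elim_inl, Sum.elim_inr, Subtype.ext_iff] at h
    · exact congrArg Sum.inl (Subtype.ext h)
    · exact absurd (h ▸ a.2) hcon
    · exact absurd (h ▸ b.2) hcon
    · rfl
  have h1 := Nat.card_le_card_of_injective f hf
  have h2 := hC.card_pow_eq_one_le (Fact.out : r.Prime).pos
  rw [Nat.card_sum, Nat.card_zpowers, hzo, Nat.card_unique, Nat.card_eq_fintype_card,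
    Fintype.card_subtype] at h1
  omega

omit [Finite R] in
/-- Powers of a product when the commutator is central. -/
theorem exists_mul_pow_eq {Z : Subgroup R} {x y c : R} (hc : c ∈ Z) (hyx : y * x = x * y * c)
    (hcx : Commute c x) (hcy : Commute c y) (n : ℕ) :
    ∃ w ∈ Z, (x * y) ^ n = x ^ n * y ^ n * w := by
  have hswap : ∀ n : ℕ, y ^ n * x = x * y ^ n * c ^ n := by
    intro n
    induction n with
    | zero => simp
    | succ n ih =>
      rw [pow_succ, mul_assoc, hyx, ← mul_assoc, ← mul_assoc, ih, pow_succ c]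
      rw [mul_assoc (x * y ^ n) (c ^ n) y, (hcy.pow_left n).eq]
      simp only [mul_assoc]
  induction n with
  | zero => exact ⟨1, Z.one_mem, by simp⟩
  | succ n ih =>
    obtain ⟨w, hw, h⟩ := ih
    refine ⟨c ^ n * w, Z.mul_mem (Z.pow_mem hc n) hw, ?_⟩
    rw [pow_succ', h]
    calc x * y * (x ^ n * y ^ n * w) = x * (y * x ^ n) * (y ^ n * w) := by simp only [mul_assoc]
      _ = x * (x ^ n * y * c ^ n) * (y ^ n * w) := by
        congr 2
        clear h
        induction n with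
        | zero => simp
        | succ k ihk =>
          rw [pow_succ, ← mul_assoc y, ihk, pow_succ c]
          rw [mul_assoc (x ^ k * y) (c ^ k) x, (hcx.pow_left k).eq, ← mul_assoc, mul_assoc (x ^ k) y x,
            hyx]
          simp only [mul_assoc]
          rw [(Commute.refl c).pow_right k |>.eq]
      _ = x ^ (n + 1) * y ^ (n + 1) * (c ^ n * w) := by
        have hcn : Commute (c ^ n) (y ^ n) := hcy.pow_pow n n
        rw [pow_succ' x, pow_succ' y, mul_assoc x (x ^ n * y * c ^ n)]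
        simp only [mul_assoc]
        rw [← mul_assoc (c ^ n), hcn.eq, mul_assoc]

/-- The elements `x` of `P` with `x ^ r` and all commutators with `P` in a central subgroup `Z`. -/
def centralLayer (P Z : Subgroup R) (hZP : Z ≤ P) (hZ : ∀ w ∈ Z, ∀ p ∈ P, Commute w p) (r : ℕ) :
    Subgroup R where
  carrier := {x | x ∈ P ∧ x ^ r ∈ Z ∧ ∀ p ∈ P, x * p * x⁻¹ * p⁻¹ ∈ Z}
  one_mem' := ⟨P.one_mem, by rw [one_pow]; exact Z.one_mem, fun p _ => by simp [Z.one_mem]⟩
  mul_mem' := by
    rintro x y ⟨hx, hxr, hxc⟩ ⟨hy, hyr, hyc⟩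
    refine ⟨P.mul_mem hx hy, ?_, fun p hp => ?_⟩
    · have hc := hyc x hx
      obtain ⟨w, hw, he⟩ := exists_mul_pow_eq (x := x) (y := y)
        (c := y * x * y⁻¹ * x⁻¹) hc (by
          rw [← ((hZ _ hc (x * y) (P.mul_mem hx hy)).eq)]; group)
        (hZ _ hc x hx) (hZ _ hc y hy) r
      rw [he]
      exact Z.mul_mem (Z.mul_mem hxr hyr) hw
    · have h1 := hyc p hp
      have h2 := hxc p hp
      have : x * y * p * (x * y)⁻¹ * p⁻¹
          = (x * (y * p * y⁻¹ * p⁻¹) * x⁻¹) * (x * p * x⁻¹ * p⁻¹) := by group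
      rw [this, ← (hZ _ h1 x hx).eq, mul_inv_cancel_right]
      exact Z.mul_mem h1 h2
  inv_mem' := by
    rintro x ⟨hx, hxr, hxc⟩
    refine ⟨P.inv_mem hx, by rw [inv_pow]; exact Z.inv_mem hxr, fun p hp => ?_⟩
    have h1 := hxc p hp
    have : x⁻¹ * p * x⁻¹⁻¹ * p⁻¹ = x⁻¹ * (x * p * x⁻¹ * p⁻¹)⁻¹ * x := by group
    rw [this, mul_assoc, (hZ _ (Z.inv_mem h1) x hx).eq, inv_mul_cancel_left]
    exact Z.inv_mem h1

omit [Finite R] in
theorem mem_centralLayer {P Z : Subgroup R} {hZP : Z ≤ P} {hZ : ∀ w ∈ Z, ∀ p ∈ P, Commute w p}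
    {r : ℕ} {x : R} : x ∈ centralLayer P Z hZP hZ r ↔
      x ∈ P ∧ x ^ r ∈ Z ∧ ∀ p ∈ P, x * p * x⁻¹ * p⁻¹ ∈ Z := Iff.rfl

/-- An `r`-group with a single central subgroup `⟨z⟩` of order `r`, whose central layer has no
other element of order `r`, is cyclic or has a cyclic subgroup of index two. -/
theorem cyclic_or_index_two {r : ℕ} [hr : Fact r.Prime] {P : Subgroup R} (hP : IsPGroup r P) {z : R}
    (hzo : orderOf z = r)
    (hcen : ∀ w ∈ P, w ^ r = 1 → (∀ p ∈ P, Commute w p) → w ∈ Subgroup.zpowers z)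
    (hlayer : ∀ x ∈ P, x ^ r = 1 →
      (∀ p ∈ P, x * p * x⁻¹ * p⁻¹ ∈ Subgroup.zpowers z) → x ∈ Subgroup.zpowers z) :
    IsCyclic P ∨ (r = 2 ∧ ∃ a ∈ P, (Subgroup.zpowers a).relIndex P = 2) := by
  have hna : CfsgLib.TwoGroups.NormalAbelianCyclic P := by
    intro B hBn hBc
    by_contra hBnc
    haveI := hBc
    obtain ⟨q, x, y, hq, hxB, hyB, hxo, hyo, hyx⟩ :=
      CfsgLib.CoprimeAction.exists_two_generators hBnc
    obtain rfl : q = r := by
      obtain ⟨k, hk⟩ := hP x
      have h1 := orderOf_dvd_of_pow_eq_one hk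
      rw [hxo] at h1
      exact (Nat.prime_dvd_prime_iff_eq hq hr.out).1 (hq.dvd_of_dvd_pow h1)
    have hBcomm : ∀ a ∈ B, ∀ b ∈ B, Commute a b := fun a ha b hb =>
      congrArg Subtype.val (hBc.is_comm.comm (⟨a, ha⟩ : B) ⟨b, hb⟩)
    let W : Subgroup P :=
      { carrier := {b | b ∈ B ∧ b ^ q = 1}
        one_mem' := ⟨one_mem _, one_pow q⟩
        mul_mem' := fun {a b} ha hb => ⟨mul_mem ha.1 hb.1, by
          rw [(hBcomm a ha.1 b hb.1).mul_pow, ha.2, hb.2, one_mul]⟩
        inv_mem' := fun {a} ha => ⟨inv_mem ha.1, by rw [inv_pow, ha.2, inv_one]⟩ }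
    haveI hWn : W.Normal := ⟨fun w hw g => ⟨hBn.conj_mem w hw.1 g, by
      rw [conj_pow, hw.2]; group⟩⟩
    obtain ⟨k, hk⟩ := IsPGroup.iff_card.mp (hP.to_subgroup W)
    have hxW : x ∈ W := ⟨hxB, hxo ▸ pow_orderOf_eq_one x⟩
    have hyW : y ∈ W := ⟨hyB, hyo ▸ pow_orderOf_eq_one y⟩
    have hk2 : 2 ≤ k := by
      by_contra hlt
      have hle : Nat.card W ≤ Nat.card (Subgroup.zpowers x) := by
        rw [hk, Nat.card_zpowers, hxo]
        exact (Nat.pow_le_pow_right hq.pos (by omega : k ≤ 1)).trans_eq (pow_one q)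
      exact hyx ((Subgroup.eq_of_le_of_card_ge (Subgroup.zpowers_le.2 hxW) hle).ge hyW)
    obtain ⟨U, hUn, hUW, hU⟩ := CfsgLib.PGroups.exists_normal_card_le hP hk hk2
    haveI := hUn
    obtain ⟨Z₁, hZn, hZU, hZ⟩ := CfsgLib.PGroups.exists_normal_card_le hP hU one_le_two
    rw [pow_one] at hZ
    haveI := hZn
    have hZc := CfsgLib.PGroups.le_center_of_card_eq_prime hP hZ
    have hZz : ∀ w ∈ Z₁, (w : R) ∈ Subgroup.zpowers z := fun w hw =>
      hcen w w.2 (by rw [← Subgroup.coe_pow, (hUW (hZU hw)).2, Subgroup.coe_one])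
        fun p hp => (congrArg Subtype.val (Subgroup.mem_center_iff.1 (hZc hw) ⟨p, hp⟩)).symm
    -- the image of `U` in `P ⧸ Z₁` is central
    have hcard : Nat.card (U.map (QuotientGroup.mk' Z₁)) = q := by
      have h1 := Subgroup.card_mul_index ((QuotientGroup.mk' Z₁).subgroupMap U).ker
      have h2 : Nat.card ((QuotientGroup.mk' Z₁).subgroupMap U).ker = q := by
        rw [← hZ]
        refine Nat.card_congr
          { toFun := fun u => ⟨u.1.1, (QuotientGroup.eq_one_iff u.1.1).1 (congrArg Subtype.val u.2)⟩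
            invFun := fun w => ⟨⟨w.1, hZU w.2⟩, Subtype.ext ((QuotientGroup.eq_one_iff w.1).2 w.2)⟩
            left_inv := fun _ => rfl
            right_inv := fun _ => rfl }
      rw [Subgroup.index_ker, MonoidHom.range_eq_top.2 ((QuotientGroup.mk' Z₁).subgroupMap_surjective U),
        Subgroup.card_top, h2, hU, sq] at h1
      exact Nat.eq_of_mul_eq_mul_left hq.pos h1
    haveI : (U.map (QuotientGroup.mk' Z₁)).Normal :=
      hUn.map _ (QuotientGroup.mk'_surjective _)
    have hUc := CfsgLib.PGroups.le_center_of_card_eq_prime (hP.to_quotient Z₁) hcard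
    obtain ⟨u, hu, hu1⟩ := SetLike.not_le_iff_exists.1 (show ¬ U ≤ Z₁ from fun h => by
      have := Subgroup.card_le_of_le h
      rw [hU, hZ] at this
      nlinarith [hq.two_le])
    have huz : (u : R) ∈ Subgroup.zpowers z := by
      refine hlayer u u.2 (by rw [← Subgroup.coe_pow, (hUW hu).2, Subgroup.coe_one]) fun p hp => ?_
      have h1 := Subgroup.mem_center_iff.1 (hUc ⟨u, hu, rfl⟩) (QuotientGroup.mk' Z₁ ⟨p, hp⟩)
      have h2 : u * ⟨p, hp⟩ * u⁻¹ * (⟨p, hp⟩ : P)⁻¹ ∈ Z₁ := by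
        rw [← QuotientGroup.eq_one_iff]
        simp only [QuotientGroup.mk_mul, QuotientGroup.mk_inv]
        rw [show (u : P ⧸ Z₁) * (⟨p, hp⟩ : P) = (⟨p, hp⟩ : P) * (u : P ⧸ Z₁) from h1.symm]
        group
      simpa using hZz _ h2
    -- so `u` is in `Z₁`
    obtain ⟨w, hw, hw1⟩ := (Subgroup.bot_or_exists_ne_one Z₁).resolve_left fun h => by
      rw [h, Subgroup.card_bot] at hZ; exact hq.one_lt.ne hZ
    have hwu : (u : R) ∈ Subgroup.zpowers (w : R) := by
      have hwo : orderOf (w : R) = q := orderOf_eq_prime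
        (by rw [← Subgroup.coe_pow, (hUW (hZU hw)).2, Subgroup.coe_one])
        (fun h => hw1 (Subtype.ext h))
      rw [Subgroup.eq_of_le_of_card_ge (Subgroup.zpowers_le.2 (hZz w hw)) (by
        rw [Nat.card_zpowers, Nat.card_zpowers, hwo, hzo])]
      exact huz
    obtain ⟨j, hj⟩ := Subgroup.mem_zpowers_iff.1 hwu
    exact hu1 ((show w ^ j = u from Subtype.ext (by rw [Subgroup.coe_zpow]; exact hj)) ▸
      Z₁.zpow_mem hw j)
  rcases CfsgLib.TwoGroups.isCyclic_or_of_normalAbelianCyclic hP hna with h | ⟨h2, h⟩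
  · exact Or.inl h
  refine Or.inr ⟨h2, ?_⟩
  have key : ∀ (b : P) (n : ℕ), 0 < n → orderOf b = n → Nat.card P = 2 * n →
      ∃ a ∈ P, (Subgroup.zpowers a).relIndex P = 2 := by
    intro b n hn hb hc
    refine ⟨b, b.2, ?_⟩
    have h := Subgroup.relIndex_mul_relIndex ⊥ (Subgroup.zpowers (b : R)) P bot_le
      (Subgroup.zpowers_le.2 b.2)
    rw [Subgroup.relIndex_bot_left, Subgroup.relIndex_bot_left, Nat.card_zpowers,
      Subgroup.orderOf_coe, hb, hc, mul_comm 2] at h
    exact Nat.eq_of_mul_eq_mul_left hn h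
  rcases h with ⟨m, -, ⟨e⟩⟩ | ⟨m, -, ⟨e⟩⟩ | ⟨n, -, hc, a, y, ha, -, -⟩
  · exact key (e.symm (DihedralGroup.r 1)) (2 ^ m) (by positivity)
      (by rw [MulEquiv.orderOf_eq, DihedralGroup.orderOf_r_one])
      (by rw [Nat.card_congr e.toEquiv, DihedralGroup.nat_card])
  · haveI : NeZero (2 ^ m) := ⟨pow_ne_zero _ two_ne_zero⟩
    exact key (e.symm (QuaternionGroup.a 1)) (2 * 2 ^ m) (by positivity)
      (by rw [MulEquiv.orderOf_eq, QuaternionGroup.orderOf_a_one])
      (by rw [Nat.card_congr e.toEquiv, Nat.card_eq_fintype_card, QuaternionGroup.card]; omega)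
  · exact key a (2 ^ n) (by positivity) ha (by rw [hc, pow_succ'])

end CfsgLib.Derangements.UniqueFixed
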