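import Mathlib

/-!
# Invariant subspaces of semisimple maps of prime order modulo scalars

For `T ^ r = c` with `r` prime to the characteristic the space decomposes into pieces on which the
dimensions of invariant subspaces are the multiples of a fixed number.
-/

set_option autoImplicit false

open Module Polynomial

namespace CfsgLib.Derangements.SubFix

variable {F : Type*} [Field F] {V : Type*} [AddCommGroup V] [Module F V]

/-- Invariance under a linear map. -/
def Inv (T : Module.End F V) (A : Submodule F V) : Prop := A ≤ A.comap T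

lemma inv_iff_map {T : Module.End F V} {A : Submodule F V} : Inv T A ↔ A.map T ≤ A :=
  Submodule.map_le_iff_le_comap.symm

lemma inv_bot (T : Module.End F V) : Inv T ⊥ := bot_le

lemma inv_top (T : Module.End F V) : Inv T ⊤ := by
  intro x _; exact Submodule.mem_top

lemma Inv.inf {T : Module.End F V} {A B : Submodule F V} (hA : Inv T A) (hB : Inv T B) :
    Inv T (A ⊓ B) := fun _ hx => ⟨hA hx.1, hB hx.2⟩

lemma Inv.sup {T : Module.End F V} {A B : Submodule F V} (hA : Inv T A) (hB : Inv T B) :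
    Inv T (A ⊔ B) :=
  inv_iff_map.2 ((Submodule.map_sup A B T).le.trans (sup_le_sup (inv_iff_map.1 hA) (inv_iff_map.1 hB)))

lemma Inv.pow {T : Module.End F V} {A : Submodule F V} (hA : Inv T A) (n : ℕ) {x : V} (hx : x ∈ A) :
    (T ^ n) x ∈ A := by
  induction n with
  | zero => simpa using hx
  | succ n ih => rw [pow_succ', Module.End.mul_apply]; exact hA ih

/-- On the invariant `K` the dimensions of invariant subspaces step by `e`. -/
structure Uniform (T : Module.End F V) (K : Submodule F V) (e : ℕ) : Prop where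
  pos : 0 < e
  dvd : ∀ A : Submodule F V, A ≤ K → Inv T A → e ∣ finrank F A
  step : ∀ A : Submodule F V, A < K → Inv T A →
    ∃ B : Submodule F V, A < B ∧ B ≤ K ∧ Inv T B ∧ finrank F B ≤ finrank F A + e

variable [FiniteDimensional F V]

lemma Uniform.chain {T : Module.End F V} {K : Submodule F V} {e : ℕ} (h : Uniform T K e) :
    ∀ (l : ℕ) (A : Submodule F V), A ≤ K → Inv T A → finrank F A + l * e ≤ finrank F K →
      ∃ B : Submodule F V, A ≤ B ∧ B ≤ K ∧ Inv T B ∧ finrank F B = finrank F A + l * e := by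
  intro l
  induction l with
  | zero => intro A hA hi _; exact ⟨A, le_rfl, hA, hi, by simp⟩
  | succ l ih =>
    intro A hA hi hle
    have hAK : A < K := hA.lt_of_ne fun e' => by
      rw [e'] at hle
      have := h.pos
      have : e ≤ (l + 1) * e := Nat.le_mul_of_pos_left _ (by omega)
      omega
    obtain ⟨B, hAB, hBK, hBi, hBd⟩ := h.step A hAK hi
    have hlt := Submodule.finrank_lt_finrank_of_lt hAB
    obtain ⟨a, ha⟩ := h.dvd A hA hi
    obtain ⟨b, hb⟩ := h.dvd B hBK hBi
    have hab : b = a + 1 := by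
      rw [ha, hb] at hlt hBd
      have h1 := Nat.lt_of_mul_lt_mul_left hlt
      have h2 : b ≤ a + 1 := Nat.le_of_mul_le_mul_left (by rw [mul_add, mul_one]; exact hBd) h.pos
      omega
    have hB' : finrank F B = finrank F A + e := by rw [hb, ha, hab]; ring
    obtain ⟨C, hBC, hCK, hCi, hCd⟩ := ih B hBK hBi (by rw [hB']; linarith)
    exact ⟨C, hAB.le.trans hBC, hCK, hCi, by rw [hCd, hB']; ring⟩

/-- Nested invariant subspaces of given dimensions. -/
lemma exists_nested {T : Module.End F V} {K W : Submodule F V} {d e : ℕ} (hd : Uniform T K d)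
    (he : Uniform T W e) (hKW : IsCompl K W) {j₁ j₂ l₁ l₂ : ℕ} (hj : j₁ ≤ j₂) (hl : l₁ ≤ l₂)
    (hjK : j₂ * d ≤ finrank F K) (hlW : l₂ * e ≤ finrank F W) :
    ∃ A B : Submodule F V, A ≤ B ∧ Inv T A ∧ Inv T B ∧ finrank F A = j₁ * d + l₁ * e ∧
      finrank F B = j₂ * d + l₂ * e := by
  obtain ⟨A₁, -, hA₁K, hA₁i, hA₁d⟩ := hd.chain j₁ ⊥ bot_le (inv_bot T)
    (by rw [finrank_bot, zero_add]; exact (Nat.mul_le_mul_right d hj).trans hjK)
  rw [finrank_bot, zero_add] at hA₁d
  obtain ⟨B₁, hAB₁, hB₁K, hB₁i, hB₁d⟩ := hd.chain (j₂ - j₁) A₁ hA₁K hA₁i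
    (by rw [hA₁d, ← add_mul, Nat.add_sub_cancel' hj]; exact hjK)
  rw [hA₁d, ← add_mul, Nat.add_sub_cancel' hj] at hB₁d
  obtain ⟨A₂, -, hA₂W, hA₂i, hA₂d⟩ := he.chain l₁ ⊥ bot_le (inv_bot T)
    (by rw [finrank_bot, zero_add]; exact (Nat.mul_le_mul_right e hl).trans hlW)
  rw [finrank_bot, zero_add] at hA₂d
  obtain ⟨B₂, hAB₂, hB₂W, hB₂i, hB₂d⟩ := he.chain (l₂ - l₁) A₂ hA₂W hA₂i
    (by rw [hA₂d, ← add_mul, Nat.add_sub_cancel' hl]; exact hlW)
  rw [hA₂d, ← add_mul, Nat.add_sub_cancel' hl] at hB₂d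
  have hdim : ∀ X Y : Submodule F V, X ≤ K → Y ≤ W →
      finrank F (X ⊔ Y : Submodule F V) = finrank F X + finrank F Y := by
    intro X Y hX hY
    rw [← Submodule.finrank_sup_add_finrank_inf_eq X Y,
      show X ⊓ Y = ⊥ from (hKW.disjoint.mono hX hY).eq_bot, finrank_bot, add_zero]
  exact ⟨A₁ ⊔ A₂, B₁ ⊔ B₂, sup_le_sup hAB₁ hAB₂, hA₁i.sup hA₂i, hB₁i.sup hB₂i,
    by rw [hdim _ _ hA₁K hA₂W, hA₁d, hA₂d], by rw [hdim _ _ hB₁K hB₂W, hB₁d, hB₂d]⟩

/-- Extending an invariant subspace by a cyclic piece. -/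
lemma exists_cyclic_step {T : Module.End F V} {A : Submodule F V} (hA : Inv T A) {v : V} {e : ℕ}
    (hv : v ∉ A) (he : 0 < e)
    (hrel : (T ^ e) v ∈ A ⊔ Submodule.span F (Set.range fun t : Fin e => (T ^ (t : ℕ)) v)) :
    ∃ B : Submodule F V, A < B ∧ Inv T B ∧ finrank F B ≤ finrank F A + e ∧
      B = A ⊔ Submodule.span F (Set.range fun t : Fin e => (T ^ (t : ℕ)) v) := by
  set S := Submodule.span F (Set.range fun t : Fin e => (T ^ (t : ℕ)) v) with hS
  refine ⟨A ⊔ S, lt_of_le_of_ne le_sup_left fun h => hv ?_, ?_, ?_, rfl⟩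
  · rw [h]
    exact Submodule.mem_sup_right (Submodule.subset_span ⟨⟨0, he⟩, by simp⟩)
  · refine inv_iff_map.2 ((Submodule.map_sup A S T).le.trans (sup_le ((inv_iff_map.1 hA).trans le_sup_left) ?_))
    rw [hS, Submodule.map_span, Submodule.span_le]
    rintro _ ⟨_, ⟨t, rfl⟩, rfl⟩
    show T ((T ^ (t : ℕ)) v) ∈ _
    rw [← Module.End.mul_apply, ← pow_succ']
    by_cases h : (t : ℕ) + 1 < e
    · exact Submodule.mem_sup_right (Submodule.subset_span ⟨⟨_, h⟩, rfl⟩)
    · rw [show (t : ℕ) + 1 = e by omega]; exact hrel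
  · refine (Submodule.finrank_add_le_finrank_add_finrank A S).trans (Nat.add_le_add_left ?_ _)
    refine (finrank_range_le_card (fun t : Fin e => (T ^ (t : ℕ)) v)).trans ?_
    simp

/-- When `T` is the identity on `K` every dimension occurs. -/
lemma uniform_fixed {T : Module.End F V} {K : Submodule F V} (h : ∀ v ∈ K, T v = v) : Uniform T K 1 := by
  refine ⟨one_pos, fun A _ _ => one_dvd _, fun A hA hi => ?_⟩
  obtain ⟨v, hvK, hvA⟩ := SetLike.exists_of_lt hA
  obtain ⟨B, hAB, hBi, hBd, rfl⟩ := exists_cyclic_step hi hvA one_pos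
    (Submodule.mem_sup_right (by
      rw [pow_one, h v hvK]; exact Submodule.subset_span ⟨0, by simp⟩))
  refine ⟨_, hAB, sup_le hA.le (Submodule.span_le.2 ?_), hBi, hBd⟩
  rintro _ ⟨t, rfl⟩
  have : (t : ℕ) = 0 := by omega
  simp [hvK]

/-- The scalar relation with a non-power forces multiples of `r`. -/
lemma uniform_of_not_pow {T : Module.End F V} {r : ℕ} (hr : r.Prime) {c : F}
    (hT : T ^ r = c • (1 : Module.End F V)) (hc : ∀ a : F, a ^ r ≠ c) : Uniform T ⊤ r := by
  refine ⟨hr.pos, fun A _ hA => ?_, fun A hA hi => ?_⟩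
  · by_contra hd
    have hpow : ∀ (n : ℕ) (x : A), (((T.restrict hA) ^ n) x : V) = (T ^ n) (x : V) := by
      intro n
      induction n with
      | zero => intro x; simp
      | succ n ih =>
        intro x
        rw [pow_succ', pow_succ', Module.End.mul_apply, Module.End.mul_apply]
        show T (((T.restrict hA) ^ n) x : V) = _
        rw [ih]
    have hTA : (T.restrict hA) ^ r = c • (1 : Module.End F A) :=
      LinearMap.ext fun x => Subtype.ext (by rw [hpow, hT]; rfl)
    have hdet := congrArg LinearMap.det hTA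
    rw [map_pow, LinearMap.det_smul, map_one, mul_one] at hdet
    obtain ⟨u, v, huv⟩ : ∃ u v : ℕ, finrank F A * u = 1 + r * v := by
      have : Fact r.Prime := ⟨hr⟩
      have hd0 : (finrank F A : ZMod r) ≠ 0 := fun h => hd ((ZMod.natCast_eq_zero_iff _ _).1 h)
      refine ⟨((finrank F A : ZMod r)⁻¹).val, finrank F A * ((finrank F A : ZMod r)⁻¹).val / r, ?_⟩
      have h1 : ((finrank F A * ((finrank F A : ZMod r)⁻¹).val : ℕ) : ZMod r) = ((1 : ℕ) : ZMod r) := by
        rw [Nat.cast_mul, ZMod.natCast_zmod_val, mul_inv_cancel₀ hd0, Nat.cast_one]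
      rw [ZMod.natCast_eq_natCast_iff', Nat.one_mod_eq_one.2 hr.ne_one] at h1
      conv_lhs => rw [← Nat.mod_add_div (finrank F A * ((finrank F A : ZMod r)⁻¹).val) r, h1]
    have hc0 : c ≠ 0 := fun h => hc 0 (by rw [h, zero_pow hr.ne_zero])
    refine hc (LinearMap.det (T.restrict hA) ^ u / c ^ v) ?_
    rw [div_pow, ← pow_mul, mul_comm u r, pow_mul, hdet, ← pow_mul, huv, pow_add, pow_one,
      ← pow_mul, mul_comm v r, mul_div_assoc, div_self (pow_ne_zero _ hc0), mul_one]
  · obtain ⟨v, -, hvA⟩ := SetLike.exists_of_lt hA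
    obtain ⟨B, hAB, hBi, hBd, -⟩ := exists_cyclic_step hi hvA hr.pos (Submodule.mem_sup_right (by
      rw [hT, LinearMap.smul_apply, Module.End.one_apply]
      exact Submodule.smul_mem _ _ (Submodule.subset_span ⟨⟨0, hr.pos⟩, by simp⟩)))
    exact ⟨B, hAB, le_top, hBi, hBd⟩

section Order

variable [Finite F] {r : ℕ} [Fact r.Prime]

local notation "i₀" => orderOf ((Nat.card F : ZMod r))

lemma natCast_card_pow_eq_one_iff {d : ℕ} : (Nat.card F : ZMod r) ^ d = 1 ↔ i₀ ∣ d :=
  orderOf_dvd_iff_pow_eq_one.symm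

lemma dvd_pow_card_sub_one (d : ℕ) : r ∣ Nat.card F ^ d - 1 ↔ i₀ ∣ d := by
  have h1 : 1 ≤ Nat.card F ^ d := Nat.one_le_pow _ _ Nat.card_pos
  rw [← natCast_card_pow_eq_one_iff, ← ZMod.natCast_eq_zero_iff, Nat.cast_sub h1, Nat.cast_pow,
    Nat.cast_one, sub_eq_zero]

/-- A fixed-point-free map of order `r` lives in dimensions divisible by the order of `q`. -/
lemma dvd_finrank_of_free {T : Module.End F V} (hT : T ^ r = 1) {A : Submodule F V} (hA : Inv T A)
    (hfree : ∀ v ∈ A, T v = v → v = 0) : i₀ ∣ finrank F A := by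
  classical
  have : Finite V := Module.finite_of_finite F
  have : Fintype A := Fintype.ofFinite A
  have hpow : ∀ (n : ℕ) (x : A), (((T.restrict hA) ^ n) x : V) = (T ^ n) (x : V) := by
    intro n
    induction n with
    | zero => intro x; simp
    | succ n ih =>
      intro x
      rw [pow_succ', pow_succ', Module.End.mul_apply, Module.End.mul_apply]
      show T (((T.restrict hA) ^ n) x : V) = _
      rw [ih]
  have hr1 : 1 ≤ r := (Fact.out : r.Prime).pos
  have hT' : (T.restrict hA) ^ r = 1 := LinearMap.ext fun x => Subtype.ext (by rw [hpow, hT]; rfl)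
  let σ : Equiv.Perm A :=
    { toFun := T.restrict hA
      invFun := ((T.restrict hA) ^ (r - 1) : Module.End F A)
      left_inv := fun x => by
        show (((T.restrict hA) ^ (r - 1)) * T.restrict hA) x = x
        rw [← pow_succ, Nat.sub_add_cancel hr1, hT']; rfl
      right_inv := fun x => by
        show (T.restrict hA * ((T.restrict hA) ^ (r - 1))) x = x
        rw [← pow_succ', Nat.sub_add_cancel hr1, hT']; rfl }
  have hσ : σ ^ r ^ 1 = 1 := by
    ext x
    rw [pow_one, Equiv.Perm.coe_pow]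
    show ((T.restrict hA)^[r] x : V) = (x : V)
    rw [← Module.End.pow_apply, hT']; rfl
  have hsupp : σ.supportᶜ = {0} := by
    ext x
    simp only [Finset.mem_compl, Equiv.Perm.mem_support, not_not, Finset.mem_singleton]
    refine ⟨fun h => Subtype.ext (hfree x x.2 (congrArg Subtype.val h)), fun h => ?_⟩
    show T.restrict hA x = x
    rw [h, map_zero]
  have h := Equiv.Perm.card_compl_support_modEq hσ
  rw [hsupp, Finset.card_singleton, ← Nat.card_eq_fintype_card, Module.natCard_eq_pow_finrank (K := F)] at h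
  rw [← dvd_pow_card_sub_one]
  exact (Nat.modEq_iff_dvd' (Nat.one_le_pow _ _ Nat.card_pos)).1 h

/-- An invariant subspace can be enlarged by at most the order of `q`. -/
lemma exists_step {T : Module.End F V} (hT : T ^ r = 1) (hrF : (r : F) ≠ 0) {A K : Submodule F V}
    (hAi : Inv T A) (hKi : Inv T K) (hAK : A < K) :
    ∃ B : Submodule F V, A < B ∧ B ≤ K ∧ Inv T B ∧ finrank F B ≤ finrank F A + i₀ := by
  classical
  have hrp : r.Prime := Fact.out
  have hq0 : (Nat.card F : ZMod r) ≠ 0 := by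
    rw [ne_eq, ZMod.natCast_eq_zero_iff]
    intro hd
    obtain ⟨p, hp⟩ := CharP.exists F
    have : Fintype F := Fintype.ofFinite F
    obtain ⟨⟨f, hf⟩, hpp, hcard⟩ := FiniteField.card F p
    rw [Nat.card_eq_fintype_card, hcard] at hd
    have := (Nat.prime_dvd_prime_iff_eq hrp hpp).1 (hrp.dvd_of_dvd_pow hd)
    subst this
    exact hrF (CharP.cast_eq_zero F r)
  have hi0 : 0 < i₀ := by
    rw [orderOf_pos_iff]
    exact isOfFinOrder_iff_pow_eq_one.2 ⟨r - 1, by have := hrp.two_le; omega, ZMod.pow_card_sub_one_eq_one hq0⟩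
  -- a vector of `K` outside `A` killed modulo `A` by an irreducible factor
  have key : ∀ P : F[X], (∀ v ∈ K, aeval T P v ∈ A) → P ≠ 0 →
      ∃ g : F[X], Irreducible g ∧ g ∣ P ∧ ∃ v ∈ K, v ∉ A ∧ aeval T g v ∈ A := by
    intro P
    induction P using UniqueFactorizationMonoid.induction_on_prime with
    | h₁ => intro _ h; exact absurd rfl h
    | h₂ u hu =>
      intro h _
      exfalso
      obtain ⟨v, hvK, hvA⟩ := SetLike.exists_of_lt hAK
      obtain ⟨a, ha, rfl⟩ := Polynomial.isUnit_iff.1 hu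
      have := h v hvK
      rw [aeval_C, Module.algebraMap_end_apply] at this
      exact hvA ((Submodule.smul_mem_iff _ ha.ne_zero).1 this)
    | h₃ P g hP0 hg ih =>
      intro h h0
      by_cases hP : ∀ v ∈ K, aeval T P v ∈ A
      · obtain ⟨g', hg', hdvd, hv⟩ := ih hP hP0
        exact ⟨g', hg', hdvd.mul_left g, hv⟩
      · push Not at hP
        obtain ⟨v, hvK, hvA⟩ := hP
        refine ⟨g, hg.irreducible, dvd_mul_right g P, aeval T P v, ?_, hvA, ?_⟩
        · have hK' : ∀ Q : F[X], aeval T Q v ∈ K := by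
            intro Q
            induction Q using Polynomial.induction_on' with
            | add p q hp hq => rw [map_add, LinearMap.add_apply]; exact add_mem hp hq
            | monomial n a =>
              rw [aeval_monomial, Module.End.mul_apply, Module.algebraMap_end_apply]
              exact Submodule.smul_mem _ _ (hKi.pow n hvK)
          exact hK' P
        · rw [← Module.End.mul_apply, ← map_mul]; exact h v hvK
  obtain ⟨g, hgi, hgd, v, hvK, hvA, hgv⟩ := key (X ^ r - 1 : F[X])
    (fun v _ => by simp [hT]) (by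
      rw [← C_1]; exact X_pow_sub_C_ne_zero hrp.pos 1)
  have hdeg : g.natDegree ∣ i₀ := by
    refine hgi.natDegree_dvd_of_dvd_X_pow_card_pow_sub_X (hgd.trans ?_)
    obtain ⟨k, hk⟩ := (dvd_pow_card_sub_one (F := F) (r := r) i₀).2 dvd_rfl
    have hQ : Nat.card F ^ i₀ = r * k + 1 := by
      have : 1 ≤ Nat.card F ^ i₀ := Nat.one_le_pow _ _ Nat.card_pos
      omega
    rw [hQ, pow_succ, show (X : F[X]) ^ (r * k) * X - X = (((X : F[X]) ^ r) ^ k - 1) * X by
      rw [← pow_mul]; ring]
    exact (sub_one_dvd_pow_sub_one _ k).mul_right _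
  obtain ⟨g', hg'm, hg'd, hg'v⟩ : ∃ g' : F[X], g'.Monic ∧ g'.natDegree = g.natDegree ∧ aeval T g' v ∈ A :=
    ⟨g * C g.leadingCoeff⁻¹, monic_mul_leadingCoeff_inv hgi.ne_zero,
      natDegree_mul_C (inv_ne_zero (leadingCoeff_ne_zero.2 hgi.ne_zero)), by
      rw [mul_comm, map_mul, aeval_C, Module.End.mul_apply, Module.algebraMap_end_apply]
      exact Submodule.smul_mem _ _ hgv⟩
  obtain ⟨B, hAB, hBi, hBd, rfl⟩ := exists_cyclic_step hAi hvA hgi.natDegree_pos (by
    have h := hg'v
    rw [aeval_eq_sum_range, Finset.sum_range_succ, hg'm.coeff_natDegree, one_smul, LinearMap.add_apply,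
      hg'd, LinearMap.sum_apply] at h
    set S := Submodule.span F (Set.range fun t : Fin g.natDegree => (T ^ (t : ℕ)) v) with hS
    have hsum : (∑ i ∈ Finset.range g.natDegree, (g'.coeff i • T ^ i) v) ∈ S := by
      refine Submodule.sum_mem _ fun i hi => ?_
      rw [LinearMap.smul_apply]
      exact Submodule.smul_mem _ _ (Submodule.subset_span ⟨⟨i, Finset.mem_range.1 hi⟩, rfl⟩)
    have e : (T ^ g.natDegree) v = ((∑ i ∈ Finset.range g.natDegree, (g'.coeff i • T ^ i) v) +
        (T ^ g.natDegree) v) - ∑ i ∈ Finset.range g.natDegree, (g'.coeff i • T ^ i) v := by abel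
    rw [e]
    exact Submodule.sub_mem _ (Submodule.mem_sup_left h) (Submodule.mem_sup_right hsum))
  refine ⟨_, hAB, sup_le hAK.le (Submodule.span_le.2 ?_), hBi,
    hBd.trans (Nat.add_le_add_left (Nat.le_of_dvd hi0 hdeg) _)⟩
  rintro _ ⟨t, rfl⟩
  exact hKi.pow _ hvK

omit [Finite F] [Fact r.Prime] [FiniteDimensional F V] in
lemma inv_ker_sub_one (T : Module.End F V) : Inv T (LinearMap.ker (T - 1)) := fun x hx => by
  have : T x = x := sub_eq_zero.1 (by simpa using hx)
  show T x ∈ LinearMap.ker (T - 1)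
  rw [this]; exact hx

omit [Finite F] [Fact r.Prime] [FiniteDimensional F V] in
lemma inv_range_sub_one (T : Module.End F V) : Inv T (LinearMap.range (T - 1)) := by
  rintro _ ⟨w, rfl⟩
  exact ⟨T w, by simp⟩

omit [Finite F] [Fact r.Prime] [FiniteDimensional F V] in
lemma eq_zero_of_range_fixed {T : Module.End F V} (hT : T ^ r = 1) (hrF : (r : F) ≠ 0) {w : V}
    (h : T ((T - 1) w) = (T - 1) w) : (T - 1) w = 0 := by
  have hfix : ∀ t : ℕ, (T ^ t) ((T - 1) w) = (T - 1) w := by
    intro t
    induction t with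
    | zero => simp
    | succ t ih => rw [pow_succ, Module.End.mul_apply, h, ih]
  have h1 : ∑ t ∈ Finset.range r, (T ^ t) ((T - 1) w) = (r : F) • (T - 1) w := by
    rw [Finset.sum_congr rfl fun t _ => hfix t, Finset.sum_const, Finset.card_range, Nat.cast_smul_eq_nsmul]
  have h2 : ∑ t ∈ Finset.range r, (T ^ t) ((T - 1) w) = 0 := by
    rw [← LinearMap.sum_apply, ← Module.End.mul_apply, geom_sum_mul, hT, sub_self, LinearMap.zero_apply]
  rw [h2] at h1
  exact (smul_eq_zero.1 h1.symm).resolve_left hrF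

/-- The decomposition into fixed and fixed-point-free parts. -/
theorem decomp {T : Module.End F V} (hT : T ^ r = 1) (hrF : (r : F) ≠ 0) :
    IsCompl (LinearMap.ker (T - 1)) (LinearMap.range (T - 1)) ∧
      Uniform T (LinearMap.ker (T - 1)) 1 ∧ Uniform T (LinearMap.range (T - 1)) i₀ := by
  refine ⟨?_, uniform_fixed fun v hv => sub_eq_zero.1 (by simpa using hv), ?_⟩
  · have hdisj : Disjoint (LinearMap.ker (T - 1)) (LinearMap.range (T - 1)) := by
      rw [Submodule.disjoint_def]
      rintro _ hx ⟨w, rfl⟩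
      exact eq_zero_of_range_fixed hT hrF (sub_eq_zero.1 (by simpa using hx))
    refine ⟨hdisj, codisjoint_iff.2 (Submodule.eq_top_of_finrank_eq ?_)⟩
    have h1 := Submodule.finrank_sup_add_finrank_inf_eq (LinearMap.ker (T - 1)) (LinearMap.range (T - 1))
    rw [hdisj.eq_bot, finrank_bot, add_zero] at h1
    rw [h1, add_comm, LinearMap.finrank_range_add_finrank_ker]
  · refine ⟨?_, fun A hA hi => dvd_finrank_of_free hT hi fun v hv hfix => ?_, fun A hA hi => ?_⟩
    · rw [orderOf_pos_iff]
      have hq0 : (Nat.card F : ZMod r) ≠ 0 := by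
        rw [ne_eq, ZMod.natCast_eq_zero_iff]
        intro hd
        obtain ⟨p, hp⟩ := CharP.exists F
        have : Fintype F := Fintype.ofFinite F
        obtain ⟨⟨f, hf⟩, hpp, hcard⟩ := FiniteField.card F p
        rw [Nat.card_eq_fintype_card, hcard] at hd
        have := (Nat.prime_dvd_prime_iff_eq (Fact.out : r.Prime) hpp).1 ((Fact.out : r.Prime).dvd_of_dvd_pow hd)
        subst this
        exact hrF (CharP.cast_eq_zero F r)
      exact isOfFinOrder_iff_pow_eq_one.2 ⟨r - 1, by have := (Fact.out : r.Prime).two_le; omega,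
        ZMod.pow_card_sub_one_eq_one hq0⟩
    · obtain ⟨w, rfl⟩ := hA hv
      exact eq_zero_of_range_fixed hT hrF hfix
    · exact exists_step hT hrF hi (inv_range_sub_one T) hA

/-- The dimension of an invariant subspace splits. -/
theorem finrank_split {T : Module.End F V} (hT : T ^ r = 1) (hrF : (r : F) ≠ 0) {A : Submodule F V}
    (hA : Inv T A) :
    ∃ l, finrank F A = finrank F (A ⊓ LinearMap.ker (T - 1) : Submodule F V) + l * i₀ := by
  have hTA : A.map (T - 1) ≤ A := by
    rintro _ ⟨x, hx, rfl⟩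
    simpa using A.sub_mem (hA hx) hx
  have h := ((T - 1).domRestrict A).finrank_range_add_finrank_ker
  rw [LinearMap.range_domRestrict, ← Submodule.finrank_map_subtype_eq A (LinearMap.ker ((T - 1).domRestrict A)),
    LinearMap.ker_domRestrict, Submodule.map_comap_subtype] at h
  have hi : Inv T (A.map (T - 1)) := by
    rintro _ ⟨x, hx, rfl⟩
    exact ⟨T x, hA hx, by simp⟩
  obtain ⟨l, hl⟩ : i₀ ∣ finrank F (A.map (T - 1) : Submodule F V) := by
    refine dvd_finrank_of_free hT hi ?_
    rintro _ ⟨x, -, rfl⟩ hfix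
    exact eq_zero_of_range_fixed hT hrF hfix
  exact ⟨l, by rw [← h, hl]; ring⟩

end Order

omit [FiniteDimensional F V] in
/-- Invariant subspaces of a semisimple map have invariant complements. -/
theorem exists_inv_compl {T : Module.End F V} {r : ℕ} {c : F} (hc : c ≠ 0) (hrF : (r : F) ≠ 0)
    (hT : T ^ r = c • (1 : Module.End F V)) {A : Submodule F V} (hA : Inv T A) :
    ∃ C : Submodule F V, IsCompl A C ∧ Inv T C := by
  obtain ⟨C₀, hC₀⟩ := exists_isCompl A
  have hr0 : r ≠ 0 := fun h => hrF (by rw [h, Nat.cast_zero])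
  set π : Module.End F V := A.subtype.comp (A.projectionOnto C₀ hC₀) with hπ
  set P : Module.End F V := ((r : F)⁻¹ * c⁻¹) • ∑ t ∈ Finset.range r, T ^ t * π * T ^ (r - t) with hP
  have hrange : ∀ v, P v ∈ A := by
    intro v
    rw [hP, LinearMap.smul_apply, LinearMap.sum_apply]
    refine Submodule.smul_mem _ _ (Submodule.sum_mem _ fun t _ => ?_)
    rw [Module.End.mul_apply, Module.End.mul_apply]
    exact hA.pow t ((A.projectionOnto C₀ hC₀ ((T ^ (r - t)) v))).2
  have hid : ∀ a ∈ A, P a = a := by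
    intro a ha
    have hterm : ∀ t ∈ Finset.range r, (T ^ t * π * T ^ (r - t)) a = c • a := by
      intro t ht
      rw [Finset.mem_range] at ht
      rw [Module.End.mul_apply, Module.End.mul_apply]
      have hm := hA.pow (r - t) ha
      have : π ((T ^ (r - t)) a) = (T ^ (r - t)) a := by
        rw [hπ, LinearMap.comp_apply]
        exact congrArg Subtype.val (Submodule.projectionOnto_apply_left hC₀ ⟨_, hm⟩)
      rw [this, ← Module.End.mul_apply, ← pow_add, Nat.add_sub_cancel' ht.le, hT]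
      rfl
    rw [hP, LinearMap.smul_apply, LinearMap.sum_apply, Finset.sum_congr rfl hterm, Finset.sum_const,
      Finset.card_range, ← Nat.cast_smul_eq_nsmul F, smul_smul, smul_smul]
    rw [show (r : F)⁻¹ * c⁻¹ * (r : F) * c = 1 by field_simp, one_smul]
  have hcomm : T * P = P * T := by
    rw [hP, mul_smul_comm, smul_mul_assoc, Finset.mul_sum, Finset.sum_mul]
    congr 1
    obtain ⟨s, rfl⟩ : ∃ s, r = s + 1 := ⟨r - 1, by omega⟩
    rw [Finset.sum_range_succ, Finset.sum_range_succ' (fun t => T ^ t * π * T ^ (s + 1 - t) * T)]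
    congr 1
    · refine Finset.sum_congr rfl fun t ht => ?_
      rw [Finset.mem_range] at ht
      rw [show s + 1 - t = (s + 1 - (t + 1)) + 1 by omega, pow_succ' T t, pow_succ T (s + 1 - (t + 1))]
      simp only [mul_assoc]
    · simp only [Nat.sub_zero, pow_zero, one_mul, mul_assoc, ← pow_succ]
      rw [← mul_assoc, ← mul_assoc, ← pow_succ', hT, smul_mul_assoc, one_mul, Nat.add_sub_cancel_left,
        pow_one, pow_succ T (s + 1), hT, smul_mul_assoc, smul_mul_assoc, one_mul, mul_smul_comm]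
  refine ⟨LinearMap.ker P, ⟨?_, ?_⟩, ?_⟩
  · rw [Submodule.disjoint_def]
    intro x hx hk
    rw [← hid x hx]; exact hk
  · rw [codisjoint_iff, eq_top_iff]
    intro x _
    refine Submodule.mem_sup.2 ⟨P x, hrange x, x - P x, ?_, by abel⟩
    simp [hid _ (hrange x)]
  · intro x hx
    show P (T x) = 0
    rw [← Module.End.mul_apply, ← hcomm, Module.End.mul_apply, LinearMap.mem_ker.1 hx, map_zero]

end CfsgLib.Derangements.SubFix
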