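import Mathlib
import Cfsg.Agent.Lib.Derangements.FixedSubspaces

/-!
# Determinants, powers and witnesses for maps of prime order modulo scalars
-/

set_option autoImplicit false

open Module Polynomial

namespace CfsgLib.Derangements.SubFix

variable {F : Type*} [Field F]

section Det

variable {V : Type*} [AddCommGroup V] [Module F V] [FiniteDimensional F V]

/-- The characteristic polynomial when `T ^ r = c` is not a power. -/
theorem det_of_not_pow {T : Module.End F V} {r : ℕ} (hr : r.Prime) {c : F}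
    (hT : T ^ r = c • (1 : Module.End F V)) (hc : ∀ a : F, a ^ r ≠ c) :
    ∃ l, finrank F V = r * l ∧ LinearMap.det T = ((-1) ^ (r + 1) * c) ^ l := by
  classical
  set f : F[X] := X ^ r - C c with hf
  have hfi : Irreducible f := X_pow_sub_C_irreducible_of_prime hr hc
  have hfm : f.Monic := monic_X_pow_sub_C c hr.ne_zero
  let b := finBasis F V
  set M := LinearMap.toMatrix b b T with hM
  have hMr : M ^ r = c • (1 : Matrix _ _ F) := by
    have h := congrArg (LinearMap.toMatrixAlgEquiv b) hT
    rw [map_pow, map_smul, map_one] at h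
    exact h
  have hcp : M.charpoly.Monic := M.charpoly_monic
  have hfac : ∀ g ∈ UniqueFactorizationMonoid.normalizedFactors M.charpoly, g = f := by
    intro g hg
    have hgi : Irreducible g := UniqueFactorizationMonoid.irreducible_of_normalized_factor g hg
    have hgd : g ∣ M.charpoly := UniqueFactorizationMonoid.dvd_of_mem_normalizedFactors hg
    have : Fact (Irreducible g) := ⟨hgi⟩
    set φ := algebraMap F (AdjoinRoot g) with hφ
    set ζ := AdjoinRoot.root g with hζ
    have h0 : (M.map φ).charpoly.eval ζ = 0 := by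
      rw [Matrix.charpoly_map, eval_map, ← aeval_def]
      obtain ⟨h, hh⟩ := hgd
      rw [hh, map_mul, show aeval ζ g = 0 from by rw [hζ, AdjoinRoot.aeval_eq, AdjoinRoot.mk_self], zero_mul]
    rw [Matrix.eval_charpoly] at h0
    obtain ⟨v, hv0, hv⟩ := Matrix.exists_mulVec_eq_zero_iff.2 h0
    rw [Matrix.sub_mulVec, sub_eq_zero, Matrix.scalar_apply, ← Matrix.smul_one_eq_diagonal,
      Matrix.smul_mulVec, Matrix.one_mulVec] at hv
    have hpow : ∀ t : ℕ, ((M.map φ) ^ t).mulVec v = ζ ^ t • v := by
      intro t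
      induction t with
      | zero => simp
      | succ t ih =>
        rw [pow_succ, ← Matrix.mulVec_mulVec, ← hv, Matrix.mulVec_smul, ih, smul_smul, ← pow_succ']
    have h1 := hpow r
    rw [show (M.map φ) ^ r = φ c • (1 : Matrix _ _ (AdjoinRoot g)) by
      rw [← RingHom.mapMatrix_apply, ← map_pow, hMr, RingHom.mapMatrix_apply]
      ext i j; by_cases hij : i = j <;> simp [hij], Matrix.smul_mulVec, Matrix.one_mulVec] at h1
    have h2 : φ c = ζ ^ r := smul_left_injective _ hv0 h1
    have hgf : g ∣ f := by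
      rw [← AdjoinRoot.mk_eq_zero, hf, map_sub, map_pow, AdjoinRoot.mk_X, AdjoinRoot.mk_C,
        ← hζ, ← h2, hφ, AdjoinRoot.algebraMap_eq, sub_self]
    exact eq_of_monic_of_associated (UniqueFactorizationMonoid.normalize_normalized_factor g hg ▸
      Polynomial.monic_normalize hgi.ne_zero) hfm (hgi.associated_of_dvd hfi hgf)
  set l := Multiset.card (UniqueFactorizationMonoid.normalizedFactors M.charpoly) with hl
  have hprod : M.charpoly = f ^ l := by
    have h1 := UniqueFactorizationMonoid.prod_normalizedFactors hcp.ne_zero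
    rw [Multiset.eq_replicate_card.2 hfac, Multiset.prod_replicate, ← hl] at h1
    exact (eq_of_monic_of_associated (hfm.pow l) hcp h1).symm
  have hn : finrank F V = r * l := by
    have h := congrArg Polynomial.natDegree hprod
    rw [M.charpoly_natDegree_eq_dim, Fintype.card_fin, hfm.natDegree_pow, hf, natDegree_X_pow_sub_C] at h
    rw [h, mul_comm]
  refine ⟨l, hn, ?_⟩
  rw [← LinearMap.det_toMatrix b T, ← hM, Matrix.det_eq_sign_charpoly_coeff, Fintype.card_fin, hprod,
    coeff_zero_eq_eval_zero, eval_pow, hf, eval_sub, eval_pow, eval_X, eval_C, zero_pow hr.ne_zero, zero_sub,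
    hn, pow_mul, ← mul_pow, pow_succ]
  congr 1
  ring

end Det

section Powers

variable [Finite F]

/-- An element of small order in a cyclic group is a power. -/
lemma exists_root_of_pow_eq_one {r d : ℕ} {e : Fˣ} (he : e ^ d = 1) (hd : r * d ∣ Nat.card Fˣ) :
    ∃ a : Fˣ, a ^ r = e := by
  obtain ⟨z, hz⟩ := IsCyclic.exists_generator (α := Fˣ)
  obtain ⟨t, rfl⟩ := Submonoid.mem_powers_iff _ _ |>.1 ((mem_powers_iff_mem_zpowers (x := z) (y := e)).2 (hz e))
  rw [← pow_mul] at he
  have h1 : Nat.card Fˣ ∣ t * d := orderOf_eq_card_of_forall_mem_zpowers hz ▸ orderOf_dvd_of_pow_eq_one he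
  have hd0 : 0 < d := Nat.pos_of_ne_zero fun h => by
    subst h; rw [mul_zero] at hd; exact Nat.card_pos.ne' (Nat.eq_zero_of_zero_dvd hd)
  obtain ⟨s, hs⟩ := Nat.dvd_of_mul_dvd_mul_right hd0 (hd.trans h1)
  exact ⟨z ^ s, by rw [← pow_mul, hs, mul_comm]⟩

omit [Finite F] in
/-- When `r ∤ q - 1` every element is an `r`-th power. -/
lemma exists_root_of_not_dvd {r : ℕ} (hr : r.Prime) (h : ¬ r ∣ Nat.card F - 1) (c : F) : ∃ a : F, a ^ r = c := by
  rcases eq_or_ne c 0 with rfl | hc
  · exact ⟨0, zero_pow hr.ne_zero⟩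
  · have hcop : (Nat.card Fˣ).Coprime r := by
      rw [Nat.card_units]
      exact (hr.coprime_iff_not_dvd.2 h).symm
    obtain ⟨a, ha⟩ := (powCoprime hcop).surjective (Units.mk0 c hc)
    exact ⟨a, congrArg Units.val ha⟩

/-- A non-power of small order does not exist. -/
theorem exists_root_of_sign {r l : ℕ} [Fact r.Prime] {c : F} (hc0 : c ≠ 0) (hl0 : l ≠ 0)
    (hel : ((-1) ^ (r + 1) * c) ^ l = 1) (hv : padicValNat r (r * l) ≤ padicValNat r (Nat.card F - 1))
    (h4 : r = 2 → Nat.card F % 4 = 1) : ∃ a : F, a ^ r = c := by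
  have hr : r.Prime := Fact.out
  have hcardU : Nat.card Fˣ = Nat.card F - 1 := Nat.card_units F
  have hQ : Nat.card F - 1 ≠ 0 := by have := Finite.one_lt_card (α := F); omega
  have hne : (-1 : F) ^ (r + 1) * c ≠ 0 := mul_ne_zero (pow_ne_zero _ (by simp)) hc0
  set e : Fˣ := Units.mk0 _ hne with he
  have hel' : e ^ l = 1 := Units.ext (by rw [Units.val_pow_eq_pow_val, he, Units.val_mk0, hel]; rfl)
  set d := Nat.gcd l (Nat.card Fˣ) with hd
  have hed : e ^ d = 1 := pow_gcd_eq_one.2 ⟨hel', pow_card_eq_one'⟩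
  obtain ⟨t, ht⟩ := Nat.gcd_dvd_right l (Nat.card Fˣ)
  rw [← hd] at ht
  have hrt : r ∣ t := by
    by_contra hrt
    have h1 : r ^ padicValNat r (Nat.card F - 1) ∣ d := by
      have h2 : r ^ padicValNat r (Nat.card F - 1) ∣ d * t := by
        rw [← ht, hcardU]; exact pow_padicValNat_dvd
      exact (Nat.Coprime.pow_left _ (hr.coprime_iff_not_dvd.2 hrt)).dvd_of_dvd_mul_right h2
    have h3 : r ^ (padicValNat r (Nat.card F - 1) + 1) ∣ r * l := by
      rw [pow_succ, mul_comm r l]; exact mul_dvd_mul (h1.trans (Nat.gcd_dvd_left _ _)) dvd_rfl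
    have := (padicValNat_dvd_iff_le (mul_ne_zero hr.ne_zero hl0)).1 h3
    omega
  obtain ⟨a, ha⟩ := exists_root_of_pow_eq_one hed (show r * d ∣ Nat.card Fˣ by
    rw [ht, mul_comm d t]; exact mul_dvd_mul_right hrt d)
  obtain ⟨s, hs⟩ : ∃ s : F, s ^ r = (-1) ^ (r + 1) := by
    rcases hr.eq_two_or_odd' with rfl | hodd
    · have : Fintype F := Fintype.ofFinite F
      obtain ⟨s, hs⟩ : IsSquare (-1 : F) := by
        rw [FiniteField.isSquare_neg_one_iff, ← Nat.card_eq_fintype_card, h4 rfl]; norm_num
      exact ⟨s, by rw [pow_two, ← hs]; ring⟩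
    · exact ⟨1, by rw [one_pow, (hodd.add_odd odd_one).neg_one_pow]⟩
  have ha' : (a : F) ^ r = (-1) ^ (r + 1) * c := by
    have := congrArg Units.val ha
    rwa [Units.val_pow_eq_pow_val, he, Units.val_mk0] at this
  refine ⟨s * a, ?_⟩
  rw [mul_pow, hs, ha', ← mul_assoc, ← mul_pow, neg_one_mul, neg_neg, one_pow, one_mul]

/-- The exceptional non-power. -/
theorem exists_non_power {r l : ℕ} [Fact r.Prime] (hr1 : r ∣ Nat.card F - 1) (hl0 : l ≠ 0)
    (hbad : padicValNat r (Nat.card F - 1) < padicValNat r (r * l) ∨ (r = 2 ∧ Nat.card F % 4 ≠ 1)) :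
    ∃ c : F, c ≠ 0 ∧ (∀ a : F, a ^ r ≠ c) ∧ ((-1) ^ (r + 1) * c) ^ l = 1 := by
  have hr : r.Prime := Fact.out
  have hcardU : Nat.card Fˣ = Nat.card F - 1 := Nat.card_units F
  have hQ : Nat.card F - 1 ≠ 0 := by have := Finite.one_lt_card (α := F); omega
  by_cases h4 : r = 2 ∧ Nat.card F % 4 ≠ 1
  · obtain ⟨rfl, h4⟩ := h4
    refine ⟨-1, by simp, fun a ha => ?_, by norm_num⟩
    have : Fintype F := Fintype.ofFinite F
    have hsq : IsSquare (-1 : F) := ⟨a, by rw [← ha, pow_two]⟩
    rw [FiniteField.isSquare_neg_one_iff, ← Nat.card_eq_fintype_card] at hsq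
    have h1 := Finite.one_lt_card (α := F)
    omega
  · have hv := hbad.resolve_right h4
    set a := padicValNat r (Nat.card F - 1) with ha
    have ha1 : 1 ≤ a := one_le_padicValNat_of_dvd hQ hr1
    obtain ⟨z, hz⟩ := IsCyclic.exists_generator (α := Fˣ)
    have hzord : orderOf z = Nat.card Fˣ := orderOf_eq_card_of_forall_mem_zpowers hz
    obtain ⟨u, hu⟩ : r ^ a ∣ Nat.card F - 1 := pow_padicValNat_dvd
    have hu0 : u ≠ 0 := fun h => hQ (by rw [hu, h, mul_zero])
    have hru : ¬ r ∣ u := by
      intro h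
      have : r ^ (a + 1) ∣ Nat.card F - 1 := by rw [pow_succ, hu]; exact mul_dvd_mul_left _ h
      have := (padicValNat_dvd_iff_le hQ).1 this
      omega
    have hral : r ^ a ∣ l := by
      refine (pow_dvd_pow r (by omega : a ≤ padicValNat r (r * l) - 1)).trans ?_
      rw [padicValNat.mul hr.ne_zero hl0, padicValNat_self, Nat.add_sub_cancel_left]
      exact pow_padicValNat_dvd
    have hord : (z ^ u) ^ r ^ a = 1 := by
      rw [← pow_mul, mul_comm, ← hu, ← hcardU, ← hzord, pow_orderOf_eq_one]
    refine ⟨((z ^ u : Fˣ) : F), Units.ne_zero _, fun b hb => ?_, ?_⟩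
    · have hb0 : b ≠ 0 := fun h => by rw [h, zero_pow hr.ne_zero] at hb; exact Units.ne_zero _ hb.symm
      obtain ⟨t, ht⟩ := Submonoid.mem_powers_iff _ _ |>.1
        ((mem_powers_iff_mem_zpowers (x := z) (y := Units.mk0 b hb0)).2 (hz _))
      have h1 : z ^ (t * r) = z ^ u := Units.ext (by
        rw [pow_mul, Units.val_pow_eq_pow_val, ht, Units.val_mk0, hb])
      have h2 := (pow_eq_pow_iff_modEq).1 h1
      rw [hzord, hcardU] at h2
      refine hru (((h2.of_dvd hr1).symm.dvd_iff (dvd_refl r)).2 (dvd_mul_left r t))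
    · obtain ⟨w, rfl⟩ := hral
      have hsign : ((-1 : F) ^ (r + 1)) ^ (r ^ a * w) = 1 := by
        rcases hr.eq_two_or_odd' with rfl | hodd
        · rw [← pow_mul]
          exact (((even_two.pow_of_ne_zero (by omega)).mul_right w).mul_left _).neg_one_pow
        · rw [(hodd.add_odd odd_one).neg_one_pow, one_pow]
      rw [mul_pow, hsign, one_mul, ← Units.val_pow_eq_pow_val, pow_mul _ (r ^ a) w, hord, one_pow, Units.val_one]

end Powers

section Witness

variable [Finite F]

/-- A semisimple map with fixed space of dimension `k`. -/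
theorem exists_free_witness {r : ℕ} [Fact r.Prime] (hrF : (r : F) ≠ 0) {V : Type*} [AddCommGroup V] [Module F V]
    [FiniteDimensional F V] {k l : ℕ} (hn : finrank F V = k + l * orderOf (Nat.card F : ZMod r)) :
    ∃ T : Module.End F V, T ^ r = 1 ∧ finrank F (LinearMap.ker (T - 1)) = k := by
  classical
  obtain ⟨p, hp⟩ := CharP.exists F
  have : Fintype F := Fintype.ofFinite F
  obtain ⟨-, hpp, -⟩ := FiniteField.card F p
  have := Fact.mk hpp
  set i := orderOf (Nat.card F : ZMod r) with hi
  have hi0 : 0 < i := by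
    have h := (decomp (F := F) (V := F) (T := 1) (r := r) (one_pow r) hrF).2.2.pos
    exact h
  have : NeZero i := ⟨hi0.ne'⟩
  set K := FiniteField.Extension F p i
  have : Finite K := Module.finite_of_finite F
  have hK : r ∣ Nat.card Kˣ := by
    rw [Nat.card_units, FiniteField.natCard_extension]
    exact (dvd_pow_card_sub_one i).2 dvd_rfl
  obtain ⟨ζ, hζ⟩ := exists_prime_orderOf_dvd_card' r hK
  have hfr : finrank F ((Fin l → K) × (Fin k → F)) = finrank F V := by
    rw [hn, Module.finrank_prod, Module.finrank_pi_fintype]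
    simp [K, FiniteField.finrank_extension, add_comm]
  let e : ((Fin l → K) × (Fin k → F)) ≃ₗ[F] V := LinearEquiv.ofFinrankEq _ _ hfr
  let S : Module.End F ((Fin l → K) × (Fin k → F)) :=
    ((ζ : K) • (LinearMap.id : (Fin l → K) →ₗ[F] (Fin l → K))).prodMap LinearMap.id
  have hS : ∀ (t : ℕ) x, (S ^ t) x = ((ζ : K) ^ t • x.1, x.2) := by
    intro t
    induction t with
    | zero => intro x; simp
    | succ t ih =>
      intro x
      rw [pow_succ', Module.End.mul_apply, ih]
      simp [S, pow_succ', smul_smul]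
  have hζr : (ζ : K) ^ r = 1 := by
    rw [← Units.val_pow_eq_pow_val, ← hζ, pow_orderOf_eq_one, Units.val_one]
  have hζ1 : (ζ : K) ≠ 1 := fun h => by
    rw [Units.val_eq_one] at h
    rw [h, orderOf_one] at hζ
    exact (Fact.out : r.Prime).one_lt.ne hζ
  have hker : LinearMap.ker (S - 1) = LinearMap.range (LinearMap.inr F (Fin l → K) (Fin k → F)) := by
    ext x
    rw [LinearMap.mem_ker, LinearMap.sub_apply, sub_eq_zero, ← pow_one S, hS, Module.End.one_apply,
      LinearMap.range_inr, LinearMap.mem_ker, LinearMap.fst_apply, pow_one]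
    constructor
    · intro h
      have h1 := congrArg Prod.fst h
      rw [← sub_eq_zero, ← one_smul K x.1, smul_smul, mul_one, ← sub_smul] at h1
      exact (smul_eq_zero.1 h1).resolve_left (sub_ne_zero.2 hζ1)
    · intro h
      exact Prod.ext (by show (ζ : K) • x.1 = x.1; rw [h, smul_zero]) rfl
  refine ⟨(e.toLinearMap.comp S).comp e.symm.toLinearMap, ?_, ?_⟩
  · refine LinearMap.ext fun v => ?_
    have hconj : ∀ t : ℕ, (((e.toLinearMap.comp S).comp e.symm.toLinearMap) ^ t) v = e ((S ^ t) (e.symm v)) := by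
      intro t
      induction t with
      | zero => simp
      | succ t ih => rw [pow_succ', Module.End.mul_apply, ih, pow_succ', Module.End.mul_apply]; simp
    rw [hconj, hS, hζr, one_smul]
    simp
  · have hk : LinearMap.ker ((e.toLinearMap.comp S).comp e.symm.toLinearMap - 1) =
        (LinearMap.ker (S - 1)).map e.toLinearMap := by
      ext v
      rw [LinearMap.mem_ker, LinearMap.sub_apply, Module.End.one_apply, sub_eq_zero, Submodule.mem_map_equiv,
        LinearMap.mem_ker, LinearMap.sub_apply, Module.End.one_apply, sub_eq_zero]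
      exact ⟨fun h => e.injective (h.trans (e.apply_symm_apply v).symm),
        fun h => (congrArg e h).trans (e.apply_symm_apply v)⟩
    rw [hk, LinearEquiv.finrank_map_eq, hker, LinearMap.finrank_range_of_inj LinearMap.inr_injective,
      Module.finrank_fin_fun]

omit [Finite F] in
/-- A map with `T ^ r = c` for a non-power `c`. -/
theorem exists_irred_witness {r : ℕ} (hr : r.Prime) {c : F} (hc : ∀ a : F, a ^ r ≠ c) {V : Type*}
    [AddCommGroup V] [Module F V] [FiniteDimensional F V] {l : ℕ} (hn : finrank F V = r * l) :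
    ∃ T : Module.End F V, T ^ r = c • (1 : Module.End F V) := by
  classical
  have : Fact (Irreducible (X ^ r - C c : F[X])) := ⟨X_pow_sub_C_irreducible_of_prime hr hc⟩
  have hf0 : (X ^ r - C c : F[X]) ≠ 0 := X_pow_sub_C_ne_zero hr.pos c
  set pb := AdjoinRoot.powerBasis hf0
  set K := AdjoinRoot (X ^ r - C c : F[X])
  have : FiniteDimensional F K := pb.finite
  have hK : finrank F K = r := by
    rw [pb.finrank, AdjoinRoot.powerBasis_dim, natDegree_X_pow_sub_C]
  have hfr : finrank F (Fin l → K) = finrank F V := by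
    rw [hn, Module.finrank_pi_fintype]; simp [hK, mul_comm]
  let e : (Fin l → K) ≃ₗ[F] V := LinearEquiv.ofFinrankEq _ _ hfr
  let S : Module.End F (Fin l → K) :=
    (AdjoinRoot.root (X ^ r - C c : F[X])) • (LinearMap.id : (Fin l → K) →ₗ[F] (Fin l → K))
  have hS : ∀ (t : ℕ) x, (S ^ t) x = (AdjoinRoot.root (X ^ r - C c : F[X])) ^ t • x := by
    intro t
    induction t with
    | zero => intro x; simp
    | succ t ih =>
      intro x
      rw [pow_succ', Module.End.mul_apply, ih]
      simp [S, pow_succ', smul_smul]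
  have hroot : (AdjoinRoot.root (X ^ r - C c : F[X])) ^ r = algebraMap F K c := by
    have h := AdjoinRoot.mk_self (f := (X ^ r - C c : F[X]))
    rw [map_sub, map_pow, AdjoinRoot.mk_X, AdjoinRoot.mk_C, sub_eq_zero] at h
    exact h
  refine ⟨(e.toLinearMap.comp S).comp e.symm.toLinearMap, LinearMap.ext fun v => ?_⟩
  have hconj : ∀ t : ℕ, (((e.toLinearMap.comp S).comp e.symm.toLinearMap) ^ t) v = e ((S ^ t) (e.symm v)) := by
    intro t
    induction t with
    | zero => simp
    | succ t ih => rw [pow_succ', Module.End.mul_apply, ih, pow_succ', Module.End.mul_apply]; simp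
  rw [hconj, hS, hroot, algebraMap_smul, map_smul, LinearEquiv.apply_symm_apply]
  rfl

end Witness

end CfsgLib.Derangements.SubFix
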