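import Mathlib
import Cfsg.Agent.Lib.Derangements.FixedSubspaces

/-!
# Prime divisors of numbers of subspaces, flags and complementary pairs
-/

set_option autoImplicit false

open Module

namespace CfsgLib.Derangements.SubFix

variable {F : Type*} [Field F] [Finite F]

local notation "q₁" => Nat.card F

/-- The reduced product `∏_{j<m} (q^(k-j) - 1)`. -/
def redProd (q k m : ℕ) : ℕ := ∏ j : Fin m, (q ^ (k - (j : ℕ)) - 1)

lemma prod_pow_sub {q k m : ℕ} (hm : m ≤ k) :
    ∏ j : Fin m, (q ^ k - q ^ (j : ℕ)) = q ^ (∑ j : Fin m, (j : ℕ)) * redProd q k m := by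
  rw [redProd, ← Finset.prod_pow_eq_pow_sum, ← Finset.prod_mul_distrib]
  refine Finset.prod_congr rfl fun j _ => ?_
  rw [Nat.mul_sub, mul_one, ← pow_add, Nat.add_sub_cancel' (j.2.le.trans hm)]

section Count

variable {V : Type*} [AddCommGroup V] [Module F V] [FiniteDimensional F V]

/-- The `m`-dimensional subspaces. -/
abbrev Sub (F : Type*) [Field F] (V : Type*) [AddCommGroup V] [Module F V] (m : ℕ) :=
  {W : Submodule F V // finrank F W = m}

/-- The number of subspaces times the reduced product. -/
theorem card_sub_mul {m : ℕ} (hm : m ≤ finrank F V) :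
    Nat.card (Sub F V m) * redProd q₁ m m = redProd q₁ (finrank F V) m := by
  classical
  have : Finite V := Module.finite_of_finite F
  have : Fintype F := Fintype.ofFinite F
  have : Fintype (Sub F V m) := Fintype.ofFinite _
  let f : {s : Fin m → V // LinearIndependent F s} → Sub F V m := fun s =>
    ⟨Submodule.span F (Set.range s.1), by rw [finrank_span_eq_card s.2, Fintype.card_fin]⟩
  have hfib : ∀ W : Sub F V m, Nat.card {s // f s = W} =
      ∏ j : Fin m, (Fintype.card F ^ m - Fintype.card F ^ (j : ℕ)) := by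
    intro W
    have h := card_linearIndependent (K := F) (V := W.1) (k := m) W.2.ge
    rw [W.2] at h
    rw [← h]
    refine Nat.card_congr
      { toFun := fun s => ⟨fun j => ⟨s.1.1 j, by
            have := congrArg Subtype.val s.2
            rw [← this]; exact Submodule.subset_span ⟨j, rfl⟩⟩,
          LinearIndependent.of_comp W.1.subtype s.1.2⟩
        invFun := fun t => ⟨⟨fun j => (t.1 j : V), t.2.map' W.1.subtype W.1.ker_subtype⟩, Subtype.ext (by
          refine Submodule.eq_of_le_of_finrank_eq (Submodule.span_le.2 ?_) ?_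
          · rintro _ ⟨j, rfl⟩; exact (t.1 j).2
          · have hli : LinearIndependent F (fun j => (t.1 j : V)) := t.2.map' W.1.subtype W.1.ker_subtype
            rw [finrank_span_eq_card hli, Fintype.card_fin, W.2])⟩
        left_inv := fun s => by ext; rfl
        right_inv := fun t => by ext; rfl }
  have hcard : Nat.card {s : Fin m → V // LinearIndependent F s} =
      Nat.card (Sub F V m) * ∏ j : Fin m, (Fintype.card F ^ m - Fintype.card F ^ (j : ℕ)) := by
    rw [← Nat.card_congr (Equiv.sigmaFiberEquiv f), Nat.card_sigma, Finset.sum_congr rfl fun W _ => hfib W,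
      Finset.sum_const, Finset.card_univ, smul_eq_mul, Nat.card_eq_fintype_card]
  rw [card_linearIndependent hm, ← Nat.card_eq_fintype_card (α := F), prod_pow_sub hm, prod_pow_sub le_rfl,
    ← mul_assoc, mul_comm (Nat.card (Sub F V m)), mul_assoc] at hcard
  exact (Nat.eq_of_mul_eq_mul_left (Nat.pow_pos Nat.card_pos) hcard).symm

/-- The complements of a subspace form an affine space. -/
theorem card_compl (U : Submodule F V) :
    Nat.card {W : Submodule F V // IsCompl U W} = q₁ ^ (finrank F U * (finrank F V - finrank F U)) := by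
  have : Finite V := Module.finite_of_finite F
  obtain ⟨C, hC⟩ := exists_isCompl U
  let f₀ : {f : V →ₗ[F] U // ∀ x : U, f x = x} :=
    ⟨U.projectionOnto C hC, fun x => Submodule.projectionOnto_apply_left hC x⟩
  have e : {f : V →ₗ[F] U // ∀ x : U, f x = x} ≃ ((V ⧸ U) →ₗ[F] U) :=
    { toFun := fun f => U.liftQ (f.1 - f₀.1) fun x hx => by
        rw [LinearMap.mem_ker, LinearMap.sub_apply, f.2 ⟨x, hx⟩, f₀.2 ⟨x, hx⟩, sub_self]
      invFun := fun g => ⟨f₀.1 + g.comp U.mkQ, fun x => by
        rw [LinearMap.add_apply, f₀.2, LinearMap.comp_apply, Submodule.mkQ_apply,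
          (Submodule.Quotient.mk_eq_zero U).2 x.2, map_zero, add_zero]⟩
      left_inv := fun f => Subtype.ext (by simp [Submodule.liftQ_mkQ])
      right_inv := fun g => by
        refine Submodule.linearMap_qext _ ?_
        simp [Submodule.liftQ_mkQ] }
  rw [Nat.card_congr ((U.isComplEquivProj).trans e), Module.natCard_eq_pow_finrank (K := F),
    Module.finrank_linearMap, Submodule.finrank_quotient, mul_comm]

/-- The number of complementary pairs. -/
theorem card_pairs (m : ℕ) :
    Nat.card {P : Submodule F V × Submodule F V // IsCompl P.1 P.2 ∧ finrank F P.1 = m} =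
      Nat.card (Sub F V m) * q₁ ^ (m * (finrank F V - m)) := by
  have : Finite V := Module.finite_of_finite F
  have : Fintype (Sub F V m) := Fintype.ofFinite _
  let e : {P : Submodule F V × Submodule F V // IsCompl P.1 P.2 ∧ finrank F P.1 = m} ≃
      Σ U : Sub F V m, {W : Submodule F V // IsCompl U.1 W} :=
    { toFun := fun P => ⟨⟨P.1.1, P.2.2⟩, ⟨P.1.2, P.2.1⟩⟩
      invFun := fun P => ⟨(P.1.1, P.2.1), P.2.2, P.1.2⟩
      left_inv := fun P => rfl
      right_inv := fun P => rfl }
  rw [Nat.card_congr e, Nat.card_sigma, Finset.sum_congr rfl fun U _ => by rw [card_compl, U.2],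
    Finset.sum_const, Finset.card_univ, smul_eq_mul, Nat.card_eq_fintype_card (α := Sub F V m)]

omit [Finite F] in
/-- Subspaces of codimension `m` correspond to subspaces of dimension `m` of the dual. -/
lemma card_sub_codim {m : ℕ} (hm : m ≤ finrank F V) :
    Nat.card (Sub F V (finrank F V - m)) = Nat.card (Sub F (Dual F V) m) := by
  refine Nat.card_congr
    { toFun := fun W => ⟨W.1.dualAnnihilator, by
        have h1 := Subspace.finrank_add_finrank_dualAnnihilator_eq W.1
        have := W.2; omega⟩
      invFun := fun Φ => ⟨Φ.1.dualCoannihilator, by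
        have h1 := Subspace.finrank_add_finrank_dualCoannihilator_eq Φ.1
        have := Φ.2; omega⟩
      left_inv := fun W => Subtype.ext (Subspace.dualAnnihilator_dualCoannihilator_eq)
      right_inv := fun Φ => Subtype.ext (Subspace.dualCoannihilator_dualAnnihilator_eq) }

/-- The number of flags of type `m < n - m` times the reduced product. -/
theorem card_flags_mul {m : ℕ} (hm : 2 * m ≤ finrank F V) :
    Nat.card {P : Submodule F V × Submodule F V //
        P.1 ≤ P.2 ∧ finrank F P.1 = m ∧ finrank F P.2 = finrank F V - m} * redProd q₁ m m =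
      Nat.card (Sub F V m) * redProd q₁ (finrank F V - m) m := by
  have : Finite V := Module.finite_of_finite F
  have : Fintype (Sub F V m) := Fintype.ofFinite _
  let e : {P : Submodule F V × Submodule F V //
      P.1 ≤ P.2 ∧ finrank F P.1 = m ∧ finrank F P.2 = finrank F V - m} ≃
      Σ U : Sub F V m, {W : Submodule F V // U.1 ≤ W ∧ finrank F W = finrank F V - m} :=
    { toFun := fun P => ⟨⟨P.1.1, P.2.2.1⟩, ⟨P.1.2, P.2.1, P.2.2.2⟩⟩
      invFun := fun P => ⟨(P.1.1, P.2.1), P.2.2.1, P.1.2, P.2.2.2⟩
      left_inv := fun P => rfl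
      right_inv := fun P => rfl }
  rw [Nat.card_congr e, Nat.card_sigma, Finset.sum_mul, Nat.card_eq_fintype_card (α := Sub F V m),
    ← Finset.card_univ, ← smul_eq_mul (Finset.card _), ← Finset.sum_const]
  refine Finset.sum_congr rfl fun U _ => ?_
  have hU : finrank F U.1 = m := U.2
  have hQ : finrank F (V ⧸ U.1) = finrank F V - m := by rw [Submodule.finrank_quotient, hU]
  have hmap : ∀ W : Submodule F V, U.1 ≤ W →
      finrank F (W.map U.1.mkQ : Submodule F (V ⧸ U.1)) + m = finrank F W := by
    intro W hW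
    have h := (U.1.mkQ.domRestrict W).finrank_range_add_finrank_ker
    rw [LinearMap.range_domRestrict, ← Submodule.finrank_map_subtype_eq W (LinearMap.ker (U.1.mkQ.domRestrict W)),
      LinearMap.ker_domRestrict, Submodule.map_comap_subtype, Submodule.ker_mkQ, inf_eq_right.2 hW, hU] at h
    exact h
  have efib : {W : Submodule F V // U.1 ≤ W ∧ finrank F W = finrank F V - m} ≃
      Sub F (V ⧸ U.1) (finrank F (V ⧸ U.1) - m) :=
    { toFun := fun W => ⟨W.1.map U.1.mkQ, by have := hmap W.1 W.2.1; have := W.2.2; omega⟩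
      invFun := fun X => ⟨X.1.comap U.1.mkQ, by
          intro x hx
          rw [Submodule.mem_comap, Submodule.mkQ_apply, (Submodule.Quotient.mk_eq_zero U.1).2 hx]
          exact X.1.zero_mem, by
        have hle : U.1 ≤ X.1.comap U.1.mkQ := fun x hx => by
          rw [Submodule.mem_comap, Submodule.mkQ_apply, (Submodule.Quotient.mk_eq_zero U.1).2 hx]
          exact X.1.zero_mem
        have h1 := hmap _ hle
        rw [Submodule.map_comap_eq_of_surjective (Submodule.mkQ_surjective _), X.2] at h1
        omega⟩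
      left_inv := fun W => Subtype.ext (by
        show (W.1.map U.1.mkQ).comap U.1.mkQ = W.1
        rw [Submodule.comap_map_eq, Submodule.ker_mkQ]; exact sup_eq_left.2 W.2.1)
      right_inv := fun X => Subtype.ext (Submodule.map_comap_eq_of_surjective (Submodule.mkQ_surjective _) _) }
  rw [Nat.card_congr efib, card_sub_codim (by omega), card_sub_mul (by rw [Subspace.dual_finrank_eq]; omega),
    Subspace.dual_finrank_eq, hQ]

end Count

section Primes

/-- A prime divisor of the reduced product. -/
lemma exists_dvd_of_dvd_redProd {r k m : ℕ} (hr : r.Prime) (h : r ∣ redProd q₁ k m) :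
    ∃ j < m, r ∣ q₁ ^ (k - j) - 1 := by
  obtain ⟨j, -, hj⟩ := (hr.prime.dvd_finsetProd_iff _).1 h
  exact ⟨j, j.2, hj⟩

omit [Field F] [Finite F] in
lemma not_char_dvd {q p f d : ℕ} (hp : p.Prime) (hq : q = p ^ f) (hf : f ≠ 0) (hd : d ≠ 0) :
    ¬ p ∣ q ^ d - 1 := by
  intro h
  subst hq
  have h1 : p ∣ (p ^ f) ^ d := dvd_pow (dvd_pow_self p hf) hd
  have h2 := Nat.dvd_sub h1 h
  rw [Nat.sub_sub_self (Nat.one_le_pow _ _ (pow_pos hp.pos f))] at h2
  exact hp.one_lt.ne' (Nat.dvd_one.1 h2)

lemma ne_char_of_dvd_redProd {p r k m : ℕ} [Fact r.Prime] [CharP F p] (hmk : m ≤ k)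
    (h : r ∣ redProd q₁ k m) : r ≠ p := by
  rintro rfl
  obtain ⟨j, hj, hd⟩ := exists_dvd_of_dvd_redProd Fact.out h
  have : Fintype F := Fintype.ofFinite F
  obtain ⟨⟨f, hf⟩, -, hcard⟩ := FiniteField.card F r
  exact not_char_dvd Fact.out (by rw [Nat.card_eq_fintype_card, hcard]; rfl) hf.ne' (by omega) hd

lemma mod_lt_of_dvd_redProd {r k m : ℕ} [Fact r.Prime] (hmk : m ≤ k) (h : r ∣ redProd q₁ k m) :
    k % orderOf (q₁ : ZMod r) < m := by
  obtain ⟨j, hj, hd⟩ := exists_dvd_of_dvd_redProd Fact.out h
  obtain ⟨t, ht⟩ := (dvd_pow_card_sub_one (F := F) (r := r) (k - j)).1 hd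
  rw [show k = j + orderOf (q₁ : ZMod r) * t by omega, Nat.add_mul_mod_self_left]
  exact (Nat.mod_le _ _).trans_lt hj

variable {V : Type*} [AddCommGroup V] [Module F V] [FiniteDimensional F V]

/-- Consequences of dividing the number of subspaces. -/
theorem of_dvd_card_sub {p r m : ℕ} [Fact r.Prime] [CharP F p] (hm : m ≤ finrank F V)
    (h : r ∣ Nat.card (Sub F V m)) : r ≠ p ∧ finrank F V % orderOf (q₁ : ZMod r) < m := by
  have h' : r ∣ redProd q₁ (finrank F V) m := card_sub_mul (F := F) hm ▸ h.mul_right _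
  exact ⟨ne_char_of_dvd_redProd hm h', mod_lt_of_dvd_redProd hm h'⟩

/-- Consequences of dividing the number of complementary pairs, away from `p`. -/
theorem of_dvd_card_pairs {p r m : ℕ} [Fact r.Prime] [CharP F p] (hm : m ≤ finrank F V) (hrp : r ≠ p)
    (h : r ∣ Nat.card {P : Submodule F V × Submodule F V // IsCompl P.1 P.2 ∧ finrank F P.1 = m}) :
    finrank F V % orderOf (q₁ : ZMod r) < m := by
  rw [card_pairs] at h
  refine (of_dvd_card_sub (p := p) hm (((Fact.out : r.Prime).dvd_mul.1 h).resolve_right fun hd => hrp ?_)).2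
  have : Fintype F := Fintype.ofFinite F
  obtain ⟨⟨f, hf⟩, hp, hcard⟩ := FiniteField.card F p
  rw [Nat.card_eq_fintype_card, hcard] at hd
  exact (Nat.prime_dvd_prime_iff_eq Fact.out hp).1
    ((Fact.out : r.Prime).dvd_of_dvd_pow ((Fact.out : r.Prime).dvd_of_dvd_pow hd))

/-- Consequences of dividing the number of flags. -/
theorem of_dvd_card_flags {p r m : ℕ} [Fact r.Prime] [CharP F p] (hm : 2 * m ≤ finrank F V)
    (h : r ∣ Nat.card {P : Submodule F V × Submodule F V //
        P.1 ≤ P.2 ∧ finrank F P.1 = m ∧ finrank F P.2 = finrank F V - m}) :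
    r ≠ p ∧ finrank F V % orderOf (q₁ : ZMod r) < 2 * m := by
  have h' : r ∣ Nat.card (Sub F V m) * redProd q₁ (finrank F V - m) m := card_flags_mul (F := F) hm ▸ h.mul_right _
  rcases (Fact.out : r.Prime).dvd_mul.1 h' with h1 | h1
  · obtain ⟨a, b⟩ := of_dvd_card_sub (p := p) (by omega) h1
    exact ⟨a, by omega⟩
  · refine ⟨ne_char_of_dvd_redProd (by omega) h1, ?_⟩
    obtain ⟨j, hj, hd⟩ := exists_dvd_of_dvd_redProd Fact.out h1
    obtain ⟨t, ht⟩ := (dvd_pow_card_sub_one (F := F) (r := r) (finrank F V - m - j)).1 hd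
    rw [show finrank F V = (m + j) + orderOf (q₁ : ZMod r) * t by omega, Nat.add_mul_mod_self_left]
    exact (Nat.mod_le _ _).trans_lt (by omega)

end Primes

end CfsgLib.Derangements.SubFix
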