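import Mathlib
import Cfsg.Agent.Lib.Derangements.FixedSubspacesArith
import Cfsg.Agent.Lib.Derangements.SubspaceCounts

/-!
# Maps of prime order modulo scalars and invariant subspaces of a given dimension
-/

set_option autoImplicit false

open Module

namespace CfsgLib.Derangements.SubFix

section Nat

/-- The dimensions used for one subspace. -/
lemma split_one {n m i k L : ℕ} (hn : n = k + L * i) (hm : m ≤ n) (h : m % i ≤ n % i) :
    ∃ l ≤ L, l * i ≤ m ∧ m - l * i ≤ k := by
  have hk : n % i ≤ k := by rw [hn, Nat.add_mul_mod_self_right]; exact Nat.mod_le _ _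
  have hmb : m / i * i + m % i = m := Nat.div_add_mod' m i
  rcases le_total (m / i) L with h1 | h1
  · exact ⟨m / i, h1, by omega, by omega⟩
  · refine ⟨L, le_rfl, ?_, by omega⟩
    exact (Nat.mul_le_mul_right i h1).trans (by omega)

/-- The dimensions used for a flag. -/
lemma split_two {n m i k L : ℕ} (hn : n = k + L * i) (hm : 2 * m ≤ n)
    (h : 2 * (m % i) ≤ n % i) :
    ∃ l₁ l₂, l₁ + l₂ ≤ L ∧ l₁ * i ≤ m ∧ l₂ * i ≤ m ∧ (m - l₁ * i) + (m - l₂ * i) ≤ k := by
  have hk : n % i ≤ k := by rw [hn, Nat.add_mul_mod_self_right]; exact Nat.mod_le _ _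
  have hmb : m / i * i + m % i = m := Nat.div_add_mod' m i
  by_cases h1 : 2 * (m / i) ≤ L
  · exact ⟨m / i, m / i, by omega, by omega, by omega, by omega⟩
  · have ha : min (m / i) L * i ≤ m :=
      (Nat.mul_le_mul_right i (min_le_left _ _)).trans (by omega)
    have hb : (L - min (m / i) L) * i ≤ m :=
      (Nat.mul_le_mul_right i (show L - min (m / i) L ≤ m / i by omega)).trans (by omega)
    have hc : min (m / i) L * i + (L - min (m / i) L) * i = L * i := by
      rw [← add_mul, Nat.add_sub_cancel' (min_le_right _ _)]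
    exact ⟨min (m / i) L, L - min (m / i) L, by omega, ha, hb, by omega⟩

lemma mod_of_eq_add {x d l i : ℕ} (hd : d < i) (h : x = d + l * i) : x % i = d := by
  rw [h, Nat.add_mul_mod_self_right, Nat.mod_eq_of_lt hd]

end Nat

/-- The arithmetical condition for `i = 1`. -/
def OneCond (r n m q : ℕ) : Prop :=
  r ∣ m ∨ (padicValNat r n ≤ padicValNat r (q - 1) ∧ (r = 2 → Even n → q % 4 = 1))

variable {F : Type*} [Field F] {V : Type*} [AddCommGroup V] [Module F V] [FiniteDimensional F V]

/-- All elements of order `r` modulo scalars of determinant one have the property `P`. -/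
def Elusive (r : ℕ) (P : Module.End F V → Prop) : Prop :=
  ∀ T : Module.End F V, LinearMap.det T = 1 → ∀ c : F, T ^ r = c • (1 : Module.End F V) →
    (∀ a : F, T ≠ a • (1 : Module.End F V)) → P T

omit [FiniteDimensional F V] in
lemma inv_smul_iff {T : Module.End F V} {a : F} (ha : a ≠ 0) {A : Submodule F V} :
    Inv (a • T) A ↔ Inv T A := by
  constructor
  · intro h x hx
    have h1 : a • T x ∈ A := h hx
    show T x ∈ A
    exact (A.smul_mem_iff ha).1 h1
  · intro h x hx
    exact (A.smul_mem a (h hx) : a • T x ∈ A)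

omit [FiniteDimensional F V] in
lemma Uniform.of_smul {T : Module.End F V} {a : F} (ha : a ≠ 0) {K : Submodule F V} {e : ℕ}
    (h : Uniform (a • T) K e) : Uniform T K e :=
  ⟨h.pos, fun A hA hi => h.dvd A hA ((inv_smul_iff ha).2 hi), fun A hA hi => by
    obtain ⟨B, h1, h2, h3, h4⟩ := h.step A hA ((inv_smul_iff ha).2 hi)
    exact ⟨B, h1, h2, (inv_smul_iff ha).1 h3, h4⟩⟩

lemma const_ne_zero {T : Module.End F V} {r : ℕ} {c : F} (hn : finrank F V ≠ 0)
    (hdet : LinearMap.det T = 1) (hT : T ^ r = c • (1 : Module.End F V)) : c ≠ 0 := by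
  intro hc
  have h := congrArg LinearMap.det hT
  rw [map_pow, hdet, one_pow, LinearMap.det_smul, hc, zero_pow hn, zero_mul] at h
  exact one_ne_zero h

variable [Finite F] {r : ℕ} [Fact r.Prime]

local notation "i₀" => orderOf ((Nat.card F : ZMod r))

lemma order_pos (hrF : (r : F) ≠ 0) : 0 < i₀ :=
  (decomp (F := F) (V := F) (T := 1) (r := r) (one_pow r) hrF).2.2.pos

omit [FiniteDimensional F V] [Finite F] [Fact r.Prime] in
lemma smul_one_left_injective [Nontrivial V] {a b : F}
    (h : a • (1 : Module.End F V) = b • (1 : Module.End F V)) : a = b :=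
  smul_left_injective F (one_ne_zero : (1 : Module.End F V) ≠ 0) h

lemma power_case (hrF : (r : F) ≠ 0) {T : Module.End F V} {c a : F} (hT : T ^ r = c • (1 : Module.End F V))
    (hc : c ≠ 0) (ha : a ^ r = c) :
    ∃ K W : Submodule F V, IsCompl K W ∧ Uniform T K 1 ∧ Uniform T W i₀ ∧
      ∃ L, finrank F V = finrank F K + L * i₀ ∧ finrank F W = L * i₀ := by
  have ha0 : a ≠ 0 := fun h => hc (by rw [← ha, h, zero_pow (Fact.out : r.Prime).ne_zero])
  have hy : (a⁻¹ • T) ^ r = 1 := by
    rw [smul_pow, hT, smul_smul, inv_pow, ha, inv_mul_cancel₀ hc, one_smul]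
  obtain ⟨h1, h2, h3⟩ := decomp hy hrF
  obtain ⟨L, hL⟩ := h3.dvd _ le_rfl (inv_range_sub_one _)
  refine ⟨_, _, h1, h2.of_smul (inv_ne_zero ha0), h3.of_smul (inv_ne_zero ha0), L, ?_, ?_⟩
  · rw [← Submodule.finrank_add_eq_of_isCompl h1, hL, mul_comm]
  · rw [hL, mul_comm]

/-- Without a root there is a number theoretic reason. -/
lemma not_pow_case (hn : finrank F V ≠ 0) {T : Module.End F V} {c : F} (hdet : LinearMap.det T = 1)
    (hT : T ^ r = c • (1 : Module.End F V)) (hc : ∀ a : F, a ^ r ≠ c) {m : ℕ}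
    (hcond : i₀ = 1 → OneCond r (finrank F V) m (Nat.card F)) :
    r ∣ finrank F V ∧ r ∣ m ∧ Uniform T ⊤ r := by
  have hr : r.Prime := Fact.out
  have hc0 : c ≠ 0 := const_ne_zero hn hdet hT
  have hi : i₀ = 1 := by
    refine Nat.dvd_one.1 ((dvd_pow_card_sub_one 1).1 ?_)
    rw [pow_one]
    by_contra h
    obtain ⟨a, ha⟩ := exists_root_of_not_dvd hr h c
    exact hc a ha
  obtain ⟨l, hl, hdl⟩ := det_of_not_pow hr hT hc
  refine ⟨⟨l, hl⟩, ?_, uniform_of_not_pow hr hT hc⟩
  rcases hcond hi with h | ⟨h1, h2⟩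
  · exact h
  · exfalso
    obtain ⟨a, ha⟩ := exists_root_of_sign (r := r) (l := l) hc0
      (fun h => hn (by rw [hl, h, mul_zero])) (hdl.symm.trans hdet) (hl ▸ h1)
      (fun h => h2 h (by rw [hl, h]; exact even_two_mul l))
    exact hc a ha

/-- An element without invariant subspaces of dimensions prime to `r`. -/
lemma exists_not_pow_witness (hn : finrank F V ≠ 0) (hi : i₀ = 1) {m : ℕ}
    (hbad : ¬ OneCond r (finrank F V) m (Nat.card F)) :
    ∃ (T : Module.End F V) (c : F), LinearMap.det T = 1 ∧ T ^ r = c • (1 : Module.End F V) ∧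
      (∀ a : F, T ≠ a • (1 : Module.End F V)) ∧ ∀ A : Submodule F V, Inv T A → finrank F A ≠ m := by
  have hr : r.Prime := Fact.out
  have hr1 : r ∣ Nat.card F - 1 := by
    simpa using (dvd_pow_card_sub_one (F := F) (r := r) 1).2 (hi ▸ dvd_rfl)
  rw [OneCond, not_or, not_and_or, Classical.not_imp, Classical.not_imp] at hbad
  obtain ⟨hm, hbad⟩ := hbad
  have hrn : r ∣ finrank F V := by
    rcases hbad with h | ⟨h, h', -⟩
    · exact dvd_of_one_le_padicValNat (by omega)
    · rw [h]; exact h'.two_dvd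
  obtain ⟨l, hl⟩ := hrn
  have hl0 : l ≠ 0 := fun h => hn (by rw [hl, h, mul_zero])
  obtain ⟨c, -, hc, hdet⟩ := exists_non_power hr1 hl0 (by
    rcases hbad with h | ⟨h, -, h'⟩
    · left; rw [← hl]; omega
    · exact Or.inr ⟨h, h'⟩)
  obtain ⟨T, hT⟩ := exists_irred_witness hr hc (V := V) hl
  refine ⟨T, c, ?_, hT, fun a ha => ?_, fun A hA h => hm ?_⟩
  · obtain ⟨l', hl', hd⟩ := det_of_not_pow hr hT hc
    rw [hd, ← Nat.eq_of_mul_eq_mul_left hr.pos (hl.symm.trans hl'), hdet]
  · have : Nontrivial V := Module.nontrivial_of_finrank_pos (R := F) (by omega)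
    rw [ha, smul_pow, one_pow] at hT
    exact hc a (smul_one_left_injective hT)
  · exact h ▸ (uniform_of_not_pow hr hT hc).dvd A le_top hA

/-- An element whose fixed space is as small as possible. -/
lemma exists_small_witness (hrF : (r : F) ≠ 0) (hi : 2 ≤ i₀) (hn : i₀ ≤ finrank F V) :
    ∃ T : Module.End F V, LinearMap.det T = 1 ∧ T ^ r = 1 ∧ (∀ a : F, T ≠ a • (1 : Module.End F V)) ∧
      finrank F (LinearMap.ker (T - 1)) = finrank F V % i₀ := by
  have hr : r.Prime := Fact.out
  obtain ⟨T, hT, hk⟩ := exists_free_witness hrF (V := V)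
    (k := finrank F V % i₀) (l := finrank F V / i₀) (Nat.mod_add_div' _ _).symm
  have hnd : ¬ r ∣ Nat.card F - 1 := fun h => by
    have := (dvd_pow_card_sub_one (F := F) (r := r) 1).1 (by rwa [pow_one])
    rw [Nat.dvd_one] at this
    omega
  have hcop : (Nat.card Fˣ).Coprime r := by
    rw [Nat.card_units]; exact (hr.coprime_iff_not_dvd.2 hnd).symm
  have hroot : ∀ a : F, a ^ r = 1 → a = 1 := by
    intro a ha
    have ha0 : a ≠ 0 := fun h => by rw [h, zero_pow hr.ne_zero] at ha; exact zero_ne_one ha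
    have h : powCoprime hcop (Units.mk0 a ha0) = powCoprime hcop 1 := Units.ext (by simp [powCoprime, ha])
    exact congrArg Units.val ((powCoprime hcop).injective h)
  refine ⟨T, hroot _ (by rw [← map_pow, hT, map_one]), hT, fun a ha => ?_, hk⟩
  have : Nontrivial V := Module.nontrivial_of_finrank_pos (R := F) (by omega)
  have h1 : a = 1 := hroot a (smul_one_left_injective (F := F) (V := V) (by
    rw [ha, smul_pow, one_pow] at hT; rw [one_smul]; exact hT))
  rw [ha, h1, one_smul, sub_self, LinearMap.ker_zero, finrank_top] at hk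
  have := Nat.mod_lt (finrank F V) (show i₀ > 0 by omega)
  omega

/-- Subspaces of dimension `m`. -/
theorem elusive_sub_iff (hrF : (r : F) ≠ 0) {m : ℕ} (hm : m ≤ finrank F V)
    (hcount : finrank F V % i₀ < m) :
    Elusive r (fun T : Module.End F V => ∃ W : Submodule F V, finrank F W = m ∧ Inv T W) ↔
      (i₀ = 1 ∧ OneCond r (finrank F V) m (Nat.card F)) ∨
      (2 ≤ i₀ ∧ i₀ ≤ m ∧ m % i₀ ≤ finrank F V % i₀) := by
  have hn : finrank F V ≠ 0 := by omega
  have hpos := order_pos (F := F) (r := r) hrF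
  constructor
  · intro hel
    by_cases hi : i₀ = 1
    · refine Or.inl ⟨hi, ?_⟩
      by_contra hbad
      obtain ⟨T, c, h1, h2, h3, h4⟩ := exists_not_pow_witness hn hi hbad
      obtain ⟨W, hW, hWi⟩ := hel T h1 c h2 h3
      exact h4 W hWi hW
    · have hmod : m % i₀ ≤ finrank F V % i₀ := by
        by_contra hlt
        have hge : i₀ ≤ finrank F V := by
          by_contra h
          rw [Nat.mod_eq_of_lt (not_le.1 h)] at hcount
          omega
        obtain ⟨T, h1, h2, h3, hk⟩ := exists_small_witness hrF (V := V) (by omega) hge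
        obtain ⟨W, hW, hWi⟩ := hel T h1 1 (by rw [one_smul]; exact h2) h3
        obtain ⟨l, hl⟩ := finrank_split h2 hrF hWi
        have hle : finrank F (W ⊓ LinearMap.ker (T - 1) : Submodule F V) ≤ finrank F V % i₀ :=
          hk ▸ Submodule.finrank_mono inf_le_right
        have := Nat.mod_lt (finrank F V) hpos
        rw [hW] at hl
        have := mod_of_eq_add (by omega) hl
        omega
      refine Or.inr ⟨by omega, ?_, hmod⟩
      by_contra h
      rw [Nat.mod_eq_of_lt (not_le.1 h)] at hmod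
      omega
  · intro hcond T hdet c hT _
    have hc0 : c ≠ 0 := const_ne_zero hn hdet hT
    by_cases hroot : ∃ a : F, a ^ r = c
    · obtain ⟨a, ha⟩ := hroot
      obtain ⟨K, W, hKW, hK, hW, L, hL, hWL⟩ := power_case hrF hT hc0 ha
      have hmod : m % i₀ ≤ finrank F V % i₀ := by
        rcases hcond with ⟨h, -⟩ | ⟨-, -, h⟩
        · rw [h, Nat.mod_one, Nat.mod_one]
        · exact h
      obtain ⟨l, hl, hlm, hlk⟩ := split_one hL hm hmod
      obtain ⟨A, -, -, hA, -, hAd, -⟩ := exists_nested hK hW hKW (j₁ := m - l * i₀) (j₂ := m - l * i₀)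
        (l₁ := l) (l₂ := l) le_rfl le_rfl (by omega) (by rw [hWL]; exact Nat.mul_le_mul_right _ hl)
      exact ⟨A, by omega, hA⟩
    · push Not at hroot
      obtain ⟨-, ⟨j, hj⟩, hU⟩ := not_pow_case hn (m := m) hdet hT hroot (fun hi => by
        rcases hcond with ⟨-, h⟩ | ⟨h, -⟩
        · exact h
        · omega)
      obtain ⟨A, -, -, hA, hAd⟩ := hU.chain j ⊥ bot_le (inv_bot T) (by
        rw [finrank_bot, zero_add, mul_comm, ← hj, finrank_top]; exact hm)
      exact ⟨A, by rw [hAd, finrank_bot, zero_add, mul_comm, hj], hA⟩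

/-- Flags of dimensions `m` and `n - m`. -/
theorem elusive_flag_iff (hrF : (r : F) ≠ 0) {m : ℕ} (hm : 2 * m ≤ finrank F V)
    (hcount : finrank F V % i₀ < 2 * m) :
    Elusive r (fun T : Module.End F V => ∃ U W : Submodule F V, U ≤ W ∧ finrank F U = m ∧
        finrank F W = finrank F V - m ∧ Inv T U ∧ Inv T W) ↔
      (i₀ = 1 ∧ OneCond r (finrank F V) m (Nat.card F)) ∨
      (2 ≤ i₀ ∧ i₀ ≤ m ∧ 2 * (m % i₀) ≤ finrank F V % i₀) := by
  have hn : finrank F V ≠ 0 := by omega
  have hpos := order_pos (F := F) (r := r) hrF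
  constructor
  · intro hel
    by_cases hi : i₀ = 1
    · refine Or.inl ⟨hi, ?_⟩
      by_contra hbad
      obtain ⟨T, c, h1, h2, h3, h4⟩ := exists_not_pow_witness hn hi hbad
      obtain ⟨U, W, -, hU, -, hUi, -⟩ := hel T h1 c h2 h3
      exact h4 U hUi hU
    · have hmod : 2 * (m % i₀) ≤ finrank F V % i₀ := by
        by_contra hlt
        have hge : i₀ ≤ finrank F V := by
          by_contra h
          rw [Nat.mod_eq_of_lt (not_le.1 h)] at hcount
          omega
        obtain ⟨T, h1, h2, h3, hk⟩ := exists_small_witness hrF (V := V) (by omega) hge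
        obtain ⟨U, W, hUW, hU, hW, hUi, hWi⟩ := hel T h1 1 (by rw [one_smul]; exact h2) h3
        obtain ⟨l, hl⟩ := finrank_split h2 hrF hUi
        obtain ⟨l', hl'⟩ := finrank_split h2 hrF hWi
        have hle : finrank F (W ⊓ LinearMap.ker (T - 1) : Submodule F V) ≤ finrank F V % i₀ :=
          hk ▸ Submodule.finrank_mono inf_le_right
        have hle' : finrank F (U ⊓ LinearMap.ker (T - 1) : Submodule F V) ≤
            finrank F (W ⊓ LinearMap.ker (T - 1) : Submodule F V) :=
          Submodule.finrank_mono (inf_le_inf_right _ hUW)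
        have hlt' := Nat.mod_lt (finrank F V) hpos
        rw [hU] at hl
        rw [hW] at hl'
        have hm' := mod_of_eq_add (by omega) hl
        set du := finrank F (U ⊓ LinearMap.ker (T - 1) : Submodule F V) with hdu
        set dw := finrank F (W ⊓ LinearMap.ker (T - 1) : Submodule F V) with hdw
        have hsum : finrank F V = (du + dw) + (l + l') * i₀ := by rw [add_mul]; omega
        rcases lt_or_ge (du + dw) i₀ with h | h
        · have := mod_of_eq_add h hsum
          omega
        · have hsum' : finrank F V = (du + dw - i₀) + (l + l' + 1) * i₀ := by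
            rw [add_mul _ 1, one_mul]; omega
          have := mod_of_eq_add (by omega) hsum'
          omega
      refine Or.inr ⟨by omega, ?_, hmod⟩
      by_contra h
      rw [Nat.mod_eq_of_lt (not_le.1 h)] at hmod
      omega
  · intro hcond T hdet c hT _
    have hc0 : c ≠ 0 := const_ne_zero hn hdet hT
    by_cases hroot : ∃ a : F, a ^ r = c
    · obtain ⟨a, ha⟩ := hroot
      obtain ⟨K, W, hKW, hK, hW, L, hL, hWL⟩ := power_case hrF hT hc0 ha
      have hmod : 2 * (m % i₀) ≤ finrank F V % i₀ := by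
        rcases hcond with ⟨h, -⟩ | ⟨-, -, h⟩
        · rw [h, Nat.mod_one, Nat.mod_one]
        · exact h
      obtain ⟨l₁, l₂, hll, hl₁, hl₂, hk⟩ := split_two hL hm hmod
      have hsub : (L - l₂) * i₀ + l₂ * i₀ = L * i₀ := by
        rw [← add_mul, Nat.sub_add_cancel (by omega)]
      obtain ⟨A, B, hAB, hA, hB, hAd, hBd⟩ := exists_nested hK hW hKW (j₁ := m - l₁ * i₀)
        (j₂ := finrank F K - (m - l₂ * i₀)) (l₁ := l₁) (l₂ := L - l₂) (by omega) (by omega) (by omega)
        (by rw [hWL]; exact Nat.mul_le_mul_right _ (Nat.sub_le _ _))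
      exact ⟨A, B, hAB, by omega, by omega, hA, hB⟩
    · push Not at hroot
      obtain ⟨⟨t, ht⟩, ⟨j, hj⟩, hU⟩ := not_pow_case hn (m := m) hdet hT hroot (fun hi => by
        rcases hcond with ⟨-, h⟩ | ⟨h, -⟩
        · exact h
        · omega)
      obtain ⟨A, -, -, hA, hAd⟩ := hU.chain j ⊥ bot_le (inv_bot T) (by
        rw [finrank_bot, zero_add, mul_comm, ← hj, finrank_top]; omega)
      rw [finrank_bot, zero_add, mul_comm, ← hj] at hAd
      have h2 : (t - 2 * j) * r = finrank F V - 2 * m := by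
        rw [ht, hj, ← mul_assoc, mul_comm 2 r, mul_assoc, ← Nat.mul_sub, mul_comm]
      obtain ⟨B, hAB, -, hB, hBd⟩ := hU.chain (t - 2 * j) A le_top hA (by
        rw [hAd, h2, finrank_top]; omega)
      exact ⟨A, B, hAB, hAd, by omega, hA, hB⟩

end CfsgLib.Derangements.SubFix
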