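import Mathlib
import Cfsg.Agent.Lib.Derangements.PGL2Basic

/-!
# Elements of `PGL₂` fixing a four group, and `PGL₂` of subfields
-/

set_option autoImplicit false

open Matrix
open scoped MatrixGroups
open CfsgLib.ClassicalLinear (upS upS_coe)

namespace CfsgLib.Derangements.PSL2

open CfsgLib.SL2 CfsgLib.SL2.Dickson

variable {F : Type*} [Field F]

local notation "SL₂F" => Matrix.SpecialLinearGroup (Fin 2) F
local notation "PSL₂F" => Matrix.ProjectiveSpecialLinearGroup (Fin 2) F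
local notation "PGL₂F" => Matrix.ProjGenLinGroup (Fin 2) F
local notation "M₂" => Matrix (Fin 2) (Fin 2) F

lemma exists_eq_qmat_any (D : QuatDatum F) (h2 : (2 : F) ≠ 0) (A : M₂) :
    ∃ a b c d : F, A = qmat D a b c d := by
  refine ⟨(A 0 0 + A 1 1) / 2, (A 0 1 - A 1 0) / 2,
    -((A 0 0 - A 1 1) / 2 * D.x + (A 0 1 + A 1 0) / 2 * D.y),
    -((A 0 0 - A 1 1) / 2 * D.y - (A 0 1 + A 1 0) / 2 * D.x), ?_⟩
  have := D.eq
  ext i j
  fin_cases i <;> fin_cases j <;> simp [qmat] <;> field_simp <;> grind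

lemma conjSL_mul_coe (P : GL (Fin 2) F) (g : SL₂F) :
    (conjSL P g : M₂) * (P : M₂) = (P : M₂) * g := by
  rw [conjSL_coe, Matrix.mul_assoc, ← Units.val_mul, inv_mul_cancel, Units.val_one, Matrix.mul_one]

lemma conjPSL_one (x : PSL₂F) : conjPSL (1 : GL (Fin 2) F) x = x := by
  rw [← map_one Matrix.SpecialLinearGroup.toGL, conjPSL_toGL]; simp

variable [Finite F]

lemma mul_comm_or_neg {P : GL (Fin 2) F} {g h : SL₂F} (e : conjPSL P (proj g) = proj h) :
    (P : M₂) * g = (h : M₂) * P ∨ (P : M₂) * g = -((h : M₂) * P) := by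
  rw [conjPSL_proj, proj_eq_iff] at e
  rcases e with e | e <;> [left; right] <;> rw [← conjSL_mul_coe, e]
  simp

/-- Fixing both standard involutions forces a square determinant. -/
lemma isSquare_det_of_fix_std (D : QuatDatum F) (h2 : (2 : F) ≠ 0) {P : GL (Fin 2) F}
    (hi : conjPSL P (proj qi) = proj qi) (hj : conjPSL P (proj (qj D)) = proj (qj D)) :
    IsSquare (P : M₂).det := by
  obtain ⟨a, b, c, d, hP⟩ := exists_eq_qmat_any D h2 (P : M₂)
  have sol : ∀ z : F, z = -z → z = 0 := fun z hz => by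
    have : 2 * z = 0 := by linear_combination hz
    exact (mul_eq_zero.1 this).resolve_left h2
  have ei : (c = 0 ∧ d = 0) ∨ (a = 0 ∧ b = 0) := by
    rcases mul_comm_or_neg hi with e | e <;> rw [hP, qi_eq D, qmat_mul, qmat_mul] at e
    · obtain ⟨-, -, e1, e2⟩ := qmat_inj h2 e
      exact Or.inl ⟨sol c (by linear_combination -e2), sol d (by linear_combination e1)⟩
    · rw [show ∀ x y z w : F, -qmat D x y z w = qmat D (-x) (-y) (-z) (-w) from fun x y z w => by
        rw [← neg_one_smul F, smul_qmat]; congr 1 <;> ring] at e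
      obtain ⟨e1, e2, -, -⟩ := qmat_inj h2 e
      exact Or.inr ⟨sol a (by linear_combination e2), sol b (by linear_combination -e1)⟩
  have ej : (b = 0 ∧ d = 0) ∨ (a = 0 ∧ c = 0) := by
    rcases mul_comm_or_neg hj with e | e <;> rw [hP, qj_eq D, qmat_mul, qmat_mul] at e
    · obtain ⟨-, e1, -, e2⟩ := qmat_inj h2 e
      exact Or.inl ⟨sol b (by linear_combination e2), sol d (by linear_combination -e1)⟩
    · rw [show ∀ x y z w : F, -qmat D x y z w = qmat D (-x) (-y) (-z) (-w) from fun x y z w => by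
        rw [← neg_one_smul F, smul_qmat]; congr 1 <;> ring] at e
      obtain ⟨e1, -, e2, -⟩ := qmat_inj h2 e
      exact Or.inr ⟨sol a (by linear_combination e2), sol c (by linear_combination -e1)⟩
  rw [hP, det_qmat]
  rcases ei with ⟨e1, e2⟩ | ⟨e1, e2⟩ <;> rcases ej with ⟨e3, e4⟩ | ⟨e3, e4⟩
  · exact ⟨a, by rw [e3, e1, e2]; ring⟩
  · exact ⟨b, by rw [e3, e1, e2]; ring⟩
  · exact ⟨c, by rw [e1, e2, e4]; ring⟩
  · exact ⟨d, by rw [e1, e2, e4]; ring⟩

/-- Fixing two commuting involutions forces a square determinant. -/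
lemma isSquare_det_of_fix (h2 : (2 : F) ≠ 0) {P : GL (Fin 2) F} {x y : PSL₂F} (hx : x ≠ 1)
    (hy : y ≠ 1) (hne : x ≠ y) (hx2 : x ^ 2 = 1) (hy2 : y ^ 2 = 1) (hxy : x * y = y * x)
    (fx : conjPSL P x = x) (fy : conjPSL P y = y) : IsSquare (P : M₂).det := by
  obtain ⟨D⟩ := exists_datum (F := F)
  obtain ⟨g, rfl⟩ := proj_surjective x
  obtain ⟨h, rfl⟩ := proj_surjective y
  obtain ⟨hgg, hhh, hgh⟩ := lift_four_group h2 hx hy hne hx2 hy2 hxy
  obtain ⟨Q, hQg, hQh⟩ := exists_conj_std (D := D) h2 hgg hhh hgh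
  have key : ∀ k k' : SL₂F, conjSL Q k = k' → conjPSL P (proj k) = proj k →
      conjPSL (Q * P * Q⁻¹) (proj k') = proj k' := by
    intro k k' e f
    rw [← e, ← conjPSL_proj, conjPSL_mul, conjPSL_mul, ← conjPSL_mul Q⁻¹ Q, inv_mul_cancel,
      conjPSL_one, f]
  have := isSquare_det_of_fix_std D h2 (key _ _ hQg fx) (key _ _ hQh fy)
  rwa [Units.val_mul, Units.val_mul, det_units_conj] at this

omit [Finite F] in
lemma det_scalarly {R : Subfield F} {P : GL (Fin 2) F} (h : Scalarly R (P : M₂))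
    (hsq : ∀ x ∈ R, IsSquare x) : IsSquare (P : M₂).det := by
  obtain ⟨c, hc, hR⟩ := h
  obtain ⟨s, hs⟩ := hsq (c ^ 2 * (P : M₂).det) (by
    rw [det_fin_two, show c ^ 2 * ((P : M₂) 0 0 * (P : M₂) 1 1 - (P : M₂) 0 1 * (P : M₂) 1 0) =
      c * (P : M₂) 0 0 * (c * (P : M₂) 1 1) - c * (P : M₂) 0 1 * (c * (P : M₂) 1 0) by ring]
    exact R.sub_mem (R.mul_mem (hR _ _) (hR _ _)) (R.mul_mem (hR _ _) (hR _ _)))
  refine ⟨s / c, ?_⟩
  field_simp
  linear_combination hs

omit [Finite F] in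
/-- Conjugates of the elementary matrices over `R` determine a matrix up to a scalar over `R`. -/
lemma scalarly_of_conj {R : Subfield F} {P : GL (Fin 2) F}
    (h01 : ∀ i j, ((P : M₂) * (!![0, 1; 0, 0] : Matrix (Fin 2) (Fin 2) F) *
      ((P⁻¹ : GL (Fin 2) F) : M₂)) i j ∈ R)
    (h10 : ∀ i j, ((P : M₂) * (!![0, 0; 1, 0] : Matrix (Fin 2) (Fin 2) F) *
      ((P⁻¹ : GL (Fin 2) F) : M₂)) i j ∈ R) : Scalarly R (P : M₂) := by
  have hd : (P : M₂).det ≠ 0 := Matrix.GeneralLinearGroup.det_ne_zero P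
  have e : ∀ T : M₂, ∀ i j, ((P : M₂) * T * (P : M₂).adjugate) i j / (P : M₂).det =
      ((P : M₂) * T * ((P⁻¹ : GL (Fin 2) F) : M₂)) i j := by
    intro T i j
    rw [Matrix.GeneralLinearGroup.coe_inv, Matrix.inv_def, Matrix.mul_smul, Matrix.smul_apply,
      smul_eq_mul, Ring.inverse_eq_inv', inv_mul_eq_div]
  exact scalarly_of_normalises hd (fun i j => e _ i j ▸ h01 i j) (fun i j => e _ i j ▸ h10 i j)

omit [Finite F] in
/-- An element of `sfGrp R` with nonzero trace in `R` has its entries in `R`. -/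
lemma entries_of_tr {R : Subfield F} {g : SL₂F} (hg : g ∈ sfGrp R) (htr : tr g ∈ R) (h0 : tr g ≠ 0) :
    ∀ i j, (g : M₂) i j ∈ R := by
  obtain ⟨c, hc, hR⟩ := hg
  have hct : c * tr g ∈ R := by
    rw [tr, mul_add]; exact R.add_mem (hR 0 0) (hR 1 1)
  have hcR : c ∈ R := by
    have := R.div_mem hct htr
    rwa [mul_div_cancel_right₀ _ h0] at this
  intro i j
  have := R.mul_mem (R.inv_mem hcR) (hR i j)
  rwa [← mul_assoc, inv_mul_cancel₀ hc, one_mul] at this

section Incl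

variable (E : Subfield F)

omit [Finite F] in
lemma pgl_map_center : Subgroup.center (GL (Fin 2) E) ≤
    ((Matrix.ProjGenLinGroup.mk (n := Fin 2) (R := F)).comp
      (Matrix.GeneralLinearGroup.map (n := Fin 2) E.subtype)).ker := by
  intro A hA
  rw [Matrix.GeneralLinearGroup.center_eq_range_scalar] at hA
  obtain ⟨u, rfl⟩ := hA
  rw [MonoidHom.mem_ker, MonoidHom.comp_apply, Matrix.ProjGenLinGroup.mk_eq_one,
    Matrix.GeneralLinearGroup.center_eq_range_scalar]
  refine ⟨Units.map E.subtype.toMonoidHom u, Units.ext ?_⟩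
  ext i j
  fin_cases i <;> fin_cases j <;>
    simp [Matrix.GeneralLinearGroup.scalar, Matrix.GeneralLinearGroup.map]

/-- `PGL₂` of a subfield inside `PGL₂`. -/
def pglIncl : Matrix.ProjGenLinGroup (Fin 2) E →* Matrix.ProjGenLinGroup (Fin 2) F :=
  QuotientGroup.lift (Subgroup.center (GL (Fin 2) E))
    ((Matrix.ProjGenLinGroup.mk (n := Fin 2) (R := F)).comp
      (Matrix.GeneralLinearGroup.map (n := Fin 2) E.subtype))
    (pgl_map_center E)

omit [Finite F] in
lemma pglIncl_mk (A : GL (Fin 2) E) : pglIncl E (Matrix.ProjGenLinGroup.mk A) =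
    Matrix.ProjGenLinGroup.mk (Matrix.GeneralLinearGroup.map E.subtype A) := rfl

omit [Finite F] in
lemma pglIncl_injective : Function.Injective (pglIncl E) := by
  intro x y e
  obtain ⟨A, rfl⟩ := Matrix.ProjGenLinGroup.mk_surjective x
  obtain ⟨B, rfl⟩ := Matrix.ProjGenLinGroup.mk_surjective y
  rw [pglIncl_mk, pglIncl_mk] at e
  obtain ⟨u, hu⟩ := Matrix.ProjGenLinGroup.mk_eq_mk_iff.1 e.symm
  refine pgl_eq_of_smul E A B (u : F) u.ne_zero ?_
  have := congrArg (fun Z : GL (Fin 2) F => (Z : M₂)) hu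
  simp only [Units.val_mul, Matrix.GeneralLinearGroup.scalar] at this
  refine Eq.trans (show (A : Matrix (Fin 2) (Fin 2) E).map E.subtype = _ from this.symm) ?_
  ext i j
  fin_cases i <;> fin_cases j <;>
    simp [Matrix.GeneralLinearGroup.map, Matrix.mul_apply, Fin.sum_univ_two, mul_comm]

omit [Finite F] in
lemma mk_mem_range_pglIncl {P : GL (Fin 2) F} :
    (Matrix.ProjGenLinGroup.mk P : PGL₂F) ∈ (pglIncl E).range ↔ Scalarly E (P : M₂) := by
  constructor
  · rintro ⟨x, hx⟩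
    obtain ⟨A, rfl⟩ := Matrix.ProjGenLinGroup.mk_surjective x
    rw [pglIncl_mk] at hx
    obtain ⟨u, hu⟩ := Matrix.ProjGenLinGroup.mk_eq_mk_iff.1 hx
    have h1 : (P : M₂) = (u : F) • (A : Matrix (Fin 2) (Fin 2) E).map E.subtype := by
      rw [← hu, Units.val_mul]
      ext i j
      fin_cases i <;> fin_cases j <;>
        simp [Matrix.GeneralLinearGroup.scalar, Matrix.GeneralLinearGroup.map, Matrix.mul_apply,
          Fin.sum_univ_two, mul_comm]
    refine ⟨(u : F)⁻¹, inv_ne_zero u.ne_zero, fun i j => ?_⟩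
    rw [h1, Matrix.smul_apply, smul_eq_mul, ← mul_assoc, inv_mul_cancel₀ u.ne_zero, one_mul]
    exact ((A : Matrix (Fin 2) (Fin 2) E) i j).2
  · rintro ⟨c, hc, hE⟩
    set B : Matrix (Fin 2) (Fin 2) E := Matrix.of fun i j => ⟨_, hE i j⟩ with hB
    have hmap : B.map E.subtype = c • (P : M₂) := by ext i j; rfl
    have hdet : B.det ≠ 0 := by
      intro h0
      have h1 : E.subtype B.det = 0 := by rw [h0, map_zero]
      rw [RingHom.map_det, RingHom.mapMatrix_apply, hmap, det_smul, mul_eq_zero] at h1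
      rcases h1 with h1 | h1
      · exact hc (pow_eq_zero_iff (by simp) |>.1 h1)
      · exact Matrix.GeneralLinearGroup.det_ne_zero P h1
    refine ⟨Matrix.ProjGenLinGroup.mk (Matrix.GeneralLinearGroup.mkOfDetNeZero B hdet), ?_⟩
    rw [pglIncl_mk, Matrix.ProjGenLinGroup.mk_eq_mk_iff]
    refine ⟨Units.mk0 c⁻¹ (inv_ne_zero hc), Units.ext ?_⟩
    show B.map E.subtype * Matrix.scalar (Fin 2) c⁻¹ = (P : M₂)
    rw [hmap, Matrix.scalar_apply, ← Matrix.smul_one_eq_diagonal, Matrix.mul_smul, Matrix.mul_one,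
      smul_smul, inv_mul_cancel₀ hc, one_smul]

omit [Finite F] in
lemma comap_range_pglIncl : (pglIncl E).range.comap pslToPGL = sfPSL E := by
  ext x
  obtain ⟨g, rfl⟩ := proj_surjective x
  rw [Subgroup.mem_comap, pslToPGL_proj, mk_mem_range_pglIncl]
  show g ∈ sfGrp E ↔ g ∈ lift (sfPSL E)
  rw [lift_sfPSL]

lemma range_pglIncl_ne_top {r : ℕ} (hr : 2 ≤ r) (hE : Nat.card E ^ r = Nat.card F) :
    (pglIncl E).range ≠ ⊤ := by
  intro h
  refine sfPSL_ne_top E hr hE ?_
  rw [← comap_range_pglIncl, h, Subgroup.comap_top]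

/-- A maximal subgroup whose elements are defined over `E` is `PGL₂(E)`. -/
lemma PGLMax.eq_range {M : Subgroup PGL₂F} (h : PGLMax M) {r : ℕ} (hr : 2 ≤ r)
    (hE : Nat.card E ^ r = Nat.card F)
    (hall : ∀ P : GL (Fin 2) F, (Matrix.ProjGenLinGroup.mk P : PGL₂F) ∈ M → Scalarly E (P : M₂)) :
    M = (pglIncl E).range ∧ M.comap pslToPGL = sfPSL E ∧
      Nonempty (M ≃* Matrix.ProjGenLinGroup (Fin 2) E) := by
  have hle : M ≤ (pglIncl E).range := fun y hy => by
    obtain ⟨P, rfl⟩ := Matrix.ProjGenLinGroup.mk_surjective y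
    exact (mk_mem_range_pglIncl E).2 (hall P hy)
  have e : M = (pglIncl E).range :=
    hle.eq_or_lt.resolve_right fun hlt => range_pglIncl_ne_top E hr hE (h.coatom.2 _ hlt)
  exact ⟨e, e ▸ comap_range_pglIncl E,
    ⟨(MulEquiv.subgroupCongr e).trans (MonoidHom.ofInjective (pglIncl_injective E)).symm⟩⟩

end Incl

end CfsgLib.Derangements.PSL2
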