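import Mathlib
import Cfsg.Agent.Lib.Derangements.PGL2Fix
import Cfsg.Agent.Lib.SmallGroups.Order24

/-!
# Maximal subgroups of `PGL₂` meeting `PSL₂` in `A₄`, `S₄` or `A₅`
-/

set_option autoImplicit false

open Matrix
open scoped MatrixGroups

namespace CfsgLib.Derangements.PSL2

open CfsgLib.SL2 CfsgLib.SL2.Dickson

variable {F : Type*} [Field F] [Finite F]

local notation "SL₂F" => Matrix.SpecialLinearGroup (Fin 2) F
local notation "PSL₂F" => Matrix.ProjectiveSpecialLinearGroup (Fin 2) F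
local notation "PGL₂F" => Matrix.ProjGenLinGroup (Fin 2) F
local notation "M₂" => Matrix (Fin 2) (Fin 2) F
local notation "q₁" => Nat.card F

/-- `M` is `S₄` meeting `PSL₂` in `A₄`. -/
def IsFourType (M : Subgroup (Matrix.ProjGenLinGroup (Fin 2) F)) : Prop :=
  (Nat.card F).Prime ∧ (Nat.card F % 8 = 3 ∨ Nat.card F % 8 = 5) ∧
    (∃ (P : GL (Fin 2) F) (D : QuatDatum F) (h2 : (2 : F) ≠ 0),
      (M.comap pslToPGL).map (conjPSL P).toMonoidHom = fourPSL D h2) ∧
    Nonempty (M ≃* Equiv.Perm (Fin 4))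

/-- `M` is `PGL₂` of a subfield of odd prime index. -/
def IsSubType (M : Subgroup (Matrix.ProjGenLinGroup (Fin 2) F)) : Prop :=
  ∃ (P : GL (Fin 2) F) (E : Subfield F) (r : ℕ), r.Prime ∧ Odd r ∧ Nat.card E ^ r = Nat.card F ∧
    (M.comap pslToPGL).map (conjPSL P).toMonoidHom = sfPSL E ∧
    Nonempty (M ≃* Matrix.ProjGenLinGroup (Fin 2) E)

lemma alt_four_comm : ∀ a t : alternatingGroup (Fin 4), a ^ 2 = 1 → a ≠ 1 → t ^ 3 = 1 → t ≠ 1 →
    a * t ≠ t * a := by decide +kernel

set_option synthInstance.maxSize 5000 in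
lemma alt_four_orbit : ∀ t a c : alternatingGroup (Fin 4), t ^ 3 = 1 → t ≠ 1 → a ^ 2 = 1 → a ≠ 1 →
    c ^ 2 = 1 → c ≠ 1 → c = a ∨ c = t * a * t⁻¹ ∨ c = t⁻¹ * a * t := by decide +kernel

lemma alt_four_inv_comm : ∀ a b : alternatingGroup (Fin 4), a ^ 2 = 1 → b ^ 2 = 1 → a * b = b * a := by
  decide +kernel

set_option synthInstance.maxSize 5000 in
lemma perm_four_pairs : ∀ c d : Equiv.Perm (Fin 4), c * c ≠ 1 → c * c * (c * c) = 1 → d * d ≠ 1 →
    d * d * (d * d) = 1 → c * c ≠ d * d →
    ∃ π : Equiv.Perm (Fin 4), π * (Equiv.swap 0 1 * Equiv.swap 2 3) * π⁻¹ = c * c ∧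
      π * (Equiv.swap 0 2 * Equiv.swap 1 3) * π⁻¹ = d * d := by decide +kernel

/-- The first involution. -/
def ia : alternatingGroup (Fin 5) :=
  ⟨Equiv.swap 0 1 * Equiv.swap 2 3, Equiv.Perm.mem_alternatingGroup.2 (by decide)⟩

/-- The second involution. -/
def ib : alternatingGroup (Fin 5) :=
  ⟨Equiv.swap 0 2 * Equiv.swap 1 3, Equiv.Perm.mem_alternatingGroup.2 (by decide)⟩

/-- The five cycle. -/
def iu : alternatingGroup (Fin 5) :=
  ⟨finRotate 5, Equiv.Perm.mem_alternatingGroup.2 (by decide)⟩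

set_option synthInstance.maxSize 5000 in
lemma alt_five_pairs : ∀ c : alternatingGroup (Fin 5), c ^ 2 = 1 → c ≠ 1 →
    ∀ d : alternatingGroup (Fin 5), d ^ 2 = 1 → d ≠ 1 → c ≠ d → c * d = d * c →
    ∃ π : alternatingGroup (Fin 5), π * ia * π⁻¹ = c ∧ (π * ib * π⁻¹ = d ∨ π * (ia * ib) * π⁻¹ = d) := by
  decide +kernel

set_option synthInstance.maxSize 5000 in
lemma alt_five_outer : ∀ v : alternatingGroup (Fin 5), v ^ 5 = 1 → (ia * v) ^ 3 = 1 →
    (ia * ib * v) ^ 5 = 1 → (ib * v) ^ 2 = 1 →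
    ∃ π : alternatingGroup (Fin 5), π * iu ^ 2 * π⁻¹ = v := by decide +kernel

lemma alt_five_rel : iu ^ 5 = 1 ∧ (ia * iu) ^ 3 = 1 ∧ (ib * iu) ^ 5 = 1 ∧ (ia * ib * iu) ^ 2 = 1 ∧
    ia * (ia * ib) = ib ∧ iu ≠ 1 ∧ ia ≠ 1 ∧ ib ≠ 1 ∧ ia ≠ ib ∧ ia ^ 2 = 1 ∧ ib ^ 2 = 1 ∧
    ia * ib = ib * ia := by decide +kernel

namespace PGLMax

variable {M : Subgroup (Matrix.ProjGenLinGroup (Fin 2) F)}

/-- Conjugation inside `M`, read in an isomorphic group. -/
lemma exists_aut (h : PGLMax M) {X : Type*} [Group X] (e : M.comap pslToPGL ≃* X) {P : GL (Fin 2) F}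
    (hP : (Matrix.ProjGenLinGroup.mk P : PGL₂F) ∈ M) :
    ∃ f : X →* X, Function.Injective f ∧
      ∀ x, ((e.symm (f x) : M.comap pslToPGL) : PSL₂F) = conjPSL P (e.symm x : M.comap pslToPGL) := by
  let g : M.comap pslToPGL →* M.comap pslToPGL :=
    ((conjPSL P).toMonoidHom.comp (M.comap pslToPGL).subtype).codRestrict _
      fun x => h.conj_mem hP x.2
  refine ⟨(e.toMonoidHom.comp g).comp e.symm.toMonoidHom, ?_, fun x => ?_⟩
  · intro x y hxy
    have h1 : g (e.symm x) = g (e.symm y) := e.injective hxy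
    exact e.symm.injective (Subtype.ext ((conjPSL P).injective (congrArg Subtype.val h1)))
  · show ((e.symm (e (g (e.symm x))) : M.comap pslToPGL) : PSL₂F) = _
    rw [MulEquiv.symm_apply_apply]; rfl

/-- An element of `M` acting on a four group as an inner automorphism has square determinant. -/
lemma isSquare_of_inner (h : PGLMax M) {X : Type*} [Group X] (e : M.comap pslToPGL ≃* X)
    {P : GL (Fin 2) F} {f : X →* X}
    (hf : ∀ x, ((e.symm (f x) : M.comap pslToPGL) : PSL₂F) = conjPSL P (e.symm x : M.comap pslToPGL))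
    {a b π : X} (ha : a ≠ 1) (hb : b ≠ 1) (hne : a ≠ b) (ha2 : a ^ 2 = 1) (hb2 : b ^ 2 = 1)
    (hab : a * b = b * a) (fa : f a = π * a * π⁻¹) (fb : f b = π * b * π⁻¹) :
    IsSquare (P : M₂).det := by
  set s : X →* PSL₂F := (M.comap pslToPGL).subtype.comp e.symm.toMonoidHom with hs
  have hinj : Function.Injective s := Subtype.val_injective.comp e.symm.injective
  obtain ⟨G, hG⟩ := proj_surjective (s π)
  have hf' : ∀ x, s (f x) = conjPSL P (s x) := hf
  have key : ∀ x, f x = π * x * π⁻¹ →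
      conjPSL ((Matrix.SpecialLinearGroup.toGL G)⁻¹ * P) (s x) = s x := by
    intro x hx
    rw [← map_inv, conjPSL_mul, ← hf', hx, conjPSL_toGL, map_inv, hG, map_mul, map_mul, map_inv]
    group
  have := isSquare_det_of_fix h.two_ne (x := s a) (y := s b) (fun E => ha (hinj (E.trans (map_one s).symm)))
    (fun E => hb (hinj (E.trans (map_one s).symm))) (fun E => hne (hinj E))
    (by rw [← map_pow, ha2, map_one]) (by rw [← map_pow, hb2, map_one])
    (by rw [← map_mul, ← map_mul, hab]) (key a fa) (key b fb)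
  rwa [← map_inv, Units.val_mul, det_mul, det_toGL, one_mul] at this

/-- `M` does not meet `PSL₂` in `S₄`. -/
theorem not_oct (h : PGLMax M) (e : M.comap pslToPGL ≃* Equiv.Perm (Fin 4)) : False := by
  obtain ⟨P, hP, hns⟩ := h.exists_outer
  obtain ⟨f, hf, hfe⟩ := h.exists_aut e hP
  set a : Equiv.Perm (Fin 4) := Equiv.swap 0 1 * Equiv.swap 2 3 with ha
  set b : Equiv.Perm (Fin 4) := Equiv.swap 0 2 * Equiv.swap 1 3 with hb
  set c : Equiv.Perm (Fin 4) := Equiv.swap 0 2 * Equiv.swap 2 1 * Equiv.swap 1 3 with hc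
  set d : Equiv.Perm (Fin 4) := finRotate 4 with hd
  obtain ⟨hac, hbd, ha1, hb1, hne, ha2, hb2, hab, ha4, hb4⟩ :
      a = c * c ∧ b = d * d ∧ a ≠ 1 ∧ b ≠ 1 ∧ a ≠ b ∧ a ^ 2 = 1 ∧ b ^ 2 = 1 ∧ a * b = b * a ∧
        c * c * (c * c) = 1 ∧ d * d * (d * d) = 1 := by
    rw [ha, hb, hc, hd]; decide +kernel
  have hfa : f c * f c = f a := (map_mul f c c).symm.trans (congrArg f hac.symm)
  have hfb : f d * f d = f b := (map_mul f d d).symm.trans (congrArg f hbd.symm)
  have h1 : ∀ x, x ≠ 1 → f x ≠ 1 := fun x hx E => hx (hf (E.trans (map_one f).symm))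
  obtain ⟨π, e1, e2⟩ := perm_four_pairs (f c) (f d) (hfa ▸ h1 a ha1)
    (by rw [← map_mul, ← map_mul, ha4, map_one]) (hfb ▸ h1 b hb1)
    (by rw [← map_mul, ← map_mul, hb4, map_one]) (by rw [hfa, hfb]; exact fun E => hne (hf E))
  rw [hfa, ← ha] at e1
  rw [hfb, ← hb] at e2
  exact hns (h.isSquare_of_inner e hfe ha1 hb1 hne ha2 hb2 hab e1.symm e2.symm)

/-- If `M` meets `PSL₂` in `A₅` then this is `PSL₂(5)`. -/
theorem ico_case (h : PGLMax M) (e : M.comap pslToPGL ≃* alternatingGroup (Fin 5)) :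
    ∃ R : Subfield F, 3 ≤ Nat.card R ∧ InSubfieldCase (M.comap pslToPGL) R := by
  classical
  have h2 := h.two_ne
  obtain ⟨P, hP, hns⟩ := h.exists_outer
  obtain ⟨f, hf, hfe⟩ := h.exists_aut e hP
  obtain ⟨hu5, hau, hbu, hcu, hac, hu1, ha1, hb1, hne, ha2, hb2, hab⟩ := alt_five_rel
  have h1 : ∀ x, x ≠ 1 → f x ≠ 1 := fun x hx E => hx (hf (E.trans (map_one f).symm))
  obtain ⟨π, eπa, eπb⟩ := alt_five_pairs (f ia) (by rw [← map_pow, ha2, map_one]) (h1 _ ha1) (f ib)
    (by rw [← map_pow, hb2, map_one]) (h1 _ hb1) (fun E => hne (hf E))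
    (by rw [← map_mul, ← map_mul, hab])
  rcases eπb with eπb | eπb
  · exact absurd (h.isSquare_of_inner e hfe ha1 hb1 hne ha2 hb2 hab eπa.symm eπb.symm) hns
  -- the outer automorphism
  set g : alternatingGroup (Fin 5) →* alternatingGroup (Fin 5) :=
    (MulAut.conj π⁻¹).toMonoidHom.comp f with hg
  have hgx : ∀ x, g x = π⁻¹ * f x * π := fun x => by simp [hg]
  have ga : g ia = ia := by rw [hgx, ← eπa]; group
  have gb : g ib = ia * ib := by rw [hgx, ← eπb]; group
  obtain ⟨σ, hσ⟩ := alt_five_outer (g iu) (by rw [← map_pow, hu5, map_one])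
    (by rw [← ga, ← map_mul, ← map_pow, hau, map_one])
    (by rw [← gb, ← map_mul, ← map_pow, hbu, map_one])
    (by
      have hgc : g (ia * ib) = ib := by rw [map_mul, ga, gb, hac]
      rw [← hgc, ← map_mul, ← map_pow, hcu, map_one])
  have hfu : f iu = π * σ * iu ^ 2 * (π * σ)⁻¹ := by
    rw [show f iu = π * g iu * π⁻¹ by rw [hgx]; group, ← hσ]; group
  set s : alternatingGroup (Fin 5) →* PSL₂F := (M.comap pslToPGL).subtype.comp e.symm.toMonoidHom with hs
  have hsinj : Function.Injective s := Subtype.val_injective.comp e.symm.injective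
  have hfe' : ∀ x, s (f x) = conjPSL P (s x) := hfe
  obtain ⟨U, hU⟩ := proj_surjective (s iu)
  obtain ⟨W, hW⟩ := proj_surjective (s (π * σ))
  have hrel := hfe' iu
  rw [hfu, map_mul, map_mul, map_pow, map_inv, ← hU, ← hW, conjPSL_proj, ← map_pow, ← map_inv, ← map_mul,
    ← map_mul, proj_eq_iff] at hrel
  have htr2 : tr (U ^ 2) = tr U ^ 2 - 2 := by
    rw [tr, pow_two_coe]; simp [tr]; ring
  have htrU : tr U ^ 2 - 2 = tr U ∨ tr U ^ 2 - 2 = -tr U := by
    rcases hrel with E | E
    · left; rw [← htr2, ← tr_conj (U ^ 2) W, E, tr_conjSL]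
    · right; rw [← htr2, ← tr_conj (U ^ 2) W, E, tr_neg, tr_conjSL]
  have hUc : U ∉ Subgroup.center SL₂F := fun hc => hu1 (hsinj (by rw [← hU, mk_eq_one_iff.2 hc, map_one]))
  have h5 : (5 : F) = 0 := by
    rcases tr_of_five hUc (by rw [hU, ← map_pow, hu5, map_one]) with t5 | t5 <;> rcases htrU with E | E
    · exact absurd (show (4 : F) = 0 by linear_combination t5 - 4 * E) fun h4 => h2 (by
        have : (2 : F) * 2 = 0 := by linear_combination h4
        exact (mul_eq_zero.1 this).elim id id)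
    · have h3 : (2 * tr U - 1) * 4 = 0 := by linear_combination 4 * E - t5
      rcases mul_eq_zero.1 h3 with h3 | h3
      · linear_combination (2 * tr U - 1) * h3 - t5
      · exact absurd ((mul_eq_zero.1 (show (2 : F) * 2 = 0 by linear_combination h3)).elim id id) h2
    · have h3 : (2 * tr U + 1) * 4 = 0 := by linear_combination t5 - 4 * E
      rcases mul_eq_zero.1 h3 with h3 | h3
      · linear_combination (2 * tr U + 1) * h3 - t5
      · exact absurd ((mul_eq_zero.1 (show (2 : F) * 2 = 0 by linear_combination h3)).elim id id) h2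
    · exact absurd (show (4 : F) = 0 by linear_combination t5 - 4 * E) fun h4 => h2 (by
        have : (2 : F) * 2 = 0 := by linear_combination h4
        exact (mul_eq_zero.1 this).elim id id)
  -- characteristic five
  obtain ⟨R, hR⟩ : ∃ R : Subfield F, Nat.card R = 5 := by
    have : Fintype F := Fintype.ofFinite F
    obtain ⟨p, hchar⟩ := CharP.exists F
    obtain ⟨⟨n, hn⟩, hp, hcard⟩ := FiniteField.card F p
    have hp5 : p ∣ 5 := (CharP.cast_eq_zero_iff F p 5).1 (by exact_mod_cast h5)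
    rw [(Nat.prime_dvd_prime_iff_eq hp Nat.prime_five).1 hp5, ← Nat.card_eq_fintype_card] at hcard
    exact exists_subfield_card (F := F) hn.ne' hcard.symm
  refine ⟨R, by rw [hR]; norm_num, ?_⟩
  obtain ⟨D⟩ := exists_datum (F := F)
  obtain ⟨Q, e', hi, hj, -, -⟩ := exists_position D h2 e ha1 hb1 hne (by rw [← pow_two, ha2])
    (by rw [← pow_two, hb2]) hab
  have hle := five_le_sfPSL D h2 e' hi hj R (s := 0) (by rw [mul_zero, h5]) R.zero_mem
  have hK : Nat.card ((M.comap pslToPGL).map (conjPSL Q).toMonoidHom) = 60 := by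
    rw [Nat.card_congr e'.toEquiv, card_alt_five]
  have hincl : Nat.card (inclPSL R) = 60 := by
    have := inclPSL_card R
    rw [hR] at this
    norm_num at this
    omega
  have hd := sfPSL_card_dvd R
  rw [hR] at hd
  norm_num at hd
  obtain ⟨k, hk⟩ := Subgroup.card_dvd_of_le hle
  rw [hK] at hk
  rcases eq_or_ne k 1 with rfl | hk1
  · have e1 := Subgroup.eq_of_le_of_card_ge hle (by rw [hk, hK])
    have e2 := Subgroup.eq_of_le_of_card_ge (inclPSL_le_sfPSL R) (by rw [hk, hincl])
    exact ⟨Q, hle, by rw [e1, e2]⟩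
  · exfalso
    have hk2 : k = 2 := by
      rw [hk] at hd
      have := Nat.le_of_dvd (by norm_num) hd
      rcases Nat.lt_or_ge k 2 with hlt | hge
      · interval_cases k
        · rw [mul_zero] at hk; exact absurd hk Nat.card_pos.ne'
        · exact absurd rfl hk1
      · omega
    subst hk2
    obtain ⟨hM', hH'⟩ := h.map_conj Q
    have hidx : (((M.comap pslToPGL).map (conjPSL Q).toMonoidHom).subgroupOf (sfPSL R)).index = 2 := by
      have := (((M.comap pslToPGL).map (conjPSL Q).toMonoidHom).subgroupOf (sfPSL R)).card_mul_index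
      rw [Nat.card_congr (Subgroup.subgroupOfEquivOfLe hle).toEquiv, hK, hk] at this
      omega
    have hnorm := Subgroup.normal_of_index_eq_two hidx
    have hall : sfPSL R ≤ (M.comap pslToPGL).map (conjPSL Q).toMonoidHom := by
      intro x hx
      rw [← hH']
      refine hM'.self_normalizing fun y hy => ?_
      rw [hH'] at hy ⊢
      exact hnorm.conj_mem ⟨y, hle hy⟩ hy ⟨x, hx⟩
    have := Subgroup.card_dvd_of_le hall
    rw [hk, hK] at this
    norm_num at this

/-- An element preserving `M ∩ PSL₂` lies in `M`. -/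
lemma mk_mem (h : PGLMax M) {Q : GL (Fin 2) F}
    (hQ : (M.comap pslToPGL).map (conjPSL Q).toMonoidHom ≤ M.comap pslToPGL) :
    (Matrix.ProjGenLinGroup.mk Q : PGL₂F) ∈ M := by
  obtain ⟨-, hM⟩ := h.le_of_invariant h.comap_ne_bot h.comap_ne_top fun P hP x hx => h.conj_mem hP hx
  have heq := Subgroup.eq_of_le_of_card_ge hQ (card_map_conj _ Q).ge
  have h1 := map_pslToPGL_conj Q (M.comap pslToPGL)
  rw [heq] at h1
  rw [hM, Subgroup.mem_normalizer_iff]
  intro z
  conv_rhs => rw [h1, Subgroup.mem_map_equiv]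
  simp [mul_assoc]

/-- The case `M ∩ PSL₂ ≅ A₄`. -/
theorem four_case (h : PGLMax M) (e : M.comap pslToPGL ≃* alternatingGroup (Fin 4)) :
    IsFourType M ∨ IsSubType M := by
  classical
  have h2 := h.two_ne
  obtain ⟨D⟩ := exists_datum (F := F)
  obtain ⟨P, e', hi, hj, -, -⟩ := exists_position D h2 e
    (a := ⟨Equiv.swap 0 1 * Equiv.swap 2 3, Equiv.Perm.mem_alternatingGroup.2 (by decide)⟩)
      (b := ⟨Equiv.swap 0 2 * Equiv.swap 1 3, Equiv.Perm.mem_alternatingGroup.2 (by decide)⟩)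
    (by decide) (by decide) (by decide) (by decide) (by decide) (by decide)
  have hfour := eq_fourPSL D h2 e' hi hj
  obtain ⟨hM', hH'⟩ := h.map_conj P
  set M' := M.map (MulAut.conj (Matrix.ProjGenLinGroup.mk P : PGL₂F)).toMonoidHom with hM'def
  have eM : M ≃* M' := M.equivMapOfInjective _ (MulAut.conj (Matrix.ProjGenLinGroup.mk P : PGL₂F)).injective
  rw [hfour] at hH'
  have hodd := odd_card_of (F := F) h2
  rw [Nat.odd_iff] at hodd
  -- two is not a square
  have h8 : q₁ % 8 = 3 ∨ q₁ % 8 = 5 := by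
    by_contra h8
    obtain ⟨θ, hθ⟩ := exists_sqrt_two (F := F) (by omega)
    have hc := (card_octPSL D h2 hθ).1
    have hle := four_le_oct D h2 hθ
    have hidx : ((fourPSL D h2).subgroupOf (octPSL D h2 hθ)).index = 2 := by
      have := ((fourPSL D h2).subgroupOf (octPSL D h2 hθ)).card_mul_index
      rw [Nat.card_congr (Subgroup.subgroupOfEquivOfLe hle).toEquiv, card_fourPSL, hc] at this
      omega
    have hnorm := Subgroup.normal_of_index_eq_two hidx
    have hall : octPSL D h2 hθ ≤ fourPSL D h2 := by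
      intro x hx
      rw [← hH']
      refine hM'.self_normalizing fun y hy => ?_
      rw [hH'] at hy ⊢
      exact hnorm.conj_mem ⟨y, hle hy⟩ hy ⟨x, hx⟩
    have := Nat.le_of_dvd (by rw [card_fourPSL]; norm_num) (Subgroup.card_dvd_of_le hall)
    rw [card_fourPSL, hc] at this
    omega
  have : Fintype F := Fintype.ofFinite F
  obtain ⟨p, hchar⟩ := CharP.exists F
  obtain ⟨⟨n, hn⟩, hp, hcard⟩ := FiniteField.card F p
  rw [← Nat.card_eq_fintype_card] at hcard
  simp only [PNat.mk_coe] at hcard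
  rcases eq_or_ne n 1 with rfl | hn1
  · -- the prime field
    rw [pow_one] at hcard
    refine Or.inl ⟨hcard ▸ hp, h8, ⟨P, D, h2, hfour⟩, ?_⟩
    have hcM : Nat.card M = 24 := by
      rw [h.card_eq, Nat.card_congr e.toEquiv, card_alt_four]
    refine CfsgLib.SmallGroups.nonempty_mulEquiv_perm_four hcM fun z hz => ?_
    obtain ⟨t, ht⟩ : (z : PGL₂F) ^ 2 ∈ (pslToPGL (F := F)).range :=
      Subgroup.sq_mem_of_index_two (index_range_pslToPGL h2) _
    have htH : t ∈ M.comap pslToPGL := by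
      rw [Subgroup.mem_comap, ht]; exact pow_mem z.2 2
    have hz6 : (z : PGL₂F) ^ 6 = 1 := by rw [← Subgroup.coe_pow, ← hz, pow_orderOf_eq_one]; rfl
    have ht3 : t ^ 3 = 1 := pslToPGL_injective (by rw [map_pow, ht, ← pow_mul, hz6, map_one])
    have ht1 : t ≠ 1 := fun E => by
      have h2' : z ^ 2 = 1 := Subtype.ext (by rw [Subgroup.coe_pow, ← ht, E, map_one]; rfl)
      have := orderOf_dvd_of_pow_eq_one h2'
      rw [hz] at this
      norm_num at this
    have hz3 : (z : PGL₂F) ^ 3 ≠ 1 := fun E => by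
      have := orderOf_dvd_of_pow_eq_one (Subtype.ext (by rw [Subgroup.coe_pow, E]; rfl) : z ^ 3 = 1)
      rw [hz] at this
      norm_num at this
    obtain ⟨R, hRz⟩ := Matrix.ProjGenLinGroup.mk_surjective ((z : PGL₂F) ^ 3)
    have hRM : (Matrix.ProjGenLinGroup.mk R : PGL₂F) ∈ M := hRz ▸ pow_mem z.2 3
    set x0 := e ⟨t, htH⟩ with hx0
    have hx3 : x0 ^ 3 = 1 := by
      rw [hx0, ← map_pow, MulEquiv.map_eq_one_iff]; exact Subtype.ext ht3
    have hx1 : x0 ≠ 1 := by
      rw [hx0, ne_eq, MulEquiv.map_eq_one_iff]; exact fun E => ht1 (congrArg Subtype.val E)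
    by_cases hsq : IsSquare (R : M₂).det
    · obtain ⟨s, hs⟩ := (mk_mem_range_iff R).2 hsq
      rw [hRz] at hs
      have hsH : s ∈ M.comap pslToPGL := by rw [Subgroup.mem_comap, hs]; exact pow_mem z.2 3
      refine alt_four_comm (e ⟨s, hsH⟩) x0 ?_ ?_ hx3 hx1 ?_
      · rw [← map_pow, MulEquiv.map_eq_one_iff]
        exact Subtype.ext (pslToPGL_injective (by
          rw [Subgroup.coe_pow, map_pow, hs, ← pow_mul, hz6, Subgroup.coe_one, map_one]))
      · rw [ne_eq, MulEquiv.map_eq_one_iff]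
        exact fun E => hz3 (by rw [← hs, show s = 1 from congrArg Subtype.val E]; exact map_one _)
      · rw [hx0, ← map_mul, ← map_mul]
        congr 1
        exact Subtype.ext (pslToPGL_injective (by
          rw [Subgroup.coe_mul, Subgroup.coe_mul, map_mul, map_mul, hs, ht, ← pow_add, ← pow_add]))
    · apply hsq
      obtain ⟨f, hf, hfe⟩ := h.exists_aut e hRM
      set sj : alternatingGroup (Fin 4) →* PSL₂F := (M.comap pslToPGL).subtype.comp e.symm.toMonoidHom with hsj
      have hsinj : Function.Injective sj := Subtype.val_injective.comp e.symm.injective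
      have hfe' : ∀ x, sj (f x) = conjPSL R (sj x) := hfe
      have hst : sj x0 = t := by
        show ((e.symm (e ⟨t, htH⟩) : M.comap pslToPGL) : PSL₂F) = t
        rw [MulEquiv.symm_apply_apply]
      have hft : f x0 = x0 := hsinj (pslToPGL_injective (by
        rw [hfe', hst, pslToPGL_conj, hRz, ht]; group))
      have hff : ∀ x, f (f x) = x := fun x => hsinj (by
        rw [hfe', hfe', ← conjPSL_mul]
        refine pslToPGL_injective ?_
        rw [pslToPGL_conj, map_mul, hRz, ← pow_add, hz6, one_mul, inv_one, mul_one])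
      set a : alternatingGroup (Fin 4) :=
        ⟨Equiv.swap 0 1 * Equiv.swap 2 3, Equiv.Perm.mem_alternatingGroup.2 (by decide)⟩ with hadef
      have ha2 : a ^ 2 = 1 := by decide
      have ha1 : a ≠ 1 := by decide
      have hfa : f a = a := by
        rcases alt_four_orbit x0 a (f a) hx3 hx1 ha2 ha1 (by rw [← map_pow, ha2, map_one])
          (fun E => ha1 (hf (E.trans (map_one f).symm))) with E | E | E
        · exact E
        · exfalso
          have h' := hff a
          rw [E, map_mul, map_mul, map_inv, hft, E] at h'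
          refine alt_four_comm a (x0 * x0) ha2 ha1 (by rw [← pow_two, ← pow_mul, mul_comm 2 3, pow_mul, hx3, one_pow])
            (fun E2 => hx1 (by rw [← hx3, pow_succ, pow_two, E2, one_mul])) ?_
          calc a * (x0 * x0) = x0 * (x0 * a * x0⁻¹) * x0⁻¹ * (x0 * x0) := by rw [h']
            _ = x0 * x0 * a := by group
        · exfalso
          have h' := hff a
          rw [E, map_mul, map_mul, map_inv, hft, E] at h'
          refine alt_four_comm a (x0 * x0) ha2 ha1 (by rw [← pow_two, ← pow_mul, mul_comm 2 3, pow_mul, hx3, one_pow])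
            (fun E2 => hx1 (by rw [← hx3, pow_succ, pow_two, E2, one_mul])) ?_
          calc a * (x0 * x0) = x0 * x0 * (x0⁻¹ * (x0⁻¹ * a * x0) * x0) := by group
            _ = x0 * x0 * a := by rw [h']
      set b := x0 * a * x0⁻¹ with hbdef
      have hb2 : b ^ 2 = 1 := by rw [hbdef, conj_pow, ha2, mul_one, mul_inv_cancel]
      exact h.isSquare_of_inner e hfe (π := 1) ha1 (by rw [hbdef, ne_eq, conj_eq_one_iff]; exact ha1)
        (fun E => alt_four_comm a x0 ha2 ha1 hx3 hx1 (by
          conv_lhs => rw [E, hbdef]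
          group))
        ha2 hb2 (alt_four_inv_comm a b ha2 hb2) (by rw [hfa]; group)
        (by rw [hbdef, map_mul, map_mul, map_inv, hft, hfa]; group)
  · -- a larger field
    right
    have hnodd : Odd n := by
      by_contra hne
      obtain ⟨j, rfl⟩ := Nat.not_odd_iff_even.1 hne
      have hpo : Odd p := by
        have : Odd (p ^ (j + j)) := by rw [← hcard, Nat.odd_iff]; exact hodd
        exact (Nat.odd_pow_iff (by omega)).1 this
      have h1 : q₁ % 8 = 1 := by
        rw [hcard, ← two_mul, pow_mul, Nat.pow_mod]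
        have : p ^ 2 % 8 = 1 := by
          rw [Nat.odd_iff] at hpo
          rw [Nat.pow_mod]
          rcases (show p % 8 = 1 ∨ p % 8 = 3 ∨ p % 8 = 5 ∨ p % 8 = 7 by omega) with e | e | e | e <;> rw [e]
        simp [this]
      omega
    obtain ⟨r, hr, hrn⟩ := Nat.exists_prime_and_dvd hn1
    have hrodd : Odd r := Odd.of_dvd_nat hnodd hrn
    obtain ⟨d, hd⟩ := hrn
    have hq : (p ^ d) ^ r = q₁ := by rw [hcard, ← pow_mul, hd, mul_comm]
    obtain ⟨E, hE⟩ := exists_subfield_card hr.ne_zero hq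
    have hEr : Nat.card E ^ r = q₁ := by rw [hE, hq]
    have hrange := sfGrp_eq_range (R := E) fun c hc => mem_of_sq_mem E hEr (Or.inl hrodd) hc
    obtain ⟨hfr, hcomap, iso⟩ := hM'.eq_range E hr.two_le hEr fun R hR => by
      have hsub : fourPSL D h2 ≤ sfPSL E := hfour ▸ four_le_sfPSL D h2 e' hi hj E
      have hent : ∀ g : SL₂F, proj g ∈ fourPSL D h2 → ∀ i j,
          ((R : M₂) * (g : M₂) * ((R⁻¹ : GL (Fin 2) F) : M₂)) i j ∈ E := by
        intro g hg i j
        have h1 : proj (conjSL R g) ∈ fourPSL D h2 := by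
          rw [← conjPSL_proj, ← hH']
          exact hM'.conj_mem hR (by rw [hH']; exact hg)
        have h3 : conjSL R g ∈ lift (sfPSL E) := hsub h1
        rw [lift_sfPSL, hrange] at h3
        obtain ⟨g0, hg0⟩ := h3
        rw [← conjSL_coe, ← hg0]
        exact ((g0 : Matrix (Fin 2) (Fin 2) E) i j).2
      obtain ⟨hx, hy⟩ := D.mem E
      have h2E : (2 : F) ∈ E := by exact_mod_cast natCast_mem E 2
      have hk : proj (qi * qj D) ∈ fourPSL D h2 := by
        rw [map_mul]; exact mul_mem (qi_mem_four D h2) (qj_mem_four D h2)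
      have lin : ∀ s : F, s ∈ E → ∀ i j, ((R : M₂) * ((2 : F)⁻¹ • (s • ((qi : SL₂F) : M₂) +
          D.x • ((qi * qj D : SL₂F) : M₂) - D.y • ((qj D : SL₂F) : M₂))) *
            ((R⁻¹ : GL (Fin 2) F) : M₂)) i j ∈ E := by
        intro s hs i j
        simp only [Matrix.mul_smul, Matrix.smul_mul, Matrix.mul_add, Matrix.add_mul, Matrix.mul_sub,
          Matrix.sub_mul, Matrix.smul_apply, Matrix.sub_apply, Matrix.add_apply, smul_eq_mul]
        exact E.mul_mem (E.inv_mem h2E) (E.sub_mem (E.add_mem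
          (E.mul_mem hs (hent _ (qi_mem_four D h2) i j)) (E.mul_mem hx (hent _ hk i j)))
          (E.mul_mem hy (hent _ (qj_mem_four D h2) i j)))
      refine scalarly_of_conj (fun i j => ?_) (fun i j => ?_)
      · convert lin 1 E.one_mem i j using 5
        rw [qi_coe, qk_coe, qj_coe]
        have := D.eq
        ext a b
        fin_cases a <;> fin_cases b <;> simp <;> field_simp <;> grind
      · convert lin (-1) (E.neg_mem E.one_mem) i j using 5
        rw [qi_coe, qk_coe, qj_coe]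
        have := D.eq
        ext a b
        fin_cases a <;> fin_cases b <;> simp <;> field_simp <;> grind
    refine ⟨P, E, r, hr, hrodd, hEr, ?_, iso.map eM.trans⟩
    rw [hfour, ← hH']
    exact hcomap

end PGLMax

end CfsgLib.Derangements.PSL2
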