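import Mathlib
import Cfsg.Agent.Lib.Derangements.PGL2Exc
import Cfsg.Agent.Lib.TwoGroups.Basic

/-!
# Maximal subgroups of `PGL₂` normalising a torus
-/

set_option autoImplicit false

open Matrix
open scoped MatrixGroups

namespace CfsgLib.Derangements.PSL2

open CfsgLib.SL2 CfsgLib.SL2.Dickson

variable {F : Type*} [Field F] [Finite F]

local notation "SL₂F" => Matrix.SpecialLinearGroup (Fin 2) F
local notation "PSL₂F" => Matrix.ProjectiveSpecialLinearGroup (Fin 2) F
local notation "PGL₂F" => Matrix.ProjGenLinGroup (Fin 2) F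
local notation "M₂" => Matrix (Fin 2) (Fin 2) F
local notation "q₁" => Nat.card F
local notation "Kbar" => AlgebraicClosure F
local notation "ι" => algebraMap F (AlgebraicClosure F)

/-- `M` is the dihedral normaliser of a torus. -/
def IsTorusType (M : Subgroup (Matrix.ProjGenLinGroup (Fin 2) F)) : Prop :=
  ∃ g : Matrix.SpecialLinearGroup (Fin 2) F, tr g ^ 2 ≠ 4 ∧
    ¬ Nat.card (Subgroup.centralizer ({g} : Set (Matrix.SpecialLinearGroup (Fin 2) F))) ∣ 4 ∧
    M.comap pslToPGL = torusN g ∧
    Nonempty (M ≃* DihedralGroup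
      (Nat.card (Subgroup.centralizer ({g} : Set (Matrix.SpecialLinearGroup (Fin 2) F)))))

omit [Finite F] in
lemma mem_centralizer_conjSL (P : GL (Fin 2) F) (g x : SL₂F) :
    conjSL P x ∈ Subgroup.centralizer ({conjSL P g} : Set SL₂F) ↔
      x ∈ Subgroup.centralizer ({g} : Set SL₂F) := by
  rw [Subgroup.mem_centralizer_singleton_iff, Subgroup.mem_centralizer_singleton_iff, ← map_mul,
    ← map_mul, (conjSL P).injective.eq_iff]

omit [Finite F] in
lemma map_centralizer_conjSL (P : GL (Fin 2) F) (g : SL₂F) :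
    (Subgroup.centralizer ({g} : Set SL₂F)).map (conjSL P).toMonoidHom =
      Subgroup.centralizer ({conjSL P g} : Set SL₂F) := by
  ext y
  obtain ⟨x, rfl⟩ := (conjSL P).surjective y
  rw [mem_centralizer_conjSL, Subgroup.mem_map_equiv, MulEquiv.symm_apply_apply]

omit [Finite F] in
lemma card_centralizer_conjSL (P : GL (Fin 2) F) (g : SL₂F) :
    Nat.card (Subgroup.centralizer ({conjSL P g} : Set SL₂F)) =
      Nat.card (Subgroup.centralizer ({g} : Set SL₂F)) := by
  rw [← map_centralizer_conjSL]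
  exact Subgroup.card_map_of_injective (conjSL P).injective

omit [Finite F] in
lemma map_torusN (P : GL (Fin 2) F) (g : SL₂F) :
    (torusN g).map (conjPSL P).toMonoidHom = torusN (conjSL P g) := by
  rw [torusN, torusN, Subgroup.map_map,
    show (conjPSL P).toMonoidHom.comp (proj (F := F)) = (proj (F := F)).comp (conjSL P).toMonoidHom from
      MonoidHom.ext fun _ => rfl,
    ← Subgroup.map_map, Subgroup.map_equiv_normalizer_eq, map_centralizer_conjSL]

omit [Finite F] in
lemma torusN_congr {g g' : SL₂F}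
    (h : Subgroup.centralizer ({g} : Set SL₂F) = Subgroup.centralizer ({g'} : Set SL₂F)) :
    torusN g = torusN g' := by
  rw [torusN, torusN, h]

lemma card_eq_two_mul_comap (h2 : (2 : F) ≠ 0) (T : Subgroup PGL₂F) {P : GL (Fin 2) F}
    (hP : (Matrix.ProjGenLinGroup.mk P : PGL₂F) ∈ T) (hns : ¬ IsSquare (P : M₂).det) :
    Nat.card T = 2 * Nat.card (T.comap pslToPGL) := by
  have h1 : Nat.card (T.comap pslToPGL) = Nat.card ((pslToPGL (F := F)).range.subgroupOf T) := by
    rw [← Subgroup.card_map_of_injective (K := T.comap pslToPGL) pslToPGL_injective,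
      Subgroup.map_comap_eq, inf_comm]
    exact (Nat.card_congr ((Subgroup.subgroupOfEquivOfLe inf_le_left).trans (MulEquiv.refl _)).toEquiv).symm.trans
      (by rw [show (T ⊓ (pslToPGL (F := F)).range).subgroupOf T = (pslToPGL (F := F)).range.subgroupOf T from
        Subgroup.inf_subgroupOf_left _ _])
  have h2' : ((pslToPGL (F := F)).range.subgroupOf T).index = 2 := by
    have hdvd : (pslToPGL (F := F)).range.relIndex T ∣ 2 := by
      have := Subgroup.relIndex_dvd_index_of_normal (pslToPGL (F := F)).range T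
      rwa [index_range_pslToPGL h2] at this
    rcases (Nat.dvd_prime Nat.prime_two).1 hdvd with e | e
    · exact absurd ((mk_mem_range_iff P).1 (Subgroup.relIndex_eq_one.1 e hP)) hns
    · exact e
  rw [h1, ← ((pslToPGL (F := F)).range.subgroupOf T).card_mul_index, h2', mul_comm]

omit [Finite F] in
lemma mk_eq_one_of_smul {P : GL (Fin 2) F} {c : F} (hP : (P : M₂) = c • (1 : M₂)) :
    (Matrix.ProjGenLinGroup.mk P : PGL₂F) = 1 := by
  have hc : c ≠ 0 := by
    rintro rfl
    exact Matrix.GeneralLinearGroup.det_ne_zero P (by rw [hP, zero_smul, det_zero])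
  rw [Matrix.ProjGenLinGroup.mk_eq_one, Matrix.GeneralLinearGroup.center_eq_range_scalar]
  refine ⟨Units.mk0 c hc, Units.ext ?_⟩
  show _ = (P : M₂)
  rw [hP]
  ext i j; fin_cases i <;> fin_cases j <;> simp [Matrix.GeneralLinearGroup.scalar]

set_option maxHeartbeats 1000000 in
/-- The image in `PGL₂` of the centraliser of a regular element is cyclic. -/
lemma isCyclic_pgl_torus {g : SL₂F} (ht : tr g ^ 2 ≠ 4) :
    IsCyclic ((Subgroup.centralizer ({Matrix.SpecialLinearGroup.toGL g} : Set (GL (Fin 2) F))).map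
      (Matrix.ProjGenLinGroup.mk (n := Fin 2) (R := F))) := by
  set C := Subgroup.centralizer ({Matrix.SpecialLinearGroup.toGL g} : Set (GL (Fin 2) F))
  have hg := notMem_center_of_tr ht
  have hns : ¬ IsScalarMat (g : M₂) := mt (mem_center_iff_isScalarMat g).2 hg
  obtain ⟨μ, hμ⟩ := exists_root (tr g)
  choose A B hAB using fun P : C => (commute_iff_exists (A := (g : M₂)) (B := ((P : GL (Fin 2) F) : M₂)) hns).1
    (congrArg (fun z : GL (Fin 2) F => (z : M₂)) (Subgroup.mem_centralizer_singleton_iff.1 P.2)).symm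
  set N : C → Kbar := fun P => ι (A P) + ι (B P) * μ with hN
  set N' : C → Kbar := fun P => ι (A P) + ι (B P) * (ι (tr g) - μ) with hN'
  have hdet : ∀ P : C, N P * N' P = ι ((P : GL (Fin 2) F) : M₂).det := by
    intro P
    rw [hAB P, det_lin, hN, hN']
    simp only [map_add, map_mul, map_pow]
    linear_combination -(ι (B P)) ^ 2 * hμ
  have hne : ∀ P : C, N' P ≠ 0 := by
    intro P h0
    have := hdet P
    rw [h0, mul_zero] at this
    exact Matrix.GeneralLinearGroup.det_ne_zero (P : GL (Fin 2) F) ((map_eq_zero ι).1 this.symm)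
  have hu : ∀ (P : C) (a b : F), ((P : GL (Fin 2) F) : M₂) = a • (1 : M₂) + b • (g : M₂) →
      A P = a ∧ B P = b := fun P a b e => lin_ext hns ((hAB P).symm.trans e)
  let ψ : C →* Kbar :=
    { toFun := fun P => N P / N' P
      map_one' := by
        obtain ⟨e1, e2⟩ := hu 1 1 0 (by simp)
        simp [hN, hN', e1, e2]
      map_mul' := fun P Q => by
        obtain ⟨e1, e2⟩ := hu (P * Q) (A P * A Q - B P * B Q)
          (A P * B Q + B P * A Q + B P * B Q * tr g) (by
            simp only [Subgroup.coe_mul, Units.val_mul]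
            rw [hAB P, hAB Q, add_mul, mul_add, mul_add]
            simp only [Matrix.smul_mul, Matrix.mul_smul, one_mul, mul_one, mul_self_eq g]
            module)
        rw [div_mul_div_comm]
        congr 1
        · simp only [hN, e1, e2, map_sub, map_add, map_mul]
          linear_combination -(ι (B P) * ι (B Q)) * hμ
        · simp only [hN', e1, e2, map_sub, map_add, map_mul]
          linear_combination -(ι (B P) * ι (B Q)) * hμ }
  have hB : ∀ P : C, ψ P = 1 ↔ B P = 0 := by
    intro P
    show N P / N' P = 1 ↔ _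
    rw [div_eq_one_iff_eq (hne P)]
    constructor
    · intro e
      by_contra hb
      refine root_ne_other ht hμ (mul_left_cancel₀ ((map_ne_zero ι).2 hb) ?_)
      simp only [hN, hN'] at e
      linear_combination e
    · intro e
      simp [hN, hN', e]
  let π := (Matrix.ProjGenLinGroup.mk (n := Fin 2) (R := F)).subgroupMap C
  have hker : π.ker ≤ ψ.ker := by
    intro P hP
    rw [MonoidHom.mem_ker] at hP ⊢
    have h1 : (Matrix.ProjGenLinGroup.mk (P : GL (Fin 2) F) : PGL₂F) = 1 := congrArg Subtype.val hP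
    rw [Matrix.ProjGenLinGroup.mk_eq_one, Matrix.GeneralLinearGroup.center_eq_range_scalar] at h1
    obtain ⟨u, hu'⟩ := h1
    refine (hB P).2 (hu P (u : F) 0 ?_).2
    rw [← hu', zero_smul, add_zero]
    ext i j; fin_cases i <;> fin_cases j <;> simp [Matrix.GeneralLinearGroup.scalar]
  have hker' : π.ker ≤ ψ.toHomUnits.ker := fun P hP => Units.ext (MonoidHom.mem_ker.1 (hker hP))
  let φ := (Units.coeHom Kbar).comp
    (π.liftOfSurjective (MonoidHom.subgroupMap_surjective _ _) ⟨ψ.toHomUnits, hker'⟩)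
  refine isCyclic_of_injective_ringHom φ ((injective_iff_map_eq_one φ).2 fun x hx => ?_)
  obtain ⟨P, rfl⟩ := MonoidHom.subgroupMap_surjective _ C x
  rw [show φ (π P) = ψ P from congrArg Units.val (π.liftOfRightInverse_comp_apply _ (Function.rightInverse_surjInv (MonoidHom.subgroupMap_surjective _ C)) ⟨ψ.toHomUnits, hker'⟩ P)] at hx
  refine Subtype.ext (mk_eq_one_of_smul (c := A P) ?_)
  rw [hAB P, (hB P).1 hx, zero_smul, add_zero]

namespace PGLMax

variable {M : Subgroup (Matrix.ProjGenLinGroup (Fin 2) F)}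

lemma isTorusType_of_map (h : PGLMax M) (P : GL (Fin 2) F)
    (ht : IsTorusType (M.map (MulAut.conj (Matrix.ProjGenLinGroup.mk P : PGL₂F)).toMonoidHom)) :
    IsTorusType M := by
  obtain ⟨g, htg, he, hH, ⟨iso⟩⟩ := ht
  rw [(h.map_conj P).2] at hH
  refine ⟨conjSL P⁻¹ g, by rw [tr_conjSL]; exact htg, by rw [card_centralizer_conjSL]; exact he, ?_, ?_⟩
  · rw [← map_torusN, ← hH, Subgroup.map_map,
      show (conjPSL P⁻¹).toMonoidHom.comp (conjPSL P).toMonoidHom = MonoidHom.id PSL₂F from
        MonoidHom.ext fun x => by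
          show conjPSL P⁻¹ (conjPSL P x) = x
          rw [← conjPSL_mul, inv_mul_cancel, conjPSL_one],
      Subgroup.map_id]
  · rw [card_centralizer_conjSL]
    exact ⟨(M.equivMapOfInjective _ (MulAut.conj (Matrix.ProjGenLinGroup.mk P : PGL₂F)).injective).trans iso⟩

/-- `M` over the torus normaliser is dihedral. -/
lemma dihedral (h : PGLMax M) {g : SL₂F} (ht : tr g ^ 2 ≠ 4) (hH : M.comap pslToPGL = torusN g) :
    Nonempty (M ≃* DihedralGroup (Nat.card (Subgroup.centralizer ({g} : Set SL₂F)))) := by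
  have h2 := h.two_ne
  set C := Subgroup.centralizer ({g} : Set SL₂F) with hC
  have hg := notMem_center_of_tr ht
  have hns : ¬ IsScalarMat (g : M₂) := mt (mem_center_iff_isScalarMat g).2 hg
  set T := (Subgroup.centralizer ({Matrix.SpecialLinearGroup.toGL g} : Set (GL (Fin 2) F))).map
    (Matrix.ProjGenLinGroup.mk (n := Fin 2) (R := F)) with hT
  have hfix : ∀ P ∈ Subgroup.centralizer ({Matrix.SpecialLinearGroup.toGL g} : Set (GL (Fin 2) F)),
      conjSL P g = g := by
    intro P hP
    refine Subtype.ext ?_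
    rw [conjSL_coe, show (P : M₂) * (g : M₂) = (g : M₂) * P from
      congrArg (fun z : GL (Fin 2) F => (z : M₂)) (Subgroup.mem_centralizer_singleton_iff.1 hP),
      Matrix.mul_assoc, ← Units.val_mul, mul_inv_cancel, Units.val_one, Matrix.mul_one]
  have hTM : T ≤ M := by
    rintro _ ⟨P, hP, rfl⟩
    refine h.mk_mem ?_
    rw [hH, map_torusN, hfix P hP]
  have hcomap : T.comap pslToPGL = C.map proj := by
    ext x
    obtain ⟨y, rfl⟩ := proj_surjective x
    constructor
    · rintro ⟨P, hP, hPy⟩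
      refine Subgroup.mem_map_of_mem _ (Subgroup.mem_centralizer_singleton_iff.2 ?_)
      rw [pslToPGL_proj] at hPy
      obtain ⟨u, hu⟩ := Matrix.ProjGenLinGroup.mk_eq_mk_iff.1 hPy
      have hcomm : Matrix.SpecialLinearGroup.toGL y * Matrix.SpecialLinearGroup.toGL g =
          Matrix.SpecialLinearGroup.toGL g * Matrix.SpecialLinearGroup.toGL y := by
        rw [← hu]
        refine Commute.mul_left (Subgroup.mem_centralizer_singleton_iff.1 hP) ?_
        have hc : Matrix.GeneralLinearGroup.scalar (Fin 2) u ∈ Subgroup.center (GL (Fin 2) F) := by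
          rw [Matrix.GeneralLinearGroup.center_eq_range_scalar]; exact ⟨u, rfl⟩
        exact (Subgroup.mem_center_iff.1 hc _).symm
      rw [← map_mul, ← map_mul] at hcomm
      exact Subtype.ext (congrArg (fun z : GL (Fin 2) F => (z : M₂)) hcomm)
    · rintro ⟨z, hz, hzy⟩
      rw [Subgroup.mem_comap, ← hzy, pslToPGL_proj]
      refine Subgroup.mem_map_of_mem _ (Subgroup.mem_centralizer_singleton_iff.2 ?_)
      rw [← map_mul, ← map_mul, Subgroup.mem_centralizer_singleton_iff.1 hz]
  obtain ⟨P₀, -, hP₀⟩ := h.exists_outer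
  obtain ⟨a, b, hab⟩ := exists_norm_eq ht (Matrix.GeneralLinearGroup.det_ne_zero P₀)
  have hQdet : (a • (1 : M₂) + b • (g : M₂)).det = (P₀ : M₂).det := by
    rw [det_lin, ← hab]
  set Q := Matrix.GeneralLinearGroup.mkOfDetNeZero (a • (1 : M₂) + b • (g : M₂))
    (by rw [hQdet]; exact Matrix.GeneralLinearGroup.det_ne_zero P₀) with hQ
  have hQC : Q ∈ Subgroup.centralizer ({Matrix.SpecialLinearGroup.toGL g} : Set (GL (Fin 2) F)) := by
    refine Subgroup.mem_centralizer_singleton_iff.2 (Units.ext ?_)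
    show (a • (1 : M₂) + b • (g : M₂)) * (g : M₂) = (g : M₂) * (a • (1 : M₂) + b • (g : M₂))
    simp [mul_add, add_mul]
  have hcT : Nat.card T = Nat.card C := by
    rw [card_eq_two_mul_comap h2 T (P := Q) (Subgroup.mem_map_of_mem _ hQC)
      (by show ¬ IsSquare (a • (1 : M₂) + b • (g : M₂)).det; rw [hQdet]; exact hP₀), hcomap,
      ← card_lift h2]
    congr 1
    rw [show lift (C.map proj) = C from Subgroup.comap_map_eq_self (by
      rw [proj, QuotientGroup.ker_mk']; exact Subgroup.center_le_centralizer _)]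
  have hcM : Nat.card M = 2 * Nat.card C := by
    have h1 := d_mul_card_torusN ht
    rw [d_of_odd h2, ← hH, ← h.card_eq] at h1
    exact h1
  have := isCyclic_pgl_torus ht
  obtain ⟨⟨x, hx⟩, hgen⟩ := IsCyclic.exists_generator (α := T)
  obtain ⟨w, hw⟩ := exists_inverting ht
  have hwC : w ∉ C := fun hm => inv_ne_self ht
    (hw.symm.trans (mul_inv_eq_iff_eq_mul.2 (Subgroup.mem_centralizer_singleton_iff.1 hm)))
  have hwM : pslToPGL (proj w) ∈ M := by
    rw [← Subgroup.mem_comap, hH]
    exact Subgroup.mem_map_of_mem _ ((CfsgLib.SL2.mem_normalizer_iff ht w).2 (Or.inr hw))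
  have hwT : pslToPGL (proj w) ∉ T := by
    intro hm
    rw [← Subgroup.mem_comap, hcomap] at hm
    obtain ⟨z, hz, hzw⟩ := hm
    rcases proj_eq_iff.1 hzw with e | e
    · exact hwC (e ▸ hz)
    · refine hwC ?_
      rw [show w = -z by rw [e, neg_neg], ← neg_one_mul]
      exact mul_mem (Subgroup.center_le_centralizer _ neg_one_mem_center) hz
  have hord : orderOf x = Nat.card C := by
    rw [← hcT, ← orderOf_eq_card_of_forall_mem_zpowers hgen, Subgroup.orderOf_mk]
  have hord' : orderOf (⟨x, hTM hx⟩ : M) = Nat.card C := by rw [Subgroup.orderOf_mk, hord]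
  refine CfsgLib.TwoGroups.nonempty_mulEquiv_dihedral (x := (⟨x, hTM hx⟩ : M))
    (y := ⟨_, hwM⟩) hord' hcM (fun hm => hwT ?_) ?_ ?_
  · obtain ⟨k, hk⟩ := Subgroup.mem_zpowers_iff.1 hm
    have := congrArg Subtype.val hk
    simp only [SubgroupClass.coe_zpow] at this
    rw [← this]
    exact zpow_mem hx k
  · refine Subtype.ext ?_
    show pslToPGL (proj w) ^ 2 = 1
    rw [← map_pow, ← map_pow, pow_two, mul_self_eq_neg_one hg hw, proj_neg_one, map_one]
  · refine Subtype.ext ?_
    show pslToPGL (proj w) * x * (pslToPGL (proj w))⁻¹ = x⁻¹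
    obtain ⟨P, hP, rfl⟩ := hx
    obtain ⟨c, d, hcd⟩ := (commute_iff_exists (A := (g : M₂)) (B := (P : M₂)) hns).1
      (congrArg (fun z : GL (Fin 2) F => (z : M₂)) (Subgroup.mem_centralizer_singleton_iff.1 hP)).symm
    rw [eq_inv_iff_mul_eq_one, pslToPGL_proj, ← map_inv, ← map_mul, ← map_mul, ← map_mul]
    refine mk_eq_one_of_smul (c := (P : M₂).det) ?_
    have hgi : (w : M₂) * (g : M₂) * ((w⁻¹ : SL₂F) : M₂) = tr g • (1 : M₂) - (g : M₂) := by
      rw [← coe_inv_eq, ← hw]; rfl
    have hww : (w : M₂) * ((w⁻¹ : SL₂F) : M₂) = 1 := by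
      rw [← Matrix.SpecialLinearGroup.coe_mul, mul_inv_cancel]; rfl
    show (w : M₂) * (P : M₂) * ((w⁻¹ : SL₂F) : M₂) * (P : M₂) = _
    rw [hcd, det_lin]
    simp only [mul_add, add_mul, Matrix.mul_smul, Matrix.smul_mul, mul_one]
    rw [hgi, hww]
    simp only [sub_mul, Matrix.smul_mul, one_mul, mul_self_eq g]
    module

/-- The case where `M ∩ PSL₂` normalises a torus. -/
theorem torus_type (h : PGLMax M) (hT : IsTorusCase (lift (M.comap pslToPGL))) : IsTorusType M := by
  have h2 := h.two_ne
  obtain ⟨g, hg, ht, hN⟩ := torus_dichotomy hT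
  by_cases hex : ∃ x : SL₂F, proj x ∈ M.comap pslToPGL ∧
      x ∈ Subgroup.centralizer ({g} : Set SL₂F) ∧ proj x ^ 2 ≠ 1
  · obtain ⟨x, hxH, hxC, hx2⟩ := hex
    have hxc : x ∉ Subgroup.center SL₂F := fun hc => hx2 (by rw [mk_eq_one_iff.2 hc, one_pow])
    have hCx := centralizer_eq_of_mem hg hxC hxc
    have hpres : ∀ P : GL (Fin 2) F, (Matrix.ProjGenLinGroup.mk P : PGL₂F) ∈ M →
        (torusN g).map (conjPSL P).toMonoidHom = torusN g := by
      intro P hP
      rw [map_torusN]
      refine torusN_congr ?_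
      have hyH : proj (conjSL P x) ∈ M.comap pslToPGL := conjPSL_proj P x ▸ h.conj_mem hP hxH
      have hyC : conjSL P x ∈ Subgroup.centralizer ({g} : Set SL₂F) := by
        rcases hN _ hyH with e | e
        · exact Subgroup.mem_centralizer_singleton_iff.2 (mul_inv_eq_iff_eq_mul.1 e)
        · exfalso
          apply hx2
          have h1 := congrArg proj (mul_self_eq_neg_one hg e)
          rw [map_mul, proj_neg_one, ← conjPSL_proj, ← map_mul, MulEquiv.map_eq_one_iff] at h1
          rw [pow_two, h1]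
      have hyc : conjSL P x ∉ Subgroup.center SL₂F := fun hc => hxc (by
        rw [← map_center_of_mulEquiv (conjSL P), Subgroup.mem_map_equiv, MulEquiv.symm_apply_apply] at hc
        exact hc)
      rw [← centralizer_eq_of_mem hg hyC hyc, ← map_centralizer_conjSL, ← map_centralizer_conjSL, hCx]
    have hK1 : torusN g ≠ ⊥ := fun e => hx2 (by
      rw [Subgroup.mem_bot.1 (e ▸ Subgroup.mem_map_of_mem proj (Subgroup.le_normalizer hxC) :
        proj x ∈ (⊥ : Subgroup PSL₂F)), one_pow])
    obtain ⟨hle, -⟩ := h.le_of_invariant hK1 (torusN_ne_top h.four_le ht) fun P hP z hz => by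
      rw [← hpres P hP]; exact Subgroup.mem_map_of_mem _ hz
    have hH : M.comap pslToPGL = torusN g := by
      refine le_antisymm ?_ hle
      intro y hy
      obtain ⟨z, rfl⟩ := proj_surjective y
      exact Subgroup.mem_map_of_mem _ ((CfsgLib.SL2.mem_normalizer_iff ht z).2 (hN z hy))
    refine ⟨g, ht, fun hd => hx2 ?_, hH, h.dihedral ht hH⟩
    have h4 : x ^ 4 = 1 := by
      obtain ⟨k, hk⟩ := hd
      have hpow : x ^ Nat.card (Subgroup.centralizer ({g} : Set SL₂F)) = 1 :=
        congrArg Subtype.val (pow_card_eq_one' (x := (⟨x, hxC⟩ : Subgroup.centralizer ({g} : Set SL₂F))))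
      rw [hk, pow_mul, hpow, one_pow]
    rcases eq_or_ne (x ^ 2) 1 with e | e
    · rw [← map_pow, e, map_one]
    · rw [← map_pow, eq_neg_one_of_sq_eq_one h2 (by rw [← pow_mul]; exact h4) e, proj_neg_one]
  · exfalso
    push Not at hex
    have hexp : ∀ y ∈ M.comap pslToPGL, y ^ 2 = 1 := by
      intro y hy
      obtain ⟨z, rfl⟩ := proj_surjective y
      rcases hN z hy with e | e
      · exact hex z hy (Subgroup.mem_centralizer_singleton_iff.2 (mul_inv_eq_iff_eq_mul.1 e))
      · rw [pow_two, ← map_mul, mul_self_eq_neg_one hg e, proj_neg_one]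
    obtain ⟨a, haH, ha1⟩ := (Subgroup.ne_bot_iff_exists_ne_one.1 h.comap_ne_bot).elim
      fun a ha => (⟨(a : PSL₂F), a.2, fun e => ha (Subtype.ext e)⟩ :
        ∃ a : PSL₂F, a ∈ M.comap pslToPGL ∧ a ≠ 1)
    obtain ⟨A, rfl⟩ := proj_surjective a
    have hAc : A ∉ Subgroup.center SL₂F := fun hc => ha1 (mk_eq_one_iff.2 hc)
    have htA : tr A = 0 := tr_of_two hAc (hexp _ haH)
    have htA4 : tr A ^ 2 ≠ 4 := by
      rw [htA]
      intro e
      have : (2 : F) * 2 = 0 := by linear_combination -e
      exact h2 ((mul_eq_zero.1 this).elim id id)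
    by_cases hall : ∀ y ∈ M.comap pslToPGL, y = 1 ∨ y = proj A
    · obtain ⟨k, hk⟩ := exists_inverting htA4
      have hkA : proj k * proj A * (proj k)⁻¹ = proj A := by
        rw [← map_inv, ← map_mul, ← map_mul, hk, map_inv]
        exact inv_eq_of_mul_eq_one_right (by rw [← pow_two]; exact hexp _ haH)
      have hkH : proj k ∈ M.comap pslToPGL := h.self_normalizing fun y hy => by
        rcases hall y hy with rfl | rfl
        · rw [mul_one, mul_inv_cancel]; exact one_mem _
        · rw [hkA]; exact haH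
      apply inv_ne_self htA4
      rw [← hk]
      rcases hall _ hkH with e | e
      · rw [Subgroup.mem_center_iff.1 (mk_eq_one_iff.1 e) A |>.symm, mul_inv_cancel_right]
      · rcases proj_eq_iff.1 e with rfl | rfl
        · group
        · simp
    · push Not at hall
      obtain ⟨b, hbH, hb1, hbA⟩ := hall
      obtain ⟨B, rfl⟩ := proj_surjective b
      obtain ⟨D⟩ := exists_datum (F := F)
      have hcomm : ∀ y ∈ M.comap pslToPGL, ∀ z ∈ M.comap pslToPGL, y * z = z * y := by
        intro y hy z hz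
        have e := hexp _ (mul_mem hy hz)
        have ey := hexp _ hy
        have ez := hexp _ hz
        rw [pow_two] at e ey ez
        grind
      obtain ⟨hgg, hhh, hgh⟩ := lift_four_group h2 ha1 hb1 (Ne.symm hbA) (hexp _ haH) (hexp _ hbH)
        (hcomm _ haH _ hbH)
      obtain ⟨P, hPA, hPB⟩ := exists_conj_std (D := D) h2 hgg hhh hgh
      obtain ⟨hM', hH'⟩ := h.map_conj P
      have hi : proj qi ∈ (M.comap pslToPGL).map (conjPSL P).toMonoidHom :=
        ⟨_, haH, by show conjPSL P (proj A) = _; rw [conjPSL_proj, hPA]⟩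
      have hj : proj (qj D) ∈ (M.comap pslToPGL).map (conjPSL P).toMonoidHom :=
        ⟨_, hbH, by show conjPSL P (proj B) = _; rw [conjPSL_proj, hPB]⟩
      have hsq : ∀ y ∈ (M.comap pslToPGL).map (conjPSL P).toMonoidHom, y ^ 2 = 1 := by
        rintro _ ⟨z, hz, rfl⟩
        rw [← map_pow, hexp z hz, map_one]
      have hab : ∀ y ∈ (M.comap pslToPGL).map (conjPSL P).toMonoidHom,
          ∀ z ∈ (M.comap pslToPGL).map (conjPSL P).toMonoidHom, y * z = z * y := by
        rintro _ ⟨y, hy, rfl⟩ _ ⟨z, hz, rfl⟩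
        rw [← map_mul, ← map_mul, hcomm y hy z hz]
      have hklein : ∀ y ∈ (M.comap pslToPGL).map (conjPSL P).toMonoidHom,
          y = 1 ∨ y = proj qi ∨ y = proj (qj D) ∨ y = proj qi * proj (qj D) := fun y hy =>
        centralizer_klein D h2 (hab _ hy _ hi) (hab _ hy _ hj)
      have hqt : proj (qt D h2) ∈ (M.comap pslToPGL).map (conjPSL P).toMonoidHom := by
        rw [← hH']
        refine hM'.self_normalizing fun y hy => ?_
        rw [hH'] at hy ⊢
        have hy4 : y ∈ fourPSL D h2 := by
          rcases hklein y hy with rfl | rfl | rfl | rfl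
          exacts [one_mem _, qi_mem_four D h2, qj_mem_four D h2,
            mul_mem (qi_mem_four D h2) (qj_mem_four D h2)]
        obtain ⟨ε⟩ := fourPSL_equiv D h2
        set z := proj (qt D h2) * y * (proj (qt D h2))⁻¹ with hz
        have hz4 : z ∈ fourPSL D h2 :=
          mul_mem (mul_mem (qt_mem_four D h2) hy4) (inv_mem (qt_mem_four D h2))
        have hz2 : z ^ 2 = 1 := by rw [hz, conj_pow, hsq y hy, mul_one, mul_inv_cancel]
        have hzc : ∀ (v : PSL₂F), v ∈ fourPSL D h2 → v ^ 2 = 1 → z * v = v * z := by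
          intro v hv hv2
          have := alt_four_inv_comm (ε ⟨z, hz4⟩) (ε ⟨v, hv⟩)
            (by rw [← map_pow, MulEquiv.map_eq_one_iff]; exact Subtype.ext hz2)
            (by rw [← map_pow, MulEquiv.map_eq_one_iff]; exact Subtype.ext hv2)
          rw [← map_mul, ← map_mul] at this
          exact congrArg Subtype.val (ε.injective this)
        rcases centralizer_klein D h2 (hzc _ (qi_mem_four D h2) (hsq _ hi))
          (hzc _ (qj_mem_four D h2) (hsq _ hj)) with e | e | e | e <;> rw [e]
        exacts [one_mem _, hi, hj, mul_mem hi hj]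
      exact (qt_not_commute D h2).1 (hab _ hqt _ hi)

end PGLMax

end CfsgLib.Derangements.PSL2
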