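import Mathlib
import Cfsg.Agent.Lib.Derangements.PGL2Torus

/-!
# The maximal subgroups of `PGL₂(q)` not containing `PSL₂(q)`, `q` odd
-/

set_option autoImplicit false

open Matrix
open scoped MatrixGroups
open CfsgLib.ClassicalLinear (upS upS_coe upS_add)

namespace CfsgLib.Derangements.PSL2

open CfsgLib.SL2 CfsgLib.SL2.Dickson

variable {F : Type*} [Field F] [Finite F]

local notation "SL₂F" => Matrix.SpecialLinearGroup (Fin 2) F
local notation "PSL₂F" => Matrix.ProjectiveSpecialLinearGroup (Fin 2) F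
local notation "PGL₂F" => Matrix.ProjGenLinGroup (Fin 2) F
local notation "M₂" => Matrix (Fin 2) (Fin 2) F
local notation "q₁" => Nat.card F

/-- `M ∩ PSL₂` is the stabiliser of a point. -/
def IsBorelType (M : Subgroup (Matrix.ProjGenLinGroup (Fin 2) F)) : Prop :=
  ∃ P : GL (Fin 2) F, (M.comap pslToPGL).map (conjPSL P).toMonoidHom = (borel F).map proj

omit [Finite F] in
lemma center_le_borel : Subgroup.center SL₂F ≤ borel F := fun _ hz =>
  mem_borel.2 ((mem_center_iff_isScalarMat _).1 hz).2.1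

omit [Finite F] in
lemma lift_borel : lift ((borel F).map proj) = borel F := Subgroup.comap_map_eq_self (by
  rw [proj, QuotientGroup.ker_mk']; exact center_le_borel)

omit [Finite F] in
/-- The lower elementary matrix. -/
lemma exists_lower : ∃ l : SL₂F, (l : M₂) = !![1, 0; 1, 1] :=
  ⟨⟨!![1, 0; 1, 1], by simp [det_fin_two_of]⟩, rfl⟩

omit [Finite F] in
lemma borel_map_ne_top : (borel F).map proj ≠ (⊤ : Subgroup PSL₂F) := by
  intro h
  obtain ⟨l, hl⟩ := exists_lower (F := F)
  have : l ∈ borel F := by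
    rw [← lift_borel, h]; exact Subgroup.mem_top _
  rw [mem_borel, hl] at this
  simp at this

omit [Finite F] in
lemma borel_map_ne_bot : (borel F).map proj ≠ (⊥ : Subgroup PSL₂F) := by
  intro h
  have h1 : upS (1 : F) ∈ Subgroup.center SL₂F :=
    mk_eq_one_iff.1 (Subgroup.mem_bot.1 (h ▸ Subgroup.mem_map_of_mem proj (upS_mem_borel (1 : F))))
  have := ((mem_center_iff_isScalarMat _).1 h1).1
  simp [upS_coe] at this

namespace PGLMax

variable {M : Subgroup (Matrix.ProjGenLinGroup (Fin 2) F)}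

lemma borel_card (h : PGLMax M) (hB : IsBorelType M) : Nat.card M = q₁ * (q₁ - 1) := by
  obtain ⟨P, hP⟩ := hB
  rw [h.card_eq, ← card_map_conj _ P, hP, ← card_borelPSL (F := F), d_of_odd h.two_ne]

/-- The case where `M ∩ PSL₂` fixes a point. -/
theorem borel_case (h : PGLMax M) (hB : IsBorelCase (lift (M.comap pslToPGL))) :
    IsBorelType M ∨ IsTorusType M := by
  obtain ⟨u, hu⟩ := hB
  set P₀ := Matrix.SpecialLinearGroup.toGL u with hP₀
  obtain ⟨hM', hH'⟩ := h.map_conj P₀
  set M' := M.map (MulAut.conj (Matrix.ProjGenLinGroup.mk P₀ : PGL₂F)).toMonoidHom with hM'def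
  have hle : M'.comap pslToPGL ≤ (borel F).map proj := by
    rw [hH']
    rintro _ ⟨x, hx, rfl⟩
    obtain ⟨w, rfl⟩ := proj_surjective x
    refine ⟨u * w * u⁻¹, hu w hx, ?_⟩
    show proj (u * w * u⁻¹) = conjPSL P₀ (proj w)
    rw [hP₀, conjPSL_toGL, map_mul, map_mul, map_inv]
  have hmem : ∀ z : SL₂F, proj z ∈ M'.comap pslToPGL → (z : M₂) 1 0 = 0 := fun z hz => by
    rw [← mem_borel, ← lift_borel]; exact hle hz
  by_cases hex : ∃ x : F, x ≠ 0 ∧ proj (upS x) ∈ M'.comap pslToPGL
  · left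
    obtain ⟨x, hx0, hx⟩ := hex
    have hP10 : ∀ P : GL (Fin 2) F, (Matrix.ProjGenLinGroup.mk P : PGL₂F) ∈ M' →
        ((P : M₂) 1 0 = 0) := by
      intro P hP
      have h0 := hmem _ (conjPSL_proj P (upS x) ▸ hM'.conj_mem hP hx)
      have e := conjSL_mul_coe P (upS x)
      generalize hC : (conjSL P (upS x) : M₂) = C at e h0
      have e0 := congrFun (congrFun e 1) 0
      have e1 := congrFun (congrFun e 1) 1
      simp [Matrix.mul_apply, Fin.sum_univ_two, upS_coe, h0] at e0 e1
      by_contra hne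
      have hC1 : C 1 1 = 1 := mul_right_cancel₀ hne (by rw [e0, one_mul])
      rw [hC1, one_mul] at e1
      have : (P : M₂) 1 0 * x = 0 := by linear_combination -e1
      exact hx0 ((mul_eq_zero.1 this).resolve_left hne)
    have hinv : ∀ P : GL (Fin 2) F, (Matrix.ProjGenLinGroup.mk P : PGL₂F) ∈ M' →
        ∀ y ∈ (borel F).map proj, conjPSL P y ∈ (borel F).map proj := by
      rintro P hP _ ⟨b, hb, rfl⟩
      refine ⟨conjSL P b, ?_, (conjPSL_proj P b).symm⟩
      have h10 := hP10 P hP
      have hd := Matrix.GeneralLinearGroup.det_ne_zero P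
      rw [det_fin_two, h10, mul_zero, sub_zero] at hd
      have e0 := congrFun (congrFun (conjSL_mul_coe P b) 1) 0
      simp [Matrix.mul_apply, Fin.sum_univ_two, h10, mem_borel.1 hb] at e0
      show conjSL P b ∈ borel F
      exact mem_borel.2 (e0.resolve_right (fun e => hd (by rw [e, zero_mul])))
    obtain ⟨hge, -⟩ := hM'.le_of_invariant borel_map_ne_bot borel_map_ne_top hinv
    exact ⟨P₀, hH' ▸ le_antisymm hle hge⟩
  · right
    push Not at hex
    refine h.isTorusType_of_map P₀ (hM'.torus_type ?_)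
    set G := lift (M'.comap pslToPGL) with hG
    have hcomm : ∀ a ∈ G, ∀ b ∈ G, a * b = b * a := by
      intro a ha b hb
      set y := ((a * b : SL₂F) : M₂) 0 1 - ((b * a : SL₂F) : M₂) 0 1 with hy
      set z := (((b * a : SL₂F) : M₂) 1 1) with hz
      have a0 := hmem a ha
      have b0 := hmem b hb
      have hz0 : z ≠ 0 := by
        have hd := det_eq (b * a)
        rw [show ((b * a : SL₂F) : M₂) 1 0 = 0 from hmem _ (mul_mem hb ha), mul_zero, sub_zero] at hd
        intro e
        rw [← hz, e, mul_zero] at hd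
        exact zero_ne_one hd
      have heq : a * b = upS (y / z) * (b * a) := by
        apply Subtype.ext
        rw [Matrix.SpecialLinearGroup.coe_mul (upS _), upS_coe]
        have e00 : ((a * b : SL₂F) : M₂) 0 0 = ((b * a : SL₂F) : M₂) 0 0 := by
          simp [Matrix.mul_apply, Fin.sum_univ_two, a0, b0, mul_comm]
        have e11 : ((a * b : SL₂F) : M₂) 1 1 = z := by
          rw [hz]; simp [Matrix.mul_apply, Fin.sum_univ_two, a0, b0, mul_comm]
        have e10 := hmem _ (mul_mem ha hb)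
        have f10 := hmem _ (mul_mem hb ha)
        generalize ((a * b : SL₂F) : M₂) = A at hy e00 e11 e10
        generalize ((b * a : SL₂F) : M₂) = B at hy hz e00 f10
        ext i j
        fin_cases i <;> fin_cases j <;>
          simp [Matrix.mul_apply, Fin.sum_univ_two, e00, e11, e10, f10, ← hz]
        rw [div_mul_cancel₀ _ hz0, hy]; ring
      have hmemU : upS (y / z) ∈ G := by
        have := mul_mem (mul_mem ha hb) (inv_mem (mul_mem hb ha))
        rwa [heq, mul_inv_cancel_right] at this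
      rcases eq_or_ne (y / z) 0 with e | e
      · rw [heq, e, upS_zero, one_mul]
      · exact absurd hmemU (hex _ e)
    obtain ⟨g, hgG, hgc⟩ : ∃ g ∈ G, g ∉ Subgroup.center SL₂F := by
      by_contra! hno
      refine hM'.comap_ne_bot (eq_bot_iff.2 fun y hy => ?_)
      obtain ⟨w, rfl⟩ := proj_surjective y
      exact Subgroup.mem_bot.2 (mk_eq_one_iff.2 (hno w hy))
    have htg : tr g ^ 2 ≠ 4 := by
      intro ht
      have hb : g ∈ borel F := mem_borel.2 (hmem g hgG)
      have hd := det_eq g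
      rw [hmem g hgG, mul_zero, sub_zero, ← (tr_sq_eq_four_iff_borel hb).1 ht] at hd
      apply hgc
      rcases mul_self_eq_one_iff.1 hd with e | e
      · have hg : g = upS ((g : M₂) 0 1) := Subtype.ext (by
          rw [upS_coe]; ext i j
          fin_cases i <;> fin_cases j <;> simp [hmem g hgG, e, ← (tr_sq_eq_four_iff_borel hb).1 ht])
        rcases eq_or_ne ((g : M₂) 0 1) 0 with e1 | e1
        · rw [hg, e1, upS_zero]; exact one_mem _
        · exact absurd (hg ▸ hgG) (hex _ e1)
      · have hg : g = -upS (-(g : M₂) 0 1) := Subtype.ext (by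
          rw [Matrix.SpecialLinearGroup.coe_neg, upS_coe]; ext i j
          fin_cases i <;> fin_cases j <;> simp [hmem g hgG, e, ← (tr_sq_eq_four_iff_borel hb).1 ht])
        rcases eq_or_ne ((g : M₂) 0 1) 0 with e1 | e1
        · rw [hg, e1, neg_zero, upS_zero]; exact neg_one_mem_center
        · refine absurd ?_ (hex _ (neg_ne_zero.2 e1))
          rw [← proj_neg, ← hg]; exact hgG
    refine ⟨⟨g, hgG⟩, hgc, htg, eq_top_iff.2 fun k _ => ?_⟩
    refine (normalizer_cG_iff (g := (⟨g, hgG⟩ : G)) htg k).2 (Or.inl ?_)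
    show (k : SL₂F) * g * (k : SL₂F)⁻¹ = g
    rw [hcomm _ k.2 g hgG, mul_inv_cancel_right]

/-- The subfield case. -/
theorem sub_case (h : PGLMax M) {R : Subfield F} (hR : InSubfieldCase (M.comap pslToPGL) R) :
    IsSubType M := by
  have h2 := h.two_ne
  obtain ⟨m, hm1, hm⟩ := exists_degree R
  have hm2 : m ≠ 1 := fun e => h.comap_ne_top (hR.eq_top (by rw [← hm, e, pow_one]))
  obtain ⟨P₀, hle, hge⟩ := hR
  obtain ⟨hM', hH'⟩ := h.map_conj P₀
  have hsc : ∀ P : GL (Fin 2) F, (Matrix.ProjGenLinGroup.mk P : PGL₂F) ∈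
      M.map (MulAut.conj (Matrix.ProjGenLinGroup.mk P₀ : PGL₂F)).toMonoidHom → Scalarly R (P : M₂) := by
    intro P hP
    have key : ∀ (v : SL₂F) (T : M₂), (v : M₂) = 1 + T → proj v ∈ inclPSL R → tr v = 2 → ∀ i j,
        ((P : M₂) * T * ((P⁻¹ : GL (Fin 2) F) : M₂)) i j ∈ R := by
      intro v T hv hmem htr i j
      have h1 : proj (conjSL P v) ∈ sfPSL R := by
        rw [← conjPSL_proj]
        apply hle
        rw [← hH']
        exact hM'.conj_mem hP (by rw [hH']; exact hge hmem)
      have h3 : conjSL P v ∈ lift (sfPSL R) := h1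
      rw [lift_sfPSL] at h3
      have h2R : tr (conjSL P v) ∈ R := by
        rw [tr_conjSL, htr]; exact_mod_cast natCast_mem R 2
      have h4 := entries_of_tr h3 h2R (by rw [tr_conjSL, htr]; exact h2) i j
      rw [conjSL_coe, hv, Matrix.mul_add, Matrix.add_mul, Matrix.mul_one, ← Units.val_mul, mul_inv_cancel,
        Units.val_one, Matrix.add_apply] at h4
      have h5 : (1 : M₂) i j ∈ R := by
        rw [Matrix.one_apply]; split <;> simp [R.one_mem, R.zero_mem]
      simpa using R.sub_mem h4 h5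
    obtain ⟨l, hl⟩ := exists_lower (F := F)
    refine scalarly_of_conj (key (upS 1) _ ?_ ?_ (by simp [tr, upS_coe]; norm_num))
      (key l _ ?_ ?_ (by simp [tr, hl]; norm_num))
    · rw [upS_coe]; ext i j; fin_cases i <;> fin_cases j <;> simp
    · exact ⟨upS 1, ⟨⟨!![1, 1; 0, 1], by simp [det_fin_two_of]⟩, Subtype.ext (by
        show (!![1, 1; 0, 1] : Matrix (Fin 2) (Fin 2) R).map R.subtype = _
        rw [upS_coe]; ext i j; fin_cases i <;> fin_cases j <;> simp)⟩, rfl⟩
    · rw [hl]; ext i j; fin_cases i <;> fin_cases j <;> simp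
    · exact ⟨l, ⟨⟨!![1, 0; 1, 1], by simp [det_fin_two_of]⟩, Subtype.ext (by
        show (!![1, 0; 1, 1] : Matrix (Fin 2) (Fin 2) R).map R.subtype = _
        rw [hl]; ext i j; fin_cases i <;> fin_cases j <;> simp)⟩, rfl⟩
  have hmodd : Odd m := by
    by_contra hne
    obtain ⟨P, hP, hns⟩ := hM'.exists_outer
    exact hns (det_scalarly (hsc P hP) fun x hx => isSquare_of_even R hm (Nat.not_odd_iff_even.1 hne) hx)
  obtain ⟨r, hr, hrm⟩ := Nat.exists_prime_and_dvd hm2
  have hrodd : Odd r := Odd.of_dvd_nat hmodd hrm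
  obtain ⟨E, hRE, -, hE⟩ := exists_intermediate R hm hrm hr.ne_zero
  obtain ⟨-, hc, iso⟩ := hM'.eq_range E hr.two_le hE fun P hP => by
    obtain ⟨c, hc, hcR⟩ := hsc P hP
    exact ⟨c, hc, fun i j => hRE (hcR i j)⟩
  exact ⟨P₀, E, r, hr, hrodd, hE, hH'.symm.trans hc, iso.map
    (M.equivMapOfInjective _ (MulAut.conj (Matrix.ProjGenLinGroup.mk P₀ : PGL₂F)).injective).trans⟩

/-- The maximal subgroups of `PGL₂(q)` not containing `PSL₂(q)`, `q` odd. -/
theorem cases (h : PGLMax M) : IsBorelType M ∨ IsTorusType M ∨ IsFourType M ∨ IsSubType M := by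
  rcases psl_cases (M.comap pslToPGL) with hc | hc | ⟨-, ⟨⟨e⟩⟩ | ⟨⟨e⟩⟩ | ⟨⟨e⟩⟩⟩ | ⟨R, -, hR⟩
  · rcases h.borel_case hc with h' | h'
    exacts [Or.inl h', Or.inr (Or.inl h')]
  · exact Or.inr (Or.inl (h.torus_type hc))
  · exact Or.inr (Or.inr (h.four_case e))
  · exact (h.not_oct e).elim
  · obtain ⟨R, -, hR⟩ := h.ico_case e
    exact Or.inr (Or.inr (Or.inr (h.sub_case hR)))
  · exact Or.inr (Or.inr (Or.inr (h.sub_case hR)))

end PGLMax

/-- The hypotheses of a maximal subgroup not containing `PSL₂`. -/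
lemma pglMax_of [Fintype F] (hodd : Odd (Fintype.card F)) (h3 : 3 < Fintype.card F)
    {M : Subgroup PGL₂F} (hM : IsCoatom M)
    (hML : ¬ (Matrix.ProjGenLinGroup.mk.comp Matrix.SpecialLinearGroup.toGL).range ≤ M) :
    PGLMax M :=
  ⟨hM, by rw [range_pslToPGL]; exact hML, two_ne_zero_of_odd hodd, by
    rw [Nat.card_eq_fintype_card]; omega⟩

end CfsgLib.Derangements.PSL2
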