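import Mathlib
import Cfsg.Agent.Lib.Derangements.PGL2Cases
import Cfsg.Agent.Lib.Derangements.PSL2Grow
import Cfsg.Agent.Lib.SL2.Dickson.Maximal

/-!
# Maximality in `PSL₂` of the intersections of maximal subgroups of `PGL₂`
-/

set_option autoImplicit false

open Matrix
open scoped MatrixGroups
open CfsgLib.ClassicalLinear (upS upS_coe upS_add)

namespace CfsgLib.Derangements.PSL2

open CfsgLib.SL2 CfsgLib.SL2.Dickson

variable {F : Type*} [Field F] [Finite F]

local notation "SL₂F" => Matrix.SpecialLinearGroup (Fin 2) F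
local notation "PSL₂F" => Matrix.ProjectiveSpecialLinearGroup (Fin 2) F
local notation "PGL₂F" => Matrix.ProjGenLinGroup (Fin 2) F
local notation "M₂" => Matrix (Fin 2) (Fin 2) F
local notation "q₁" => Nat.card F

omit [Finite F] in
/-- The stabiliser of a point is maximal. -/
theorem isCoatom_borel : IsCoatom ((borel F).map proj : Subgroup PSL₂F) := by
  refine ⟨borel_map_ne_top, fun K hK => ?_⟩
  obtain ⟨y, hyK, hyB⟩ := SetLike.exists_of_lt hK
  obtain ⟨k, rfl⟩ := proj_surjective y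
  have hB : ∀ b ∈ borel F, b ∈ lift K := fun b hb => hK.le (Subgroup.mem_map_of_mem _ hb)
  have hk : (k : M₂) 1 0 ≠ 0 := fun e => hyB (Subgroup.mem_map_of_mem _ (mem_borel.2 e))
  let W : ∀ c : F, c ≠ 0 → SL₂F := fun c hc =>
    ⟨!![0, -c⁻¹; c, 0], by rw [det_fin_two_of]; field_simp; ring⟩
  have hdec : ∀ (x : SL₂F) (hx : (x : M₂) 1 0 ≠ 0),
      x = upS ((x : M₂) 0 0 / (x : M₂) 1 0) * W _ hx * upS ((x : M₂) 1 1 / (x : M₂) 1 0) := by
    intro x hx
    apply Subtype.ext
    have hd := det_eq x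
    rw [Matrix.SpecialLinearGroup.coe_mul, Matrix.SpecialLinearGroup.coe_mul, upS_coe, upS_coe]
    show (x : M₂) = !![1, (x : M₂) 0 0 / (x : M₂) 1 0; 0, 1] * !![0, -((x : M₂) 1 0)⁻¹; (x : M₂) 1 0, 0] *
      !![1, (x : M₂) 1 1 / (x : M₂) 1 0; 0, 1]
    ext i j
    fin_cases i <;> fin_cases j <;> simp [Matrix.mul_apply, Fin.sum_univ_two] <;> field_simp <;> grind
  have hW : W _ hk ∈ lift K := by
    have h1 : upS ((k : M₂) 0 0 / (k : M₂) 1 0) * W _ hk * upS ((k : M₂) 1 1 / (k : M₂) 1 0) ∈ lift K :=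
      (hdec k hk) ▸ hyK
    exact (Subgroup.mul_mem_cancel_left _ (hB _ (upS_mem_borel _))).1
      ((Subgroup.mul_mem_cancel_right _ (hB _ (upS_mem_borel _))).1 h1)
  rw [eq_top_iff]
  intro z _
  obtain ⟨x, rfl⟩ := proj_surjective z
  show x ∈ lift K
  by_cases hx : (x : M₂) 1 0 = 0
  · exact hB x (mem_borel.2 hx)
  · rw [hdec x hx]
    refine mul_mem (mul_mem (hB _ (upS_mem_borel _)) ?_) (hB _ (upS_mem_borel _))
    let u : Fˣ := Units.mk0 ((k : M₂) 1 0 / (x : M₂) 1 0) (div_ne_zero hk hx)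
    have e : W _ hx = CfsgLib.SL2.diag u * W _ hk := by
      apply Subtype.ext
      rw [Matrix.SpecialLinearGroup.coe_mul, CfsgLib.SL2.diag_coe]
      ext i j
      fin_cases i <;> fin_cases j <;> simp [W, u, Matrix.mul_apply, Fin.sum_univ_two] <;> field_simp
    rw [e]
    exact mul_mem (hB _ (mem_borel.2 (by simp [CfsgLib.SL2.diag_coe]))) hW

/-- The subgroup of a subfield of odd prime index is maximal. -/
theorem isCoatom_sfPSL (h2 : (2 : F) ≠ 0) (E : Subfield F) {r : ℕ} (hr : r.Prime) (hro : Odd r)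
    (hEr : Nat.card E ^ r = q₁) : IsCoatom (sfPSL E) := by
  classical
  set q := Nat.card E with hE
  have : Fintype E := Fintype.ofFinite E
  have hqodd : Odd q := by
    have := odd_card_of (F := F) h2
    rw [← hEr] at this
    exact (Nat.odd_pow_iff hr.ne_zero).1 this
  obtain ⟨iso⟩ := sfPSL_equiv_psl (R := E) fun c hc => mem_of_sq_mem E hEr (Or.inl hro) hc
  refine ⟨sfPSL_ne_top E hr.two_le hEr, fun L hL => ?_⟩
  have hc : 2 * Nat.card (sfPSL E) = q * (q ^ 2 - 1) := by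
    rw [Nat.card_congr iso.toEquiv]
    exact CfsgLib.ClassicalLinear.card_PSL_two_of_odd (by rw [← Nat.card_eq_fintype_card]) hqodd
  have hdvd := Subgroup.card_dvd_of_le hL.le
  have hne : Nat.card L ≠ Nat.card (sfPSL E) := fun h =>
    hL.ne (Subgroup.eq_of_le_of_card_ge hL.le (by rw [h]))
  have htwo : Nat.card L ≠ q * (q ^ 2 - 1) := fun h =>
    not_two_mul_dvd_card h2 hEr hro (h ▸ Subgroup.card_subgroup_dvd_card L)
  have hq3 : 3 ≤ q := by
    have := Finite.one_lt_card (α := E)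
    obtain ⟨t, ht⟩ := hqodd
    omega
  have hbig : q = 3 ∨ 60 ≤ Nat.card (sfPSL E) := by
    rcases eq_or_ne q 3 with h | h
    · exact Or.inl h
    · have h5 : 5 ≤ q := by obtain ⟨t, ht⟩ := hqodd; omega
      have : 5 * 24 ≤ q * (q ^ 2 - 1) := Nat.mul_le_mul h5 (show 24 ≤ q ^ 2 - 1 by
        have : 5 * 5 ≤ q ^ 2 := by rw [pow_two]; exact Nat.mul_le_mul h5 h5
        omega)
      exact Or.inr (by omega)
  rcases cases_of_incl_le (E := E) hq3 ((inclPSL_le_sfPSL E).trans hL.le) with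
    ⟨-, ⟨⟨f⟩⟩ | ⟨⟨f⟩⟩ | ⟨⟨f⟩⟩⟩ | ⟨R, -, hR⟩
  · rw [Nat.card_congr f.toEquiv, card_alt_four] at hdvd hne
    rcases hbig with h3 | hb
    · rw [h3] at hc; omega
    · have := Nat.le_of_dvd (by norm_num) hdvd; omega
  · rw [Nat.card_congr f.toEquiv, card_perm_four] at hdvd htwo
    rcases hbig with h3 | hb
    · rw [h3] at htwo; norm_num at htwo
    · have := Nat.le_of_dvd (by norm_num) hdvd; omega
  · have h60 : Nat.card L = 60 := by rw [Nat.card_congr f.toEquiv, card_alt_five]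
    rcases hbig with h3 | hb
    · exfalso
      have hd : 5 ∣ 3 ^ r * ((3 ^ r) ^ 2 - 1) := by
        rw [← h3, hEr, ← two_mul_card_PSL h2]
        exact ((show 5 ∣ 60 by norm_num).trans (h60 ▸ Subgroup.card_subgroup_dvd_card L)).mul_left 2
      have h5 : 5 ∣ (3 ^ r) ^ 2 - 1 :=
        (Nat.Coprime.dvd_mul_left (Nat.Coprime.pow_right _ (by norm_num))).1 hd
      obtain ⟨t, rfl⟩ := hro
      have : (3 ^ (2 * t + 1)) ^ 2 % 5 = 4 := by
        rw [← pow_mul, show (2 * t + 1) * 2 = 4 * t + 2 by ring, pow_add, pow_mul, Nat.mul_mod, Nat.pow_mod]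
        norm_num
      omega
    · rw [h60] at hdvd hne
      have := Nat.le_of_dvd (by norm_num) hdvd; omega
  · obtain ⟨h1, -⟩ := hR.card_dvd
    rcases card_eq_or_of_dvd E R hr hEr
        (by rw [← hE, ← hc]; exact mul_dvd_mul_left 2 (hdvd.trans h1)) with e | e
    · exfalso
      rw [e, ← hE, ← hc] at h1
      rw [← hc] at htwo
      obtain ⟨c, hcc⟩ := hdvd
      have hpos : 0 < Nat.card (sfPSL E) := Nat.card_pos
      rw [hcc, mul_comm 2] at h1
      have hc2 := Nat.le_of_dvd two_pos (Nat.dvd_of_mul_dvd_mul_left hpos h1)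
      interval_cases c
      · rw [mul_zero] at hcc; exact Nat.card_pos.ne' hcc
      · rw [mul_one] at hcc; exact hne hcc
      · rw [mul_comm] at hcc; exact htwo hcc
    · exact hR.eq_top e

/-- `A₄` is maximal for `p ≡ ±3 (mod 8)`, `p ≢ ±1 (mod 10)`. -/
theorem isCoatom_fourPSL (D : QuatDatum F) (h2 : (2 : F) ≠ 0) {p : ℕ} (hpp : p.Prime) (hq : q₁ = p)
    (h5 : 5 ≤ p) (h8 : p % 8 = 3 ∨ p % 8 = 5) (h10 : p % 10 ≠ 1 ∧ p % 10 ≠ 9) :
    IsCoatom (fourPSL D h2) := by
  classical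
  have hodd : Odd p := hpp.odd_of_ne_two (by omega)
  have hc := card_fourPSL D h2
  have hG := two_mul_card_PSL (F := F) h2
  rw [hq] at hG
  have h25 : 5 * 24 ≤ p * (p ^ 2 - 1) := Nat.mul_le_mul h5 (by
    have : 5 * 5 ≤ p ^ 2 := by rw [pow_two]; exact Nat.mul_le_mul h5 h5
    omega)
  have h16 : p ^ 2 % 16 = 9 := by
    rw [Nat.pow_mod]
    rcases (show p % 16 = 3 ∨ p % 16 = 5 ∨ p % 16 = 11 ∨ p % 16 = 13 by omega) with h | h | h | h <;> rw [h]
  have hno24 : ¬ 24 ∣ Nat.card PSL₂F := by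
    intro h
    have h' : 16 ∣ p * (p ^ 2 - 1) := hG ▸ (show 16 ∣ 2 * 24 by norm_num).trans (mul_dvd_mul_left 2 h)
    have h'' : 16 ∣ p ^ 2 - 1 := (Nat.Coprime.dvd_mul_left (by
      rw [show (16 : ℕ) = 2 ^ 4 from rfl]
      exact Nat.Coprime.pow_left _ (Nat.coprime_two_left.2 hodd))).1 h'
    omega
  refine ⟨fun h => ?_, fun L hL => ?_⟩
  · rw [h, Subgroup.card_top] at hc; omega
  · have hdL := Subgroup.card_subgroup_dvd_card L
    have hne : Nat.card L ≠ 12 := fun h =>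
      hL.ne (Subgroup.eq_of_le_of_card_ge hL.le (by rw [h, hc]))
    rcases cases_of_four_le D h2 hL.le with ⟨⟨f⟩⟩ | ⟨⟨f⟩⟩ | ⟨⟨f⟩⟩ | ⟨R, -, hR⟩
    · exact absurd (by rw [Nat.card_congr f.toEquiv, card_alt_four]) hne
    · rw [Nat.card_congr f.toEquiv, card_perm_four] at hdL
      exact absurd hdL hno24
    · rw [Nat.card_congr f.toEquiv, card_alt_five] at hdL
      rcases eq_or_ne p 5 with rfl | hp5
      · refine Subgroup.eq_top_of_card_eq L ?_
        rw [Nat.card_congr f.toEquiv, card_alt_five]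
        omega
      · exfalso
        have h' : 5 ∣ p * (p ^ 2 - 1) := hG ▸ (show 5 ∣ 2 * 60 by norm_num).trans (mul_dvd_mul_left 2 hdL)
        have h'' : 5 ∣ p ^ 2 - 1 := (Nat.Coprime.dvd_mul_left
          ((Nat.coprime_primes Nat.prime_five hpp).2 (Ne.symm hp5))).1 h'
        have hm : p ^ 2 % 5 ≠ 1 := by
          rw [Nat.pow_mod]
          have h50 : p % 5 ≠ 0 := fun h0 =>
            hp5 ((Nat.prime_dvd_prime_iff_eq Nat.prime_five hpp).1 (Nat.dvd_of_mod_eq_zero h0)).symm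
          rcases (show p % 5 = 2 ∨ p % 5 = 3 by omega) with h | h <;> rw [h] <;> decide
        omega
    · exact hR.eq_top (subfield_prime hpp hq R)

omit [Finite F] in
lemma isCoatom_of_map_conj {H : Subgroup PSL₂F} (P : GL (Fin 2) F)
    (h : IsCoatom (H.map (conjPSL P).toMonoidHom)) : IsCoatom H := by
  have := isCoatom_map (conjPSL P).symm h
  rwa [Subgroup.map_map, show (conjPSL P).symm.toMonoidHom.comp (conjPSL P).toMonoidHom = MonoidHom.id PSL₂F
    from MonoidHom.ext fun x => (conjPSL P).symm_apply_apply x, Subgroup.map_id] at this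

/-- The normaliser of a torus is maximal, apart from small fields. -/
theorem isCoatom_torusN (h2 : (2 : F) ≠ 0) {g : SL₂F} (ht : tr g ^ 2 ≠ 4)
    (he : ¬ Nat.card (Subgroup.centralizer ({g} : Set SL₂F)) ∣ 4)
    (hq : q₁ ≠ 7 ∧ q₁ ≠ 9 ∧ q₁ ≠ 11) : IsCoatom (torusN g) := by
  have hcyc := isCyclic_centralizer ht
  obtain ⟨⟨g', hg'⟩, hgen⟩ := IsCyclic.exists_generator (α := Subgroup.centralizer ({g} : Set SL₂F))
  have hord : orderOf g' = Nat.card (Subgroup.centralizer ({g} : Set SL₂F)) := by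
    rw [← orderOf_eq_card_of_forall_mem_zpowers hgen, Subgroup.orderOf_mk]
  have hg := notMem_center_of_tr ht
  have hgc : g' ∉ Subgroup.center SL₂F := by
    intro hc
    apply he
    rw [← hord]
    refine (orderOf_dvd_of_pow_eq_one ?_ : orderOf g' ∣ 2).trans (by norm_num)
    rcases (mem_center_iff g').1 hc with rfl | rfl <;> simp
  have hC := centralizer_eq_of_mem hg hg' hgc
  obtain ⟨a, b, hab⟩ := (mem_centralizer_singleton_iff' hg g').1 hg'
  have hb : b ≠ 0 := by
    rintro rfl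
    apply hgc
    rw [mem_center_iff_isScalarMat, isScalarMat_iff]
    exact ⟨a, by rw [hab, zero_smul, add_zero]⟩
  have ht' : tr g' ^ 2 ≠ 4 := by
    intro e
    have hd := g'.det_coe
    rw [hab, det_lin] at hd
    have htr : tr g' = 2 * a + b * tr g := by simp [tr, hab]; ring
    rw [htr] at e
    have h0 : b ^ 2 * (tr g ^ 2 - 4) = 0 := by linear_combination e - 4 * hd
    exact ht (sub_eq_zero.1 ((mul_eq_zero.1 h0).resolve_left (pow_ne_zero 2 hb)))
  rw [← torusN_congr hC]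
  rw [← hC] at he hord
  have hor := card_centralizer_or ht'
  have hodd := odd_card_of (F := F) h2
  rw [Nat.odd_iff] at hodd
  refine torusNormalizer_isCoatom (g := g') (a := Nat.card (Subgroup.centralizer ({g'} : Set SL₂F)) / 2)
    ht' hord ?_ he (fun ha => ?_)
  · rw [center_card_of_odd h2]; omega
  · right
    have h4 := Finite.one_lt_card (α := F)
    have hne : q₁ ≠ 3 := by
      intro e
      rw [e] at hor
      rcases hor with e' | e' <;> rw [e'] at he <;> norm_num at he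
    omega

namespace PGLMax

variable {M : Subgroup (Matrix.ProjGenLinGroup (Fin 2) F)}

/-- Outside the exceptions the intersection with `PSL₂` is maximal. -/
theorem isCoatom_comap (h : PGLMax M) (hq : q₁ ≠ 7 ∧ q₁ ≠ 9 ∧ q₁ ≠ 11)
    (h40 : Nat.Prime q₁ → q₁ % 40 ∉ ({11, 19, 21, 29} : Finset ℕ)) :
    IsCoatom (M.comap pslToPGL) := by
  rcases h.cases with ⟨P, hP⟩ | ⟨g, ht, he, hH, -⟩ | ⟨hp, h8, ⟨P, D, h2, hP⟩, -⟩ |
    ⟨P, E, r, hr, hro, hE, hP, -⟩
  · exact isCoatom_of_map_conj P (hP ▸ isCoatom_borel)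
  · rw [hH]; exact isCoatom_torusN h.two_ne ht he hq
  · refine isCoatom_of_map_conj P (hP ▸ isCoatom_fourPSL D h2 hp rfl ?_ h8 ?_)
    · have := h.four_le
      have : q₁ ≠ 4 := fun e => by rw [e] at hp; norm_num at hp
      omega
    · have h' := h40 hp
      simp only [Finset.mem_insert, Finset.mem_singleton, not_or] at h'
      omega
  · exact isCoatom_of_map_conj P (hP ▸ isCoatom_sfPSL h.two_ne E hr hro hE)

end PGLMax

lemma range_pslToPGL_eq_top_of_two (h2 : (2 : F) = 0) : (pslToPGL (F := F)).range = ⊤ := by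
  rw [eq_top_iff]
  intro y _
  obtain ⟨P, rfl⟩ := Matrix.ProjGenLinGroup.mk_surjective y
  have : Fintype F := Fintype.ofFinite F
  refine (mk_mem_range_iff P).2 (FiniteField.isSquare_of_char_two ?_ _)
  have hd : ringChar F ∣ 2 := (ringChar.spec F 2).1 (by exact_mod_cast h2)
  exact ((Nat.dvd_prime Nat.prime_two).1 hd).resolve_left CharP.ringChar_ne_one

end CfsgLib.Derangements.PSL2
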