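import Mathlib
import Cfsg.Agent.S0205
import Cfsg.Agent.Lib.PrimeElementOrders.Basic

/-!
A non-solvable normal subgroup with only elements of prime power order outside it has solvable
quotient. The proof takes a minimal supplement `Y` inside the normalizer of a Sylow subgroup and
studies its action on the centre of that Sylow subgroup.
-/

set_option autoImplicit false
set_option linter.style.haveILetI false

namespace CfsgLib.Derangements.PrimePowerOutside

open scoped commutatorElement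

variable {G : Type*} [Group G] [Finite G] {N : Subgroup G}

omit [Finite G] in
/-- An element outside `N` has no nontrivial commuting element of coprime order inside `N`. -/
theorem eq_one_of_commute (h : ∀ x : G, x ∉ N → IsPrimePow (orderOf x)) {x n : G} (hx : x ∉ N)
    (hn : n ∈ N) (hc : Commute x n) (hcop : (orderOf x).Coprime (orderOf n)) : n = 1 := by
  have hxn : x * n ∉ N := fun hm => hx ((N.mul_mem_cancel_right hn).1 hm)
  have hp := h _ hxn
  rw [hc.orderOf_mul_eq_mul_orderOf_of_coprime hcop] at hp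
  obtain ⟨p, k, hpp, hk, hpk⟩ := (isPrimePow_nat_iff _).1 hp
  have hx1 : orderOf x ≠ 1 := fun e => hx (by rw [orderOf_eq_one_iff.1 e]; exact N.one_mem)
  obtain ⟨i, -, hi⟩ := (Nat.dvd_prime_pow hpp).1 (hpk.symm ▸ Dvd.intro _ rfl : orderOf x ∣ p ^ k)
  obtain ⟨j, -, hj⟩ := (Nat.dvd_prime_pow hpp).1 (hpk.symm ▸ Dvd.intro_left _ rfl : orderOf n ∣ p ^ k)
  rcases Nat.eq_zero_or_pos j with rfl | hj0
  · exact orderOf_eq_one_iff.1 (by simpa using hj)
  have hi0 : 0 < i := Nat.pos_of_ne_zero fun e => hx1 (by rw [hi, e, pow_zero])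
  rw [hi, hj, Nat.coprime_pow_left_iff hi0, Nat.coprime_pow_right_iff hj0] at hcop
  exact absurd hcop (by simp [hpp.ne_one])

/-- The lift of an element of prime order to a prime-power element of a supplement. -/
theorem exists_lift [N.Normal] {Y : Subgroup G} (hY : Y ⊔ N = ⊤) {p : ℕ} [Fact p.Prime]
    (hp : p ∣ Nat.card (G ⧸ N)) :
    ∃ t ∈ Y, t ∉ N ∧ t ^ p ∈ N ∧ ∃ k, orderOf t = p ^ k := by
  obtain ⟨τ, hτ⟩ := exists_prime_orderOf_dvd_card' p hp
  obtain ⟨g, rfl⟩ := QuotientGroup.mk_surjective τ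
  obtain ⟨y, hy, n, hn, rfl⟩ := Subgroup.mem_sup_of_normal_right.1 (hY ▸ Subgroup.mem_top g)
  have hyn : ((y * n : G) : G ⧸ N) = (y : G ⧸ N) := by
    rw [QuotientGroup.mk_mul, (QuotientGroup.eq_one_iff n).2 hn, mul_one]
  rw [hyn] at hτ
  set o := orderOf y with ho
  have ho0 : o ≠ 0 := (orderOf_pos y).ne'
  refine ⟨y ^ (o / p ^ o.factorization p), Y.pow_mem hy _, ?_, ?_, o.factorization p, ?_⟩
  · intro hm
    rw [← QuotientGroup.eq_one_iff, QuotientGroup.mk_pow, ← orderOf_dvd_iff_pow_eq_one, hτ] at hm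
    exact Nat.not_dvd_ordCompl Fact.out ho0 hm
  · rw [← QuotientGroup.eq_one_iff, QuotientGroup.mk_pow, QuotientGroup.mk_pow, ← pow_mul,
      ← orderOf_dvd_iff_pow_eq_one, hτ]
    exact Dvd.intro_left _ rfl
  · rw [orderOf_pow_of_dvd (Nat.pos_iff_ne_zero.1 (Nat.ordCompl_pos p ho0)) (Nat.ordCompl_dvd o p),
      ← ho, Nat.div_div_self (Nat.ordProj_dvd o p) ho0]

/-- No abelian `s`-subgroup of `N` (`s` odd) is normalized by a supplement whose `2`-elements in `N`
centralize it. -/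
theorem exists_two_element (h : ∀ x : G, x ∉ N → IsPrimePow (orderOf x)) [N.Normal]
    (hrad : ∀ M : Subgroup (G ⧸ N), M.Normal → Group.IsSolvable M → M = ⊥) (heven : 2 ∣ Nat.card (G ⧸ N))
    {Y : Subgroup G} (hY : Y ⊔ N = ⊤) {s : ℕ} [Fact s.Prime] (hs : s ≠ 2) {W : Subgroup G}
    (hWN : W ≤ N) (hWY : Y ≤ Subgroup.normalizer (W : Set G)) (hWs : IsPGroup s W)
    (hWc : ∀ a ∈ W, ∀ b ∈ W, a * b = b * a) (hW : W ≠ ⊥) :
    ∃ z ∈ Y ⊓ N, (∃ k, orderOf z = 2 ^ k) ∧ z ∉ Subgroup.centralizer (W : Set G) := by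
  by_contra hno
  push Not at hno
  have hord : ∀ w ∈ W, ∃ j, orderOf w = s ^ j := by
    intro w hw
    obtain ⟨j, hj⟩ := IsPGroup.iff_orderOf.1 hWs ⟨w, hw⟩
    exact ⟨j, by rwa [Subgroup.orderOf_mk] at hj⟩
  have hsurj : ∀ g : G ⧸ N, ∃ y ∈ Y, (y : G ⧸ N) = g := by
    intro g
    obtain ⟨g, rfl⟩ := QuotientGroup.mk_surjective g
    obtain ⟨y, hy, n, hn, rfl⟩ := Subgroup.mem_sup_of_normal_right.1 (hY ▸ Subgroup.mem_top g)
    exact ⟨y, hy, by rw [QuotientGroup.mk_mul, (QuotientGroup.eq_one_iff n).2 hn, mul_one]⟩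
  set K := Y ⊓ Subgroup.centralizer (W : Set G) with hK
  have hKN : K ≤ N := by
    have hnorm : (K.map (QuotientGroup.mk' N)).Normal := by
      refine ⟨?_⟩
      rintro _ ⟨k, hk, rfl⟩ g
      obtain ⟨y, hy, rfl⟩ := hsurj g
      refine ⟨y * k * y⁻¹, ⟨Y.mul_mem (Y.mul_mem hy hk.1) (Y.inv_mem hy), ?_⟩, by simp⟩
      refine Subgroup.mem_centralizer_iff.2 fun w hw => ?_
      have h1 : y⁻¹ * w * y ∈ W := by
        simpa using (Subgroup.mem_normalizer_iff.1 (hWY (Y.inv_mem hy)) w).1 hw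
      have h2 := Subgroup.mem_centralizer_iff.1 hk.2 _ h1
      calc w * (y * k * y⁻¹) = y * ((y⁻¹ * w * y) * k) * y⁻¹ := by group
        _ = y * (k * (y⁻¹ * w * y)) * y⁻¹ := by rw [h2]
        _ = (y * k * y⁻¹) * w := by group
    have hp : IsPGroup s (K.map (QuotientGroup.mk' N)) := by
      rintro ⟨_, k, hk, rfl⟩
      refine ⟨(orderOf k).factorization s, Subtype.ext ?_⟩
      show ((k : G ⧸ N)) ^ s ^ (orderOf k).factorization s = 1
      rw [← QuotientGroup.mk_pow, QuotientGroup.eq_one_iff]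
      by_contra hu
      obtain ⟨w, hw, hw1⟩ := (Subgroup.bot_or_exists_ne_one W).resolve_left hW
      obtain ⟨j, hj⟩ := hord w hw
      refine hw1 (eq_one_of_commute h hu (hWN hw) (Commute.pow_left ?_ _) ?_)
      · exact (Subgroup.mem_centralizer_iff.1 hk.2 w hw).symm
      · rw [hj, orderOf_pow_of_dvd (pow_ne_zero _ (Fact.out (p := s.Prime)).ne_zero)
          (Nat.ordProj_dvd _ _)]
        exact Nat.Coprime.pow_right _ ((Nat.coprime_ordCompl Fact.out (orderOf_pos k).ne').symm)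
    have := hrad _ hnorm (by haveI := hp.isNilpotent; infer_instance)
    rw [Subgroup.map_eq_bot_iff, QuotientGroup.ker_mk'] at this
    exact this
  obtain ⟨t, htY, htN, ht2, j, hj⟩ := exists_lift hY heven
  have ht2c : t ^ 2 ∈ Subgroup.centralizer (W : Set G) := by
    refine hno _ ⟨Y.pow_mem htY 2, ht2⟩ ?_
    obtain ⟨i, -, hi⟩ := (Nat.dvd_prime_pow Nat.prime_two).1 (hj ▸ orderOf_pow_dvd (x := t) 2)
    exact ⟨i, hi⟩
  have hinv : ∀ w ∈ W, t * w * t⁻¹ = w⁻¹ := by
    intro w hw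
    have htw : t * w * t⁻¹ ∈ W := (Subgroup.mem_normalizer_iff.1 (hWY htY) w).1 hw
    have hu : w * (t * w * t⁻¹) ∈ W := W.mul_mem hw htw
    obtain ⟨i, hi⟩ := hord _ hu
    have hfix : Commute t (w * (t * w * t⁻¹)) := by
      have h2 := Subgroup.mem_centralizer_iff.1 ht2c w hw
      show t * (w * (t * w * t⁻¹)) = (w * (t * w * t⁻¹)) * t
      calc t * (w * (t * w * t⁻¹)) = (t * w * t⁻¹) * (t ^ 2 * w) * t⁻¹ := by group
        _ = (t * w * t⁻¹) * (w * t ^ 2) * t⁻¹ := by rw [h2]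
        _ = (t * w * t⁻¹) * w * t := by group
        _ = (w * (t * w * t⁻¹)) * t := by rw [hWc w hw _ htw]
    have := eq_one_of_commute h htN (hWN hu) hfix (by
      rw [hj, hi]
      exact Nat.Coprime.pow _ _ ((Nat.coprime_primes Nat.prime_two Fact.out).2 hs.symm))
    exact (inv_eq_of_mul_eq_one_right this).symm
  have hcen : (t : G ⧸ N) ∈ Subgroup.center (G ⧸ N) := by
    refine Subgroup.mem_center_iff.2 fun g => ?_
    obtain ⟨y, hy, rfl⟩ := hsurj g
    have hc : t * y * t⁻¹ * y⁻¹ ∈ K := by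
      refine ⟨Y.mul_mem (Y.mul_mem (Y.mul_mem htY hy) (Y.inv_mem htY)) (Y.inv_mem hy),
        Subgroup.mem_centralizer_iff.2 fun w hw => ?_⟩
      set v := y⁻¹ * w * y with hv
      have hvW : v ∈ W := by
        simpa [hv] using (Subgroup.mem_normalizer_iff.1 (hWY (Y.inv_mem hy)) w).1 hw
      have h1 : t⁻¹ * v * t = v⁻¹ := by
        have := hinv _ (W.inv_mem hvW)
        rw [inv_inv] at this
        conv_lhs => rw [← this]
        group
      have h2 : t * w⁻¹ * t⁻¹ = w := by simpa using hinv _ (W.inv_mem hw)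
      have h3 : t * y * t⁻¹ * y⁻¹ * w * (t * y * t⁻¹ * y⁻¹)⁻¹ = w := by
        calc t * y * t⁻¹ * y⁻¹ * w * (t * y * t⁻¹ * y⁻¹)⁻¹
            = t * (y * (t⁻¹ * v * t) * y⁻¹) * t⁻¹ := by rw [hv]; group
          _ = t * (y * v⁻¹ * y⁻¹) * t⁻¹ := by rw [h1]
          _ = t * w⁻¹ * t⁻¹ := by rw [hv]; group
          _ = w := h2
      exact (mul_inv_eq_iff_eq_mul.1 h3).symm
    have h4 := (QuotientGroup.eq_one_iff _).2 (hKN hc)
    simp only [QuotientGroup.mk_mul, QuotientGroup.mk_inv] at h4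
    rw [mul_inv_eq_one, mul_inv_eq_iff_eq_mul] at h4
    exact h4.symm
  have hz := hrad (Subgroup.center (G ⧸ N)) inferInstance
    (Group.isSolvable_of_comm fun a b => Subtype.ext (Subgroup.mem_center_iff.1 b.2 a))
  rw [hz, Subgroup.mem_bot, QuotientGroup.eq_one_iff] at hcen
  exact htN hcen

/-- If every conjugate under an abelian group `A` of an automorphism `x` of prime order `q` has
trivial norm on an abelian group, and `x` centralizes no nontrivial element of `A`, then `A` acts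
trivially modulo torsion dividing its order. -/
theorem apply_pow_card {V : Type*} [CommGroup V] (A : Subgroup (MulAut V)) [Finite A]
    (_hA : ∀ a ∈ A, ∀ b ∈ A, a * b = b * a) (x : MulAut V) (q : ℕ) (hq : q.Prime)
    (hxA : ∀ i : ℕ, ∀ a ∈ A, x ^ i * a * (x ^ i)⁻¹ ∈ A)
    (hfix : ∀ i, 0 < i → i < q → ∀ a ∈ A, x ^ i * a = a * x ^ i → a = 1)
    (hnorm : ∀ b ∈ A, ∀ v : V, ∏ i ∈ Finset.range q, (b⁻¹ * x ^ i * b) v = 1)
    (a : MulAut V) (ha : a ∈ A) (v : V) : a (v ^ Nat.card A) = v ^ Nat.card A := by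
  classical
  haveI := Fintype.ofFinite A
  let S : V → V := fun w => ∏ b : A, (b : MulAut V) w
  have hS : ∀ w, a (S w) = S w := fun w => by
    simp only [S, map_prod]
    exact Fintype.prod_equiv (Equiv.mulLeft ⟨a, ha⟩) _ _ (fun b => rfl)
  have key : ∀ i ∈ Finset.range q,
      ∏ b : A, ((b : MulAut V)⁻¹ * x ^ i * b) v = if i = 0 then v ^ Nat.card A else S ((x ^ i) v) := by
    intro i hi
    split_ifs with h0
    · subst h0
      simp [Nat.card_eq_fintype_card]
    · have hi0 : 0 < i := Nat.pos_of_ne_zero h0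
      have hiq := Finset.mem_range.1 hi
      let φ : A → A := fun b => ⟨(b : MulAut V)⁻¹ * (x ^ i * b * (x ^ i)⁻¹),
        A.mul_mem (A.inv_mem b.2) (hxA i b b.2)⟩
      have hφ : Function.Injective φ := by
        intro b c hbc
        have e : (b : MulAut V)⁻¹ * (x ^ i * b * (x ^ i)⁻¹) = (c : MulAut V)⁻¹ * (x ^ i * c * (x ^ i)⁻¹) :=
          congrArg Subtype.val hbc
        have h1 : x ^ i * b * (x ^ i)⁻¹ * (x ^ i * c * (x ^ i)⁻¹)⁻¹ = (b : MulAut V) * (c : MulAut V)⁻¹ := by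
          have h2 : x ^ i * b * (x ^ i)⁻¹ = (b : MulAut V) * (c : MulAut V)⁻¹ * (x ^ i * c * (x ^ i)⁻¹) := by
            rw [mul_assoc (b : MulAut V), ← e, mul_inv_cancel_left]
          rw [h2, mul_inv_cancel_right]
        have h3 : x ^ i * ((b : MulAut V) * (c : MulAut V)⁻¹) = (b : MulAut V) * (c : MulAut V)⁻¹ * x ^ i := by
          rw [← mul_inv_eq_iff_eq_mul]
          refine Eq.trans ?_ h1
          group
        have := hfix i hi0 hiq _ (A.mul_mem b.2 (A.inv_mem c.2)) h3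
        exact Subtype.ext (mul_inv_eq_one.1 this)
      refine Fintype.prod_bijective φ (Finite.injective_iff_bijective.1 hφ) _ _ fun b => ?_
      show _ = ((b : MulAut V)⁻¹ * (x ^ i * b * (x ^ i)⁻¹)) ((x ^ i) v)
      rw [← MulAut.mul_apply]
      congr 1
      group
  have htot : ∏ i ∈ Finset.range q, (if i = 0 then v ^ Nat.card A else S ((x ^ i) v)) = 1 := by
    rw [← Finset.prod_congr rfl key, Finset.prod_comm]
    exact Finset.prod_eq_one fun b _ => hnorm b b.2 v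
  have h0q : 0 ∈ Finset.range q := Finset.mem_range.2 hq.pos
  rw [← Finset.mul_prod_erase _ _ h0q, if_pos rfl, Finset.prod_congr rfl
    (fun i hi => if_neg (Finset.ne_of_mem_erase hi))] at htot
  rw [eq_inv_of_mul_eq_one_left htot, map_inv, map_prod]
  exact congrArg _ (Finset.prod_congr rfl fun i _ => hS _)

/-- A minimal supplement inside a given supplement has nilpotent intersection with `N`. -/
theorem exists_supplement [N.Normal] (L : Subgroup G) (hL : L ⊔ N = ⊤) :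
    ∃ Y ≤ L, Y ⊔ N = ⊤ ∧ Group.IsNilpotent ↥(Y ⊓ N) := by
  classical
  obtain ⟨Y, hY⟩ : ∃ Y, Minimal (fun S : Subgroup G => S ≤ L ∧ S ⊔ N = ⊤) Y :=
    Set.Finite.exists_minimal (Set.toFinite _) ⟨L, le_rfl, hL⟩
  refine ⟨Y, hY.prop.1, hY.prop.2, ?_⟩
  set D := N.subgroupOf Y with hD
  have hmin : ∀ T : Subgroup Y, T ⊔ D = ⊤ → T = ⊤ := by
    intro T hT
    have h1 : T.map Y.subtype ⊔ N = ⊤ := by
      refine top_le_iff.1 (hY.prop.2.ge.trans (sup_le ?_ le_sup_right))
      intro x hx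
      have : (⟨x, hx⟩ : Y) ∈ T ⊔ D := hT ▸ Subgroup.mem_top _
      have h2 : T ⊔ D ≤ ((T.map Y.subtype) ⊔ N).comap Y.subtype := sup_le
        (fun y hy => Subgroup.mem_sup_left ⟨y, hy, rfl⟩) (fun y hy => Subgroup.mem_sup_right hy)
      exact h2 this
    have h2 := hY.eq_of_ge ⟨(Subgroup.map_subtype_le T).trans hY.prop.1, h1⟩ (Subgroup.map_subtype_le T)
    refine (Subgroup.eq_top_iff' T).2 fun x => ?_
    have hx : (x : G) ∈ T.map Y.subtype := h2 ▸ x.2
    obtain ⟨y, hy, hyx⟩ := hx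
    exact (Subtype.ext hyx : y = x) ▸ hy
  haveI : Group.IsNilpotent D := (Group.isNilpotent_of_finite_tfae.out 0 3).2 <| by
    intro p hp Q
    have hn : ((Q : Subgroup D).map D.subtype).Normal :=
      Subgroup.normalizer_eq_top_iff.1 (hmin _ (Sylow.normalizer_sup_eq_top Q))
    refine ⟨fun x hx g => ?_⟩
    obtain ⟨y, hy, hyx⟩ := hn.conj_mem x ⟨x, hx, rfl⟩ (g : Y)
    exact (Subtype.ext hyx : y = g * x * g⁻¹) ▸ hy
  let f : ↥(Y ⊓ N) →* D :=
    (Subgroup.inclusion (inf_le_left : Y ⊓ N ≤ Y)).codRestrict D fun z => z.2.2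
  refine Subgroup.isNilpotent_of_ker_le_center f ?_
  intro z hz
  have hz' : ((f z : Y) : G) = 1 := by rw [MonoidHom.mem_ker.1 hz]; rfl
  have : z = 1 := Subtype.ext hz'
  rw [this]
  exact Subgroup.one_mem _

/-- In a minimal supplement, the intersection with `N` is a `2`-group. -/
theorem isPGroup_two_inf (h : ∀ x : G, x ∉ N → IsPrimePow (orderOf x)) [N.Normal]
    (hrad : ∀ M : Subgroup (G ⧸ N), M.Normal → Group.IsSolvable M → M = ⊥) (heven : 2 ∣ Nat.card (G ⧸ N))
    {Y : Subgroup G} (hY : Y ⊔ N = ⊤) (hnil : Group.IsNilpotent ↥(Y ⊓ N)) : IsPGroup 2 ↥(Y ⊓ N) := by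
  set Z := Y ⊓ N with hZ
  have hnZ : Y ≤ Subgroup.normalizer (Z : Set G) := by
    intro y hy
    refine Subgroup.mem_normalizer_iff.2 fun z => ⟨fun hz => ⟨Y.mul_mem (Y.mul_mem hy hz.1) (Y.inv_mem hy),
      Subgroup.Normal.conj_mem ‹_› z hz.2 y⟩, fun hz => ⟨?_, ?_⟩⟩
    · simpa [mul_assoc] using Y.mul_mem (Y.mul_mem (Y.inv_mem hy) hz.1) hy
    · simpa [mul_assoc] using Subgroup.Normal.conj_mem ‹_› _ hz.2 y⁻¹
  rw [IsPGroup.iff_card]
  refine ⟨_, Nat.eq_prime_pow_of_unique_prime_dvd Nat.card_pos.ne' fun {s} hs hsd => ?_⟩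
  by_contra hs2
  haveI := Fact.mk hs
  haveI := hnil
  have hnorm : ∀ (p : ℕ) [Fact p.Prime] (P : Sylow p Z), (P : Subgroup Z).Normal := fun p hp P =>
    ((Group.isNilpotent_of_finite_tfae (G := Z)).out 0 3 rfl rfl).1 hnil p hp P
  obtain ⟨P⟩ := (Sylow.nonempty : Nonempty (Sylow s Z))
  have hPne : (P : Subgroup Z) ≠ ⊥ := P.ne_bot_of_dvd_card hsd
  have hmemP : ∀ z : Z, (∃ k, orderOf z = s ^ k) → z ∈ (P : Subgroup Z) := by
    rintro z ⟨k, hk⟩
    haveI := hnorm s P
    obtain ⟨Q, hQ⟩ := (IsPGroup.of_card (Nat.card_zpowers z ▸ hk)).exists_le_sylow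
    have hPQ : P = Q := letI := Sylow.unique_of_normal P (hnorm s P); Subsingleton.elim P Q
    exact hPQ ▸ hQ (Subgroup.mem_zpowers z)
  haveI : Nontrivial (P : Subgroup Z) := (Subgroup.nontrivial_iff_ne_bot _).2 hPne
  haveI := IsPGroup.center_nontrivial P.2
  set W := (Subgroup.center P).map (Z.subtype.comp (P : Subgroup Z).subtype) with hW
  have hinj : Function.Injective (Z.subtype.comp (P : Subgroup Z).subtype) :=
    Z.subtype_injective.comp (P : Subgroup Z).subtype_injective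
  have hWne : W ≠ ⊥ := by
    rw [hW, Ne, Subgroup.map_eq_bot_iff_of_injective _ hinj]
    exact (Subgroup.nontrivial_iff_ne_bot _).1 inferInstance
  obtain ⟨z, hz, ⟨k, hk⟩, hzc⟩ := exists_two_element h hrad heven hY hs2 (W := W)
    (by rintro _ ⟨a, -, rfl⟩; exact a.1.2.2)
    (by
      intro y hy
      rw [Subgroup.mem_normalizer_iff]
      have aux : ∀ y ∈ Y, ∀ w ∈ W, y * w * y⁻¹ ∈ W := by
        rintro y hy _ ⟨a, ha, rfl⟩
        have hcZ : ∀ u : Z, y * u * y⁻¹ ∈ Z := fun u => (Subgroup.mem_normalizer_iff.1 (hnZ hy) _).1 u.2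
        have hcP : ∀ u : (P : Subgroup Z), (⟨y * (u : Z) * y⁻¹, hcZ u⟩ : Z) ∈ (P : Subgroup Z) := by
          intro u
          obtain ⟨i, hi⟩ := IsPGroup.iff_orderOf.1 P.2 u
          refine hmemP _ ⟨i, ?_⟩
          rw [Subgroup.orderOf_mk, ← hi, ← orderOf_injective _ hinj u]
          exact orderOf_injective (MulAut.conj y).toMonoidHom (MulAut.conj y).injective _
        refine ⟨⟨_, hcP a⟩, Subgroup.mem_center_iff.2 fun b => ?_, rfl⟩
        have hy' := Y.inv_mem hy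
        have hb : (⟨y⁻¹ * (b : Z) * y, by simpa using (Subgroup.mem_normalizer_iff.1 (hnZ hy') _).1 b.1.2⟩ : Z) ∈ (P : Subgroup Z) := by
          obtain ⟨i, hi⟩ := IsPGroup.iff_orderOf.1 P.2 b
          refine hmemP _ ⟨i, ?_⟩
          rw [Subgroup.orderOf_mk, ← hi, ← orderOf_injective _ hinj b]
          have := orderOf_injective (MulAut.conj y⁻¹).toMonoidHom (MulAut.conj y⁻¹).injective ((b : Z) : G)
          simpa using this
        have hc := congrArg (fun u : (P : Subgroup Z) => ((u : Z) : G)) (Subgroup.mem_center_iff.1 ha ⟨_, hb⟩)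
        apply Subtype.ext; apply Subtype.ext
        simp only [Subgroup.coe_mul] at hc ⊢
        calc ((b : Z) : G) * (y * ((a : Z) : G) * y⁻¹)
            = y * ((y⁻¹ * ((b : Z) : G) * y) * ((a : Z) : G)) * y⁻¹ := by group
          _ = y * (((a : Z) : G) * (y⁻¹ * ((b : Z) : G) * y)) * y⁻¹ := by rw [hc]
          _ = y * ((a : Z) : G) * y⁻¹ * ((b : Z) : G) := by group
      exact fun w => ⟨aux y hy w, fun hw => by simpa [mul_assoc] using aux y⁻¹ (Y.inv_mem hy) _ hw⟩)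
    (((P.2.to_subgroup (Subgroup.center P)).map _))
    (by
      rintro _ ⟨a, ha, rfl⟩ _ ⟨b, -, rfl⟩
      rw [← map_mul, ← map_mul, Subgroup.mem_center_iff.1 ha b])
    hWne
  refine hzc (Subgroup.mem_centralizer_iff.2 ?_)
  rintro _ ⟨a, -, rfl⟩
  haveI : Fact (Nat.Prime 2) := ⟨Nat.prime_two⟩
  obtain ⟨Q⟩ := (Sylow.nonempty : Nonempty (Sylow 2 Z))
  have hzQ : (⟨z, hz⟩ : Z) ∈ (Q : Subgroup Z) := by
    obtain ⟨Q', hQ'⟩ := (IsPGroup.of_card (p := 2) (n := k)
      (by rw [Nat.card_zpowers, Subgroup.orderOf_mk, hk] :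
        Nat.card (Subgroup.zpowers (⟨z, hz⟩ : Z)) = 2 ^ k)).exists_le_sylow
    have hQQ : Q = Q' := letI := Sylow.unique_of_normal Q (hnorm 2 Q); Subsingleton.elim Q Q'
    exact hQQ ▸ hQ' (Subgroup.mem_zpowers _)
  have hdisj : Disjoint (P : Subgroup Z) (Q : Subgroup Z) :=
    IsPGroup.disjoint_of_ne s 2 hs2 _ _ P.2 Q.2
  have := Subgroup.commute_of_normal_of_disjoint _ _ (hnorm s P) (hnorm 2 Q) hdisj _ _ a.2 hzQ
  exact congrArg Subtype.val this.eq

/-- **Main statement, reduced form.** -/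
theorem false_of_radical_bot (h : ∀ x : G, x ∉ N → IsPrimePow (orderOf x)) [N.Normal]
    (hns : ¬ Group.IsSolvable N) (hnsq : ¬ Group.IsSolvable (G ⧸ N))
    (hrad : ∀ M : Subgroup (G ⧸ N), M.Normal → Group.IsSolvable M → M = ⊥) : False := by
  classical
  have heven : 2 ∣ Nat.card (G ⧸ N) := by
    by_contra hodd
    exact hnsq (Cfsg.Agent.S0205.result (Nat.odd_iff.2 (by omega)))
  have hsub : ∀ {H : Type _} [Group H] [Finite H] (a b : ℕ),
      (Nat.card H).primeFactors ⊆ {a, b} → Group.IsSolvable H := fun a b hab =>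
    CfsgLib.PrimeElementOrders.isSolvable_of_primeFactors_le
      ((Finset.card_le_card hab).trans Finset.card_le_two)
  obtain ⟨r, hr, hr2⟩ : ∃ r ∈ (Nat.card N).primeFactors, r ≠ 2 := by
    by_contra hno
    push Not at hno
    exact hns (hsub 2 2 fun r hr => by simp [hno r hr])
  obtain ⟨q, hqd, hq2, hqr⟩ : ∃ q ∈ (Nat.card (G ⧸ N)).primeFactors, q ≠ 2 ∧ q ≠ r := by
    by_contra hno
    push Not at hno
    refine hnsq (hsub 2 r fun q hq => ?_)
    by_cases hq2 : q = 2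
    · simp [hq2]
    · simp [hno q hq hq2]
  haveI := Fact.mk (Nat.prime_of_mem_primeFactors hr)
  haveI := Fact.mk (Nat.prime_of_mem_primeFactors hqd)
  haveI : Fact (Nat.Prime 2) := ⟨Nat.prime_two⟩
  obtain ⟨R⟩ := (Sylow.nonempty : Nonempty (Sylow r N))
  set R0 := (R : Subgroup N).map N.subtype with hR0
  obtain ⟨Y, hYL, hY, hnil⟩ := exists_supplement (N := N) (Subgroup.normalizer (R0 : Set G))
    (Sylow.normalizer_sup_eq_top R)
  have hZ2 := isPGroup_two_inf h hrad heven hY hnil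
  have hR0p : IsPGroup r R0 := R.2.map _
  set V := R0 ⊓ Subgroup.centralizer (R0 : Set G) with hV
  have hVc : ∀ a ∈ V, ∀ b ∈ V, a * b = b * a := fun a ha b hb =>
    Subgroup.mem_centralizer_iff.1 hb.2 a ha.1
  have hVN : V ≤ N := inf_le_left.trans (Subgroup.map_subtype_le _)
  have hVY : Y ≤ Subgroup.normalizer (V : Set G) := by
    intro y hy
    have aux : ∀ g ∈ Subgroup.normalizer (R0 : Set G), ∀ v ∈ V, g * v * g⁻¹ ∈ V := by
      intro g hg v hv
      refine ⟨(Subgroup.mem_normalizer_iff.1 hg v).1 hv.1, Subgroup.mem_centralizer_iff.2 fun w hw => ?_⟩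
      have h1 : g⁻¹ * w * g ∈ R0 := by
        simpa using (Subgroup.mem_normalizer_iff.1 (Subgroup.inv_mem _ hg) w).1 hw
      have h2 := Subgroup.mem_centralizer_iff.1 hv.2 _ h1
      calc w * (g * v * g⁻¹) = g * ((g⁻¹ * w * g) * v) * g⁻¹ := by group
        _ = g * (v * (g⁻¹ * w * g)) * g⁻¹ := by rw [h2]
        _ = g * v * g⁻¹ * w := by group
    exact Subgroup.mem_normalizer_iff.2 fun v => ⟨aux y (hYL hy) v,
      fun hv => by simpa [mul_assoc] using aux y⁻¹ (Subgroup.inv_mem _ (hYL hy)) _ hv⟩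
  have hVp : IsPGroup r V := hR0p.to_le inf_le_left
  have hVne : V ≠ ⊥ := by
    have hne : R0 ≠ ⊥ := by
      rw [hR0, Ne, Subgroup.map_eq_bot_iff_of_injective _ N.subtype_injective]
      exact R.ne_bot_of_dvd_card (Nat.dvd_of_mem_primeFactors hr)
    haveI : Nontrivial R0 := (Subgroup.nontrivial_iff_ne_bot _).2 hne
    haveI := IsPGroup.center_nontrivial hR0p
    obtain ⟨⟨c, hc⟩, hc1⟩ := exists_ne (1 : Subgroup.center R0)
    intro e
    refine hc1 (Subtype.ext (Subtype.ext ?_))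
    have : (c : G) ∈ V := ⟨c.2, Subgroup.mem_centralizer_iff.2 fun w hw =>
      congrArg Subtype.val (Subgroup.mem_center_iff.1 hc ⟨w, hw⟩)⟩
    simpa [e] using this
  obtain ⟨z₀, hz₀, -, hz₀c⟩ := exists_two_element h hrad heven hY hr2 hVN hVY hVp hVc hVne
  obtain ⟨x, hxY, hxN, hxq, k, hk⟩ := exists_lift hY (Nat.dvd_of_mem_primeFactors hqd)
  have hord2 : ∀ z ∈ Y ⊓ N, ∃ i, orderOf z = 2 ^ i := by
    intro z hz
    obtain ⟨i, hi⟩ := IsPGroup.iff_orderOf.1 hZ2 ⟨z, hz⟩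
    exact ⟨i, by rwa [Subgroup.orderOf_mk] at hi⟩
  have hxq1 : x ^ q = 1 := by
    obtain ⟨i, hi⟩ := hord2 _ ⟨Y.pow_mem hxY q, hxq⟩
    obtain ⟨j, -, hj⟩ := (Nat.dvd_prime_pow Fact.out).1 (hk ▸ orderOf_pow_dvd (x := x) q)
    rcases Nat.eq_zero_or_pos j with rfl | hj0
    · exact orderOf_eq_one_iff.1 (by simpa using hj)
    · exfalso
      rw [hj] at hi
      rcases Nat.eq_zero_or_pos i with rfl | hi0
      · exact (Fact.out (p := q.Prime)).ne_one
          ((pow_eq_one_iff_left hj0.ne').1 (by simpa using hi))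
      · exact hq2 ((Nat.prime_dvd_prime_iff_eq Fact.out Nat.prime_two).1
          ((Fact.out (p := q.Prime)).dvd_of_dvd_pow (hi ▸ dvd_pow_self q hj0.ne')))
  letI : CommGroup V := { (inferInstance : Group V) with
    mul_comm := fun a b => Subtype.ext (hVc a a.2 b b.2) }
  let ρ : Y →* MulAut V := (Subgroup.normalizerMonoidHom V).comp (Subgroup.inclusion hVY)
  have hρ : ∀ (y : Y) (v : V), ((ρ y v : V) : G) = y * v * (y : G)⁻¹ := fun y v => rfl
  set Z' : Subgroup Y := N.subgroupOf Y with hZ'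
  set I := Z'.map ρ with hI
  have hIp : IsPGroup 2 I := by
    refine IsPGroup.map ?_ ρ
    intro w
    obtain ⟨i, hi⟩ := hZ2 ⟨((w : Y) : G), (w : Y).2, w.2⟩
    exact ⟨i, Subtype.ext (Subtype.ext (by simpa using congrArg Subtype.val hi))⟩
  have hIne : I ≠ ⊥ := by
    intro e
    refine hz₀c (Subgroup.mem_centralizer_iff.2 fun v hv => ?_)
    have hm : ρ ⟨z₀, hz₀.1⟩ ∈ I := ⟨_, hz₀.2, rfl⟩
    rw [e, Subgroup.mem_bot] at hm
    have := congrArg Subtype.val (DFunLike.congr_fun hm ⟨v, hv⟩)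
    rw [hρ] at this
    exact (mul_inv_eq_iff_eq_mul.1 this).symm
  haveI : Nontrivial I := (Subgroup.nontrivial_iff_ne_bot _).2 hIne
  haveI := IsPGroup.center_nontrivial hIp
  set A := (Subgroup.center I).map I.subtype with hA
  have hAI : A ≤ I := Subgroup.map_subtype_le _
  have hconjI : ∀ y : Y, ∀ w ∈ I, ρ y * w * (ρ y)⁻¹ ∈ I := by
    rintro y _ ⟨z, hz, rfl⟩
    exact ⟨y * z * y⁻¹, Subgroup.Normal.conj_mem inferInstance z hz y, by simp⟩
  have hconjA : ∀ y : Y, ∀ a ∈ A, ρ y * a * (ρ y)⁻¹ ∈ A := by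
    rintro y _ ⟨a, ha, rfl⟩
    refine ⟨⟨_, hconjI y _ a.2⟩, Subgroup.mem_center_iff.2 fun b => Subtype.ext ?_, rfl⟩
    have hb := hconjI y⁻¹ _ b.2
    simp only [map_inv, inv_inv] at hb
    have hc := congrArg Subtype.val (Subgroup.mem_center_iff.1 ha ⟨_, hb⟩)
    simp only [Subgroup.coe_mul] at hc ⊢
    calc (b : MulAut V) * (ρ y * a * (ρ y)⁻¹) = ρ y * ((ρ y)⁻¹ * b * ρ y * a) * (ρ y)⁻¹ := by group
      _ = ρ y * (a * ((ρ y)⁻¹ * b * ρ y)) * (ρ y)⁻¹ := by rw [hc]
      _ = ρ y * a * (ρ y)⁻¹ * b := by group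
  have hAc : ∀ a ∈ A, ∀ b ∈ A, a * b = b * a := by
    rintro _ ⟨a, ha, rfl⟩ _ ⟨b, -, rfl⟩
    exact (congrArg Subtype.val (Subgroup.mem_center_iff.1 ha b)).symm
  have hord : ∀ y : Y, (y : G) ∉ N → (y : G) ^ q = 1 → orderOf (y : G) = q := fun y hy hyq =>
    orderOf_eq_prime hyq (fun e => hy (e ▸ N.one_mem))
  -- norms vanish
  have hnorm : ∀ y : Y, (y : G) ∉ N → (y : G) ^ q = 1 → ∀ v : V,
      ∏ i ∈ Finset.range q, (ρ y ^ i) v = 1 := by
    intro y hy hyq v
    set u := ∏ i ∈ Finset.range q, (ρ y ^ i) v with hu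
    have hfixu : ρ y u = u := by
      have hq1 : ρ y ^ q = 1 := by
        rw [← map_pow, show y ^ q = 1 from Subtype.ext hyq, map_one]
      rw [hu, map_prod]
      have e : ∀ i, ρ y ((ρ y ^ i) v) = (ρ y ^ (i + 1)) v := fun i => by rw [pow_succ']; rfl
      simp only [e]
      have h1 := Finset.prod_range_succ' (fun i => (ρ y ^ i) v) q
      rw [Finset.prod_range_succ, hq1, pow_zero] at h1
      exact (mul_right_cancel h1).symm
    have hc : Commute (y : G) u := by
      have := congrArg Subtype.val hfixu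
      rw [hρ] at this
      exact mul_inv_eq_iff_eq_mul.1 this
    obtain ⟨i, hi⟩ := IsPGroup.iff_orderOf.1 hVp u
    refine Subtype.ext (eq_one_of_commute h hy (hVN u.2) hc ?_)
    rw [hord y hy hyq, ← Subgroup.orderOf_coe u] at *
    rw [hi]
    exact Nat.Coprime.pow_right _ ((Nat.coprime_primes Fact.out Fact.out).2 hqr)
  have hxord : orderOf x = q := hord ⟨x, hxY⟩ hxN hxq1
  -- no fixed points of `x ^ i` on `A`
  have hfix : ∀ i, 0 < i → i < q → ∀ a ∈ A,
      ρ ⟨x, hxY⟩ ^ i * a = a * ρ ⟨x, hxY⟩ ^ i → a = 1 := by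
    intro i hi0 hiq a ha hcomm
    set y : Y := ⟨x, hxY⟩ ^ i with hy
    rw [← map_pow, ← hy] at hcomm
    have hyx : (y : G) = x ^ i := by simp [hy]
    have hcop : q.Coprime i := (Fact.out (p := q.Prime)).coprime_iff_not_dvd.2
      fun hd => absurd (Nat.le_of_dvd hi0 hd) (by omega)
    have hyN : (y : G) ∉ N := by
      rw [hyx]
      intro hm
      obtain ⟨m, hm'⟩ := exists_pow_eq_self_of_coprime (hxord.symm ▸ hcop.symm : i.Coprime (orderOf x))
      exact hxN (hm' ▸ N.pow_mem hm m)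
    have hyq : (y : G) ^ q = 1 := by rw [hyx, ← pow_mul, mul_comm, pow_mul, hxq1, one_pow]
    let T := {w : Z' // ρ (w : Y) = a}
    obtain ⟨w₀, hw₀, hw₀a⟩ := hAI ha
    have hcardT : Nat.card T = Nat.card (ρ.comp Z'.subtype).ker := Nat.card_congr
      { toFun := fun w => ⟨(⟨w₀, hw₀⟩ : Z')⁻¹ * w.1, by
          rw [MonoidHom.mem_ker, map_mul, map_inv]
          show (ρ w₀)⁻¹ * ρ (w.1 : Y) = 1
          rw [w.2, hw₀a, inv_mul_cancel]⟩
        invFun := fun w => ⟨(⟨w₀, hw₀⟩ : Z') * w.1, by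
          show ρ (w₀ * (w.1 : Z')) = a
          have := (MonoidHom.mem_ker).1 w.2
          rw [map_mul, hw₀a]
          exact mul_eq_left.2 this⟩
        left_inv := fun w => Subtype.ext (mul_inv_cancel_left _ _)
        right_inv := fun w => Subtype.ext (inv_mul_cancel_left _ _) }
    have hZ'2 : IsPGroup 2 Z' := fun w => by
      obtain ⟨i, hi⟩ := hZ2 ⟨((w : Y) : G), (w : Y).2, w.2⟩
      exact ⟨i, Subtype.ext (Subtype.ext (by simpa using congrArg Subtype.val hi))⟩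
    obtain ⟨e, he⟩ := IsPGroup.iff_card.1 (hZ'2.to_subgroup (ρ.comp Z'.subtype).ker)
    rw [he] at hcardT
    haveI := Fintype.ofFinite T
    let φ : T → T := fun w => ⟨⟨y * (w : Z') * y⁻¹, Subgroup.Normal.conj_mem inferInstance _ w.1.2 y⟩, by
      show ρ (y * ((w.1 : Z') : Y) * y⁻¹) = a
      rw [map_mul, map_mul, w.2, map_inv, hcomm, mul_inv_cancel_right]⟩
    have hφn : ∀ (n : ℕ) (w : T), (((φ^[n] w).1 : Z') : Y) = y ^ n * ((w.1 : Z') : Y) * (y ^ n)⁻¹ := by
      intro n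
      induction n with
      | zero => intro w; simp
      | succ n ih =>
        intro w
        rw [Function.iterate_succ_apply']
        show y * _ * y⁻¹ = _
        rw [ih, pow_succ', mul_inv_rev]
        group
    have hyq' : y ^ q = 1 := Subtype.ext hyq
    have hφq : ∀ w : T, φ^[q] w = w := fun w => Subtype.ext (Subtype.ext (by
      rw [hφn, hyq']; simp))
    have hφb : Function.Bijective φ := by
      refine Finite.injective_iff_bijective.1 fun w₁ w₂ hw => Subtype.ext (Subtype.ext ?_)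
      exact mul_left_cancel (mul_right_cancel (congrArg (fun w : T => ((w.1 : Z') : Y)) hw))
    let σ : Equiv.Perm T := Equiv.ofBijective φ hφb
    have hσ : σ ^ q ^ 1 = 1 := Equiv.ext fun w => by
      rw [pow_one, Equiv.Perm.coe_pow]
      exact hφq w
    obtain ⟨w, hw⟩ := Equiv.Perm.exists_fixed_point_of_prime (p := q) (n := 1) (σ := σ) (by
      rw [← Nat.card_eq_fintype_card, hcardT]
      exact fun hd => hq2 ((Nat.prime_dvd_prime_iff_eq Fact.out Nat.prime_two).1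
        ((Fact.out (p := q.Prime)).dvd_of_dvd_pow hd))) hσ
    have hc : Commute (y : G) ((w.1 : Y) : G) := by
      have hw' := congrArg (fun w : T => (((w.1 : Z') : Y) : G)) hw
      simp [σ, φ] at hw'
      exact mul_inv_eq_iff_eq_mul.1 hw'
    obtain ⟨j, hj⟩ := hord2 _ (⟨(w.1 : Y).2, w.1.2⟩ : ((w.1 : Y) : G) ∈ Y ⊓ N)
    have h1 : (w.1 : Y) = 1 := Subtype.ext (eq_one_of_commute h hyN w.1.2 hc (by
      rw [hord y hyN hyq, hj]
      exact Nat.Coprime.pow_right _ ((Nat.coprime_primes Fact.out Nat.prime_two).2 hq2)))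
    rw [← w.2, h1, map_one]
  obtain ⟨⟨a, hac⟩, ha1⟩ := exists_ne (1 : Subgroup.center I)
  have haA : (a : MulAut V) ∈ A := ⟨a, hac, rfl⟩
  have hA2 : IsPGroup 2 A := hIp.to_le hAI
  obtain ⟨e, he⟩ := IsPGroup.iff_card.1 hA2
  refine ha1 (Subtype.ext (Subtype.ext (MulEquiv.ext fun v => ?_)))
  have hall := apply_pow_card A hAc (ρ ⟨x, hxY⟩) q Fact.out
    (fun i b hb => by rw [← map_pow]; exact hconjA _ b hb) hfix
    (fun b hb w => by
      obtain ⟨z, hz, rfl⟩ := hAI hb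
      have hyN : ((z⁻¹ * ⟨x, hxY⟩ * z : Y) : G) ∉ N := by
        intro hm
        refine hxN ?_
        simpa [mul_assoc] using Subgroup.Normal.conj_mem ‹N.Normal› _ hm (z : G)
      have hyq : ((z⁻¹ * ⟨x, hxY⟩ * z : Y) : G) ^ q = 1 := by
        have h' := conj_pow (i := q) (a := ((z : G))⁻¹) (b := x)
        rw [inv_inv, hxq1, mul_one, inv_mul_cancel] at h'
        simpa using h'
      have := hnorm _ hyN hyq w
      refine Eq.trans (Finset.prod_congr rfl fun i _ => ?_) this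
      rw [← map_pow ρ (z⁻¹ * ⟨x, hxY⟩ * z) i]
      have h' := conj_pow (i := i) (a := z⁻¹) (b := (⟨x, hxY⟩ : Y))
      rw [inv_inv] at h'
      rw [h', map_mul, map_mul, map_inv, map_pow])
    (a : MulAut V) haA
  have hcop : (Nat.card V).Coprime (Nat.card A) := by
    obtain ⟨j, hj⟩ := IsPGroup.iff_card.1 hVp
    rw [hj, he]
    exact Nat.Coprime.pow _ _ ((Nat.coprime_primes Fact.out Nat.prime_two).2 hr2)
  obtain ⟨w, hw⟩ := (powCoprime hcop).surjective v
  rw [← hw]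
  exact hall w

/-- A normal subgroup that is not solvable, with only elements of prime power order outside it, has
solvable quotient. -/
theorem isSolvable_quotient (N : Subgroup G) [N.Normal] (h : ∀ x : G, x ∉ N → IsPrimePow (orderOf x))
    (hns : ¬ Group.IsSolvable N) : Group.IsSolvable (G ⧸ N) := by
  by_contra hnsq
  obtain ⟨M, -, hM⟩ := Finite.exists_le_maximal
    (p := fun M : Subgroup G => ∃ _ : M.Normal, N ≤ M ∧ ¬ Group.IsSolvable (G ⧸ M))
    (a := N) ⟨‹_›, le_rfl, hnsq⟩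
  obtain ⟨hMn, hNM, hMq⟩ := hM.prop
  haveI := hMn
  refine false_of_radical_bot (N := M) (fun x hx => h x fun hxN => hx (hNM hxN)) (fun hs => hns ?_) hMq ?_
  · haveI := hs
    exact Group.isSolvable_of_isSolvable_injective (f := Subgroup.inclusion hNM)
      (Subgroup.inclusion_injective hNM)
  intro K hKn hKs
  haveI := hKn
  set M' := K.comap (QuotientGroup.mk' M) with hM'
  have hMM' : M ≤ M' := fun x hx => by
    rw [hM', Subgroup.mem_comap, QuotientGroup.mk'_apply, (QuotientGroup.eq_one_iff x).2 hx]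
    exact K.one_mem
  have hq : ¬ Group.IsSolvable (G ⧸ M') := by
    intro hs
    haveI := hs
    haveI := hKs
    let f : G ⧸ M →* G ⧸ M' := QuotientGroup.map M M' (MonoidHom.id G) hMM'
    refine hMq (Group.isSolvable_of_ker_le_range K.subtype f ?_)
    intro y hy
    obtain ⟨y, rfl⟩ := QuotientGroup.mk_surjective y
    have : (y : G ⧸ M') = 1 := hy
    exact ⟨⟨_, (QuotientGroup.eq_one_iff y).1 this⟩, rfl⟩
  have hle : M' ≤ M := hM.le_of_ge ⟨inferInstance, hNM.trans hMM', hq⟩ hMM'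
  rw [eq_bot_iff]
  intro y hy
  obtain ⟨y, rfl⟩ := QuotientGroup.mk_surjective y
  exact (QuotientGroup.eq_one_iff y).2 (hle hy)

end CfsgLib.Derangements.PrimePowerOutside
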