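import Cfsg.Agent.Lib.Derangements.SelfCentralRegularCoef
import Cfsg.Agent.Lib.Frobenius.Exceptional

/-!
# Transitive groups with a regular abelian Sylow subgroup of fixed point free normaliser

Such a group, if it is not `2`-transitive and is generated normally by the subgroup `Q`, has
degree `n ≤ s (s - 1) + 1`, where `s` is the order of the stabiliser in the normaliser of `Q`;
and equality forces `s ≤ 3`.  The proof decomposes the permutation character.
-/

set_option autoImplicit false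

open scoped ComplexConjugate

namespace CfsgLib.Derangements.SelfCentralRegular

open Cfsg MulAction CfsgLib.CharTheory

universe u

variable {Γ : Type u} [Group Γ] [Fintype Γ] {Ω : Type*} [MulAction Γ Ω] [Finite Ω]
  [FaithfulSMul Γ Ω] [IsPretransitive Γ Ω] {q : ℕ} {Q : Subgroup Γ} {ω : Ω}

/-- The nontrivial orbit characters: each nontrivial linear character `μ` of `Q` has an irreducible
character of `Γ` whose restriction is the sum of the translates of `μ`. -/
structure OrbitChars (Q : Subgroup Γ) (ω : Ω) where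
  Φ : (Q →* ℂˣ) → IrrCharacter Γ
  mem : ∀ μ ν : Q →* ℂˣ, μ ≠ 1 → ν ≠ 1 →
    (Φ ν = Φ μ ↔ ∃ t : normStab Q ω, translate μ t = ν)
  coef_eq : ∀ μ ν : Q →* ℂˣ, μ ≠ 1 → ν ≠ 1 → Φ ν = Φ μ → coef Q (Φ μ : Γ → ℂ) ν = 1
  coef_ne : ∀ μ ν : Q →* ℂˣ, μ ≠ 1 → (ν = 1 ∨ Φ ν ≠ Φ μ) → coef Q (Φ μ : Γ → ℂ) ν = 0
  other : ∀ φ : IrrCharacter Γ, (∀ μ : Q →* ℂˣ, μ ≠ 1 → Φ μ ≠ φ) →
    ∀ μ ν : Q →* ℂˣ, μ ≠ 1 → ν ≠ 1 → coef Q (φ : Γ → ℂ) μ = coef Q (φ : Γ → ℂ) ν
  two : ∀ μ : Q →* ℂˣ, μ ≠ 1 → ∃ ν : Q →* ℂˣ, ν ≠ 1 ∧ Φ ν ≠ Φ μ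

omit [Finite Ω] [FaithfulSMul Γ Ω] [IsPretransitive Γ Ω] in
theorem exists_orbitChars [Finite Ω] [FaithfulSMul Γ Ω] [IsPretransitive Γ Ω]
    (h : RegularData q Q ω) (h2 : ¬ IsMultiplyPretransitive Γ Ω 2) (hn : 2 ≤ Nat.card Ω) :
    Nonempty (OrbitChars Q ω) := by
  classical
  haveI := Fintype.ofFinite Q
  haveI := Fintype.ofFinite (Q →* ℂˣ)
  haveI := Fintype.ofFinite (IrrCharacter Γ)
  haveI := Fintype.ofFinite (normStab Q ω)
  set π : Γ → ℂ := fun g => (Nat.card (fixedBy Ω g) : ℂ) with hπ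
  have hπc : IsCharacter Γ π := isCharacter_card_fixedBy Ω
  obtain ⟨m, hm⟩ := IsCharacter.exists_sum hπc
  -- the coefficients of `π` on `Q` are all one
  have hπcoef : ∀ μ : Q →* ℂˣ, coef Q π μ = 1 := by
    intro μ
    rw [coef_def]
    simp only [classInner]
    rw [Finset.sum_eq_single (1 : Q)]
    · have h1 : fixedBy Ω (1 : Γ) = Set.univ := by ext; simp
      simp only [hπ, Subgroup.coe_one, h1, Nat.card_congr (Equiv.Set.univ Ω), map_one, Units.val_one,
        mul_one]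
      rw [← h.card_eq, inv_mul_cancel₀ (Nat.cast_ne_zero.2 Nat.card_pos.ne')]
    · intro x _ hx
      have h1 : fixedBy Ω (x : Γ) = ∅ := by
        refine Set.eq_empty_iff_forall_notMem.2 fun α hα => hx ?_
        obtain ⟨y, hy, rfl⟩ := h.trans α
        refine Subtype.ext (h.free x x.2 ?_)
        have h2 : (x : Γ) • y • ω = y • ω := hα
        rw [← mul_smul, h.comm x x.2 y hy, mul_smul] at h2
        exact MulAction.injective y h2
      simp [hπ, h1]
    · simp
  have hex : ∀ φ : IrrCharacter Γ, ∀ μ : Q →* ℂˣ, ∃ k : ℕ, coef Q (φ : Γ → ℂ) μ = k := fun φ μ =>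
    exists_coef_nat (IsIrrCharacter.isCharacter φ.2) μ
  choose c hc using hex
  have hone : ∀ μ : Q →* ℂˣ, ∑ φ, m φ * c φ μ = 1 := by
    intro μ
    have h1 := hπcoef μ
    rw [hm, coef_sum] at h1
    simp only [coef_smul, hc] at h1
    exact_mod_cast h1
  have hkey : ∀ μ : Q →* ℂˣ, ∃ φ, m φ = 1 ∧ c φ μ = 1 ∧ ∀ φ', φ' ≠ φ → m φ' * c φ' μ = 0 := by
    intro μ
    obtain ⟨φ, -, hφ⟩ := Finset.exists_ne_zero_of_sum_ne_zero (by rw [hone μ]; exact one_ne_zero)
    have h1 := hone μ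
    rw [← Finset.add_sum_erase _ _ (Finset.mem_univ φ)] at h1
    have h3 : 1 ≤ m φ * c φ μ := Nat.one_le_iff_ne_zero.2 hφ
    have h4 : m φ * c φ μ = 1 := by omega
    refine ⟨φ, Nat.eq_one_of_mul_eq_one_right h4, Nat.eq_one_of_mul_eq_one_left h4, fun φ' hne => ?_⟩
    exact Finset.sum_eq_zero_iff.1 (by omega : ∑ x ∈ Finset.univ.erase φ, m x * c x μ = 0) φ'
      (Finset.mem_erase.2 ⟨hne, Finset.mem_univ _⟩)
  choose Φ hΦm hΦc hΦu using hkey
  have huniq : ∀ φ μ, m φ ≠ 0 → c φ μ ≠ 0 → φ = Φ μ := fun φ μ h3 h4 =>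
    by_contra fun hne => (Nat.mul_ne_zero h3 h4) (hΦu μ φ hne)
  have hΦ1 : Φ 1 = trivIrr Γ := by
    have hm1 : m (trivIrr Γ) = 1 := by
      have h1 := classInner_card_fixedBy_one (G := Γ) Ω
      haveI : Subsingleton (orbitRel.Quotient Γ Ω) :=
        (pretransitive_iff_subsingleton_quotient Γ Ω).1 inferInstance
      haveI : Nonempty (orbitRel.Quotient Γ Ω) := ⟨Quotient.mk'' ω⟩
      rw [show (fun g : Γ => (Nat.card (fixedBy Ω g) : ℂ)) = π from rfl, Nat.card_unique, hm] at h1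
      have h3 := classInner_sum_irr (fun φ : IrrCharacter Γ => (m φ : ℂ)) (trivIrr Γ)
      rw [show ((trivIrr Γ : IrrCharacter Γ) : Γ → ℂ) = fun _ => 1 from rfl] at h3
      rw [h3] at h1
      exact_mod_cast h1
    refine (huniq _ _ (by omega) ?_).symm
    intro h0
    have h1 := hc (trivIrr Γ) 1
    rw [show ((trivIrr Γ : IrrCharacter Γ) : Γ → ℂ) = fun _ => 1 from rfl, coef_one, if_pos rfl, h0]
      at h1
    simp at h1
  have htriv : ∀ μ : Q →* ℂˣ, μ ≠ 1 → Φ μ ≠ trivIrr Γ := by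
    intro μ hμ he
    have h1 := hc (Φ μ) μ
    rw [hΦc, he, show ((trivIrr Γ : IrrCharacter Γ) : Γ → ℂ) = fun _ => 1 from rfl, coef_one,
      if_neg hμ] at h1
    simp at h1
  -- the coefficients of the constituents
  have hcΦ : ∀ μ ν, c (Φ μ) ν = if Φ ν = Φ μ then 1 else 0 := by
    intro μ ν
    by_cases he : Φ ν = Φ μ
    · rw [if_pos he, ← he, hΦc]
    · rw [if_neg he]
      by_contra h0
      exact he (huniq _ _ (by rw [hΦm]; omega) h0).symm
  -- there are two of them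
  have htwo : ∀ μ : Q →* ℂˣ, μ ≠ 1 → ∃ ν : Q →* ℂˣ, ν ≠ 1 ∧ Φ ν ≠ Φ μ := by
    intro μ hμ
    by_contra hcon
    push Not at hcon
    refine h2 ((isIrrCharacter_card_fixedBy_sub_one_iff Ω hn).1 ?_)
    have hsupp : ∀ φ, m φ ≠ 0 → φ = trivIrr Γ ∨ φ = Φ μ := by
      intro φ hφ
      obtain ⟨d, hd0, hd⟩ := exists_degree_of_isIrr φ.2
      have h1 : ∑ ν, c φ ν ≠ 0 := by
        intro h0
        have h3 := apply_one_eq_sum_coef h.comm (φ : Γ → ℂ)
        simp only [hc, ← Nat.cast_sum, h0, hd, Nat.cast_zero] at h3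
        exact (Nat.cast_ne_zero.2 (by omega : d ≠ 0)) h3
      obtain ⟨ν, -, hν⟩ := Finset.exists_ne_zero_of_sum_ne_zero h1
      rw [huniq φ ν hφ hν]
      by_cases hν1 : ν = 1
      · left; rw [hν1, hΦ1]
      · right; exact hcon ν hν1
    have hπeq : π = (trivIrr Γ : Γ → ℂ) + (Φ μ : Γ → ℂ) := by
      rw [hm, ← Finset.add_sum_erase _ _ (Finset.mem_univ (trivIrr Γ)),
        Finset.sum_eq_single (Φ μ)]
      · rw [← hΦ1, hΦm, hΦm, Nat.cast_one, one_smul, one_smul]
      · intro φ hφ hne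
        rcases Nat.eq_zero_or_pos (m φ) with h0 | h0
        · rw [h0, Nat.cast_zero, zero_smul]
        · rcases hsupp φ h0.ne' with rfl | rfl
          · exact absurd rfl (Finset.mem_erase.1 hφ).1
          · exact absurd rfl hne
      · intro hh; exact absurd (Finset.mem_erase.2 ⟨htriv μ hμ, Finset.mem_univ _⟩) hh
    rw [show (fun g : Γ => (Nat.card (fixedBy Ω g) : ℂ) - 1) = (Φ μ : Γ → ℂ) from funext fun g => by
      rw [show (Nat.card (fixedBy Ω g) : ℂ) = π g from rfl, hπeq, Pi.add_apply, trivIrr_apply]; ring]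
    exact (Φ μ).2
  -- constituents are invariant under translation
  have hinv : ∀ μ (t : normStab Q ω), Φ (translate μ t) = Φ μ := by
    intro μ t
    refine (huniq (Φ μ) (translate μ t) (by rw [hΦm]; omega) ?_).symm
    intro h0
    have h1 := coef_translate (Q := Q) (IsIrrCharacter.isClassFunction (Φ μ).2) μ t
    rw [hc, hc, h0, hΦc] at h1
    simp at h1
  -- the induced differences
  set τ : (Q →* ℂˣ) → (Q →* ℂˣ) → Γ → ℂ := fun μ μ' => indFun Q (linDiff μ μ') with hτ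
  have hτgen : ∀ μ μ', IsGeneralizedCharacter Γ (τ μ μ') := fun μ μ' =>
    CfsgLib.Frobenius.isGeneralizedCharacter_indFun Q _ ⟨_, _,
      IsIrrCharacter.isCharacter (isIrrCharacter_linear μ),
      IsIrrCharacter.isCharacter (isIrrCharacter_linear μ'), rfl⟩
  have hτcoef : ∀ μ μ' ν, coef Q (τ μ μ') ν
      = ∑ t : normStab Q ω, ((if translate μ t = ν then 1 else 0) -
          (if translate μ' t = ν then (1 : ℂ) else 0)) := by
    intro μ μ' ν
    rw [coef_def, show (fun x : Q => τ μ μ' x) = ∑ t : normStab Q ω,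
      ((fun x => (translate μ t x : ℂ)) - fun x => (translate μ' t x : ℂ)) from funext fun x => by
        rw [hτ]; simp only [Finset.sum_apply, Pi.sub_apply]; exact h.indFun_linDiff_apply μ μ' x,
      classInner_sum_left]
    refine Finset.sum_congr rfl fun t _ => ?_
    rw [classInner_sub_left, classInner_irr (isIrrCharacter_linear _) (isIrrCharacter_linear ν),
      classInner_irr (isIrrCharacter_linear _) (isIrrCharacter_linear ν)]
    have hir : ∀ κ : Q →* ℂˣ, (if (fun x => (κ x : ℂ)) = (fun x => (ν x : ℂ)) then (1 : ℂ) else 0)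
        = if κ = ν then 1 else 0 := fun κ => by
      by_cases hh : κ = ν
      · rw [if_pos hh, if_pos]; rw [hh]
      · rw [if_neg hh, if_neg]; exact fun hf => hh (linear_inj hf)
    rw [hir, hir]
  have hτinner : ∀ μ μ' (f : Γ → ℂ), IsClassFunction Γ f →
      classInner (τ μ μ') f = conj (coef Q f μ) - conj (coef Q f μ') := by
    intro μ μ' f hf
    rw [hτ]
    simp only
    rw [CfsgLib.Frobenius.classInner_indFun Q _ f hf,
      show linDiff μ μ' = (fun x => (μ x : ℂ)) - fun x => (μ' x : ℂ) from rfl, classInner_sub_left,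
      classInner_conj_symm, classInner_conj_symm (fun x => (μ' x : ℂ)), ← coef_def, ← coef_def]
  have hτeq : ∀ μ μ' : Q →* ℂˣ, μ ≠ 1 → μ' ≠ 1 → Φ μ ≠ Φ μ' →
      τ μ μ' = (Φ μ : Γ → ℂ) - (Φ μ' : Γ → ℂ) := by
    intro μ μ' hμ hμ' hne
    have hno : ∀ t : normStab Q ω, translate μ' t ≠ μ := fun t he => hne (by rw [← he, hinv])
    have hno' : ∀ t : normStab Q ω, translate μ t ≠ μ' := fun t he => hne (by rw [← he, hinv])
    have hself : ∀ ν : Q →* ℂˣ, ν ≠ 1 →
        ∑ t : normStab Q ω, (if translate ν t = ν then (1 : ℂ) else 0) = 1 := fun ν hν => by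
      rw [Finset.sum_eq_single (1 : normStab Q ω)]
      · rw [if_pos (translate_one ν)]
      · intro t _ ht
        rw [if_neg]
        exact fun he => ht (h.translate_injective hν (he.trans (translate_one ν).symm))
      · simp
    have hnorm : classInner (τ μ μ') (τ μ μ') = 2 := by
      rw [hτinner μ μ' _ (IsGeneralizedCharacter.isClassFunction (hτgen μ μ')), hτcoef, hτcoef,
        Finset.sum_sub_distrib, Finset.sum_sub_distrib, hself μ hμ, hself μ' hμ',
        Finset.sum_eq_zero (fun t _ => if_neg (hno t)), Finset.sum_eq_zero (fun t _ => if_neg (hno' t))]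
      norm_num
    obtain ⟨A, B, hA, hB, hAB, he⟩ := CfsgLib.Frobenius.exists_irr_sub_of_norm_two (hτgen μ μ') hnorm
      (by rw [hτ]; simp only; rw [CfsgLib.Frobenius.indFun_one]; simp [linDiff])
    have hval : ∀ φ : IrrCharacter Γ, classInner (τ μ μ') (φ : Γ → ℂ)
        = (if A = (φ : Γ → ℂ) then 1 else 0) - (if B = (φ : Γ → ℂ) then 1 else 0) := fun φ => by
      rw [he, classInner_sub_left, classInner_irr hA φ.2, classInner_irr hB φ.2]
    have hAe : A = (Φ μ : Γ → ℂ) := by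
      have h1 := hval (Φ μ)
      rw [hτinner μ μ' _ (IsIrrCharacter.isClassFunction (Φ μ).2), hc, hc, hΦc, hcΦ,
        if_neg (Ne.symm hne)] at h1
      by_contra hA'
      rw [if_neg hA'] at h1
      by_cases hB' : B = (Φ μ : Γ → ℂ) <;> norm_num [hB'] at h1
    have hBe : B = (Φ μ' : Γ → ℂ) := by
      have h1 := hval (Φ μ')
      rw [hτinner μ μ' _ (IsIrrCharacter.isClassFunction (Φ μ').2), hc, hc, hΦc, hcΦ,
        if_neg hne] at h1
      by_contra hB'
      rw [if_neg hB'] at h1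
      by_cases hA' : A = (Φ μ' : Γ → ℂ) <;> norm_num [hA'] at h1
    rw [he, hAe, hBe]
  refine ⟨⟨Φ, fun μ ν hμ hν => ⟨fun he => ?_, fun ⟨t, ht⟩ => ht ▸ hinv μ t⟩,
    fun μ ν _ _ he => (by rw [hc, hcΦ, if_pos he, Nat.cast_one]),
    fun μ ν hμ hor => ?_, fun φ hφ μ ν hμ hν => ?_, htwo⟩⟩
  · obtain ⟨μ', hμ', hne'⟩ := htwo μ hμ
    have h1 := congrArg (fun f => coef Q f ν) (hτeq μ μ' hμ hμ' (Ne.symm hne'))
    simp only [hτcoef, coef_sub, hc, hcΦ] at h1
    rw [if_pos he, if_neg (fun h3 => hne' (h3.symm.trans he))] at h1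
    by_contra hnone
    push Not at hnone
    rw [Finset.sum_sub_distrib, Finset.sum_eq_zero (fun t _ => if_neg (hnone t)), Nat.cast_one,
      Nat.cast_zero, sub_zero, zero_sub] at h1
    have h3 : (∑ t : normStab Q ω, if translate μ' t = ν then (1 : ℂ) else 0) = 0 :=
      Finset.sum_eq_zero fun t _ => if_neg fun ht => hne' (by rw [← hinv μ' t, ht, he])
    rw [h3, neg_zero] at h1
    exact zero_ne_one h1
  · rw [hc, hcΦ, if_neg, Nat.cast_zero]
    rcases hor with rfl | hne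
    · rw [hΦ1]; exact (htriv μ hμ).symm
    · exact hne
  · by_cases he : Φ μ = Φ ν
    · obtain ⟨μ', hμ', hne'⟩ := htwo μ hμ
      have key : ∀ κ : Q →* ℂˣ, κ ≠ 1 → Φ κ ≠ Φ μ' →
          coef Q (φ : Γ → ℂ) κ = coef Q (φ : Γ → ℂ) μ' := by
        intro κ hκ hκne
        have h1 := hτinner κ μ' _ (IsIrrCharacter.isClassFunction φ.2)
        rw [hτeq κ μ' hκ hμ' hκne, classInner_sub_left, classInner_irrCharacter,
          classInner_irrCharacter, if_neg (hφ κ hκ), if_neg (hφ μ' hμ'), sub_zero,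
          hc, hc] at h1
        rw [hc, hc]
        simp only [map_natCast] at h1
        exact sub_eq_zero.1 h1.symm
      rw [key μ hμ (Ne.symm hne'), key ν hν (he ▸ Ne.symm hne')]
    · have h1 := hτinner μ ν _ (IsIrrCharacter.isClassFunction φ.2)
      rw [hτeq μ ν hμ hν he, classInner_sub_left, classInner_irrCharacter, classInner_irrCharacter,
        if_neg (hφ μ hμ), if_neg (hφ ν hν), sub_zero, hc, hc] at h1
      rw [hc, hc]
      simp only [map_natCast] at h1
      exact sub_eq_zero.1 h1.symm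

/-- The bound on the degree. -/
theorem card_le (h : RegularData q Q ω) (h2 : ¬ IsMultiplyPretransitive Γ Ω 2) (hn : 2 ≤ Nat.card Ω)
    (hQ : ¬ Q.Normal) (hgen : ∀ N : Subgroup Γ, N.Normal → Q ≤ N → N = ⊤) :
    Nat.card Ω ≤ Nat.card (normStab Q ω) * (Nat.card (normStab Q ω) - 1) + 1 ∧
      (Nat.card Ω = Nat.card (normStab Q ω) * (Nat.card (normStab Q ω) - 1) + 1 →
        Nat.card (normStab Q ω) ≤ 3) := by
  classical
  obtain ⟨O⟩ := exists_orbitChars h h2 hn
  haveI := Fintype.ofFinite Q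
  haveI := Fintype.ofFinite (Q →* ℂˣ)
  haveI := Fintype.ofFinite (IrrCharacter Γ)
  haveI := Fintype.ofFinite (normStab Q ω)
  set s := Nat.card (normStab Q ω) with hs
  set n := Nat.card Ω with hnn
  have hs2 : 2 ≤ s := by
    have h1 : 1 < s := by
      rw [hs]
      exact (Subgroup.one_lt_card_iff_ne_bot _).2 (h.normStab_ne_bot hQ)
    omega
  have hΛ : Fintype.card (Q →* ℂˣ) = n := by
    letI : CommGroup Q :=
      { (inferInstance : Group Q) with mul_comm := fun a b => Subtype.ext (h.comm a a.2 b b.2) }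
    haveI : HasEnoughRootsOfUnity ℂ (Monoid.exponent Q) := by
      haveI : NeZero (Monoid.exponent Q) := ⟨Monoid.exponent_ne_zero_of_finite⟩
      infer_instance
    rw [← Nat.card_eq_fintype_card, CommGroup.card_monoidHom_of_hasEnoughRootsOfUnity, h.card_eq]
  have hex : ∀ φ : IrrCharacter Γ, ∀ μ : Q →* ℂˣ, ∃ k : ℕ, coef Q (φ : Γ → ℂ) μ = k := fun φ μ =>
    exists_coef_nat (IsIrrCharacter.isCharacter φ.2) μ
  choose c hc using hex
  have hcard_orb : ∀ μ : Q →* ℂˣ, μ ≠ 1 →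
      (Finset.univ.filter fun ν : Q →* ℂˣ => ν ≠ 1 ∧ O.Φ ν = O.Φ μ).card = s := by
    intro μ hμ
    have h1 : (Finset.univ.filter fun ν : Q →* ℂˣ => ν ≠ 1 ∧ O.Φ ν = O.Φ μ)
        = Finset.univ.image (translate μ : normStab Q ω → (Q →* ℂˣ)) := by
      ext ν
      simp only [Finset.mem_filter, Finset.mem_univ, true_and, Finset.mem_image]
      constructor
      · rintro ⟨hν, he⟩; exact (O.mem μ ν hμ hν).1 he
      · rintro ⟨t, rfl⟩
        have hν : translate μ t ≠ 1 := fun h1 => hμ (MonoidHom.ext fun x => by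
          have h3 := DFunLike.congr_fun h1 (conjHom t⁻¹ x)
          simp only [translate, MonoidHom.comp_apply, MonoidHom.one_apply] at h3
          have h4 : conjHom t (conjHom t⁻¹ x) = x := by ext; simp [conjHom, mul_assoc]
          rw [h4] at h3
          exact h3)
        exact ⟨hν, (O.mem μ _ hμ hν).2 ⟨t, rfl⟩⟩
    rw [h1, Finset.card_image_of_injective _ (h.translate_injective hμ), Finset.card_univ, hs,
      Nat.card_eq_fintype_card]
  have hdegΦ : ∀ μ : Q →* ℂˣ, μ ≠ 1 → (O.Φ μ : Γ → ℂ) 1 = s := by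
    intro μ hμ
    rw [apply_one_eq_sum_coef h.comm (O.Φ μ : Γ → ℂ), ← hcard_orb μ hμ, Finset.card_filter, Nat.cast_sum]
    refine Finset.sum_congr rfl fun ν _ => ?_
    by_cases hν : ν = 1
    · rw [O.coef_ne μ ν hμ (Or.inl hν), if_neg (fun hh => hh.1 hν), Nat.cast_zero]
    by_cases he : O.Φ ν = O.Φ μ
    · rw [O.coef_eq μ ν hμ hν he, if_pos ⟨hν, he⟩, Nat.cast_one]
    · rw [O.coef_ne μ ν hμ (Or.inr he), if_neg (fun hh => he hh.2), Nat.cast_zero]
  -- the degree and constant of the other constituents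
  obtain ⟨μ₀, hμ₀⟩ : ∃ μ : Q →* ℂˣ, μ ≠ 1 := by
    haveI : Nontrivial (Q →* ℂˣ) := Fintype.one_lt_card_iff_nontrivial.1 (by omega)
    exact exists_ne 1
  have hdeg : ∀ φ : IrrCharacter Γ, (∀ μ, μ ≠ 1 → O.Φ μ ≠ φ) →
      (φ : Γ → ℂ) 1 = (((n - 1) * c φ μ₀ + c φ 1 : ℕ) : ℂ) := by
    intro φ hφ
    have hsum : ∀ ν ∈ Finset.univ.erase (1 : Q →* ℂˣ), c φ ν = c φ μ₀ := fun ν hν => by
      have h1 := O.other φ hφ ν μ₀ (Finset.mem_erase.1 hν).1 hμ₀
      rw [hc, hc] at h1
      exact_mod_cast h1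
    rw [apply_one_eq_sum_coef h.comm (φ : Γ → ℂ)]
    simp only [hc]
    rw [← Nat.cast_sum, ← Finset.add_sum_erase _ _ (Finset.mem_univ (1 : Q →* ℂˣ)),
      Finset.sum_congr rfl hsum, Finset.sum_const, Finset.card_erase_of_mem (Finset.mem_univ _),
      Finset.card_univ, hΛ, smul_eq_mul, add_comm]
  have hzero : ∀ φ : IrrCharacter Γ, (∀ μ, μ ≠ 1 → O.Φ μ ≠ φ) → c φ μ₀ = 0 → φ = trivIrr Γ := by
    intro φ hφ h0
    obtain ⟨K, hKn, hKmem, hKconst⟩ := exists_kernel (IsIrrCharacter.isCharacter φ.2)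
    have hQK : Q ≤ K := fun x hx => by
      rw [hKmem]
      have h1 := eq_sum_coef h.comm (φ : Γ → ℂ) ⟨x, hx⟩
      have hother : ∀ ν ∈ Finset.univ.erase (1 : Q →* ℂˣ), coef Q (φ : Γ → ℂ) ν = 0 := fun ν hν => by
        rw [O.other φ hφ ν μ₀ (Finset.mem_erase.1 hν).1 hμ₀, hc, h0, Nat.cast_zero]
      rw [apply_one_eq_sum_coef h.comm (φ : Γ → ℂ)]
      rw [h1, ← Finset.add_sum_erase _ _ (Finset.mem_univ (1 : Q →* ℂˣ)),
        ← Finset.add_sum_erase _ _ (Finset.mem_univ (1 : Q →* ℂˣ)),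
        Finset.sum_eq_zero (fun ν hν => by rw [hother ν hν, zero_mul]),
        Finset.sum_eq_zero hother]
      simp
    have htop := hgen K hKn hQK
    have hconst : ∀ g, (φ : Γ → ℂ) g = (φ : Γ → ℂ) 1 := fun g => (hKmem g).1 (htop ▸ Subgroup.mem_top g)
    by_contra hne
    have h1 := classInner_irrCharacter φ (trivIrr Γ)
    rw [if_neg hne] at h1
    simp only [classInner, trivIrr_apply, map_one, mul_one, hconst, Finset.sum_const, Finset.card_univ,
      nsmul_eq_mul, ← Nat.card_eq_fintype_card, ← mul_assoc,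
      inv_mul_cancel₀ (Nat.cast_ne_zero.2 (Nat.card_pos (α := Γ)).ne' : (Nat.card Γ : ℂ) ≠ 0),
      one_mul] at h1
    exact apply_one_ne_zero_of_isIrr φ.2 h1
  have hctriv : ∀ μ : Q →* ℂˣ, c (trivIrr Γ) μ = if μ = 1 then 1 else 0 := by
    intro μ
    have h1 := hc (trivIrr Γ) μ
    rw [show ((trivIrr Γ : IrrCharacter Γ) : Γ → ℂ) = fun _ => 1 from rfl, coef_one] at h1
    by_cases hμ : μ = 1
    · rw [if_pos hμ] at h1 ⊢; exact_mod_cast h1.symm
    · rw [if_neg hμ] at h1 ⊢; exact_mod_cast h1.symm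
  have htrivΦ : ∀ μ : Q →* ℂˣ, μ ≠ 1 → O.Φ μ ≠ trivIrr Γ := fun μ hμ he => by
    have h1 := O.coef_eq μ μ hμ hμ rfl
    rw [he, hc, hctriv, if_neg hμ, Nat.cast_zero] at h1
    exact zero_ne_one h1
  -- the product of an orbit character and its conjugate
  set χ : Γ → ℂ := (O.Φ μ₀ : Γ → ℂ) with hχ
  have hχc : IsCharacter Γ χ := IsIrrCharacter.isCharacter (O.Φ μ₀).2
  set X : Γ → ℂ := χ * fun g => conj (χ g) with hX
  obtain ⟨mX, hmX⟩ := IsCharacter.exists_sum (isCharacter_mul hχc (isCharacter_conj hχc))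
  rw [← hX] at hmX
  set Orb := Finset.univ.filter fun ν : Q →* ℂˣ => ν ≠ 1 ∧ O.Φ ν = O.Φ μ₀ with hOrb
  have hχQ : ∀ x : Q, χ x = ∑ ν ∈ Orb, (ν x : ℂ) := by
    intro x
    rw [eq_sum_coef h.comm χ x, hOrb, Finset.sum_filter]
    refine Finset.sum_congr rfl fun ν _ => ?_
    by_cases hν : ν = 1
    · rw [O.coef_ne μ₀ ν hμ₀ (Or.inl hν), if_neg (fun hh => hh.1 hν), zero_mul]
    by_cases he : O.Φ ν = O.Φ μ₀
    · rw [O.coef_eq μ₀ ν hμ₀ hν he, if_pos ⟨hν, he⟩, one_mul]
    · rw [O.coef_ne μ₀ ν hμ₀ (Or.inr he), if_neg (fun hh => he hh.2), zero_mul]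
  have hXcoef1 : coef Q X 1 = s := by
    rw [coef_def]
    have h1 : classInner (fun x : Q => X x) (fun x => ((1 : Q →* ℂˣ) x : ℂ))
        = classInner (fun x : Q => χ x) (fun x : Q => χ x) := by
      simp only [classInner, hX, Pi.mul_apply, MonoidHom.one_apply, Units.val_one, map_one, mul_one]
    rw [h1, show (fun x : Q => χ x) = ∑ ν ∈ Orb, fun x : Q => (ν x : ℂ) from funext fun x => by
      rw [hχQ, Finset.sum_apply], classInner_sum_left]
    rw [Finset.sum_congr rfl (g := fun _ => (1 : ℂ)) fun ν hν => ?_]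
    · rw [Finset.sum_const, hcard_orb μ₀ hμ₀, nsmul_eq_mul, mul_one]
    · rw [classInner_sum_right, Finset.sum_eq_single ν]
      · exact classInner_self_of_isIrr (isIrrCharacter_linear ν)
      · intro κ _ hne
        exact classInner_eq_zero_of_ne (isIrrCharacter_linear ν) (isIrrCharacter_linear κ)
          (fun hh => hne (linear_inj hh).symm)
      · exact fun hh => absurd hν hh
  have hX1 : mX (trivIrr Γ) = 1 := by
    have h1 : classInner X (fun _ : Γ => (1 : ℂ)) = 1 := by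
      have h3 := classInner_self_of_isIrr (O.Φ μ₀).2
      simp only [classInner, hX, Pi.mul_apply, map_one, mul_one]
      simpa [classInner] using h3
    rw [hmX] at h1
    have h3 := classInner_sum_irr (fun φ : IrrCharacter Γ => (mX φ : ℂ)) (trivIrr Γ)
    rw [show ((trivIrr Γ : IrrCharacter Γ) : Γ → ℂ) = fun _ => 1 from rfl] at h3
    rw [h3] at h1
    exact_mod_cast h1
  have hdg : ∀ φ : IrrCharacter Γ, ∃ d : ℕ, 0 < d ∧ (φ : Γ → ℂ) 1 = d := fun φ => by
    obtain ⟨d, hd0, hd⟩ := exists_degree_of_isIrr φ.2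
    exact ⟨d, hd0, hd⟩
  choose d hd0 hd using hdg
  set others := Finset.univ.erase (trivIrr Γ) with hoth
  have hsumdeg : 1 + ∑ φ ∈ others, mX φ * d φ = s * s := by
    have h1 : X 1 = ((s * s : ℕ) : ℂ) := by
      simp [hX, hdegΦ μ₀ hμ₀, hχ]
    rw [hmX, Finset.sum_apply] at h1
    simp only [Pi.smul_apply, smul_eq_mul, hd] at h1
    rw [← Finset.add_sum_erase _ _ (Finset.mem_univ (trivIrr Γ))] at h1
    have htd : d (trivIrr Γ) = 1 := by
      have h3 := hd (trivIrr Γ)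
      rw [trivIrr_apply] at h3
      exact_mod_cast h3.symm
    rw [hX1, htd, Nat.cast_one, one_mul] at h1
    exact_mod_cast h1
  have hsumone : 1 + ∑ φ ∈ others, mX φ * c φ 1 = s := by
    have h1 := hXcoef1
    rw [hmX, coef_sum] at h1
    simp only [coef_smul, hc] at h1
    rw [← Finset.add_sum_erase _ _ (Finset.mem_univ (trivIrr Γ)), hX1, hctriv, if_pos rfl,
      Nat.cast_one, one_mul] at h1
    exact_mod_cast h1
  have hbig : ∀ φ ∈ others, c φ 1 ≠ 0 → n - 1 + c φ 1 ≤ d φ := by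
    intro φ hφ h0
    have hnot : ∀ μ, μ ≠ 1 → O.Φ μ ≠ φ := fun μ hμ he => h0 (by
      have h1 := O.coef_ne μ 1 hμ (Or.inl rfl)
      rw [he, hc] at h1
      exact_mod_cast h1)
    have h1 := hdeg φ hnot
    rw [hd, Nat.cast_inj] at h1
    have h3 : c φ μ₀ ≠ 0 := fun h4 => (Finset.mem_erase.1 hφ).1 (hzero φ hnot h4)
    have h4 : (n - 1) * 1 ≤ (n - 1) * c φ μ₀ := Nat.mul_le_mul_left _ (Nat.one_le_iff_ne_zero.2 h3)
    omega
  have hle_d : ∀ φ : IrrCharacter Γ, c φ 1 ≤ d φ := fun φ => by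
    have h1 := apply_one_eq_sum_coef h.comm (φ : Γ → ℂ)
    simp only [hc, hd, ← Nat.cast_sum, Nat.cast_inj] at h1
    rw [h1]
    exact Finset.single_le_sum (f := fun μ => c φ μ) (fun _ _ => Nat.zero_le _) (Finset.mem_univ _)
  obtain ⟨φ₀, hφ₀, hφ₀0⟩ := Finset.exists_ne_zero_of_sum_ne_zero
    (show ∑ φ ∈ others, mX φ * c φ 1 ≠ 0 by omega)
  obtain ⟨hm0, hc0⟩ := mul_ne_zero_iff.1 hφ₀0
  have hrest1 := Finset.add_sum_erase others (fun φ => mX φ * c φ 1) hφ₀
  have hrestd := Finset.add_sum_erase others (fun φ => mX φ * d φ) hφ₀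
  have hrest : ∑ φ ∈ others.erase φ₀, mX φ * c φ 1 ≤ ∑ φ ∈ others.erase φ₀, mX φ * d φ :=
    Finset.sum_le_sum fun φ _ => Nat.mul_le_mul_left _ (hle_d φ)
  have hb0 : mX φ₀ * (n - 1 + c φ₀ 1) ≤ mX φ₀ * d φ₀ := Nat.mul_le_mul_left _ (hbig φ₀ hφ₀ hc0)
  rw [Nat.mul_add] at hb0
  have hn1 : n - 1 ≤ mX φ₀ * (n - 1) := Nat.le_mul_of_pos_left _ (Nat.pos_of_ne_zero hm0)
  have hbound : n + s ≤ s * s + 1 := by
    omega
  have hss : s * (s - 1) + s = s * s := by
    obtain ⟨s', hs'⟩ : ∃ s', s = s' + 1 := ⟨s - 1, by omega⟩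
    rw [hs', Nat.add_sub_cancel]; ring
  refine ⟨by omega, fun heq => ?_⟩
  -- equality: `χ χ̄ = 1 + φ₀`
  by_contra hs4
  push Not at hs4
  have hm01 : mX φ₀ = 1 := by
    rcases Nat.lt_or_ge (mX φ₀) 2 with h3 | h3
    · omega
    · have h4 : 2 * (n - 1) ≤ mX φ₀ * (n - 1) := Nat.mul_le_mul_right _ h3
      omega
  have hothers0 : ∀ φ ∈ others.erase φ₀, mX φ = 0 := by
    rw [hm01, one_mul] at hrest1 hrestd
    rw [hm01, one_mul, one_mul] at hb0
    have heqs : ∑ φ ∈ others.erase φ₀, mX φ * c φ 1 = ∑ φ ∈ others.erase φ₀, mX φ * d φ := by omega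
    intro φ hφ
    have h3 := (Finset.sum_eq_sum_iff_of_le fun i _ => Nat.mul_le_mul_left _ (hle_d i)).1 heqs φ hφ
    by_contra h0
    have h4 : c φ 1 = d φ := Nat.eq_of_mul_eq_mul_left (Nat.pos_of_ne_zero h0) h3
    have h5 := hd0 φ
    have h6 := hbig φ (Finset.mem_of_mem_erase hφ) (by omega)
    omega
  have hXnorm : classInner X X = 2 := by
    have h1 := classInner_generalized_sum (G := Γ) (fun φ => (mX φ : ℤ)) (fun φ => (mX φ : ℤ))
    simp only [Int.cast_natCast] at h1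
    rw [← hmX] at h1
    rw [h1, ← Finset.add_sum_erase _ _ (Finset.mem_univ (trivIrr Γ)),
      ← Finset.add_sum_erase others (fun φ => (mX φ : ℤ) * mX φ) hφ₀,
      Finset.sum_eq_zero (fun φ hφ => by rw [hothers0 φ hφ]; simp), hX1, hm01]
    norm_num
  set Y : Γ → ℂ := χ * χ with hY
  have hYnorm : classInner Y Y = 2 := by
    rw [← hXnorm]
    simp only [classInner, hY, hX, Pi.mul_apply, map_mul, Complex.conj_conj]
    congr 1
    exact Finset.sum_congr rfl fun g _ => by ring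
  obtain ⟨mY, hmY⟩ := IsCharacter.exists_sum (isCharacter_mul hχc hχc)
  rw [← hY] at hmY
  have hYsq : ∑ φ, mY φ * mY φ = 2 := by
    have h1 := classInner_generalized_sum (G := Γ) (fun φ => (mY φ : ℤ)) (fun φ => (mY φ : ℤ))
    simp only [Int.cast_natCast] at h1
    rw [← hmY, hYnorm] at h1
    have h2 : ((∑ φ, mY φ * mY φ : ℕ) : ℂ) = (2 : ℕ) := by push_cast; exact_mod_cast h1.symm
    exact_mod_cast h2
  have hYdeg : ∑ φ, mY φ * d φ = s * s := by
    have h1 : Y 1 = ((s * s : ℕ) : ℂ) := by simp [hY, hdegΦ μ₀ hμ₀, hχ]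
    rw [hmY, Finset.sum_apply] at h1
    simp only [Pi.smul_apply, smul_eq_mul, hd] at h1
    exact_mod_cast h1
  -- the multiplicity of `ν` in `χ²` is the number of pairs with product `ν`
  set pairs : (Q →* ℂˣ) → Finset ((Q →* ℂˣ) × (Q →* ℂˣ)) := fun ν =>
    (Orb ×ˢ Orb).filter fun p => p.1 * p.2 = ν with hpairs
  have hYcoef : ∀ ν, ∑ φ, mY φ * c φ ν = (pairs ν).card := by
    intro ν
    have h1 : coef Q Y ν = ((pairs ν).card : ℂ) := by
      rw [coef_def, show (fun x : Q => Y x) = ∑ p ∈ Orb ×ˢ Orb, fun x : Q => ((p.1 * p.2) x : ℂ) from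
        funext fun x => by
          rw [hY, Pi.mul_apply, hχQ, Finset.sum_mul_sum, Finset.sum_apply, Finset.sum_product]
          simp, classInner_sum_left, Finset.card_filter, Nat.cast_sum]
      refine Finset.sum_congr rfl fun p _ => ?_
      rw [classInner_irr (isIrrCharacter_linear _) (isIrrCharacter_linear ν)]
      by_cases hh : p.1 * p.2 = ν
      · rw [if_pos hh, Nat.cast_one, if_pos]; rw [hh]
      · rw [if_neg hh, Nat.cast_zero, if_neg]; exact fun hf => hh (linear_inj hf)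
    rw [hmY, coef_sum] at h1
    simp only [coef_smul, hc] at h1
    exact_mod_cast h1
  -- two constituents
  obtain ⟨a, b, hab, hma, hmb, hrest0⟩ :
      ∃ a b, a ≠ b ∧ mY a = 1 ∧ mY b = 1 ∧ ∀ φ, φ ≠ a → φ ≠ b → mY φ = 0 := by
    have hle : ∀ φ, mY φ ≤ 1 := fun φ => by
      have h1 := Finset.single_le_sum (f := fun φ => mY φ * mY φ) (fun _ _ => Nat.zero_le _)
        (Finset.mem_univ φ)
      rw [hYsq] at h1
      by_contra h3
      push Not at h3
      have h4 : 2 * 2 ≤ mY φ * mY φ := Nat.mul_le_mul h3 h3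
      omega
    have hcard : (Finset.univ.filter fun φ => mY φ ≠ 0).card = 2 := by
      rw [Finset.card_filter, ← hYsq]
      refine Finset.sum_congr rfl fun φ _ => ?_
      have := hle φ
      interval_cases hh : mY φ <;> simp
    obtain ⟨a, b, hab, heq'⟩ := Finset.card_eq_two.1 hcard
    refine ⟨a, b, hab, ?_, ?_, fun φ ha hb => ?_⟩
    · have h1 : a ∈ Finset.univ.filter fun φ => mY φ ≠ 0 := by rw [heq']; simp
      have := (Finset.mem_filter.1 h1).2
      have := hle a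
      omega
    · have h1 : b ∈ Finset.univ.filter fun φ => mY φ ≠ 0 := by rw [heq']; simp
      have := (Finset.mem_filter.1 h1).2
      have := hle b
      omega
    · by_contra h0
      have h1 : φ ∈ Finset.univ.filter fun φ => mY φ ≠ 0 := by simpa using h0
      rw [heq'] at h1
      simp [ha, hb] at h1
  have htwo_sum : ∀ g : IrrCharacter Γ → ℕ, ∑ φ, mY φ * g φ = g a + g b := fun g => by
    rw [← Finset.sum_subset (Finset.subset_univ {a, b}) (fun φ _ hφ => by
      simp only [Finset.mem_insert, Finset.mem_singleton, not_or] at hφ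
      rw [hrest0 φ hφ.1 hφ.2, zero_mul]), Finset.sum_pair hab, hma, hmb, one_mul, one_mul]
  rw [htwo_sum] at hYdeg
  simp only [htwo_sum] at hYcoef
  -- classification of the degrees
  have hclass : ∀ φ : IrrCharacter Γ, d φ ≤ s ∨ (n - 1 ≤ d φ ∧
      ∀ ν : Q →* ℂˣ, ν ≠ 1 → (n - 1) * c φ ν ≤ d φ ∧ c φ ν ≠ 0) := by
    intro φ
    by_cases hΦ : ∃ μ, μ ≠ 1 ∧ O.Φ μ = φ
    · obtain ⟨μ, hμ, rfl⟩ := hΦ
      left
      have h1 := hdegΦ μ hμ
      rw [hd] at h1
      exact (Nat.cast_inj.1 h1).le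
    push Not at hΦ
    by_cases h0 : c φ μ₀ = 0
    · left
      rw [hzero φ hΦ h0]
      have h3 := hd (trivIrr Γ)
      rw [trivIrr_apply] at h3
      have : d (trivIrr Γ) = 1 := by exact_mod_cast h3.symm
      omega
    · right
      have h1 := hdeg φ hΦ
      rw [hd, Nat.cast_inj] at h1
      have h3 : (n - 1) * 1 ≤ (n - 1) * c φ μ₀ :=
        Nat.mul_le_mul_left _ (Nat.one_le_iff_ne_zero.2 h0)
      refine ⟨by omega, fun ν hν => ?_⟩
      have h4 : c φ ν = c φ μ₀ := by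
        have h5 := O.other φ hΦ ν μ₀ hν hμ₀
        rw [hc, hc] at h5
        exact_mod_cast h5
      rw [h4]
      exact ⟨by omega, h0⟩
  -- one large constituent, and a small one
  have hs4' : 4 * s ≤ s * s := Nat.mul_le_mul_right s hs4
  obtain ⟨big, small, hbs, hbigp, hsmall⟩ : ∃ big small : IrrCharacter Γ,
      (∀ g : IrrCharacter Γ → ℕ, g a + g b = g big + g small) ∧
      (∀ ν : Q →* ℂˣ, ν ≠ 1 → c big ν = 1) ∧ d small ≤ s := by
    have hone : ∀ φ φ' : IrrCharacter Γ, d φ + d φ' = s * s → (∀ ν : Q →* ℂˣ, ν ≠ 1 →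
        (n - 1) * c φ ν ≤ d φ ∧ c φ ν ≠ 0) → ∀ ν : Q →* ℂˣ, ν ≠ 1 → c φ ν = 1 := by
      intro φ φ' hsum hp ν hν
      obtain ⟨h1, h3⟩ := hp ν hν
      by_contra hne
      have h4 : (n - 1) * 2 ≤ (n - 1) * c φ ν := Nat.mul_le_mul_left _ (by omega)
      omega
    rcases hclass a with ha | ⟨ha, hap⟩ <;> rcases hclass b with hb | ⟨hb, hbp⟩
    · omega
    · exact ⟨b, a, fun g => add_comm _ _, hone b a (by omega) hbp, ha⟩
    · exact ⟨a, b, fun g => rfl, hone a b hYdeg hap, hb⟩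
    · omega
  replace hYcoef : ∀ ν, c big ν + c small ν = (pairs ν).card := fun ν =>
    (hbs fun φ => c φ ν).symm.trans (hYcoef ν)
  -- a character of odd multiplicity would be a square
  have hpar : ∀ ν : Q →* ℂˣ, (∀ μ ∈ Orb, μ * μ ≠ ν) → Even (pairs ν).card := by
    intro ν hν
    have hz : ∑ _p ∈ pairs ν, (1 : ZMod 2) = 0 := by
      refine Finset.sum_involution (fun p _ => (p.2, p.1)) (fun p _ => by decide) ?_ ?_ (fun p _ => rfl)
      · intro p hp _ hfix
        simp only [hpairs, Finset.mem_filter, Finset.mem_product] at hp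
        have h1 : p.2 = p.1 := congrArg Prod.fst hfix
        exact hν p.1 hp.1.1 (by rw [← hp.2, h1])
      · intro p hp
        simp only [hpairs, Finset.mem_filter, Finset.mem_product] at hp ⊢
        refine ⟨⟨hp.1.2, hp.1.1⟩, ?_⟩
        rw [← hp.2]
        exact MonoidHom.ext fun x => mul_comm _ _
    rw [Finset.sum_const, nsmul_eq_mul, mul_one] at hz
    exact ZMod.natCast_eq_zero_iff_even.1 hz
  set bad := insert (1 : Q →* ℂˣ) (Orb.image (fun μ => μ * μ) ∪
    Finset.univ.filter fun ν => c small ν ≠ 0) with hbad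
  obtain ⟨ν, hν⟩ : ∃ ν, ν ∉ bad := by
    by_contra hall
    push Not at hall
    have h1 : bad = Finset.univ := Finset.eq_univ_of_forall hall
    have h2 := congrArg Finset.card h1
    rw [Finset.card_univ, hΛ] at h2
    have h3 : bad.card ≤ (Orb.image fun μ => μ * μ).card +
        (Finset.univ.filter fun ν => c small ν ≠ 0).card + 1 :=
      (Finset.card_insert_le _ _).trans (Nat.add_le_add_right (Finset.card_union_le _ _) 1)
    have h4 : (Orb.image fun μ => μ * μ).card ≤ s :=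
      Finset.card_image_le.trans (hcard_orb μ₀ hμ₀).le
    have h5 : (Finset.univ.filter fun ν => c small ν ≠ 0).card ≤ s := by
      refine le_trans ?_ hsmall
      have h6 := apply_one_eq_sum_coef h.comm (small : Γ → ℂ)
      simp only [hc, hd, ← Nat.cast_sum, Nat.cast_inj] at h6
      rw [h6, Finset.card_eq_sum_ones]
      refine (Finset.sum_le_sum (fun ν hν => Nat.one_le_iff_ne_zero.2 (Finset.mem_filter.1 hν).2)).trans ?_
      exact Finset.sum_le_sum_of_subset (Finset.filter_subset _ _)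
    omega
  simp only [hbad, Finset.mem_insert, Finset.mem_union, Finset.mem_image, Finset.mem_filter,
    Finset.mem_univ, true_and, not_or, not_exists, not_and, not_not] at hν
  obtain ⟨hν1, hνsq, hνsmall⟩ := hν
  have hev := hpar ν fun μ hμ hh => hνsq μ hμ hh
  rw [← hYcoef, hbigp ν hν1, hνsmall] at hev
  exact Nat.not_even_one hev

end CfsgLib.Derangements.SelfCentralRegular
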