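import Mathlib

/-!
# A regular abelian Sylow subgroup with fixed point free normaliser

`Q` is an abelian Sylow `q`-subgroup of a transitive group, regular, and no non-trivial element
of its normaliser fixing the base point centralises a non-trivial element of `Q`.  Burnside's
transfer theorem shows that `Q` is the centraliser of each of its non-trivial elements, so a
trivial intersection subgroup.
-/

set_option autoImplicit false

namespace CfsgLib.Derangements.SelfCentralRegular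

open MulAction

variable {Γ : Type*} [Group Γ] {Ω : Type*} [MulAction Γ Ω]

/-- The setting: `Q` regular elementary in the sense needed, with base point `ω`. -/
structure RegularData (q : ℕ) (Q : Subgroup Γ) (ω : Ω) : Prop where
  prime : q.Prime
  isPGroup : IsPGroup q Q
  comm : ∀ x ∈ Q, ∀ y ∈ Q, x * y = y * x
  trans : ∀ α : Ω, ∃ x ∈ Q, x • ω = α
  free : ∀ x ∈ Q, x • ω = ω → x = 1
  coprime : ¬ q ∣ Nat.card (stabilizer Γ ω)
  fpf : ∀ g ∈ Subgroup.normalizer (Q : Set Γ) ⊓ stabilizer Γ ω, ∀ x ∈ Q,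
    g * x = x * g → x ≠ 1 → g = 1

/-- The point stabiliser in the normaliser. -/
def normStab (Q : Subgroup Γ) (ω : Ω) : Subgroup Γ :=
  Subgroup.normalizer (Q : Set Γ) ⊓ stabilizer Γ ω

variable {q : ℕ} {Q : Subgroup Γ} {ω : Ω}

namespace RegularData

variable (h : RegularData q Q ω)
include h

theorem bijective : Function.Bijective (fun x : Q => (x : Γ) • ω) := by
  refine ⟨fun x y hxy => ?_, fun α => ?_⟩
  · have h1 := h.free ((x : Γ)⁻¹ * y) (Q.mul_mem (Q.inv_mem x.2) y.2) (by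
      simp only at hxy
      rw [mul_smul, ← hxy, inv_smul_smul])
    exact Subtype.ext (inv_mul_eq_one.1 h1)
  · obtain ⟨x, hx, hxα⟩ := h.trans α
    exact ⟨⟨x, hx⟩, hxα⟩

theorem card_eq : Nat.card Q = Nat.card Ω := Nat.card_congr (Equiv.ofBijective _ h.bijective)

/-- `g = v * t` with `v ∈ Q` and `t` fixing `ω`. -/
theorem decompose (g : Γ) : ∃ v ∈ Q, v⁻¹ * g ∈ stabilizer Γ ω := by
  obtain ⟨v, hv, hvg⟩ := h.trans (g • ω)
  exact ⟨v, hv, by rw [mem_stabilizer_iff, mul_smul, ← hvg, inv_smul_smul]⟩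

theorem mem_normStab {g : Γ} (hg : g ∈ Subgroup.normalizer (Q : Set Γ)) :
    ∃ v ∈ Q, v⁻¹ * g ∈ normStab Q ω := by
  obtain ⟨v, hv, hvg⟩ := h.decompose g
  exact ⟨v, hv, (Subgroup.normalizer _).mul_mem (Subgroup.le_normalizer (Q.inv_mem hv)) hg, hvg⟩

variable [Finite Γ] [FaithfulSMul Γ Ω]

/-- A subgroup of order prime to `q` normalised by the transitive group `Q` is trivial. -/
theorem eq_bot_of_coprime {M : Subgroup Γ} (hM : ∀ x ∈ Q, ∀ g ∈ M, x * g * x⁻¹ ∈ M)
    (hq : ¬ q ∣ Nat.card M) : M = ⊥ := by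
  classical
  haveI : Finite Ω := Finite.of_surjective _ h.bijective.2
  haveI := Fintype.ofFinite (orbitRel.Quotient M Ω)
  set d := (orbit M ω).ncard with hd
  have hsame : ∀ α : Ω, (orbit M α).ncard = d := by
    intro α
    obtain ⟨x, hx, rfl⟩ := h.trans α
    have : orbit M (x • ω) = (fun β => x • β) '' orbit M ω := by
      ext β
      constructor
      · rintro ⟨g, rfl⟩
        refine ⟨(x⁻¹ * g * x) • ω, ⟨⟨x⁻¹ * g * x, ?_⟩, rfl⟩, ?_⟩
        · simpa using hM x⁻¹ (Q.inv_mem hx) g g.2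
        · show x • ((x⁻¹ * g * x) • ω) = (g : Γ) • x • ω
          rw [← mul_smul, ← mul_smul]; group
      · rintro ⟨_, ⟨g, rfl⟩, rfl⟩
        refine ⟨⟨x * g * x⁻¹, hM x hx g g.2⟩, ?_⟩
        show (x * g * x⁻¹) • (x • ω) = x • ((g : Γ) • ω)
        rw [← mul_smul, ← mul_smul, inv_mul_cancel_right]
    rw [this, Set.ncard_image_of_injective _ (MulAction.injective x), hd]
  have hdn : d ∣ Nat.card Ω := by
    rw [Nat.card_congr (selfEquivSigmaOrbits M Ω), Nat.card_sigma]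
    refine Finset.dvd_sum fun o _ => ?_
    rw [Nat.card_coe_set_eq, hsame]
  have hdM : d ∣ Nat.card M := by
    rw [hd, ← index_stabilizer]
    exact Subgroup.index_dvd_card _
  haveI := Fact.mk h.prime
  obtain ⟨a, ha⟩ := IsPGroup.iff_card.1 h.isPGroup
  rw [← h.card_eq, ha] at hdn
  obtain ⟨i, -, hi⟩ := (Nat.dvd_prime_pow h.prime).1 hdn
  have hi0 : i = 0 := by
    by_contra h0
    exact hq ((dvd_pow_self q h0).trans (hi ▸ hdM))
  rw [hi0, pow_zero] at hi
  refine eq_bot_iff.2 fun g hg => Subgroup.mem_bot.2 (FaithfulSMul.eq_of_smul_eq_smul fun α : Ω => ?_)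
  obtain ⟨β, hβ⟩ := Set.ncard_eq_one.1 ((hsame α).trans hi)
  have h1 : g • α ∈ orbit M α := ⟨⟨g, hg⟩, rfl⟩
  have h2 : α ∈ orbit M α := mem_orbit_self α
  rw [hβ, Set.mem_singleton_iff] at h1 h2
  rw [one_smul, h1, h2]

/-- Burnside transfer: a subgroup above `Q` in which `Q` is central in its normaliser is `Q`. -/
theorem eq_of_normalizer_comm {C : Subgroup Γ} (hQC : Q ≤ C)
    (hc : ∀ g ∈ C, g ∈ Subgroup.normalizer (Q : Set Γ) → ∀ x ∈ Q, g * x = x * g) : C = Q := by
  haveI := Fact.mk h.prime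
  have hndvd : ¬ q ∣ (Q.subgroupOf C).index := by
    intro hdvd
    refine h.coprime (hdvd.trans ((dvd_of_eq ?_).trans
      (Subgroup.card_dvd_of_le (inf_le_right : C ⊓ stabilizer Γ ω ≤ stabilizer Γ ω))))
    refine (Nat.card_eq_of_bijective
      (fun g : (C ⊓ stabilizer Γ ω : Subgroup Γ) =>
        (QuotientGroup.mk ((⟨g, g.2.1⟩ : C)⁻¹) : C ⧸ Q.subgroupOf C)) ⟨fun g g' hgg => ?_, fun x => ?_⟩).symm
    · rw [QuotientGroup.eq, inv_inv, Subgroup.mem_subgroupOf] at hgg
      have h1 : (g : Γ) * (g' : Γ)⁻¹ = 1 := h.free _ hgg (by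
        rw [mul_smul, inv_smul_eq_iff.2 (mem_stabilizer_iff.1 g'.2.2).symm,
          mem_stabilizer_iff.1 g.2.2])
      exact Subtype.ext (mul_inv_eq_one.1 h1)
    · obtain ⟨c, rfl⟩ := QuotientGroup.mk_surjective x
      obtain ⟨v, hv, hvc⟩ := h.decompose ((c : Γ)⁻¹)
      refine ⟨⟨v⁻¹ * (c : Γ)⁻¹, C.mul_mem (C.inv_mem (hQC hv)) (C.inv_mem c.2), hvc⟩, ?_⟩
      refine QuotientGroup.eq.2 (Subgroup.mem_subgroupOf.2 ?_)
      simp only [Subgroup.coe_mul, Subgroup.coe_inv, inv_inv]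
      simpa [mul_assoc] using Q.inv_mem hv
  let P : Sylow q C := IsPGroup.toSylow
    (h.isPGroup.comap_subtype : IsPGroup q (Q.subgroupOf C)) hndvd
  have hP : Subgroup.normalizer ((P : Subgroup C) : Set C) ≤ Subgroup.centralizer ((P : Subgroup C) : Set C) := by
    intro g hg
    refine Subgroup.mem_centralizer_iff.2 fun x hx => Subtype.ext ?_
    have hgn : (g : Γ) ∈ Subgroup.normalizer (Q : Set Γ) := by
      refine Subgroup.mem_normalizer_iff.2 fun y => ⟨fun hy => ?_, fun hy => ?_⟩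
      · exact Subgroup.mem_subgroupOf.1 (((Subgroup.mem_normalizer_iff.1 hg) ⟨y, hQC hy⟩).1
          (Subgroup.mem_subgroupOf.2 hy))
      · have hyC : y ∈ C := by
          rw [show y = (g : Γ)⁻¹ * ((g : Γ) * y * (g : Γ)⁻¹) * g by group]
          exact C.mul_mem (C.mul_mem (C.inv_mem g.2) (hQC hy)) g.2
        exact Subgroup.mem_subgroupOf.1 (((Subgroup.mem_normalizer_iff.1 hg) ⟨y, hyC⟩).2
          (Subgroup.mem_subgroupOf.2 hy))
    exact (hc g g.2 hgn x (Subgroup.mem_subgroupOf.1 hx)).symm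
  have key : ∀ M : Subgroup C, M.Normal → ¬ q ∣ Nat.card M → M = ⊥ := by
    intro M hMnormal hMq
    have hMn : ∀ x ∈ Q, ∀ g ∈ M.map C.subtype, x * g * x⁻¹ ∈ M.map C.subtype := by
      rintro x hx g' hg'
      obtain ⟨g, hg, rfl⟩ := Subgroup.mem_map.1 hg'
      exact Subgroup.mem_map.2 ⟨⟨x, hQC hx⟩ * g * ⟨x, hQC hx⟩⁻¹,
        hMnormal.conj_mem g hg ⟨x, hQC hx⟩, rfl⟩
    have h1 := h.eq_bot_of_coprime hMn
      (by rwa [Subgroup.card_map_of_injective C.subtype_injective])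
    exact (Subgroup.map_eq_bot_iff_of_injective _ C.subtype_injective).1 h1
  have hM := key _ (MonoidHom.normal_ker _) (MonoidHom.not_dvd_card_ker_transferSylow P hP)
  refine le_antisymm (fun g hg => ?_) hQC
  have hcomp := MonoidHom.ker_transferSylow_isComplement' P hP
  rw [show (MonoidHom.transferSylow P hP).ker = ⊥ from hM, Subgroup.isComplement'_bot_left] at hcomp
  have hmem : (⟨g, hg⟩ : C) ∈ (P : Subgroup C) := by rw [hcomp]; exact Subgroup.mem_top _
  exact Subgroup.mem_subgroupOf.1 hmem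

theorem centralizer_eq {x : Γ} (hx : x ∈ Q) (hx1 : x ≠ 1) :
    Subgroup.centralizer ({x} : Set Γ) = Q := by
  refine h.eq_of_normalizer_comm
    (fun y hy => Subgroup.mem_centralizer_singleton_iff.2 (h.comm y hy x hx)) ?_
  intro g hg hgn y hy
  obtain ⟨v, hv, hvs⟩ := h.mem_normStab hgn
  have h1 : v⁻¹ * g = 1 := h.fpf _ hvs x hx (by
    rw [mul_assoc, Subgroup.mem_centralizer_singleton_iff.1 hg, ← mul_assoc, ← mul_assoc,
      h.comm _ (Q.inv_mem hv) x hx]) hx1
  rw [← inv_mul_eq_one.1 h1]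
  exact h.comm v hv y hy

/-- `Q` is a trivial intersection subgroup. -/
theorem mem_normalizer_of_conj {x g : Γ} (hx : x ∈ Q) (hx1 : x ≠ 1) (hg : g⁻¹ * x * g ∈ Q) :
    g ∈ Subgroup.normalizer (Q : Set Γ) := by
  set y := g⁻¹ * x * g with hy
  have hy1 : y ≠ 1 := fun h1 => hx1 (by
    calc x = g * y * g⁻¹ := by rw [hy]; group
      _ = 1 := by rw [h1]; group)
  refine Subgroup.mem_normalizer_iff.2 fun u => ⟨fun hu => ?_, fun hu => ?_⟩
  · rw [← h.centralizer_eq hx hx1, Subgroup.mem_centralizer_singleton_iff]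
    have h1 : u * y = y * u := h.comm u hu y hg
    calc g * u * g⁻¹ * x = g * (u * y) * g⁻¹ := by rw [hy]; group
      _ = g * (y * u) * g⁻¹ := by rw [h1]
      _ = x * (g * u * g⁻¹) := by rw [hy]; group
  · rw [← h.centralizer_eq hg hy1, Subgroup.mem_centralizer_singleton_iff]
    have h1 : (g * u * g⁻¹) * x = x * (g * u * g⁻¹) := h.comm _ hu x hx
    calc u * (g⁻¹ * x * g) = g⁻¹ * ((g * u * g⁻¹) * x) * g := by group
      _ = g⁻¹ * (x * (g * u * g⁻¹)) * g := by rw [h1]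
      _ = g⁻¹ * x * g * u := by group

theorem normStab_ne_bot (hn : ¬ Q.Normal) : normStab Q ω ≠ ⊥ := by
  intro hbot
  refine hn ?_
  rw [← h.eq_of_normalizer_comm (C := ⊤) le_top fun g _ hg x hx => ?_]
  · infer_instance
  obtain ⟨v, hv, hvs⟩ := h.mem_normStab hg
  rw [hbot, Subgroup.mem_bot] at hvs
  rw [← inv_mul_eq_one.1 hvs]
  exact h.comm v hv x hx

end RegularData

end CfsgLib.Derangements.SelfCentralRegular
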