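import Cfsg.Agent.Lib.Derangements.SelfCentralRegularBasic
import Cfsg.Agent.Lib.CharTheory.Inflation
import Cfsg.Agent.Lib.CharTheory.Ito
import Cfsg.Agent.Lib.CharTheory.Orthogonality
import Cfsg.Agent.Lib.CharTheory.PermChar
import Cfsg.Agent.Lib.CharTheory.Linear
import Cfsg.Agent.Lib.Coherence.Virtual
import Cfsg.Agent.Lib.Frobenius.Induce

/-!
# Coefficients on a regular abelian subgroup

Multiplicities of linear characters of an abelian subgroup `Q` in class functions, and the
function induced from a difference of two linear characters.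
-/

set_option autoImplicit false

open scoped ComplexConjugate

namespace CfsgLib.Derangements.SelfCentralRegular

open Cfsg MulAction CfsgLib.CharTheory

universe u

variable {Γ : Type u} [Group Γ] [Fintype Γ] (Q : Subgroup Γ)

/-- The multiplicity of the linear character `μ` in the restriction of `f` to `Q`. -/
noncomputable def coef (f : Γ → ℂ) (μ : Q →* ℂˣ) : ℂ :=
  letI : Fintype Q := Fintype.ofFinite Q
  classInner (fun x : Q => f x) (fun x => (μ x : ℂ))

variable {Q}

theorem coef_def [Fintype Q] (f : Γ → ℂ) (μ : Q →* ℂˣ) :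
    coef Q f μ = classInner (fun x : Q => f x) (fun x => (μ x : ℂ)) := by
  unfold coef classInner
  congr 1
  exact Finset.sum_congr (by ext; simp) (fun _ _ => rfl)

theorem coef_add (f g : Γ → ℂ) (μ : Q →* ℂˣ) : coef Q (f + g) μ = coef Q f μ + coef Q g μ := by
  classical
  haveI := Fintype.ofFinite Q
  rw [coef_def, coef_def, coef_def, ← classInner_add_left]; rfl

theorem coef_sub (f g : Γ → ℂ) (μ : Q →* ℂˣ) : coef Q (f - g) μ = coef Q f μ - coef Q g μ := by
  classical
  haveI := Fintype.ofFinite Q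
  rw [coef_def, coef_def, coef_def, ← classInner_sub_left]; rfl

theorem coef_smul (c : ℂ) (f : Γ → ℂ) (μ : Q →* ℂˣ) : coef Q (c • f) μ = c * coef Q f μ := by
  classical
  haveI := Fintype.ofFinite Q
  rw [coef_def, coef_def, ← classInner_smul_left]; rfl

theorem coef_sum {ι : Type*} (t : Finset ι) (f : ι → Γ → ℂ) (μ : Q →* ℂˣ) :
    coef Q (∑ i ∈ t, f i) μ = ∑ i ∈ t, coef Q (f i) μ := by
  classical
  induction t using Finset.induction_on with
  | empty =>
    haveI := Fintype.ofFinite Q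
    rw [Finset.sum_empty, Finset.sum_empty, coef_def]
    simp [classInner]
  | insert a t ha ih => rw [Finset.sum_insert ha, Finset.sum_insert ha, coef_add, ih]

theorem exists_coef_nat {f : Γ → ℂ} (hf : IsCharacter Γ f) (μ : Q →* ℂˣ) :
    ∃ k : ℕ, coef Q f μ = k := by
  classical
  haveI := Fintype.ofFinite Q
  rw [coef_def]
  exact IsCharacter.exists_classInner_eq_nat (CfsgLib.Coherence.isCharacter_comp hf Q.subtype)
    ⟨_, isIrrCharacter_linear μ⟩

/-- Every function on an abelian group is the combination of linear characters with its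
coefficients. -/
theorem eq_sum_coef (hQ : ∀ x ∈ Q, ∀ y ∈ Q, x * y = y * x) [Fintype (Q →* ℂˣ)] (f : Γ → ℂ)
    (x : Q) : f x = ∑ μ : Q →* ℂˣ, coef Q f μ * (μ x : ℂ) := by
  classical
  haveI := Fintype.ofFinite Q
  haveI := Fintype.ofFinite (IrrCharacter Q)
  have hcomm : ∀ a b : Q, a * b = b * a := fun a b => Subtype.ext (hQ a a.2 b b.2)
  let e : (Q →* ℂˣ) → IrrCharacter Q := fun μ => ⟨_, isIrrCharacter_linear μ⟩
  have he : Function.Bijective e := by
    refine ⟨fun μ ν hh => linear_inj (congrArg Subtype.val hh), fun θ => ?_⟩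
    obtain ⟨μ, hμ⟩ := exists_hom_of_degree_one θ.2 (apply_one_eq_one_of_comm hcomm θ.2)
    exact ⟨μ, Subtype.ext hμ.symm⟩
  have hcl : IsClassFunction Q (fun y : Q => f y) := fun g k => by
    simp only; rw [hcomm k g, mul_inv_cancel_right]
  have h := congrFun (eq_sum_classInner hcl) x
  rw [h, Finset.sum_apply, ← he.sum_comp]
  refine Finset.sum_congr rfl fun μ _ => ?_
  rw [coef_def]; rfl

theorem apply_one_eq_sum_coef (hQ : ∀ x ∈ Q, ∀ y ∈ Q, x * y = y * x) [Fintype (Q →* ℂˣ)]
    (f : Γ → ℂ) : f 1 = ∑ μ : Q →* ℂˣ, coef Q f μ := by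
  simpa using eq_sum_coef hQ f 1

theorem coef_one [DecidableEq (Q →* ℂˣ)] (μ : Q →* ℂˣ) :
    coef Q (fun _ : Γ => (1 : ℂ)) μ = if μ = 1 then 1 else 0 := by
  classical
  haveI := Fintype.ofFinite Q
  rw [coef_def]
  have h := classInner_irr (isIrrCharacter_linear (1 : Q →* ℂˣ)) (isIrrCharacter_linear μ)
  simp only [MonoidHom.one_apply, Units.val_one] at h
  rw [h]
  by_cases hμ : μ = 1
  · rw [if_pos hμ, if_pos]; subst hμ; simp
  · rw [if_neg hμ, if_neg]
    intro hh
    exact hμ (linear_inj (μ := μ) (ν := 1) (by rw [← hh]; simp))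

/-- The coefficient of `f` on `Q` only depends on the values on `Q`. -/
theorem coef_congr {f g : Γ → ℂ} (h : ∀ x ∈ Q, f x = g x) (μ : Q →* ℂˣ) : coef Q f μ = coef Q g μ := by
  classical
  haveI := Fintype.ofFinite Q
  rw [coef_def, coef_def]
  congr 1
  exact funext fun x => h x x.2

theorem coef_linear [DecidableEq (Q →* ℂˣ)] {f : Γ → ℂ} {ν : Q →* ℂˣ}
    (hf : ∀ x : Q, f x = (ν x : ℂ)) (μ : Q →* ℂˣ) : coef Q f μ = if ν = μ then 1 else 0 := by
  classical
  haveI := Fintype.ofFinite Q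
  rw [coef_def, show (fun x : Q => f x) = fun x => (ν x : ℂ) from funext hf,
    classInner_irr (isIrrCharacter_linear ν) (isIrrCharacter_linear μ)]
  by_cases h : ν = μ
  · rw [if_pos h, if_pos (by rw [h])]
  · rw [if_neg h, if_neg (fun hh => h (linear_inj hh))]

variable {q : ℕ} {Ω : Type*} [MulAction Γ Ω] {ω : Ω}

/-- Conjugation by an element of `normStab Q ω` on `Q`. -/
def conjHom (t : normStab Q ω) : Q →* Q where
  toFun x := ⟨(t : Γ) * x * (t : Γ)⁻¹, ((Subgroup.mem_normalizer_iff.1 t.2.1) x).1 x.2⟩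
  map_one' := by ext; simp
  map_mul' x y := by ext; simp [mul_assoc]

/-- The translate of a linear character. -/
noncomputable def translate (μ : Q →* ℂˣ) (t : normStab Q ω) : Q →* ℂˣ := μ.comp (conjHom t)

theorem translate_one (μ : Q →* ℂˣ) : translate μ (1 : normStab Q ω) = μ := by
  ext x
  simp only [translate, MonoidHom.comp_apply]
  congr 2
  ext
  show ((1 : normStab Q ω) : Γ) * x * ((1 : normStab Q ω) : Γ)⁻¹ = x
  simp

theorem translate_mul (μ : Q →* ℂˣ) (t t' : normStab Q ω) :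
    translate μ (t * t') = translate (translate μ t) t' := by
  ext x
  simp only [translate, MonoidHom.comp_apply]
  congr 2
  ext
  simp [conjHom, mul_assoc]

theorem RegularData.translate_injective [FaithfulSMul Γ Ω] (h : RegularData q Q ω) {μ : Q →* ℂˣ}
    (hμ : μ ≠ 1) : Function.Injective (translate μ : normStab Q ω → (Q →* ℂˣ)) := by
  intro t t' htt
  by_contra hne
  set u := t' * t⁻¹ with hu
  have hu1 : (u : Γ) ≠ 1 := fun h1 => hne ((mul_inv_eq_one.1 (Subtype.ext h1 : u = 1))).symm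
  have hfix : translate μ u = μ := by
    rw [hu, translate_mul, ← htt, ← translate_mul, mul_inv_cancel, translate_one]
  let D : Q → Q := fun x => conjHom u x * x⁻¹
  have hD : Function.Injective D := by
    intro x y hxy
    by_contra hxy'
    have h1 : ((u : Γ) * (x * (y : Γ)⁻¹) * (u : Γ)⁻¹) = x * (y : Γ)⁻¹ := by
      have h2 : conjHom u x * x⁻¹ = conjHom u y * y⁻¹ := hxy
      have hc : ∀ a b : Q, a * b = b * a := fun a b => Subtype.ext (h.comm a a.2 b b.2)
      have h3 : conjHom u (x * y⁻¹) = x * y⁻¹ := by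
        rw [map_mul, map_inv]
        calc conjHom u x * (conjHom u y)⁻¹ = (conjHom u x * x⁻¹) * x * (conjHom u y)⁻¹ := by group
          _ = (conjHom u y * y⁻¹) * x * (conjHom u y)⁻¹ := by rw [h2]
          _ = conjHom u y * (y⁻¹ * x) * (conjHom u y)⁻¹ := by group
          _ = x * y⁻¹ := by rw [hc (conjHom u y), mul_inv_cancel_right, hc]
      exact congrArg Subtype.val h3
    refine hu1 (h.fpf u u.2 _ (Q.mul_mem x.2 (Q.inv_mem y.2)) (mul_inv_eq_iff_eq_mul.1 h1) ?_)
    intro h2
    exact hxy' (Subtype.ext (mul_inv_eq_one.1 h2))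
  have hsurj := Finite.surjective_of_injective hD
  refine hμ (MonoidHom.ext fun y => ?_)
  obtain ⟨x, rfl⟩ := hsurj y
  show μ (conjHom u x * x⁻¹) = 1
  rw [map_mul, map_inv, mul_inv_eq_one]
  exact DFunLike.congr_fun hfix x

/-- Class functions have translation invariant coefficients. -/
theorem coef_translate {f : Γ → ℂ} (hf : IsClassFunction Γ f) (μ : Q →* ℂˣ) (t : normStab Q ω) :
    coef Q f (translate μ t) = coef Q f μ := by
  classical
  haveI := Fintype.ofFinite Q
  have hbij : Function.Bijective (conjHom t) := Finite.injective_iff_bijective.1 fun x y hxy => by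
    refine Subtype.ext ?_
    simpa [conjHom] using congrArg Subtype.val hxy
  rw [coef_def, coef_def]
  simp only [classInner]
  congr 1
  refine hbij.sum_comp (fun x : Q => f x * conj ((μ x : ℂ))) ▸ Finset.sum_congr rfl fun x _ => ?_
  show f x * conj ((μ (conjHom t x) : ℂ)) = f (conjHom t x : Γ) * conj ((μ (conjHom t x) : ℂ))
  rw [show f (conjHom t x : Γ) = f x from hf (x : Γ) t]

/-- The difference `μ - μ'` as a function on `Q`. -/
noncomputable def linDiff (μ μ' : Q →* ℂˣ) : Q → ℂ := fun x => (μ x : ℂ) - (μ' x : ℂ)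

/-- The restriction to `Q` of the function induced from `μ - μ'`. -/
theorem RegularData.indFun_linDiff_apply [FaithfulSMul Γ Ω] [Fintype (normStab Q ω)]
    (h : RegularData q Q ω) (μ μ' : Q →* ℂˣ) (x : Q) :
    indFun Q (linDiff μ μ') (x : Γ)
      = ∑ t : normStab Q ω, ((translate μ t x : ℂ) - (translate μ' t x : ℂ)) := by
  classical
  haveI := Fintype.ofFinite Q
  by_cases hx1 : x = 1
  · subst hx1
    rw [Subgroup.coe_one, CfsgLib.Frobenius.indFun_one]
    simp [linDiff]
  have hx1' : (x : Γ) ≠ 1 := fun hh => hx1 (Subtype.ext hh)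
  let e : Q × normStab Q ω → Γ := fun p => ((p.2 : Γ) * p.1)⁻¹
  have he : Function.Injective e := by
    rintro ⟨v, t⟩ ⟨v', t'⟩ hh
    have h1 : (t : Γ) * v = t' * v' := inv_injective hh
    have h3 : (v : Γ) * (v' : Γ)⁻¹ = (t : Γ)⁻¹ * t' := by
      calc (v : Γ) * (v' : Γ)⁻¹ = (t : Γ)⁻¹ * (t * v) * (v' : Γ)⁻¹ := by group
        _ = (t : Γ)⁻¹ * (t' * v') * (v' : Γ)⁻¹ := by rw [h1]
        _ = (t : Γ)⁻¹ * t' := by group
    have h4 : (v : Γ) * (v' : Γ)⁻¹ = 1 := h.free _ (Q.mul_mem v.2 (Q.inv_mem v'.2)) (by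
      rw [h3]; exact ((normStab Q ω).mul_mem ((normStab Q ω).inv_mem t.2) t'.2).2)
    have hv : v = v' := Subtype.ext (mul_inv_eq_one.1 h4)
    subst hv
    simp only [Prod.mk.injEq, true_and]
    exact Subtype.ext (mul_right_cancel h1)
  simp only [indFun]
  rw [← Finset.sum_subset (Finset.subset_univ (Finset.univ.image e)), Finset.sum_image he.injOn,
    Fintype.sum_prod_type, Finset.mul_sum]
  · have hterm : ∀ (v : Q) (t : normStab Q ω), extendByZero Q (linDiff μ μ') ((e (v, t))⁻¹ * x * e (v, t))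
        = (translate μ t x : ℂ) - (translate μ' t x : ℂ) := by
      intro v t
      have h1 : (e (v, t))⁻¹ * x * e (v, t) = ((conjHom t x : Q) : Γ) := by
        show (((t : Γ) * v)⁻¹)⁻¹ * x * ((t : Γ) * v)⁻¹ = (t : Γ) * x * (t : Γ)⁻¹
        rw [inv_inv, mul_inv_rev, mul_assoc (t : Γ), h.comm v v.2 x x.2]
        group
      rw [h1, CfsgLib.Frobenius.extendByZero_coe]
      rfl
    simp only [hterm, ← Finset.mul_sum]
    rw [Finset.sum_const, Finset.card_univ, nsmul_eq_mul, ← Nat.card_eq_fintype_card, ← mul_assoc,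
      inv_mul_cancel₀ (Nat.cast_ne_zero.2 Nat.card_pos.ne'), one_mul]
  · intro g _ hg
    refine CfsgLib.Frobenius.extendByZero_of_not_mem _ _ fun hmem => hg ?_
    obtain ⟨v, hv, hvt⟩ := h.mem_normStab (h.mem_normalizer_of_conj x.2 hx1' hmem)
    refine Finset.mem_image.2 ⟨(⟨v⁻¹, Q.inv_mem hv⟩, ⟨_, (normStab Q ω).inv_mem hvt⟩), Finset.mem_univ _, ?_⟩
    show ((v⁻¹ * g)⁻¹ * v⁻¹)⁻¹ = g
    group

end CfsgLib.Derangements.SelfCentralRegular
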