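import Mathlib
import Cfsg.Agent.Lib.Derangements.FixedSubspacesMain
import Cfsg.Agent.Lib.Zsigmondy.Basic

/-!
# Abelian subgroups of Singer order
-/

set_option autoImplicit false

open Module Polynomial

namespace CfsgLib.Derangements.SingerUnique

open CfsgLib.Derangements.SubFix

/-- Elementary Catalan: `q + 1` a power of two for a prime power `q` forces `q` prime. -/
lemma prime_of_succ_eq_two_pow {p f a : ℕ} (hp : p.Prime) (hf : f ≠ 0) (h : p ^ f + 1 = 2 ^ a) : f = 1 := by
  have h2 : 2 ≤ p ^ f := le_trans hp.two_le (Nat.le_self_pow hf p)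
  obtain ⟨b, rfl⟩ : ∃ b, a = b + 2 := ⟨a - 2, by
    have : 2 ≤ a := by
      by_contra hlt
      have := Nat.pow_le_pow_right (show 0 < 2 by norm_num) (show a ≤ 1 by omega)
      omega
    omega⟩
  have hodd : Odd p := by
    rcases hp.eq_two_or_odd' with rfl | h'
    · obtain ⟨g, rfl⟩ : ∃ g, f = g + 1 := ⟨f - 1, by omega⟩
      rw [pow_succ, pow_succ] at h
      omega
    · exact h'
  rcases Nat.even_or_odd f with ⟨g, rfl⟩ | ⟨g, rfl⟩
  · exfalso
    obtain ⟨t, ht⟩ := hodd.pow (n := g)
    rw [pow_add, ht, pow_succ, pow_succ, show (2 * t + 1) * (2 * t + 1) = 4 * (t * t + t) + 1 by ring] at h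
    omega
  · have hgeom : (∑ i ∈ Finset.range (2 * g + 1), (-(p : ℤ)) ^ i) * ((p : ℤ) + 1) = 2 ^ (b + 2) := by
      have h1 := geom_sum_mul (-(p : ℤ)) (2 * g + 1)
      rw [Odd.neg_pow ⟨g, rfl⟩] at h1
      have h3 : ((p : ℤ) ^ (2 * g + 1) + 1) = 2 ^ (b + 2) := by exact_mod_cast h
      linear_combination (-1 : ℤ) * h1 + h3
    have hodd' : Odd (∑ i ∈ Finset.range (2 * g + 1), (-(p : ℤ)) ^ i) := by
      have key : ∀ k : ℕ, (Even (∑ i ∈ Finset.range k, (-(p : ℤ)) ^ i) ↔ Even k) := by
        intro k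
        induction k with
        | zero => simp
        | succ k ih =>
          have ho : Odd ((-(p : ℤ)) ^ k) := (Odd.neg (by exact_mod_cast hodd)).pow
          rw [Finset.sum_range_succ, Int.even_add, ih, iff_false_right (Int.not_even_iff_odd.2 ho),
            Nat.even_add_one]
      rw [← Int.not_even_iff_odd, key]
      simp [parity_simps]
    set s := ∑ i ∈ Finset.range (2 * g + 1), (-(p : ℤ)) ^ i with hs
    have hu : IsUnit s := by
      obtain ⟨t, ht⟩ := hodd'
      have hco : IsCoprime s (2 : ℤ) := ⟨1, -t, by rw [ht]; ring⟩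
      exact (hco.pow_right (n := b + 2)).isUnit_of_dvd' dvd_rfl ⟨_, hgeom.symm⟩
    rcases Int.isUnit_iff.1 hu with hs1 | hs1
    · rw [hs1, one_mul] at hgeom
      have h4 : p + 1 = 2 ^ (b + 2) := by exact_mod_cast hgeom
      have h5 : p ^ (2 * g + 1) = p ^ 1 := by rw [pow_one]; omega
      exact Nat.pow_right_injective hp.two_le h5
    · rw [hs1] at hgeom
      have h4 : (0 : ℤ) < 2 ^ (b + 2) := by positivity
      have := hp.pos
      omega

variable {F K : Type*} [Field F] [Finite F] [Field K] [Finite K] [Algebra F K]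

lemma eq_top_of_inv {r : ℕ} [Fact r.Prime] {T : Module.End F K} (hT : T ^ r = 1) (hrF : (r : F) ≠ 0)
    (hord : orderOf (Nat.card F : ZMod r) = finrank F K) (hne : T ≠ 1) {A : Submodule F K} (hA : Inv T A)
    (hA0 : A ≠ ⊥) : A = ⊤ := by
  obtain ⟨hc, -, hr⟩ := decomp hT hrF
  have hn : 0 < finrank F K := Module.finrank_pos
  have hrange : LinearMap.range (T - 1) = ⊤ := by
    refine Submodule.eq_top_of_finrank_eq (le_antisymm (Submodule.finrank_le _) ?_)
    have hd := hr.dvd _ le_rfl (inv_range_sub_one T)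
    rw [hord] at hd
    refine Nat.le_of_dvd (Nat.pos_of_ne_zero fun h0 => hne ?_) hd
    rw [Submodule.finrank_eq_zero, LinearMap.range_eq_bot, sub_eq_zero] at h0
    exact h0
  have hd := hr.dvd A (hrange ▸ le_top) hA
  rw [hord] at hd
  refine Submodule.eq_top_of_finrank_eq (le_antisymm (Submodule.finrank_le _) ?_)
  exact Nat.le_of_dvd (Nat.pos_of_ne_zero fun h0 => hA0 (Submodule.finrank_eq_zero.1 h0)) hd

/-- An abelian subgroup containing an element of primitive prime order. -/
theorem exists_conj_eq_range {r : ℕ} [Fact r.Prime] (hrF : (r : F) ≠ 0)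
    (hord : orderOf (Nat.card F : ZMod r) = finrank F K) (U : Subgroup (Module.End F K)ˣ)
    (hU : IsMulCommutative U) (hcard : Nat.card U = Nat.card K - 1) (z : U) (hz : orderOf z = r) :
    ∃ g : (Module.End F K)ˣ, U.map (MulAut.conj g).toMonoidHom =
      (Units.map ((Algebra.lmul F K : K →ₐ[F] Module.End F K) : K →* Module.End F K)).range := by
  classical
  have hr : r.Prime := Fact.out
  set T : Module.End F K := ((z : (Module.End F K)ˣ) : Module.End F K) with hTdef
  have hT : T ^ r = 1 := by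
    rw [hTdef, ← Units.val_pow_eq_pow_val, ← SubmonoidClass.coe_pow, ← hz, pow_orderOf_eq_one]; simp
  have hne : T ≠ 1 := by
    intro h
    have h1 : z = 1 := Subtype.ext (Units.ext h)
    rw [h1, orderOf_one] at hz
    exact hr.one_lt.ne hz
  have hirr : ∀ h : Module.End F K, Commute T h → ∀ v : K, v ≠ 0 → h v = 0 → h = 0 := by
    intro h hc v hv hhv
    have hk : LinearMap.ker h = ⊤ := by
      refine eq_top_of_inv hT hrF hord hne (fun x hx => ?_) (fun hb => hv ?_)
      · show h (T x) = 0
        rw [← Module.End.mul_apply, ← hc.eq, Module.End.mul_apply, LinearMap.mem_ker.1 hx, map_zero]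
      · have : v ∈ LinearMap.ker h := hhv
        rwa [hb, Submodule.mem_bot] at this
    exact LinearMap.ker_eq_top.1 hk
  -- an irreducible factor of the minimal polynomial kills `T`
  have hint : IsIntegral F T := IsIntegral.of_finite F T
  obtain ⟨g, hgi, hgd⟩ := WfDvdMonoid.exists_irreducible_factor
    (a := minpoly F T) (minpoly.not_isUnit F T) (minpoly.ne_zero hint)
  obtain ⟨Q, hQ⟩ := hgd
  have hgT : aeval T g = 0 := by
    by_contra hg0
    have hQ0 : Q ≠ 0 := fun h => minpoly.ne_zero hint (by rw [hQ, h, mul_zero])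
    have hQT : aeval T Q ≠ 0 := fun h => by
      have h2 := minpoly.degree_le_of_ne_zero F T hQ0 h
      rw [hQ, degree_mul, degree_eq_natDegree hgi.ne_zero, degree_eq_natDegree hQ0, ← Nat.cast_add,
        Nat.cast_le] at h2
      have := hgi.natDegree_pos
      omega
    obtain ⟨w, hw⟩ : ∃ w, aeval T Q w ≠ 0 := by
      by_contra hall
      push Not at hall
      exact hQT (LinearMap.ext hall)
    refine hg0 (hirr _ ?_ _ hw ?_)
    · exact Algebra.commute_of_mem_adjoin_self (aeval_mem_adjoin_singleton F T)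
    · rw [← Module.End.mul_apply, ← map_mul, ← hQ, minpoly.aeval, LinearMap.zero_apply]
  have hgd : g ∣ (X : F[X]) ^ r - 1 :=
    (Dvd.intro Q hQ.symm).trans (minpoly.dvd F T (by simp [hT]))
  -- a root of it in `K`
  obtain ⟨ζ, hζ⟩ : ∃ ζ : K, aeval ζ g = 0 := by
    have hd : g.natDegree ∣ finrank F K := by
      rw [← hord]
      refine hgi.natDegree_dvd_of_dvd_X_pow_card_pow_sub_X (hgd.trans ?_)
      obtain ⟨k, hk⟩ := (dvd_pow_card_sub_one (F := F) (r := r) (orderOf (Nat.card F : ZMod r))).2 dvd_rfl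
      have hQ : Nat.card F ^ orderOf (Nat.card F : ZMod r) = r * k + 1 := by
        have : 1 ≤ Nat.card F ^ orderOf (Nat.card F : ZMod r) := Nat.one_le_pow _ _ Nat.card_pos
        omega
      rw [hQ, pow_succ, show (X : F[X]) ^ (r * k) * X - X = (((X : F[X]) ^ r) ^ k - 1) * X by
        rw [← pow_mul]; ring]
      exact (sub_one_dvd_pow_sub_one _ k).mul_right _
    have : Fact (Irreducible g) := ⟨hgi⟩
    have : FiniteDimensional F (AdjoinRoot g) := (AdjoinRoot.powerBasis hgi.ne_zero).finite
    obtain ⟨φ⟩ := FiniteField.nonempty_algHom_of_finrank_dvd (F := F) (K := AdjoinRoot g) (L := K) (by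
      rwa [(AdjoinRoot.powerBasis hgi.ne_zero).finrank, AdjoinRoot.powerBasis_dim])
    exact ⟨φ (AdjoinRoot.root g), by rw [aeval_algHom_apply, AdjoinRoot.aeval_eq, AdjoinRoot.mk_self, map_zero]⟩
  have hζr : ζ ^ r = 1 := by
    obtain ⟨R, hR⟩ := hgd
    have h1 : aeval ζ ((X : F[X]) ^ r - 1) = 0 := by rw [hR, map_mul, hζ, zero_mul]
    simpa [sub_eq_zero] using h1
  have hζ1 : ζ ≠ 1 := by
    intro h
    rw [h] at hζ
    obtain ⟨R, hR⟩ : X - C (1 : F) ∣ g := dvd_iff_isRoot.2 (by
      rw [IsRoot.def]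
      refine (algebraMap F K).injective ?_
      rw [map_zero, ← Polynomial.aeval_algebraMap_apply_eq_algebraMap_eval, map_one]; exact hζ)
    rcases hgi.isUnit_or_isUnit hR with hu | hu
    · exact not_isUnit_X_sub_C 1 hu
    · obtain ⟨a, ha, rfl⟩ := Polynomial.isUnit_iff.1 hu
      rw [hR, map_mul, map_sub, aeval_X, aeval_C, aeval_C, map_one, Algebra.algebraMap_eq_smul_one,
        mul_smul_comm, mul_one, smul_eq_zero] at hgT
      exact hne (sub_eq_zero.1 (hgT.resolve_left ha.ne_zero))
  have hmulT : (Algebra.lmul F K ζ) ^ r = 1 := by rw [← map_pow, hζr, map_one]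
  have hmulne : Algebra.lmul F K ζ ≠ 1 := fun h => hζ1 (by simpa using congrArg (fun f : Module.End F K => f 1) h)
  -- `ζ` generates `K`
  have hadj : Algebra.adjoin F {ζ} = ⊤ := by
    rw [← Algebra.toSubmodule_eq_top]
    refine eq_top_of_inv hmulT hrF hord hmulne (fun x hx => ?_) ?_
    · exact (Algebra.adjoin F {ζ}).mul_mem (Algebra.self_mem_adjoin_singleton F ζ) hx
    · intro h
      have : (1 : K) ∈ Subalgebra.toSubmodule (Algebra.adjoin F {ζ}) := one_mem (Algebra.adjoin F {ζ})
      rw [h, Submodule.mem_bot] at this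
      exact one_ne_zero this
  set pb := PowerBasis.ofAdjoinEqTop (IsIntegral.of_finite F ζ) hadj with hpb
  have hmin : aeval T (minpoly F pb.gen) = 0 := by
    rw [hpb, PowerBasis.ofAdjoinEqTop_gen]
    obtain ⟨R, hR⟩ := (minpoly.irreducible (IsIntegral.of_finite F ζ)).dvd_symm hgi (minpoly.dvd F ζ hζ)
    rw [hR, map_mul, hgT, zero_mul]
  set φ : K →ₐ[F] Module.End F K := pb.lift T hmin with hφ
  have hφζ : φ ζ = T := by
    have := pb.lift_gen T hmin
    rwa [PowerBasis.ofAdjoinEqTop_gen] at this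
  let ψ : Module.End F K := (LinearMap.applyₗ (1 : K)).comp φ.toLinearMap
  have hψ : Function.Injective ψ := by
    rw [injective_iff_map_eq_zero]
    intro k hk
    by_contra hk0
    have h1 : φ k⁻¹ (φ k 1) = 1 := by
      rw [← Module.End.mul_apply, ← map_mul, inv_mul_cancel₀ hk0, map_one φ]
      rfl
    change φ k 1 = 0 at hk
    rw [hk, map_zero] at h1
    exact zero_ne_one h1
  let e : K ≃ₗ[F] K := LinearEquiv.ofBijective ψ ⟨hψ, LinearMap.injective_iff_surjective.1 hψ⟩
  have he : ∀ k x : K, φ k (e x) = e (k * x) := fun k x => by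
    show φ k (φ x 1) = φ (k * x) 1
    rw [map_mul, Module.End.mul_apply]
  refine ⟨⟨e.symm.toLinearMap, e.toLinearMap, LinearMap.ext fun x => e.symm_apply_apply x,
    LinearMap.ext fun x => e.apply_symm_apply x⟩, ?_⟩
  have : Finite (Module.End F K) := Module.finite_of_finite F
  apply Subgroup.eq_of_le_of_card_ge
  · rintro _ ⟨h, hh, rfl⟩
    have hcomm : Commute T (h : Module.End F K) := by
      have h1 : (z : (Module.End F K)ˣ) * h = h * (z : (Module.End F K)ˣ) :=
        congrArg Subtype.val (hU.is_comm.comm z ⟨h, hh⟩)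
      exact congrArg Units.val h1
    set h' : Module.End F K := (e.symm.toLinearMap * (h : Module.End F K) * e.toLinearMap) with hh'
    have hcomm' : ∀ x, h' (ζ * x) = ζ * h' x := by
      intro x
      show e.symm ((h : Module.End F K) (e (ζ * x))) = ζ * e.symm ((h : Module.End F K) (e x))
      apply e.injective
      rw [e.apply_symm_apply, ← he, ← he, e.apply_symm_apply, hφζ, ← Module.End.mul_apply,
        ← Module.End.mul_apply, hcomm.eq]
    have hlin : ∀ k : K, h' k = k * h' 1 := by
      intro k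
      have hk : k ∈ Algebra.adjoin F {ζ} := by rw [hadj]; exact Algebra.mem_top
      have hall : ∀ y ∈ Algebra.adjoin F {ζ}, ∀ x, h' (y * x) = y * h' x := by
        intro y hy
        induction hy using Algebra.adjoin_induction with
        | mem a ha => rw [Set.mem_singleton_iff.1 ha]; exact hcomm'
        | algebraMap a => intro x; rw [← Algebra.smul_def, ← Algebra.smul_def, map_smul]
        | add a b _ _ iha ihb => intro x; rw [add_mul, map_add, iha, ihb, add_mul]
        | mul a b _ _ iha ihb => intro x; rw [mul_assoc, iha, ihb, mul_assoc]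
      simpa using hall k hk 1
    have h10 : h' 1 ≠ 0 := by
      intro h0
      have h1 : (h : Module.End F K) (e 1) = 0 := e.symm.map_eq_zero_iff.1 h0
      have h2 := congrArg (fun f : Module.End F K => f (e 1)) h.inv_mul
      simp only [Module.End.mul_apply, h1, map_zero, Module.End.one_apply] at h2
      exact one_ne_zero (e.map_eq_zero_iff.1 h2.symm)
    refine ⟨Units.mk0 _ h10, Units.ext (LinearMap.ext fun k => ?_)⟩
    show h' 1 * k = h' k
    rw [hlin k, mul_comm]
  · rw [Nat.card_congr (U.equivMapOfInjective _ (MulEquiv.injective _)).toEquiv.symm, hcard, ← Nat.card_units K]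
    exact Nat.card_le_card_of_surjective _ (MonoidHom.rangeRestrict_surjective _)

end CfsgLib.Derangements.SingerUnique
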