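import Mathlib

/-!
# The subgroup generated by the derangements of a transitive group

Let `G` be a finite transitive permutation group and `D` a normal subgroup of index `m`
containing every derangement.  Counting fixed points shows that `D` is transitive and that
every element outside `D` fixes exactly one point.  From this, Sylow's theorems and the
Frattini argument show that, unless `(m + 1) ^ 2 ≤ n`, the degree `n` is a prime power and a
Sylow subgroup of `D` is regular and elementary abelian.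
-/

set_option autoImplicit false

namespace CfsgLib.Derangements.UniqueFixed

open MulAction
open scoped Pointwise

/-- A proper divisor of `n` congruent to one modulo `m`, when `n` is congruent to one too. -/
theorem sq_le_of_dvd {m n b : ℕ} (hn : b ∣ n) (hb : 1 < b) (hbn : b < n) (hmb : m ∣ b - 1)
    (hmn : m ∣ n - 1) : (m + 1) ^ 2 ≤ n := by
  obtain ⟨c, rfl⟩ := hn
  have hc : 1 < c := by
    rcases c with _ | _ | c
    · simp at hbn
    · simp at hbn
    · omega
  have h1 : b * c - 1 = (b - 1) * c + (c - 1) := by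
    obtain ⟨b', rfl⟩ : ∃ b', b = b' + 1 := ⟨b - 1, by omega⟩
    rw [Nat.add_mul, one_mul, Nat.add_sub_cancel]; omega
  have hmc : m ∣ c - 1 := (Nat.dvd_add_right (hmb.mul_right c)).1 (h1 ▸ hmn)
  have hb' : m + 1 ≤ b := by have := Nat.le_of_dvd (by omega) hmb; omega
  have hc' : m + 1 ≤ c := by have := Nat.le_of_dvd (by omega) hmc; omega
  rw [sq]; exact Nat.mul_le_mul hb' hc'

/-- If all point stabilisers lie in `N`, the index of `N` divides the number of points. -/
theorem index_dvd_card_of_stabilizer_le {A X : Type*} [Group A] [MulAction A X] [Finite X]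
    (N : Subgroup A) (h : ∀ x : X, stabilizer A x ≤ N) : N.index ∣ Nat.card X := by
  classical
  haveI := Fintype.ofFinite (orbitRel.Quotient A X)
  rw [Nat.card_congr (selfEquivSigmaOrbits A X), Nat.card_sigma]
  refine Finset.dvd_sum fun ω _ => ?_
  rw [show Nat.card (orbit A ω.out) = (orbit A ω.out).ncard from rfl, ← index_stabilizer]
  exact Subgroup.index_dvd_of_le (h _)

/-- If moreover a subgroup `Z` of `N` acts semiregularly, `[A : N] * |Z|` points are needed. -/
theorem index_mul_card_le {A X : Type*} [Group A] [Finite A] [MulAction A X] [Finite X]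
    [Nonempty X] (N Z : Subgroup A) (h : ∀ x : X, stabilizer A x ≤ N) (hZN : Z ≤ N)
    (hZ : ∀ x : X, ∀ z ∈ Z, z • x = x → z = 1) : N.index * Nat.card Z ≤ Nat.card X := by
  obtain ⟨x⟩ := ‹Nonempty X›
  have h1 : Nat.card Z ≤ (stabilizer A x).relIndex N := by
    refine Nat.card_le_card_of_injective
      (fun z : Z => (QuotientGroup.mk (⟨z, hZN z.2⟩ : N) : N ⧸ (stabilizer A x).subgroupOf N)) ?_
    intro z w hzw
    rw [QuotientGroup.eq, Subgroup.mem_subgroupOf] at hzw
    have := hZ x _ (Z.mul_mem (Z.inv_mem z.2) w.2) (by simpa [mem_stabilizer_iff] using hzw)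
    exact Subtype.ext (inv_mul_eq_one.1 this)
  have h2 := Subgroup.relIndex_mul_index (h x)
  calc N.index * Nat.card Z ≤ N.index * (stabilizer A x).relIndex N := Nat.mul_le_mul_left _ h1
    _ = (orbit A x).ncard := by rw [mul_comm, h2, index_stabilizer]
    _ ≤ Nat.card X := Set.ncard_le_card _

section Cover

variable {G : Type*} [Group G] {D : Subgroup G} [D.Normal]

/-- A subgroup supplementing `D` has a relative index equal to the index of `D`. -/
theorem relIndex_of_cover {A : Subgroup G} (hA : A ⊔ D = ⊤) : D.relIndex A = D.index := by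
  rw [← Subgroup.relIndex_sup_right (H := A) (K := D), hA, Subgroup.relIndex_top_right]

theorem exists_of_cover {A : Subgroup G} (hA : A ⊔ D = ⊤) (g : G) :
    ∃ a ∈ A, ∃ d ∈ D, a * d = g :=
  Subgroup.mem_sup_of_normal_right.1 (hA ▸ Subgroup.mem_top g)

theorem not_le_of_cover {A : Subgroup G} (hA : A ⊔ D = ⊤) (hD : D ≠ ⊤) : ¬ A ≤ D :=
  fun h => hD (top_le_iff.1 (hA ▸ sup_le h le_rfl))

theorem cover_mono {A B : Subgroup G} (hA : A ⊔ D = ⊤) (hAB : A ≤ B) : B ⊔ D = ⊤ :=
  top_le_iff.1 (hA ▸ sup_le_sup_right hAB D)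

end Cover

variable {G Ω : Type*} [Group G] [Finite G] [MulAction G Ω] [Finite Ω] [IsPretransitive G Ω]
  {D : Subgroup G}

omit [Finite Ω] in
theorem fixedBy_nonempty (hD : ∀ g : G, (∀ ω : Ω, g • ω ≠ ω) → g ∈ D) {g : G} (hg : g ∉ D) :
    ∃ ω : Ω, g • ω = ω := by
  by_contra h
  exact hg (hD g fun ω hω => h ⟨ω, hω⟩)

/-- The counting argument: outside `D` exactly one fixed point, and `D` is transitive. -/
theorem card_fixedBy_eq_one_and_transitive [Nonempty Ω]
    (hD : ∀ g : G, (∀ ω : Ω, g • ω ≠ ω) → g ∈ D) :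
    (∀ g : G, g ∉ D → Nat.card (fixedBy Ω g) = 1) ∧ IsPretransitive D Ω := by
  classical
  haveI := Fintype.ofFinite G
  haveI := Fintype.ofFinite Ω
  haveI := Fintype.ofFinite (orbitRel.Quotient G Ω)
  haveI := Fintype.ofFinite (orbitRel.Quotient D Ω)
  haveI : Subsingleton (orbitRel.Quotient G Ω) :=
    (pretransitive_iff_subsingleton_quotient G Ω).1 inferInstance
  have hG : ∑ g : G, Nat.card (fixedBy Ω g) = Fintype.card G := by
    simp only [Nat.card_eq_fintype_card]
    rw [sum_card_fixedBy_eq_card_orbits_mul_card_group G Ω,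
      Fintype.card_eq_one_iff_nonempty_unique.2 ⟨uniqueOfSubsingleton
        (Quotient.mk'' (Classical.arbitrary Ω))⟩, one_mul]
  have hDs : ∑ g ∈ Finset.univ.filter (· ∈ D), Nat.card (fixedBy Ω g)
      = Fintype.card (orbitRel.Quotient D Ω) * Fintype.card D := by
    rw [Finset.sum_subtype (p := (· ∈ D)) (Finset.univ.filter (· ∈ D)) (by simp)
      (fun g => Nat.card (fixedBy Ω g))]
    simp only [Nat.card_eq_fintype_card]
    exact sum_card_fixedBy_eq_card_orbits_mul_card_group D Ω
  have hcard : Fintype.card D + (Finset.univ.filter (· ∉ D)).card = Fintype.card G := by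
    rw [Fintype.card_subtype, Finset.card_filter_add_card_filter_not]; rfl
  have hpos : 1 ≤ Fintype.card (orbitRel.Quotient D Ω) :=
    Fintype.card_pos_iff.2 ⟨Quotient.mk'' (Classical.arbitrary Ω)⟩
  have hge : ∀ g ∈ Finset.univ.filter (· ∉ D), 1 ≤ Nat.card (fixedBy Ω g) := by
    intro g hg
    obtain ⟨ω, hω⟩ := fixedBy_nonempty hD (Finset.mem_filter.1 hg).2
    exact Nat.one_le_iff_ne_zero.2 (Nat.card_ne_zero.2 ⟨⟨⟨ω, hω⟩⟩, inferInstance⟩)
  have hsplit := Finset.sum_filter_add_sum_filter_not Finset.univ (· ∈ D)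
    (fun g : G => Nat.card (fixedBy Ω g))
  rw [hG, hDs, ← hcard] at hsplit
  have hge' : (Finset.univ.filter (· ∉ D)).card
      ≤ ∑ g ∈ Finset.univ.filter (· ∉ D), Nat.card (fixedBy Ω g) :=
    (Finset.card_eq_sum_ones _).le.trans (Finset.sum_le_sum hge)
  have hDpos : 0 < Fintype.card D := Fintype.card_pos
  have hmul := Nat.mul_le_mul_right (Fintype.card D) hpos
  have h1 : Fintype.card (orbitRel.Quotient D Ω) = 1 := by
    refine Nat.eq_of_mul_eq_mul_right hDpos ?_
    rw [one_mul] at hmul ⊢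
    omega
  have h2 : ∑ g ∈ Finset.univ.filter (· ∉ D), 1
      = ∑ g ∈ Finset.univ.filter (· ∉ D), Nat.card (fixedBy Ω g) := by
    rw [← Finset.card_eq_sum_ones]; rw [one_mul] at hmul; omega
  refine ⟨fun g hg => (((Finset.sum_eq_sum_iff_of_le hge).1 h2) g (by simp [hg])).symm, ?_⟩
  exact (pretransitive_iff_subsingleton_quotient D Ω).2 (Fintype.card_le_one_iff_subsingleton.1 h1.le)

variable (hU : ∀ g : G, g ∉ D → Nat.card (fixedBy Ω g) = 1)
include hU

omit [Finite G] [IsPretransitive G Ω] in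
theorem eq_of_fixed {g : G} (hg : g ∉ D) {α β : Ω} (hα : g • α = α) (hβ : g • β = β) : α = β := by
  haveI : Subsingleton (fixedBy Ω g) := (Nat.card_eq_one_iff_unique.1 (hU g hg)).1
  exact congrArg Subtype.val (Subsingleton.elim (⟨α, hα⟩ : fixedBy Ω g) ⟨β, hβ⟩)

omit [IsPretransitive G Ω] in
/-- An invariant set avoiding the fixed point of a covering subgroup has size divisible by `m`. -/
theorem index_dvd_card [D.Normal] {A : Subgroup G} (hA : A ⊔ D = ⊤) (X : Set Ω)
    (hX : ∀ a ∈ A, ∀ x ∈ X, a • x ∈ X) (hst : ∀ x ∈ X, ∀ a ∈ A, a • x = x → a ∈ D) :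
    D.index ∣ X.ncard := by
  let S : SubMulAction A Ω := ⟨X, fun a x hx => hX a a.2 x hx⟩
  haveI : Finite S := inferInstanceAs (Finite X)
  have h := index_dvd_card_of_stabilizer_le (A := A) (X := S) (D.subgroupOf A) fun x a ha => by
    rw [Subgroup.mem_subgroupOf]
    exact hst x x.2 a a.2 (congrArg Subtype.val (mem_stabilizer_iff.1 ha))
  rwa [show (D.subgroupOf A).index = D.index from relIndex_of_cover hA] at h

omit [IsPretransitive G Ω] in
/-- A covering subgroup fixing `β`: invariant sets through `β` have size `1` modulo `m`. -/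
theorem index_dvd_card_sub_one [D.Normal] {A : Subgroup G} (hA : A ⊔ D = ⊤) {β : Ω}
    (hβ : A ≤ stabilizer G β) (X : Set Ω) (hX : ∀ a ∈ A, ∀ x ∈ X, a • x ∈ X) (hβX : β ∈ X) :
    D.index ∣ X.ncard - 1 := by
  rw [← Set.ncard_diff_singleton_of_mem hβX]
  refine index_dvd_card hU hA _ (fun a ha x hx => ⟨hX a ha x hx.1, fun h => hx.2 ?_⟩)
    (fun x hx a ha hax => by_contra fun h => hx.2 (eq_of_fixed hU h hax (hβ ha)))
  exact (MulAction.injective a) (h.trans (hβ ha).symm)

omit [IsPretransitive G Ω] in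
/-- The elements outside `D` of a subgroup `A` whose fixed point lies in a given `A`-orbit. -/
theorem card_fixing_orbit [D.Normal] (A : Subgroup G) (β : Ω) :
    Nat.card {a : A // (a : G) ∉ D ∧ ∃ γ ∈ orbit A β, a • γ = γ}
      + Nat.card (orbit A β) * Nat.card (D.subgroupOf A ⊓ stabilizer A β : Subgroup A)
      = Nat.card A := by
  classical
  haveI := Fintype.ofFinite A
  let f : (Σ γ : orbit A β, {a : A // (a : G) ∉ D ∧ a • (γ : Ω) = γ}) →
      {a : A // (a : G) ∉ D ∧ ∃ γ ∈ orbit A β, a • γ = γ} :=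
    fun x => ⟨x.2.1, x.2.2.1, x.1, x.1.2, x.2.2.2⟩
  have hf : Function.Bijective f := by
    constructor
    · rintro ⟨⟨γ, hγ⟩, a, ha, haγ⟩ ⟨⟨δ, hδ⟩, b, hb, hbδ⟩ h
      obtain rfl : a = b := congrArg Subtype.val h
      obtain rfl : γ = δ := eq_of_fixed hU (g := (a : G)) ha haγ hbδ
      rfl
    · rintro ⟨a, ha, γ, hγ, haγ⟩
      exact ⟨⟨⟨γ, hγ⟩, a, ha, haγ⟩, rfl⟩
  have hfib : ∀ γ : orbit A β, Nat.card {a : A // (a : G) ∉ D ∧ a • (γ : Ω) = γ}
      = Nat.card {a : A // (a : G) ∉ D ∧ a • β = β} := by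
    rintro ⟨γ, b, rfl⟩
    refine Nat.card_congr ((MulAut.conj b⁻¹).toEquiv.subtypeEquiv fun a => ?_)
    simp only [MulEquiv.toEquiv_eq_coe, EquivLike.coe_coe, MulAut.conj_apply, inv_inv]
    refine and_congr (not_congr ?_) ?_
    · simp only [Subgroup.coe_mul, Subgroup.coe_inv]
      rw [mul_assoc, (inferInstance : D.Normal).mem_comm_iff, mul_assoc, mul_inv_cancel, mul_one]
    · rw [mul_smul, mul_smul, inv_smul_eq_iff]
  haveI := Fintype.ofFinite (orbit A β)
  rw [← Nat.card_congr (Equiv.ofBijective f hf), Nat.card_sigma,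
    Finset.sum_congr rfl (fun γ _ => hfib γ), Finset.sum_const, smul_eq_mul, Finset.card_univ,
    ← Nat.card_eq_fintype_card, ← Nat.mul_add]
  have hsum : Nat.card {a : A // (a : G) ∉ D ∧ a • β = β}
      + Nat.card (D.subgroupOf A ⊓ stabilizer A β : Subgroup A)
      = Nat.card (stabilizer A β) := by
    rw [← Nat.card_congr (Equiv.sumCompl
      (fun a : stabilizer A β => ((a : A) : G) ∈ D)), Nat.card_sum, add_comm]
    congr 1
    · exact Nat.card_congr
        { toFun := fun a => ⟨⟨a.1, a.2.2⟩, a.2.1⟩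
          invFun := fun a => ⟨a.1.1, a.2, a.1.2⟩
          left_inv := fun _ => rfl
          right_inv := fun _ => rfl }
    · exact Nat.card_congr
        { toFun := fun a => ⟨⟨a.1, a.2.2⟩, a.2.1⟩
          invFun := fun a => ⟨a.1.1, a.2, a.1.2⟩
          left_inv := fun _ => rfl
          right_inv := fun _ => rfl }
  rw [hsum, ← Nat.card_prod]
  exact Nat.card_congr (orbitProdStabilizerEquivGroup A β)

omit [IsPretransitive G Ω] in
/-- A covering subgroup has a covering point stabiliser, in every invariant set of size not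
divisible by the index. -/
theorem exists_cover_stabilizer [D.Normal] {A : Subgroup G} (hA : A ⊔ D = ⊤) (Y : Set Ω)
    (hY : ∀ a ∈ A, ∀ y ∈ Y, a • y ∈ Y) (hmod : ¬ D.index ∣ Y.ncard) :
    ∃ β ∈ Y, (A ⊓ stabilizer G β) ⊔ D = ⊤ := by
  classical
  haveI := Fintype.ofFinite A
  obtain ⟨β, hβY, a₀, ha₀A, ha₀β, ha₀D⟩ :
      ∃ β ∈ Y, ∃ a ∈ A, a • β = β ∧ a ∉ D := by
    by_contra h
    push Not at h
    exact hmod (index_dvd_card hU hA Y hY h)
  refine ⟨β, hβY, ?_⟩
  set N : Subgroup A := D.subgroupOf A with hN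
  -- an orbit with fixed points of elements outside `D` accounts for at least half of `A`
  have half : ∀ γ : Ω, (∃ a : A, (a : G) ∉ D ∧ a • γ = γ) →
      2 * (Nat.card (orbit A γ) * Nat.card (N ⊓ stabilizer A γ : Subgroup A)) ≤ Nat.card A := by
    rintro γ ⟨a, ha, haγ⟩
    have hlt : Nat.card (N ⊓ stabilizer A γ : Subgroup A) < Nat.card (stabilizer A γ) :=
      lt_of_le_of_ne (Subgroup.card_le_of_le inf_le_right) fun h =>
        ha (Subgroup.mem_subgroupOf.1 ((Subgroup.eq_of_le_of_card_ge inf_le_right h.ge).ge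
          (mem_stabilizer_iff.2 haγ)).1)
    obtain ⟨c, hc⟩ := Subgroup.card_dvd_of_le
      (inf_le_right : N ⊓ stabilizer A γ ≤ stabilizer A γ)
    have hc2 : 2 ≤ c := by
      rcases c with _ | _ | c
      · exact absurd (hc.trans (Nat.mul_zero _)) Nat.card_pos.ne'
      · omega
      · omega
    rw [← Nat.card_congr (orbitProdStabilizerEquivGroup A γ), Nat.card_prod, hc]
    calc 2 * (Nat.card (orbit A γ) * Nat.card (N ⊓ stabilizer A γ : Subgroup A))
        = Nat.card (orbit A γ) * (Nat.card (N ⊓ stabilizer A γ : Subgroup A) * 2) := by ring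
      _ ≤ _ := Nat.mul_le_mul_left _ (Nat.mul_le_mul_left _ hc2)
  have hNlt : Nat.card {a : A // (a : G) ∉ D} + Nat.card N = Nat.card A := by
    rw [← Nat.card_congr (Equiv.sumCompl (fun a : A => (a : G) ∈ D)), Nat.card_sum, add_comm]
    rfl
  have hcountβ := card_fixing_orbit hU A β
  -- so the fixed point of any element of `A` outside `D` is in the orbit of `β`
  have hall : ∀ a : A, (a : G) ∉ D → ∃ γ ∈ orbit A β, a • γ = γ := by
    intro a ha
    obtain ⟨⟨γ, hγ⟩⟩ := (Nat.card_eq_one_iff_unique.1 (hU _ ha)).2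
    refine ⟨γ, by_contra fun hout => ?_, hγ⟩
    have hcountγ := card_fixing_orbit hU A γ
    let j : {a : A // (a : G) ∉ D ∧ ∃ δ ∈ orbit A β, a • δ = δ} ⊕
        {a : A // (a : G) ∉ D ∧ ∃ δ ∈ orbit A γ, a • δ = δ} → {a : A // (a : G) ∉ D} :=
      Sum.elim (fun x => ⟨x.1, x.2.1⟩) (fun x => ⟨x.1, x.2.1⟩)
    have hj : Function.Injective j := by
      have key : ∀ x y : A, (x : G) ∉ D → (∃ δ ∈ orbit A β, x • δ = δ) →
          (∃ δ ∈ orbit A γ, y • δ = δ) → x ≠ y := by
        rintro x _ hx ⟨δ, hδ, hxδ⟩ ⟨δ', hδ', hxδ'⟩ rfl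
        obtain rfl : δ = δ' := eq_of_fixed hU hx hxδ hxδ'
        refine hout ?_
        rw [← orbit_eq_iff.2 hδ, orbit_eq_iff.2 hδ']
        exact mem_orbit_self γ
      rintro (x | x) (y | y) h <;> simp only [j, Sum.elim_inl, Sum.elim_inr, Subtype.ext_iff] at h
      · exact congrArg Sum.inl (Subtype.ext (Subtype.ext h))
      · exact absurd (Subtype.ext h) (key _ _ x.2.1 x.2.2 y.2.2)
      · exact absurd (Subtype.ext h.symm) (key _ _ y.2.1 y.2.2 x.2.2)
      · exact congrArg Sum.inr (Subtype.ext (Subtype.ext h))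
    have hle := Nat.card_le_card_of_injective j hj
    rw [Nat.card_sum] at hle
    rw [← hN] at hcountγ hcountβ
    have h1 := half β ⟨⟨a₀, ha₀A⟩, ha₀D, ha₀β⟩
    have h2 := half γ ⟨a, ha, hγ⟩
    have : 0 < Nat.card N := Nat.card_pos
    omega
  have hbij : Nat.card {a : A // (a : G) ∉ D ∧ ∃ γ ∈ orbit A β, a • γ = γ}
      = Nat.card {a : A // (a : G) ∉ D} :=
    Nat.card_congr (Equiv.subtypeEquivRight fun a => ⟨And.left, fun h => ⟨h, hall a h⟩⟩)
  -- hence `D ⊓ A` is transitive on this orbit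
  have hO : Nat.card (orbit A β) * Nat.card (N ⊓ stabilizer A β : Subgroup A) = Nat.card N := by
    rw [hN] at hNlt ⊢; omega
  refine top_le_iff.1 (hA ▸ sup_le (fun a ha => ?_) le_sup_right)
  have himg : ∀ γ ∈ orbit A β, ∃ d ∈ N, d • β = γ := by
    have h1 : Nat.card (orbit N β) = Nat.card (orbit A β) := by
      have h2 := Nat.card_congr (orbitProdStabilizerEquivGroup N β)
      rw [Nat.card_prod] at h2
      have h3 : Nat.card (stabilizer N β) = Nat.card (N ⊓ stabilizer A β : Subgroup A) :=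
        Nat.card_congr
          { toFun := fun d => ⟨d.1.1, d.1.2, d.2⟩
            invFun := fun d => ⟨⟨d.1, d.2.1⟩, d.2.2⟩
            left_inv := fun _ => rfl
            right_inv := fun _ => rfl }
      rw [h3, ← hO] at h2
      exact Nat.eq_of_mul_eq_mul_right Nat.card_pos h2
    have hsub : orbit N β ⊆ orbit A β := by rintro _ ⟨d, rfl⟩; exact ⟨(d : A), rfl⟩
    have := Set.eq_of_subset_of_ncard_le hsub (by
      rw [← Nat.card_coe_set_eq, ← Nat.card_coe_set_eq, h1])
    intro γ hγ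
    obtain ⟨d, hd⟩ := this.ge hγ
    exact ⟨d, d.2, hd⟩
  obtain ⟨d, hd, hdβ⟩ := himg (a • β) ⟨⟨a, ha⟩, rfl⟩
  have hd' : (d : G) ∈ D := Subgroup.mem_subgroupOf.1 hd
  rw [show a = (d : G) * ((d : G)⁻¹ * a) by group]
  refine Subgroup.mul_mem _ (Subgroup.mem_sup_right hd') (Subgroup.mem_sup_left ⟨?_, ?_⟩)
  · exact A.mul_mem (A.inv_mem d.2) ha
  · show ((d : G)⁻¹ * a) • β = β
    rw [mul_smul, inv_smul_eq_iff]
    exact hdβ.symm

end CfsgLib.Derangements.UniqueFixed
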