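import Cfsg.Agent.Lib.Derangements.FixedPointOutside
import Cfsg.Agent.Lib.Derangements.SelfCentralRegular

/-!
# The dichotomy for derangement subgroups of large index

A transitive group of degree `n ≥ 2 ^ 1024` with a normal subgroup `D` of index `m` containing
every derangement either satisfies `(m + 1) ^ 2 ≤ n` or is a primitive Frobenius group.
-/

set_option autoImplicit false

namespace CfsgLib.Derangements.UniqueFixed

open MulAction
open scoped Pointwise

universe u

variable {G : Type u} [Group G] [Finite G] {Ω : Type*} [MulAction G Ω] [Finite Ω]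
  [IsPretransitive G Ω] [FaithfulSMul G Ω] {D : Subgroup G} [D.Normal]

/-- `Q` as a vector space: the covering part of the normaliser is fixed point free on it. -/
theorem fpf_of_irreducible {q : ℕ} [Fact q.Prime] {Q : Subgroup G} {ω : Ω} {V : Type*}
    [AddCommGroup V] [Module (ZMod q) V]
    (hU : ∀ g : G, g ∉ D → Nat.card (fixedBy Ω g) = 1) (hn : 2 ^ 1024 ≤ Nat.card Ω)
    (hsmall : ¬ (D.index + 1) ^ 2 ≤ Nat.card Ω) (e : V ≃ Q)
    (he : ∀ a b : V, e (a + b) = e a * e b)
    (hQn : Nat.card Q = Nat.card Ω) (htrans : ∀ α : Ω, ∃ x ∈ Q, x • ω = α)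
    (hfree : ∀ x ∈ Q, x • ω = ω → x = 1)
    (hqK : ¬ q ∣ Nat.card (D ⊓ stabilizer G ω : Subgroup G))
    (hcov : (Subgroup.normalizer (Q : Set G) ⊓ stabilizer G ω) ⊔ D = ⊤)
    (hirr : ∀ A : Subgroup G, A ≤ Subgroup.normalizer (Q : Set G) ⊓ stabilizer G ω → A ⊔ D = ⊤ →
      ∀ W : Subgroup G, W ≤ Q → (∀ a ∈ A, ∀ w ∈ W, a * w * a⁻¹ ∈ W) → W = ⊥ ∨ W = Q) :
    (∀ r ∈ Subgroup.normalizer (Q : Set G) ⊓ stabilizer G ω, ∀ x ∈ Q,
      r * x = x * r → x ≠ 1 → r = 1) ∧
    D.index * Nat.card (D.subgroupOf (Subgroup.normalizer (Q : Set G) ⊓ stabilizer G ω))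
      ≤ Nat.card Ω - 1 := by
  classical
  set R := Subgroup.normalizer (Q : Set G) ⊓ stabilizer G ω with hR
  haveI : Finite V := Finite.of_equiv _ e.symm
  have hV : Nat.card V = Nat.card Ω := by rw [Nat.card_congr e, hQn]
  haveI : Nontrivial V := by
    rw [← Finite.one_lt_card_iff_nontrivial, hV]
    exact lt_of_lt_of_le (Nat.one_lt_pow (by norm_num) (by norm_num)) hn
  have he0 : e 0 = 1 := by
    have h1 := he 0 0
    rw [add_zero] at h1
    exact mul_eq_left.1 h1.symm
  have headd : ∀ x y : Q, e.symm (x * y) = e.symm x + e.symm y := fun x y =>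
    e.injective (by rw [he, e.apply_symm_apply, e.apply_symm_apply, e.apply_symm_apply])
  let c : R → Q → Q := fun r x =>
    ⟨(r : G) * x * (r : G)⁻¹, ((Subgroup.mem_normalizer_iff.1 r.2.1) x).1 x.2⟩
  let T : R → V →+ V := fun r => AddMonoidHom.mk' (fun v => e.symm (c r (e v))) fun u v => by
    rw [← headd]
    congr 1
    ext
    show (r : G) * (e (u + v) : Q) * (r : G)⁻¹ = _
    rw [he]
    simp [c, mul_assoc]
  let ρ : Representation (ZMod q) R V :=
    { toFun := fun r => (T r).toZModLinearMap q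
      map_one' := LinearMap.ext fun v => e.injective (Subtype.ext (by
        show ((e (e.symm (c 1 (e v))) : Q) : G) = (e v : Q)
        simp [c]))
      map_mul' := fun r r' => LinearMap.ext fun v => e.injective (Subtype.ext (by
        show ((e (e.symm (c (r * r') (e v))) : Q) : G) = (e (e.symm (c r (e (e.symm (c r' (e v)))))) : Q)
        simp [c, mul_assoc])) }
  have hρ : ∀ (r : R) (v : V), ρ r v = v ↔ (r : G) * (e v : Q) = (e v : Q) * (r : G) := fun r v => by
    show e.symm (c r (e v)) = v ↔ _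
    rw [Equiv.symm_apply_eq, Subtype.ext_iff]
    exact mul_inv_eq_iff_eq_mul
  -- an element fixing `ω` and commuting with `x` fixes `x • ω`
  have hfix2 : ∀ r : R, ∀ x : G, (r : G) * x = x * r → (r : G) • x • ω = x • ω := fun r x hh => by
    rw [← mul_smul, hh, mul_smul, mem_stabilizer_iff.1 r.2.2]
  set S : Subgroup R := D.subgroupOf R with hS
  have hLS : LinearSetting ρ S := by
    refine ⟨inferInstance, fun r r' hrr => ?_, fun hdvd => hqK (hdvd.trans ?_), fun r hr v hv => ?_,
      fun A hA W hW => ?_⟩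
    · have hfix : ∀ x : Q, ((r⁻¹ * r' : R) : G) * x = x * ((r⁻¹ * r' : R) : G) := fun x => by
        have h1 := (hρ (r⁻¹ * r') (e.symm x)).1 (by rw [rho_mul_apply, ← hrr, rho_inv_cancel])
        rwa [e.apply_symm_apply] at h1
      refine (inv_mul_eq_one.1 (Subtype.ext (FaithfulSMul.eq_of_smul_eq_smul fun α : Ω => ?_)
        : r⁻¹ * r' = 1))
      obtain ⟨x, hx, rfl⟩ := htrans α
      rw [hfix2 _ x (hfix ⟨x, hx⟩), Subgroup.coe_one, one_smul]
    · exact Subgroup.card_dvd_of_injective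
        ({ toFun := fun s => ⟨(s.1 : G), Subgroup.mem_subgroupOf.1 s.2, s.1.2.2⟩
           map_one' := rfl
           map_mul' := fun _ _ => rfl } : S →* (D ⊓ stabilizer G ω : Subgroup G))
        fun s s' hh => Subtype.ext (Subtype.ext (congrArg Subtype.val hh :))
    · have h1 := hfix2 r (e v : Q) ((hρ r v).1 hv)
      have h2 : ((e v : Q) : G) • ω = ω :=
        eq_of_fixed hU (fun hh => hr (Subgroup.mem_subgroupOf.2 hh)) h1 (mem_stabilizer_iff.1 r.2.2)
      exact e.injective (he0.symm ▸ Subtype.ext (hfree _ (e v).2 h2))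
    · have hAD : A.map R.subtype ⊔ D = ⊤ := by
        refine top_le_iff.1 (hcov.ge.trans (sup_le ?_ le_sup_right))
        intro g hg
        obtain ⟨b, hb, d, hd, hbd⟩ := exists_of_cover hA (⟨g, hg⟩ : R)
        rw [show g = (b : G) * (d : G) from (congrArg Subtype.val hbd).symm]
        exact Subgroup.mul_mem _ (Subgroup.mem_sup_left (Subgroup.mem_map_of_mem _ hb))
          (Subgroup.mem_sup_right (Subgroup.mem_subgroupOf.1 hd))
      have hsymm1 : e.symm (1 : Q) = 0 := by rw [← he0, e.symm_apply_apply]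
      let W' : Subgroup Q :=
        { carrier := {x | e.symm x ∈ W}
          one_mem' := by show e.symm 1 ∈ W; rw [hsymm1]; exact W.zero_mem
          mul_mem' := fun {x y} hx hy => by show e.symm (x * y) ∈ W; rw [headd]; exact W.add_mem hx hy
          inv_mem' := fun {x} hx => by
            show e.symm x⁻¹ ∈ W
            have h1 : e.symm x⁻¹ = -e.symm x := eq_neg_of_add_eq_zero_left (by
              rw [← headd, inv_mul_cancel, hsymm1])
            rw [h1]; exact W.neg_mem hx }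
      rcases hirr (A.map R.subtype) (Subgroup.map_subtype_le A) hAD (W'.map Q.subtype)
        (Subgroup.map_subtype_le _) (by
          rintro _ ⟨b, hb, rfl⟩ _ ⟨x, hx, rfl⟩
          refine ⟨c b x, ?_, rfl⟩
          have h1 := hW b hb (e.symm x) hx
          rwa [show ρ b (e.symm x) = e.symm (c b x) from congrArg (fun y => e.symm (c b y))
            (e.apply_symm_apply x)] at h1) with h1 | h1
      · left
        refine (Submodule.eq_bot_iff W).2 fun v hv => ?_
        have h2 : ((e v : Q) : G) ∈ (⊥ : Subgroup G) := h1 ▸ Subgroup.mem_map_of_mem Q.subtype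
          (show e v ∈ W' by show e.symm (e v) ∈ W; rwa [e.symm_apply_apply])
        exact e.injective (he0.symm ▸ Subtype.ext (Subgroup.mem_bot.1 h2))
      · right
        refine eq_top_iff.2 fun v _ => ?_
        have h2 : ((e v : Q) : G) ∈ W'.map Q.subtype := by rw [h1]; exact (e v).2
        obtain ⟨y, hy, hyx⟩ := h2
        rw [← e.symm_apply_apply v, ← show y = e v from Subtype.ext hyx]
        exact hy
  have hSindex : S.index = D.index := relIndex_of_cover hcov
  have hfpf : ∀ r ∈ R, ∀ x ∈ Q, r * x = x * r → x ≠ 1 → r = 1 := by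
    intro r hr x hx hrx hx1
    by_contra hr1
    have hv : ρ ⟨r, hr⟩ (e.symm ⟨x, hx⟩) = e.symm ⟨x, hx⟩ :=
      (hρ _ _).2 (by rw [e.apply_symm_apply]; exact hrx)
    have hv0 : e.symm (⟨x, hx⟩ : Q) ≠ 0 := fun hh => hx1 (by
      have h1 := congrArg e hh
      rw [e.apply_symm_apply, he0] at h1
      exact congrArg Subtype.val h1)
    by_cases hrD : r ∈ D
    · refine hsmall ?_
      rw [← hV, ← hSindex]
      exact sq_le_of_fixed_vector hLS ⟨⟨r, hr⟩, Subgroup.mem_subgroupOf.2 hrD,
        fun hh => hr1 (congrArg Subtype.val hh), _, hv0, hv⟩ (hV.symm ▸ hn)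
    · exact hv0 (hLS.out ⟨r, hr⟩ (fun hh => hrD (Subgroup.mem_subgroupOf.1 hh)) _ hv)
  refine ⟨hfpf, ?_⟩
  have h1 := hLS.relIndex_mul_card_le (A := ⊤) (Z := S) ⊤ top_ne_bot
    (fun _ _ _ _ => Submodule.mem_top) le_top le_rfl (fun r _ v _ hv hv0 => by
      refine Subtype.ext (hfpf r r.2 _ (e v).2 ((hρ r v).1 hv) fun hh => hv0 ?_)
      exact e.injective (he0.symm ▸ Subtype.ext hh))
  rwa [Subgroup.relIndex_top_right, hSindex, Nat.card_congr
    (Equiv.subtypeUnivEquiv (fun _ => Submodule.mem_top) : (⊤ : Submodule (ZMod q) V) ≃ V), hV] at h1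

theorem isPreprimitive_and_frobenius_or_sq_le
    (hD : ∀ g : G, (∀ ω : Ω, g • ω ≠ ω) → g ∈ D) (hn : 2 ^ 1024 ≤ Nat.card Ω) :
    (IsPreprimitive G Ω ∧ (∃ g : G, g ≠ 1 ∧ ∃ ω : Ω, g • ω = ω) ∧
      ∀ g : G, g ≠ 1 → Nat.card (fixedBy Ω g) ≤ 1) ∨ (D.index + 1) ^ 2 ≤ Nat.card Ω := by
  classical
  by_cases hsmall : (D.index + 1) ^ 2 ≤ Nat.card Ω
  · exact Or.inr hsmall
  left
  have h8 : 8 ≤ Nat.card Ω := le_trans (by
    calc 8 = 2 ^ 3 := rfl
      _ ≤ 2 ^ 1024 := Nat.pow_le_pow_right two_pos (by norm_num)) hn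
  haveI : Nonempty Ω := (Nat.card_pos_iff.1 (by omega : 0 < Nat.card Ω)).1
  obtain ⟨hU, hDtr⟩ := card_fixedBy_eq_one_and_transitive (Ω := Ω) hD
  have hm : 2 ≤ D.index := by
    have h0 : D.index ≠ 0 := Subgroup.FiniteIndex.index_ne_zero
    rcases Nat.lt_or_ge D.index 2 with h1 | h1
    · rw [show D.index = 1 by omega] at hsmall; omega
    · exact h1
  obtain ⟨q, a, hq, hna, Q, ω, hQD, hQn, hexp, hcomm, htrans, hfree, hqK, hcov, hirr⟩ :=
    exists_regular_sylow hU (by omega) hm hsmall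
  haveI := Fact.mk hq
  set R := Subgroup.normalizer (Q : Set G) ⊓ stabilizer G ω with hR
  set S : Subgroup R := D.subgroupOf R with hS
  -- `Q` as a vector space
  letI : CommGroup Q :=
    { (inferInstance : Group Q) with mul_comm := fun x y => Subtype.ext (hcomm x x.2 y y.2) }
  letI : Module (ZMod q) (Additive Q) := AddCommGroup.zmodModule fun v => by
    apply Additive.toMul.injective
    rw [toMul_nsmul, toMul_zero]
    exact Subtype.ext (by rw [Subgroup.coe_pow]; exact hexp _ (Additive.toMul v).2)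
  obtain ⟨hfpf, hms⟩ := fpf_of_irreducible (V := Additive Q) hU hn hsmall
    (Additive.toMul : Additive Q ≃ Q) (fun _ _ => rfl) hQn htrans hfree hqK hcov hirr
  obtain ⟨g₀, hg₀R, hg₀D⟩ := SetLike.not_le_iff_exists.1
    (not_le_of_cover hcov fun hh => by rw [hh, Subgroup.index_top] at hm; omega)
  -- a normal subgroup in which `Q` is normal normalises it in `G`
  have hsylow : ∀ N : Subgroup G, Q ≤ N → N ≤ D → IsSylowOf q Q N := by
    intro N hQN hND
    refine ⟨hQN, ?_⟩
    haveI : IsPretransitive N Ω := ⟨fun α β => by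
      obtain ⟨x, hx, rfl⟩ := htrans α
      obtain ⟨y, hy, rfl⟩ := htrans β
      exact ⟨⟨y * x⁻¹, N.mul_mem (hQN hy) (N.inv_mem (hQN hx))⟩,
        show (y * x⁻¹) • x • ω = y • ω by rw [mul_smul, inv_smul_smul]⟩⟩
    have h0 : (Nat.card (N ⊓ stabilizer G ω : Subgroup G)).factorization q = 0 :=
      Nat.factorization_eq_zero_of_not_dvd fun hh =>
        hqK (hh.trans (Subgroup.card_dvd_of_le (inf_le_inf_right _ hND)))
    rw [card_eq_card_mul_stabilizer (D := N) ω, Nat.factorization_mul (by omega) Nat.card_pos.ne',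
      Finsupp.add_apply, h0, add_zero, hQn, hna, hq.factorization_pow, Finsupp.single_eq_same]
  by_cases hQnormal : Q.Normal
  · -- the Frobenius case
    have hRst : ∀ g : G, g • ω = ω → g ∈ R := fun g hg =>
      ⟨by rw [Subgroup.normalizer_eq_top (H := Q)]; exact Subgroup.mem_top g, hg⟩
    refine ⟨?_, ⟨g₀, fun hh => hg₀D (hh ▸ D.one_mem), ω, hg₀R.2⟩, fun g hg => ?_⟩
    · refine IsPreprimitive.of_isTrivialBlock_base ω fun {B} hωB hB => ?_
      let W : Subgroup G := Q ⊓ stabilizer G B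
      have hmem : ∀ g : G, g • ω ∈ B ↔ g • B = B := fun g =>
        ⟨fun hg => hB.smul_eq_of_mem hωB hg, fun hg => hg ▸ Set.smul_mem_smul_set hωB⟩
      rcases hirr R le_rfl hcov W inf_le_left (fun r hr w hw => by
          refine ⟨((Subgroup.mem_normalizer_iff.1 hr.1) w).1 hw.1, ?_⟩
          have h1 : r • B = B := (hmem r).1 ((mem_stabilizer_iff.1 hr.2).symm ▸ hωB)
          have h2 : r⁻¹ • B = B := inv_smul_eq_iff.2 h1.symm
          show (r * w * r⁻¹) • B = B
          rw [mul_smul, mul_smul, h2, mem_stabilizer_iff.1 hw.2, h1]) with h1 | h1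
      · left
        intro α hα β hβ
        obtain ⟨x, hx, rfl⟩ := htrans α
        obtain ⟨y, hy, rfl⟩ := htrans β
        have hx1 : x = 1 := Subgroup.mem_bot.1 (h1 ▸ ⟨hx, (hmem x).1 hα⟩)
        have hy1 : y = 1 := Subgroup.mem_bot.1 (h1 ▸ ⟨hy, (hmem y).1 hβ⟩)
        rw [hx1, hy1]
      · right
        refine Set.eq_univ_of_forall fun α => ?_
        obtain ⟨x, hx, rfl⟩ := htrans α
        have h2 : x ∈ W := by rw [h1]; exact hx
        exact (hmem x).2 h2.2
    · refine Finite.card_le_one_iff_subsingleton.2 ⟨?_⟩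
      rintro ⟨α, hα⟩ ⟨β, hβ⟩
      obtain ⟨y, hy, rfl⟩ := htrans α
      obtain ⟨x, hx, hxβ⟩ := htrans (y⁻¹ • β)
      have hα' : (y⁻¹ * g * y) • ω = ω := by
        rw [mul_smul, mul_smul, show g • y • ω = y • ω from hα, inv_smul_smul]
      have hr := hRst _ hα'
      have hβ' : (y⁻¹ * g * y) • x • ω = x • ω := by
        rw [hxβ, mul_smul, mul_smul, smul_inv_smul, show g • β = β from hβ]
      set r := y⁻¹ * g * y with hrdef
      have h3 : (r * x * r⁻¹) • ω = x • ω := by
        rw [mul_smul, mul_smul, inv_smul_eq_iff.2 hα'.symm, hβ']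
      have h4 : x⁻¹ * (r * x * r⁻¹) = 1 := hfree _
        (Q.mul_mem (Q.inv_mem hx) (((Subgroup.mem_normalizer_iff.1 hr.1) x).1 hx))
        (by rw [mul_smul, h3, inv_smul_smul])
      have h5 : r * x = x * r := mul_inv_eq_iff_eq_mul.1 (inv_mul_eq_one.1 h4).symm
      have hx1 : x = 1 := by
        by_contra hx1
        refine hg ?_
        have h6 := hfpf r hr x hx h5 hx1
        calc g = y * r * y⁻¹ := by rw [hrdef]; group
          _ = 1 := by rw [h6]; group
      rw [hx1, one_smul] at hxβ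
      exact Subtype.ext (by show y • ω = β; rw [hxβ, smul_inv_smul])
  · exfalso
    set D₁ := Subgroup.normalClosure (Q : Set G) with hD₁
    have hQD₁ : Q ≤ D₁ := Subgroup.le_normalClosure
    have hD₁D : D₁ ≤ D := Subgroup.normalClosure_le_normal hQD
    have hQ₁ : IsSylowOf q Q D₁ := hsylow D₁ hQD₁ hD₁D
    haveI : Fintype D₁ := Fintype.ofFinite _
    haveI : IsPretransitive D₁ Ω := ⟨fun α β => by
      obtain ⟨x, hx, rfl⟩ := htrans α
      obtain ⟨y, hy, rfl⟩ := htrans β
      exact ⟨⟨y * x⁻¹, D₁.mul_mem (hQD₁ hy) (D₁.inv_mem (hQD₁ hx))⟩,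
        show (y * x⁻¹) • x • ω = y • ω by rw [mul_smul, inv_smul_smul]⟩⟩
    haveI : FaithfulSMul D₁ Ω := ⟨fun {x y} hh => Subtype.ext (FaithfulSMul.eq_of_smul_eq_smul hh)⟩
    set Q₁ : Subgroup D₁ := Q.subgroupOf D₁ with hQ₁def
    have hnorm : ∀ g : D₁, g ∈ Subgroup.normalizer (Q₁ : Set D₁) →
        (g : G) ∈ Subgroup.normalizer (Q : Set G) := fun g hg => by
      refine Subgroup.mem_normalizer_iff.2 fun y => ⟨fun hy => ?_, fun hy => ?_⟩
      · exact Subgroup.mem_subgroupOf.1 (((Subgroup.mem_normalizer_iff.1 hg) ⟨y, hQD₁ hy⟩).1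
          (Subgroup.mem_subgroupOf.2 hy))
      · have hyC : y ∈ D₁ := by
          rw [show y = (g : G)⁻¹ * ((g : G) * y * (g : G)⁻¹) * g by group]
          exact D₁.mul_mem (D₁.mul_mem (D₁.inv_mem g.2) (hQD₁ hy)) g.2
        exact Subgroup.mem_subgroupOf.1 (((Subgroup.mem_normalizer_iff.1 hg) ⟨y, hyC⟩).2
          (Subgroup.mem_subgroupOf.2 hy))
    have hreg : SelfCentralRegular.RegularData q Q₁ ω := by
      refine ⟨hq, hQ₁.isPGroup.comap_subtype, fun x hx y hy => Subtype.ext (hcomm x hx y hy),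
        fun α => ?_, fun x hx hh => Subtype.ext (hfree x hx hh), fun hh => hqK (hh.trans ?_),
        fun g hg x hx hh hx1 => ?_⟩
      · obtain ⟨x, hx, hxα⟩ := htrans α
        exact ⟨⟨x, hQD₁ hx⟩, hx, hxα⟩
      · exact Subgroup.card_dvd_of_injective
          ({ toFun := fun s => ⟨(s.1 : G), hD₁D s.1.2, s.2⟩
             map_one' := rfl
             map_mul' := fun _ _ => rfl } : stabilizer D₁ ω →* (D ⊓ stabilizer G ω : Subgroup G))
          fun s s' hh => Subtype.ext (Subtype.ext (congrArg Subtype.val hh :))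
      · exact Subtype.ext (hfpf g ⟨hnorm g hg.1, hg.2⟩ x hx (congrArg Subtype.val hh :)
          fun h1 => hx1 (Subtype.ext h1))
    have hQ₁n : ¬ Q₁.Normal := fun hN => hQnormal ⟨fun w hw g => by
      have hQg : IsSylowOf q (Q.map (MulAut.conj g).toMonoidHom) D₁ := ⟨by
          rintro _ ⟨u, hu, rfl⟩
          exact (inferInstance : D₁.Normal).conj_mem u (hQD₁ hu) g,
        by rw [Subgroup.card_map_of_injective (MulEquiv.injective _), hQ₁.card]⟩
      have h1 : Q ≤ Q.map (MulAut.conj g).toMonoidHom :=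
        hQg.le_of_normalized hQD₁ hQ₁.isPGroup fun p hp u hu => Subgroup.mem_subgroupOf.1
          (hN.conj_mem ⟨u, hQD₁ hu⟩ (Subgroup.mem_subgroupOf.2 hu) ⟨p, hQg.le hp⟩)
      rw [Subgroup.eq_of_le_of_card_ge h1 (by rw [hQg.card, hQ₁.card])]
      exact ⟨w, hw, rfl⟩⟩
    have hgen : ∀ M : Subgroup D₁, M.Normal → Q₁ ≤ M → M = ⊤ := by
      intro M hM hQM
      let M' : Subgroup G := M.map D₁.subtype
      have hle : D₁ ≤ M' := by
        refine (Subgroup.closure_le _).2 ?_
        intro u hu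
        obtain ⟨x, hx, g, rfl⟩ := by
          simpa only [Group.mem_conjugatesOfSet_iff, isConj_iff] using hu
        have hcovN : (⊤ : Subgroup G) ≤ Subgroup.normalizer (Q : Set G) ⊔ D₁ :=
          ((hQ₁.frattini (M := ⊤) (Subgroup.normalizer_eq_top (H := D₁)).ge).trans
            (sup_le_sup_right inf_le_right D₁))
        rw [sup_comm] at hcovN
        obtain ⟨d, hd, k, hk, rfl⟩ :=
          Subgroup.mem_sup_of_normal_left.1 (hcovN (Subgroup.mem_top g))
        have hk' : k * x * k⁻¹ ∈ Q := ((Subgroup.mem_normalizer_iff.1 hk) x).1 hx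
        refine ⟨⟨d, hd⟩ * ⟨k * x * k⁻¹, hQD₁ hk'⟩ * ⟨d, hd⟩⁻¹,
          hM.conj_mem _ (hQM (Subgroup.mem_subgroupOf.2 hk')) ⟨d, hd⟩, ?_⟩
        show d * (k * x * k⁻¹) * d⁻¹ = d * k * x * (d * k)⁻¹
        group
      refine top_le_iff.1 fun x _ => ?_
      obtain ⟨y, hy, hyx⟩ := hle x.2
      rwa [← show y = x from Subtype.ext hyx]
    have h2 : ¬ IsMultiplyPretransitive D₁ Ω 2 := by
      intro hh
      haveI : Nontrivial Ω := Finite.one_lt_card_iff_nontrivial.1 (by omega)
      obtain ⟨β, hβ⟩ := exists_ne ω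
      have hgβ : g₀ • β ≠ ω := fun h1 => hβ (MulAction.injective g₀ (h1.trans (mem_stabilizer_iff.1 hg₀R.2).symm))
      obtain ⟨d, hd1, hd2⟩ := (is_two_pretransitive_iff.1 hh) hβ.symm hgβ.symm
      refine hβ.symm (eq_of_fixed hU (g := (d : G)⁻¹ * g₀) (fun h3 => hg₀D ?_) ?_ ?_)
      · have h4 := D.mul_mem (hD₁D d.2) h3
        rwa [mul_inv_cancel_left] at h4
      · rw [mul_smul, mem_stabilizer_iff.1 hg₀R.2, inv_smul_eq_iff]; exact hd1.symm
      · rw [mul_smul, inv_smul_eq_iff]; exact hd2.symm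
    obtain ⟨hle, heq⟩ := SelfCentralRegular.card_le hreg h2 (by omega) hQ₁n hgen
    have hsS : Nat.card (SelfCentralRegular.normStab Q₁ ω) ≤ Nat.card S := by
      refine Nat.card_le_card_of_injective (fun t => (⟨⟨((t : D₁) : G), hnorm _ t.2.1, t.2.2⟩,
        Subgroup.mem_subgroupOf.2 (hD₁D (t : D₁).2)⟩ : S)) fun t t' hh => ?_
      exact Subtype.ext (Subtype.ext (congrArg (fun u : S => ((u : R) : G)) hh))
    generalize Nat.card (SelfCentralRegular.normStab Q₁ ω) = s at *
    generalize Nat.card S = s' at *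
    generalize Nat.card Ω = n at *
    generalize D.index = m at *
    have hms' : m * s ≤ n - 1 := (Nat.mul_le_mul_left m hsS).trans hms
    obtain ⟨t, rfl⟩ : ∃ t, s = t + 1 := ⟨s - 1, by
      rcases s with _ | s
      · omega
      · omega⟩
    rw [Nat.add_sub_cancel] at hle heq
    have h3 : m ≤ t := by
      have h5 : m * (t + 1) ≤ t * (t + 1) := by
        rw [mul_comm t (t + 1)]; omega
      exact Nat.le_of_mul_le_mul_right h5 t.succ_pos
    have h4 : t ≤ m := by
      by_contra hlt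
      have h5 := Nat.mul_le_mul_left m (show m + 2 ≤ t + 1 by omega)
      have h6 : n - 1 < m * (m + 2) := by
        have : (m + 1) ^ 2 = m * (m + 2) + 1 := by ring
        omega
      omega
    obtain rfl : t = m := le_antisymm h4 h3
    have h7 : t * (t + 1) = (t + 1) * t := mul_comm _ _
    have h9 := heq (by omega)
    have h10 : (t + 1) * t ≤ 3 * 2 := Nat.mul_le_mul h9 (by omega)
    omega

end CfsgLib.Derangements.UniqueFixed
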